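import Cfsg.Prelude.Def_GeometricClasses

/-! Aschbacher's theorem, part 1: normalised subalgebras of a matrix algebra. -/

set_option autoImplicit false
set_option linter.unusedSectionVars false

namespace Cfsg.Agent.H4.As

open Matrix Module Cfsg.Geo
open scoped MatrixGroups Kronecker

variable {ι : Type} [Fintype ι] [DecidableEq ι] {F : Type*} [Field F]

/-- conjugation of a matrix by an invertible matrix -/
def cj (g : GL ι F) : Matrix ι ι F ≃ₐ[F] Matrix ι ι F where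
  toFun a := (g : Matrix ι ι F) * a * ((g⁻¹ : GL ι F) : Matrix ι ι F)
  invFun a := ((g⁻¹ : GL ι F) : Matrix ι ι F) * a * (g : Matrix ι ι F)
  left_inv a := by simp [mul_assoc]
  right_inv a := by simp [mul_assoc]
  map_mul' a b := by simp [mul_assoc]
  map_add' a b := by simp [mul_add, add_mul]
  commutes' c := by simp [Algebra.algebraMap_eq_smul_one]

theorem cj_apply (g : GL ι F) (a : Matrix ι ι F) :
    cj g a = (g : Matrix ι ι F) * a * ((g⁻¹ : GL ι F) : Matrix ι ι F) := rfl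

theorem cj_mul (g h : GL ι F) (a : Matrix ι ι F) : cj (g * h) a = cj g (cj h a) := by
  simp only [cj_apply, _root_.mul_inv_rev, Units.val_mul, mul_assoc]

@[simp] theorem cj_one (a : Matrix ι ι F) : cj (1 : GL ι F) a = a := by simp [cj_apply]

@[simp] theorem cj_inv_cj (g : GL ι F) (a : Matrix ι ι F) : cj g⁻¹ (cj g a) = a := by
  rw [← cj_mul]; simp

@[simp] theorem cj_cj_inv (g : GL ι F) (a : Matrix ι ι F) : cj g (cj g⁻¹ a) = a := by
  rw [← cj_mul]; simp

theorem cj_val (g h : GL ι F) : cj g (h : Matrix ι ι F) = ((g * h * g⁻¹ : GL ι F) : Matrix ι ι F) := by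
  simp only [cj_apply, Units.val_mul]

theorem cj_mul_val (g : GL ι F) (a : Matrix ι ι F) : cj g a * g = g * a := by
  simp [cj_apply, mul_assoc]

theorem cj_eq_iff {g : GL ι F} {a b : Matrix ι ι F} : cj g a = b ↔ (g : Matrix ι ι F) * a = b * g := by
  rw [cj_apply, Units.mul_inv_eq_iff_eq_mul]

theorem inv_mulVec (g : GL ι F) (v : ι → F) :
    ((g⁻¹ : GL ι F) : Matrix ι ι F) *ᵥ ((g : Matrix ι ι F) *ᵥ v) = v := by
  rw [mulVec_mulVec, Units.inv_mul, one_mulVec]

theorem mulVec_inv (g : GL ι F) (v : ι → F) :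
    (g : Matrix ι ι F) *ᵥ (((g⁻¹ : GL ι F) : Matrix ι ι F) *ᵥ v) = v := by
  rw [mulVec_mulVec, Units.mul_inv, one_mulVec]

theorem cj_mulVec (g : GL ι F) (a : Matrix ι ι F) (v : ι → F) :
    cj g a *ᵥ ((g : Matrix ι ι F) *ᵥ v) = (g : Matrix ι ι F) *ᵥ (a *ᵥ v) := by
  rw [mulVec_mulVec, cj_mul_val, mulVec_mulVec]

theorem mulVec_ne_zero (g : GL ι F) {v : ι → F} (hv : v ≠ 0) : (g : Matrix ι ι F) *ᵥ v ≠ 0 :=
  fun h => hv (by rw [← inv_mulVec g v, h, mulVec_zero])

theorem eq_of_mulVec {a b : Matrix ι ι F} (h : ∀ v, a *ᵥ v = b *ᵥ v) : a = b :=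
  Matrix.toLin'.injective (LinearMap.ext h)

/-- `W` is invariant under `H` -/
def Inv (H : Subgroup (GL ι F)) (W : Submodule F (ι → F)) : Prop :=
  ∀ g ∈ H, ∀ v ∈ W, (g : Matrix ι ι F) *ᵥ v ∈ W

/-- `H` is irreducible -/
def Irr (H : Subgroup (GL ι F)) : Prop := ∀ W : Submodule F (ι → F), Inv H W → W = ⊥ ∨ W = ⊤

theorem Irr.mono {H K : Subgroup (GL ι F)} (h : Irr H) (hK : H ≤ K) : Irr K :=
  fun W hW => h W fun g hg => hW g (hK hg)

theorem Inv.le {H : Subgroup (GL ι F)} {W : Submodule F (ι → F)} (h : Inv H W) :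
    H ≤ subspaceStabilizer W := fun g hg v =>
  ⟨h g hg v, fun hv => by simpa [inv_mulVec] using h _ (H.inv_mem hg) _ hv⟩

theorem inv_iff {H : Subgroup (GL ι F)} {W : Submodule F (ι → F)} :
    Inv H W ↔ H ≤ subspaceStabilizer W := ⟨Inv.le, fun h _ hg v hv => (h hg v).1 hv⟩

theorem irr_iff {H : Subgroup (GL ι F)} : Irr H ↔ ActsIrreducibly (matrixSet H) := by
  refine forall_congr' fun W => imp_congr_left ⟨?_, fun h g hg v hv => ?_⟩
  · rintro h _ ⟨g, hg, rfl⟩ _ ⟨v, hv, rfl⟩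
    exact h g hg v hv
  · exact h _ ⟨g, hg, rfl⟩ ⟨v, hv, rfl⟩

/-- `H` normalises the set `A` of matrices -/
def Nrm (H : Subgroup (GL ι F)) (A : Set (Matrix ι ι F)) : Prop := ∀ g ∈ H, ∀ a ∈ A, cj g a ∈ A

theorem Nrm.le {H : Subgroup (GL ι F)} {A : Subalgebra F (Matrix ι ι F)} (h : Nrm H A) :
    H ≤ subalgebraNormalizer A := fun g hg k =>
  ⟨h g hg k, fun hk => by simpa using h _ (H.inv_mem hg) (cj g k) hk⟩

theorem nrm_iff {H : Subgroup (GL ι F)} {A : Subalgebra F (Matrix ι ι F)} :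
    Nrm H A ↔ H ≤ subalgebraNormalizer A := ⟨Nrm.le, fun h _ hg a ha => (h hg a).1 ha⟩

theorem Nrm.mono {H K : Subgroup (GL ι F)} {A : Set (Matrix ι ι F)} (h : Nrm K A) (hK : H ≤ K) :
    Nrm H A := fun g hg => h g (hK hg)

/-- scalar matrices -/
def IsSc (a : Matrix ι ι F) : Prop := ∃ c : F, a = c • (1 : Matrix ι ι F)

theorem isSc_iff_bot {a : Matrix ι ι F} : IsSc a ↔ a ∈ (⊥ : Subalgebra F (Matrix ι ι F)) := by
  simp [IsSc, Algebra.mem_bot, Algebra.algebraMap_eq_smul_one, eq_comm]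

theorem IsSc.comm {a : Matrix ι ι F} (h : IsSc a) (b : Matrix ι ι F) : a * b = b * a := by
  obtain ⟨c, rfl⟩ := h; simp

theorem mem_sc [Nonempty ι] {g : GL ι F} : g ∈ scalars ι F ↔ IsSc (g : Matrix ι ι F) := by
  rw [mem_scalars_iff]
  refine ⟨fun ⟨c, h⟩ => ⟨c, h⟩, fun ⟨c, h⟩ => ⟨Units.mk0 c ?_, h⟩⟩
  rintro rfl
  exact g.ne_zero (by simpa using h)

theorem scalars_comm {g : GL ι F} (h : g ∈ scalars ι F) (k : GL ι F) : g * k = k * g := by
  obtain ⟨c, h⟩ := (mem_scalars_iff g).1 h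
  exact Units.ext (by simp [h])

theorem scalars_le_center : scalars ι F ≤ Subgroup.center (GL ι F) := fun _ h =>
  Subgroup.mem_center_iff.2 fun k => (scalars_comm h k).symm

/-- the scalar element of the general linear group -/
def sc (c : Fˣ) : GL ι F := Units.map (Matrix.scalar ι : F →+* Matrix ι ι F).toMonoidHom c

@[simp] theorem sc_val (c : Fˣ) : ((sc c : GL ι F) : Matrix ι ι F) = (c : F) • 1 := by
  simp [sc, Matrix.smul_one_eq_diagonal]

theorem sc_mem (c : Fˣ) : (sc c : GL ι F) ∈ scalars ι F := ⟨c, rfl⟩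

theorem sc_mul (c d : Fˣ) : (sc (c * d) : GL ι F) = sc c * sc d := map_mul _ _ _

theorem sc_pow (c : Fˣ) (n : ℕ) : (sc (c ^ n) : GL ι F) = sc c ^ n := map_pow _ _ _

theorem sc_inv (c : Fˣ) : (sc c⁻¹ : GL ι F) = (sc c)⁻¹ := map_inv _ _

@[simp] theorem sc_one : (sc 1 : GL ι F) = 1 := map_one _

theorem sc_inj [Nonempty ι] {c d : Fˣ} (h : (sc c : GL ι F) = sc d) : c = d := by
  have := congrArg (fun g : GL ι F => (g : Matrix ι ι F) (Classical.arbitrary ι) (Classical.arbitrary ι)) h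
  exact Units.ext (by simpa using this)

theorem cj_sc {g : GL ι F} (h : g ∈ scalars ι F) (a : Matrix ι ι F) : cj g a = a := by
  obtain ⟨c, h⟩ := (mem_scalars_iff g).1 h
  rw [cj_eq_iff, h]; simp

theorem isSc_of_comm {a : Matrix ι ι F} (h : ∀ b, a * b = b * a) : IsSc a := by
  rw [isSc_iff_bot, ← Algebra.IsCentral.center_eq_bot F (Matrix ι ι F)]
  exact Subalgebra.mem_center_iff.2 fun b => (h b).symm

/-- the algebra spanned by a group of matrices -/
def alg (L : Subgroup (GL ι F)) : Subalgebra F (Matrix ι ι F) :=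
  (Submodule.span F (matrixSet L)).toSubalgebra (Submodule.subset_span ⟨1, L.one_mem, rfl⟩) (by
    intro x y hx hy
    have := Submodule.mul_mem_mul hx hy
    rw [Submodule.span_mul_span] at this
    refine Submodule.span_mono ?_ this
    rintro _ ⟨_, ⟨a, ha, rfl⟩, _, ⟨b, hb, rfl⟩, rfl⟩
    exact ⟨a * b, L.mul_mem ha hb, rfl⟩)

theorem mem_alg {L : Subgroup (GL ι F)} {a : Matrix ι ι F} :
    a ∈ alg L ↔ a ∈ Submodule.span F (matrixSet L) := Iff.rfl

theorem val_mem_alg {L : Subgroup (GL ι F)} {g : GL ι F} (h : g ∈ L) : (g : Matrix ι ι F) ∈ alg L :=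
  Submodule.subset_span ⟨g, h, rfl⟩

theorem alg_induction {L : Subgroup (GL ι F)} {p : Matrix ι ι F → Prop}
    (h1 : ∀ g ∈ L, p (g : Matrix ι ι F)) (h0 : p 0) (h2 : ∀ a b, p a → p b → p (a + b))
    (h3 : ∀ (c : F) a, p a → p (c • a)) {a : Matrix ι ι F} (ha : a ∈ alg L) : p a := by
  induction mem_alg.1 ha using Submodule.span_induction with
  | mem x hx => obtain ⟨g, hg, rfl⟩ := hx; exact h1 g hg
  | zero => exact h0
  | add x y hx hy ihx ihy => exact h2 _ _ (ihx hx) (ihy hy)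
  | smul c x hx ih => exact h3 _ _ (ih hx)

theorem alg_le {L : Subgroup (GL ι F)} {A : Subalgebra F (Matrix ι ι F)}
    (h : ∀ g ∈ L, (g : Matrix ι ι F) ∈ A) : alg L ≤ A := fun _ ha =>
  alg_induction h A.zero_mem (fun _ _ => A.add_mem) (fun c _ h => A.smul_mem h c) ha

theorem alg_mono {L K : Subgroup (GL ι F)} (h : L ≤ K) : alg L ≤ alg K :=
  alg_le fun _ hg => val_mem_alg (h hg)

theorem comm_alg {L : Subgroup (GL ι F)} {b : Matrix ι ι F}
    (h : ∀ g ∈ L, b * (g : Matrix ι ι F) = g * b) {a : Matrix ι ι F} (ha : a ∈ alg L) :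
    b * a = a * b :=
  alg_induction (p := fun a => b * a = a * b) h (by simp)
    (fun _ _ h1 h2 => by rw [mul_add, add_mul, h1, h2]) (fun c _ h => by simp [h]) ha

theorem cj_mem_alg {L K : Subgroup (GL ι F)} {g : GL ι F} (h : ∀ x ∈ L, g * x * g⁻¹ ∈ K)
    {a : Matrix ι ι F} (ha : a ∈ alg L) : cj g a ∈ alg K :=
  alg_induction (p := fun a => cj g a ∈ alg K) (fun x hx => cj_val g x ▸ val_mem_alg (h x hx))
    (by simp) (fun _ _ h1 h2 => by rw [map_add]; exact add_mem h1 h2)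
    (fun c _ h => by rw [map_smul]; exact Subalgebra.smul_mem _ h c) ha

theorem nrm_alg {H L : Subgroup (GL ι F)} (h : ∀ g ∈ H, ∀ x ∈ L, g * x * g⁻¹ ∈ L) :
    Nrm H (alg L) := fun g hg _ ha => cj_mem_alg (h g hg) ha

theorem isSc_of_alg {L : Subgroup (GL ι F)} (hL : alg L = ⊤) {b : Matrix ι ι F}
    (h : ∀ g ∈ L, b * (g : Matrix ι ι F) = g * b) : IsSc b :=
  isSc_of_comm fun _ => comm_alg h (hL ▸ Algebra.mem_top)

theorem Inv.alg {L : Subgroup (GL ι F)} {W : Submodule F (ι → F)} (h : Inv L W) {a : Matrix ι ι F}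
    (ha : a ∈ alg L) {v : ι → F} (hv : v ∈ W) : a *ᵥ v ∈ W :=
  alg_induction (p := fun a => a *ᵥ v ∈ W) (fun g hg => h g hg v hv) (by simp)
    (fun _ _ h1 h2 => by rw [add_mulVec]; exact add_mem h1 h2)
    (fun c _ h => by rw [smul_mulVec]; exact W.smul_mem c h) ha

theorem exists_mulVec_eq {v : ι → F} (hv : v ≠ 0) (w : ι → F) : ∃ a : Matrix ι ι F, a *ᵥ v = w := by
  obtain ⟨i, hi⟩ := Function.ne_iff.1 hv
  have hi : v i ≠ 0 := hi
  refine ⟨vecMulVec w (Pi.single i (v i)⁻¹), ?_⟩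
  ext j
  simp [vecMulVec_mulVec, hi]

theorem irr_of_alg {L : Subgroup (GL ι F)} (hL : alg L = ⊤) : Irr L := fun W hW => by
  refine or_iff_not_imp_left.2 fun h => eq_top_iff.2 fun w _ => ?_
  obtain ⟨v, hv, h0⟩ := Submodule.exists_mem_ne_zero_of_ne_bot h
  obtain ⟨a, rfl⟩ := exists_mulVec_eq h0 w
  exact hW.alg (hL ▸ Algebra.mem_top) hv

theorem absIrr_of_alg {L : Subgroup (GL ι F)} (hL : alg L = ⊤) :
    ActsAbsolutelyIrreducibly (matrixSet L) :=
  ⟨irr_iff.1 (irr_of_alg hL), fun _ h => isSc_of_alg hL fun g hg => h _ ⟨g, hg, rfl⟩⟩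

/-- the common kernel of a set of matrices -/
def kerS (S : Set (Matrix ι ι F)) : Submodule F (ι → F) where
  carrier := {v | ∀ a ∈ S, a *ᵥ v = 0}
  add_mem' ha hb a h := by rw [mulVec_add, ha a h, hb a h, add_zero]
  zero_mem' _ _ := mulVec_zero _
  smul_mem' c v hv a h := by rw [mulVec_smul, hv a h, smul_zero]

theorem Irr.eq_zero {H : Subgroup (GL ι F)} (hI : Irr H) {S : Set (Matrix ι ι F)} (hS : Nrm H S)
    {v : ι → F} (hv : v ≠ 0) (h : ∀ a ∈ S, a *ᵥ v = 0) {a : Matrix ι ι F} (ha : a ∈ S) : a = 0 := by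
  have : Inv H (kerS S) := fun g hg w hw b hb => by
    rw [← cj_cj_inv g b, cj_mulVec, hw _ (hS _ (H.inv_mem hg) b hb), mulVec_zero]
  rcases hI _ this with h0 | h0
  · exact absurd ((Submodule.eq_bot_iff _).1 h0 v h) hv
  · exact eq_of_mulVec fun w => by
      rw [zero_mulVec]; exact (h0 ▸ Submodule.mem_top : w ∈ kerS S) a ha

theorem exists_ne_zero [Nonempty ι] : ∃ v : ι → F, v ≠ 0 := exists_ne 0

/-- a normalised subalgebra is semisimple -/
theorem Irr.semisimple [Nonempty ι] {H : Subgroup (GL ι F)} (hI : Irr H)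
    {A : Subalgebra F (Matrix ι ι F)} (hA : Nrm H A) : IsSemisimpleRing A := by
  have : IsArtinianRing A := IsArtinianRing.of_finite F A
  rw [IsArtinianRing.isSemisimpleRing_iff_jacobson]
  obtain ⟨n, hn⟩ := IsSemiprimaryRing.isNilpotent (R := A)
  have key : ∀ n : ℕ, ∀ v : ι → F, v ≠ 0 → (∀ a ∈ Ring.jacobson A ^ n, (a : Matrix ι ι F) *ᵥ v = 0) →
      ∃ w : ι → F, w ≠ 0 ∧ ∀ a ∈ Ring.jacobson A, (a : Matrix ι ι F) *ᵥ w = 0 := by
    intro n
    induction n with
    | zero => intro v hv h; exact absurd (by simpa using h 1 (by simp [Submodule.pow_zero])) hv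
    | succ n ih =>
      intro v hv h
      by_cases h1 : ∀ a ∈ Ring.jacobson A, (a : Matrix ι ι F) *ᵥ v = 0
      · exact ⟨v, hv, h1⟩
      · push Not at h1
        obtain ⟨a, ha, h1⟩ := h1
        refine ih _ h1 fun b hb => ?_
        rw [mulVec_mulVec]
        exact h (b * a) (by rw [Submodule.pow_succ]; exact Submodule.mul_mem_mul hb ha)
  obtain ⟨v, hv⟩ := exists_ne_zero (ι := ι) (F := F)
  obtain ⟨w, hw, h⟩ := key n v hv (by rw [hn]; rintro a (rfl : a = 0); simp)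
  refine eq_bot_iff.2 fun a ha => Subtype.ext ?_
  refine hI.eq_zero (S := Subtype.val '' (Ring.jacobson A : Set A)) ?_ hw
    (by rintro _ ⟨b, hb, rfl⟩; exact h b hb) ⟨a, ha, rfl⟩
  rintro g hg _ ⟨b, hb, rfl⟩
  let f : A →+* A := ((cj g).toAlgHom.toRingHom.restrict A.toSubring A.toSubring (hA g hg))
  have : RingHomSurjective f := ⟨fun x => ⟨⟨cj g⁻¹ x, hA _ (H.inv_mem hg) _ x.2⟩,
    Subtype.ext (cj_cj_inv g x)⟩⟩
  exact ⟨f b, Ring.le_comap_jacobson f hb, rfl⟩

/-- a normalised subalgebra with scalar centre is a full matrix algebra -/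
theorem Irr.exists_hom [Finite F] [Nonempty ι] {H : Subgroup (GL ι F)} (hI : Irr H)
    {A : Subalgebra F (Matrix ι ι F)} (hA : Nrm H A)
    (hZ : ∀ a ∈ A, (∀ b ∈ A, a * b = b * a) → IsSc a) :
    ∃ (k : ℕ) (_ : NeZero k) (φ : Matrix (Fin k) (Fin k) F →ₐ[F] Matrix ι ι F), φ.range = A := by
  classical
  have := hI.semisimple hA
  obtain ⟨n, D, d, _, _, _, hd, ⟨e⟩⟩ :=
    IsSemisimpleRing.exists_algEquiv_pi_matrix_divisionRing_finite F A
  have hc : ∀ x : (∀ i, Matrix (Fin (d i)) (Fin (d i)) (D i)), (∀ y, x * y = y * x) →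
      ∃ c : F, x = c • 1 := fun x hx => by
    obtain ⟨c, hc⟩ := hZ (e.symm x) (e.symm x).2 fun b hb => by
      have := congrArg (fun z => ((e.symm z : A) : Matrix ι ι F)) (hx (e ⟨b, hb⟩))
      simpa using this
    refine ⟨c, ?_⟩
    have : e.symm x = c • 1 := Subtype.ext hc
    rw [← e.apply_symm_apply x, this, map_smul, map_one]
  have hn : n ≠ 0 := by
    rintro rfl
    exact one_ne_zero (e.injective (Subsingleton.elim (e 1) (e 0)))
  let i : Fin n := ⟨0, Nat.pos_of_ne_zero hn⟩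
  have hs : ∀ (a : D i), (∀ b, a * b = b * a) → ∃ c : F,
      (Pi.single i (scalar (Fin (d i)) a) : ∀ i, Matrix (Fin (d i)) (Fin (d i)) (D i)) = c • 1 :=
    fun a ha => hc _ fun y => by
      ext1 j
      by_cases h : j = i
      · subst h
        simp only [Pi.mul_apply, Pi.single_eq_same]
        exact (scalar_commute a (fun b => ha b) _).eq
      · simp [Pi.single_eq_of_ne h]
  have hu : ∀ j, j = i := fun j => by
    by_contra h
    obtain ⟨c, hc⟩ := hs 1 (by simp)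
    have h1 := congrFun (congrFun (congrFun hc j) 0) 0
    have h2 := congrFun (congrFun (congrFun hc i) 0) 0
    simp [Pi.single_eq_of_ne h] at h1 h2
    have h3 : c = 0 := (smul_eq_zero.1 h1.symm).resolve_right one_ne_zero
    simp [h3] at h2
  have : Finite (D i) := Module.finite_of_finite F
  have hb : Function.Bijective (algebraMap F (D i)) := ⟨(algebraMap F (D i)).injective, fun a => by
    obtain ⟨c, hc⟩ := hs a fun b => (littleWedderburn (D i)).mul_comm a b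
    have h2 := congrFun (congrFun (congrFun hc i) 0) 0
    exact ⟨c, by simpa [Algebra.algebraMap_eq_smul_one] using h2.symm⟩⟩
  have : Unique (Fin n) := ⟨⟨i⟩, hu⟩
  let e1 : (∀ i, Matrix (Fin (d i)) (Fin (d i)) (D i)) ≃ₐ[F] Matrix (Fin (d i)) (Fin (d i)) (D i) :=
    AlgEquiv.ofBijective (Pi.evalAlgHom F _ i) ⟨fun x y h => funext fun j => by
      rw [hu j]; exact h, fun x => ⟨Pi.single i x, by simp⟩⟩
  let e2 := (AlgEquiv.ofBijective (Algebra.ofId F (D i)) hb).mapMatrix (m := Fin (d i))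
  refine ⟨d i, hd i, A.val.comp (e2.trans (e1.symm.trans e.symm)).toAlgHom, ?_⟩
  rw [AlgHom.range_comp, (AlgHom.range_eq_top _).2 (AlgEquiv.surjective _), Algebra.map_top,
    Subalgebra.range_val]

end Cfsg.Agent.H4.As
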