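import Cfsg.Agent.H4.As1

/-! Aschbacher's theorem, part 2: Skolem-Noether and tensor decompositions. -/

set_option autoImplicit false
set_option linter.unusedSectionVars false

namespace Cfsg.Agent.H4.As

open Matrix Module Cfsg.Geo
open scoped MatrixGroups Kronecker

variable {ι κ : Type} [Fintype ι] [DecidableEq ι] [Fintype κ] [DecidableEq κ] {F : Type*} [Field F]

/-- conjugation by a linear isomorphism -/
noncomputable def cjT (T : (κ → F) ≃ₗ[F] (ι → F)) : Matrix κ κ F ≃ₐ[F] Matrix ι ι F :=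
  toLinAlgEquiv'.trans ((T.conjAlgEquiv F).trans toLinAlgEquiv'.symm)

theorem cjT_mulVec (T : (κ → F) ≃ₗ[F] (ι → F)) (a : Matrix κ κ F) (v : κ → F) :
    cjT T a *ᵥ T v = T (a *ᵥ v) := by
  rw [← toLinAlgEquiv'_apply]
  simp [cjT, LinearEquiv.conjAlgEquiv_apply, toLinAlgEquiv'_apply]

theorem exists_cj (Ψ : Matrix ι ι F ≃ₐ[F] Matrix ι ι F) : ∃ P : GL ι F, ∀ a, Ψ a = cj P a := by
  obtain ⟨T, hT⟩ := (toLinAlgEquiv'.symm.trans (Ψ.trans toLinAlgEquiv')).eq_linearEquivConjAlgEquiv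
  refine ⟨(GeneralLinearGroup.toLin.trans (LinearMap.GeneralLinearGroup.generalLinearEquiv F _)).symm T,
    fun a => ?_⟩
  have hP : ∀ v, (((GeneralLinearGroup.toLin.trans
      (LinearMap.GeneralLinearGroup.generalLinearEquiv F _)).symm T : GL ι F) : Matrix ι ι F) *ᵥ v
      = T v := fun v => by
    conv_rhs => rw [← (GeneralLinearGroup.toLin.trans
      (LinearMap.GeneralLinearGroup.generalLinearEquiv F _)).apply_symm_apply T]
    rfl
  refine (cj_eq_iff.2 (eq_of_mulVec fun v => ?_)).symm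
  rw [← mulVec_mulVec, ← mulVec_mulVec, hP, hP]
  have := congrArg (fun z => z (toLinAlgEquiv' a) (T v)) hT
  simpa [LinearEquiv.conjAlgEquiv_apply, toLinAlgEquiv'_apply] using this.symm

/-- transport along a bijection of index sets and a change of basis -/
def tr (e : ι ≃ κ) (P : GL ι F) : Matrix κ κ F ≃ₐ[F] Matrix ι ι F :=
  (reindexAlgEquiv F F e.symm).trans (cj P)

theorem tr_apply (e : ι ≃ κ) (P : GL ι F) (a : Matrix κ κ F) :
    tr e P a = cj P (a.submatrix e e) := rfl

theorem tr_mulVec (e : ι ≃ κ) (P : GL ι F) (a : Matrix κ κ F) (x : κ → F) :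
    tr e P a *ᵥ ((P : Matrix ι ι F) *ᵥ (x ∘ e)) = (P : Matrix ι ι F) *ᵥ ((a *ᵥ x) ∘ e) := by
  rw [tr_apply, cj_mulVec, submatrix_mulVec_equiv]
  simp [Function.comp_assoc]

theorem exists_tr (Ψ : Matrix κ κ F ≃ₐ[F] Matrix ι ι F) :
    ∃ (e : ι ≃ κ) (P : GL ι F), ∀ a, Ψ a = tr e P a := by
  have h := Ψ.toLinearEquiv.finrank_eq
  simp only [finrank_matrix, finrank_self, mul_one] at h
  let e : ι ≃ κ := Fintype.equivOfCardEq (Nat.mul_self_inj.1 h).symm
  obtain ⟨P, hP⟩ := exists_cj ((reindexAlgEquiv F F e).trans Ψ)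
  refine ⟨e, P, fun a => ?_⟩
  rw [tr_apply, ← hP]
  simp

/-- the induced isomorphism of general linear groups -/
def trG (Ψ : Matrix κ κ F ≃ₐ[F] Matrix ι ι F) : GL κ F ≃* GL ι F := Units.mapEquiv Ψ.toMulEquiv

@[simp] theorem trG_val (Ψ : Matrix κ κ F ≃ₐ[F] Matrix ι ι F) (g : GL κ F) :
    ((trG Ψ g : GL ι F) : Matrix ι ι F) = Ψ g := rfl

@[simp] theorem trG_symm_val (Ψ : Matrix κ κ F ≃ₐ[F] Matrix ι ι F) (g : GL ι F) :
    (((trG Ψ).symm g : GL κ F) : Matrix κ κ F) = Ψ.symm g := rfl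

theorem map_cj (Ψ : Matrix κ κ F ≃ₐ[F] Matrix ι ι F) (g : GL κ F) (a : Matrix κ κ F) :
    Ψ (cj g a) = cj (trG Ψ g) (Ψ a) := by
  rw [cj_apply, cj_apply, ← map_inv, map_mul, map_mul]; rfl

theorem mem_map_tr {e : ι ≃ κ} {P : GL ι F} {S : Subgroup (GL κ F)} {g : GL ι F} :
    g ∈ (S.map (glReindex e.symm).toMonoidHom).map (MulAut.conj P).toMonoidHom ↔
      (trG (tr e P)).symm g ∈ S := by
  rw [Subgroup.map_map]
  have : (MulAut.conj P).toMonoidHom.comp (glReindex (F := F) e.symm).toMonoidHom =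
      (trG (tr e P)).toMonoidHom := by
    ext1 g; exact Units.ext rfl
  rw [this, Subgroup.mem_map_equiv]

theorem exists_conj [Nonempty κ] {A B : Type*} [Ring A] [Ring B] [Algebra F A] [Algebra F B]
    [Nontrivial B] (φ : Matrix κ κ F →ₐ[F] A) (ψ : Matrix κ κ F →ₐ[F] B) (α : A →ₐ[F] B)
    (h : ∀ x, α (φ x) ∈ ψ.range) : ∃ a : GL κ F, ∀ x, α (φ x) = ψ (cj a x) := by
  have hψ : Function.Injective ψ := ψ.toRingHom.injective
  let β : Matrix κ κ F →ₐ[F] Matrix κ κ F :=
    (AlgEquiv.ofInjective ψ hψ).symm.toAlgHom.comp ((α.comp φ).codRestrict ψ.range h)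
  have hβ : Function.Injective β := β.toRingHom.injective
  obtain ⟨a, ha⟩ := exists_cj (AlgEquiv.ofBijective β
    ⟨hβ, (LinearMap.injective_iff_surjective (f := β.toLinearMap)).1 hβ⟩)
  refine ⟨a, fun x => ?_⟩
  rw [← ha]
  exact (congrArg Subtype.val ((AlgEquiv.ofInjective ψ hψ).apply_symm_apply ⟨_, h x⟩)).symm

theorem exists_conj_cj [Nonempty κ] [Nonempty ι] (φ ψ : Matrix κ κ F →ₐ[F] Matrix ι ι F) (g : GL ι F)
    (h : ∀ x, cj g (φ x) ∈ ψ.range) : ∃ a : GL κ F, ∀ x, cj g (φ x) = ψ (cj a x) :=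
  exists_conj φ ψ (cj g).toAlgHom h

section binary
variable {ν : Type} [Fintype ν] [DecidableEq ν]

variable (ν) in
/-- `x ↦ x ⊗ 1` -/
def kl : Matrix κ κ F →ₐ[F] Matrix (κ × ν) (κ × ν) F where
  toFun x := x ⊗ₖ 1
  map_one' := one_kronecker_one
  map_mul' x y := by rw [← mul_kronecker_mul, mul_one]
  map_zero' := zero_kronecker _
  map_add' x y := add_kronecker _ _ _
  commutes' c := by simp [Algebra.algebraMap_eq_smul_one, smul_kronecker]

theorem kl_apply (x : Matrix κ κ F) : kl ν x = x ⊗ₖ (1 : Matrix ν ν F) := rfl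

variable (κ) in
/-- `y ↦ 1 ⊗ y` -/
def kr : Matrix ν ν F →ₐ[F] Matrix (κ × ν) (κ × ν) F where
  toFun x := 1 ⊗ₖ x
  map_one' := one_kronecker_one
  map_mul' x y := by rw [← mul_kronecker_mul, mul_one]
  map_zero' := kronecker_zero _
  map_add' x y := kronecker_add _ _ _
  commutes' c := by simp [Algebra.algebraMap_eq_smul_one, kronecker_smul]

theorem kr_apply (x : Matrix ν ν F) : kr κ x = (1 : Matrix κ κ F) ⊗ₖ x := rfl

theorem kl_mul_kr (x : Matrix κ κ F) (y : Matrix ν ν F) : kl ν x * kr κ y = x ⊗ₖ y := by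
  rw [kl_apply, kr_apply, ← mul_kronecker_mul, mul_one, one_mul]

theorem kr_mul_kl (x : Matrix κ κ F) (y : Matrix ν ν F) : kr κ y * kl ν x = x ⊗ₖ y := by
  rw [kl_apply, kr_apply, ← mul_kronecker_mul, mul_one, one_mul]

theorem mem_kr_of_comm [Nonempty κ] {h : Matrix (κ × ν) (κ × ν) F}
    (hc : ∀ x, h * kl ν x = kl ν x * h) : ∃ y, h = kr κ y := by
  let o := Classical.arbitrary κ
  refine ⟨of fun i j => h (o, i) (o, j), ?_⟩
  ext ⟨a, i⟩ ⟨b, j⟩
  have := congrFun (congrFun (hc (single b o 1)) (a, i)) (o, j)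
  simp only [mul_apply, kl_apply, kroneckerMap_apply, Fintype.sum_prod_type, single_apply, one_apply]
    at this
  simp only [kr_apply, kroneckerMap_apply, one_apply, of_apply]
  by_cases hab : a = b
  · subst hab; simpa [ite_and, Finset.sum_ite_eq, Finset.sum_ite_eq'] using this
  · simpa [ite_and, hab, Ne.symm hab] using this

/-- the Kronecker product of invertible matrices -/
def kG (a : GL κ F) (b : GL ν F) : GL (κ × ν) F :=
  Units.map (kl ν : Matrix κ κ F →ₐ[F] _).toRingHom.toMonoidHom a *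
    Units.map (kr κ : Matrix ν ν F →ₐ[F] _).toRingHom.toMonoidHom b

@[simp] theorem kG_val (a : GL κ F) (b : GL ν F) :
    ((kG a b : GL (κ × ν) F) : Matrix _ _ F) = (a : Matrix κ κ F) ⊗ₖ (b : Matrix ν ν F) :=
  kl_mul_kr _ _

theorem exists_kG [Nonempty κ] [Nonempty ν] {g : GL (κ × ν) F}
    (h : ∀ x, cj g (kl ν x) ∈ (kl ν : Matrix κ κ F →ₐ[F] _).range) : ∃ a b, g = kG a b := by
  obtain ⟨a, ha⟩ := exists_conj_cj (kl ν) (kl ν) g h
  let a' : GL (κ × ν) F := Units.map (kl ν : Matrix κ κ F →ₐ[F] _).toRingHom.toMonoidHom a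
  have h1 : ∀ x, cj (a'⁻¹ * g) (kl ν x) = kl ν x := fun x => by
    rw [cj_mul, ha, cj_apply a, map_mul (kl ν), map_mul (kl ν)]
    exact cj_inv_cj a' _
  obtain ⟨y, hy⟩ := mem_kr_of_comm fun x => cj_eq_iff.1 (h1 x)
  obtain ⟨z, hz⟩ := mem_kr_of_comm (h := ((a'⁻¹ * g)⁻¹).1)
    fun x => cj_eq_iff.1 ((congrArg (cj (a'⁻¹ * g)⁻¹) (h1 x)).symm.trans (cj_inv_cj _ _))
  have hi : Function.Injective (kr κ : Matrix ν ν F →ₐ[F] _) :=
    (kr κ : Matrix ν ν F →ₐ[F] _).toRingHom.injective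
  refine ⟨a, ⟨y, z, hi ?_, hi ?_⟩, ?_⟩
  · rw [map_mul, ← hy, ← hz, Units.mul_inv, map_one]
  · rw [map_mul, ← hy, ← hz, Units.inv_mul, map_one]
  · rw [kG, ← inv_mul_eq_iff_eq_mul]
    exact Units.ext hy

theorem exists_tensor [Nonempty κ] (φ : Matrix κ κ F →ₐ[F] Matrix ι ι F) :
    ∃ (l : ℕ) (Ψ : Matrix (κ × Fin l) (κ × Fin l) F ≃ₐ[F] Matrix ι ι F),
      ∀ x, Ψ (kl (Fin l) x) = φ x := by
  let o := Classical.arbitrary κ
  let U := LinearMap.range (toLin' (φ (single o o 1)))
  let b := finBasis F U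
  let v : κ × Fin (finrank F U) → ι → F := fun p => φ (single p.1 o 1) *ᵥ (b p.2 : ι → F)
  let T := Fintype.linearCombination F v
  have hv : ∀ x a j, φ x *ᵥ v (a, j) = ∑ c, x c a • v (c, j) := fun x a j => by
    simp only [v, mulVec_mulVec, ← map_mul, ← smul_mulVec, ← map_smul, ← sum_mulVec, ← map_sum]
    congr 2
    ext c d
    simp [mul_apply, Matrix.sum_apply, single_apply, ite_and]
  have hU : ∀ u : U, φ (single o o 1) *ᵥ (u : ι → F) = u := by
    rintro ⟨_, w, rfl⟩
    simp [toLin'_apply, mulVec_mulVec, ← map_mul]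
  have hT : ∀ x w, T (kl _ x *ᵥ w) = φ x *ᵥ T w := fun x w => by
    simp only [T, Fintype.linearCombination_apply, mulVec_sum, mulVec_smul, Fintype.sum_prod_type, hv,
      Finset.smul_sum, smul_smul]
    rw [Finset.sum_comm, Finset.sum_comm (β := ι → F) (f := fun a j => ∑ c, (w (a, j) * x c a) • v (c, j))]
    refine Finset.sum_congr rfl fun j _ => ?_
    rw [Finset.sum_comm]
    refine Finset.sum_congr rfl fun c _ => ?_
    rw [← Finset.sum_smul]
    congr 1
    simp [mulVec, dotProduct, kl_apply, Fintype.sum_prod_type, one_apply, mul_comm]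
  have hinj : Function.Injective T := by
    rw [← LinearMap.ker_eq_bot, eq_bot_iff]
    intro w hw
    ext ⟨a, j⟩
    have h1 := hT (single o a 1) w
    rw [LinearMap.mem_ker.1 hw, mulVec_zero] at h1
    have h2 : ∑ j, w (a, j) • b j = 0 := Subtype.ext (by
      rw [Submodule.coe_zero, ← h1]
      simp only [T, Fintype.linearCombination_apply, Fintype.sum_prod_type]
      rw [Finset.sum_eq_single o (fun c _ hc => by
        simp [mulVec, dotProduct, kl_apply, Fintype.sum_prod_type, single_apply, Ne.symm hc]) (by simp)]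
      simp [mulVec, dotProduct, kl_apply, Fintype.sum_prod_type, single_apply, one_apply, v, hU])
    exact Fintype.linearIndependent_iff.1 b.linearIndependent _ h2 j
  have hsur : Function.Surjective T := by
    rw [← LinearMap.range_eq_top, eq_top_iff]
    intro w _
    have : w = ∑ a, φ (single a o 1) *ᵥ (φ (single o o 1) *ᵥ (φ (single o a 1) *ᵥ w)) := by
      simp only [mulVec_mulVec, ← map_mul, ← sum_mulVec, ← map_sum, single_mul_single_same, mul_one]
      rw [sum_single_one, map_one, one_mulVec]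
    rw [this]
    refine Submodule.sum_mem _ fun a _ => ?_
    have h := b.sum_repr ⟨_, φ (single o a 1) *ᵥ w, rfl⟩
    have h := congrArg Subtype.val h
    simp only [Submodule.coe_sum, Submodule.coe_smul, toLin'_apply] at h
    rw [← h, mulVec_sum]
    refine Submodule.sum_mem _ fun j _ => ?_
    rw [mulVec_smul]
    refine Submodule.smul_mem _ _ ⟨Pi.single (a, j) 1, ?_⟩
    simp [T, v]
  refine ⟨_, cjT (LinearEquiv.ofBijective T ⟨hinj, hsur⟩), fun x => eq_of_mulVec fun w => ?_⟩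
  obtain ⟨w, rfl⟩ := hsur w
  exact (cjT_mulVec (LinearEquiv.ofBijective T ⟨hinj, hsur⟩) _ w).trans (hT x w)

end binary

section power
variable {τ : Type} [Fintype τ] [dτ : DecidableEq τ]

/-- pure tensors -/
def pt (g : τ → Matrix κ κ F) : Matrix (τ → κ) (τ → κ) F := of fun x y => ∏ i, g i (x i) (y i)

theorem pt_mul (g h : τ → Matrix κ κ F) : pt (g * h) = pt g * pt h := by
  ext x y
  simp only [pt, of_apply, Pi.mul_apply, mul_apply, ← Finset.prod_mul_distrib]
  rw [Finset.prod_univ_sum]; simp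

theorem pt_single (x y : τ → κ) : pt (fun i => single (x i) (y i) (1 : F)) = single x y 1 := by
  ext z w
  simp only [pt, of_apply, single_apply, Finset.prod_boole]
  simp [funext_iff, forall_and]

theorem pt_one : pt (1 : τ → Matrix κ κ F) = 1 := by
  ext z w
  simp only [pt, of_apply, Pi.one_apply, one_apply, Finset.prod_boole]
  simp [funext_iff]

/-- pure tensors as a multilinear map -/
def ptM : MultilinearMap F (fun _ : τ => Matrix κ κ F) (Matrix (τ → κ) (τ → κ) F) where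
  toFun := pt
  map_update_add' g i a b := by
    ext x y
    simp only [pt, of_apply, Matrix.add_apply]
    rw [← Finset.mul_prod_erase _ _ (Finset.mem_univ i), ← Finset.mul_prod_erase _ _ (Finset.mem_univ i),
      ← Finset.mul_prod_erase _ _ (Finset.mem_univ i)]
    have : ∀ c, ∏ j ∈ Finset.univ.erase i, Function.update g i c j (x j) (y j) =
        ∏ j ∈ Finset.univ.erase i, g j (x j) (y j) := fun c =>
      Finset.prod_congr rfl fun j hj => by rw [Function.update_of_ne (Finset.ne_of_mem_erase hj)]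
    simp only [this, Function.update_self, Matrix.add_apply, add_mul]
  map_update_smul' g i c a := by
    ext x y
    simp only [pt, of_apply, Matrix.smul_apply]
    rw [← Finset.mul_prod_erase _ _ (Finset.mem_univ i), ← Finset.mul_prod_erase _ _ (Finset.mem_univ i)]
    have : ∀ c, ∏ j ∈ Finset.univ.erase i, Function.update g i c j (x j) (y j) =
        ∏ j ∈ Finset.univ.erase i, g j (x j) (y j) := fun c =>
      Finset.prod_congr rfl fun j hj => by rw [Function.update_of_ne (Finset.ne_of_mem_erase hj)]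
    simp only [this, Function.update_self, Matrix.smul_apply, smul_eq_mul, mul_assoc]

/-- the embedding of the `i`-th tensor factor -/
def emb (i : τ) : Matrix κ κ F →ₐ[F] Matrix (τ → κ) (τ → κ) F :=
  AlgHom.ofLinearMap (ptM.toLinearMap 1 i) (by
      change pt (Function.update 1 i 1) = 1
      rw [show Function.update (1 : τ → Matrix κ κ F) i 1 = 1 from Function.update_eq_self i 1, pt_one])
    fun x y => by
      change pt (Function.update 1 i _) = pt (Function.update 1 i _) * pt (Function.update 1 i _)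
      rw [← pt_mul, ← Function.update_mul, mul_one]

theorem emb_apply (i : τ) (x : Matrix κ κ F) : emb i x = pt (Pi.mulSingle i x) := rfl

theorem emb_gen {A : Subalgebra F (Matrix (τ → κ) (τ → κ) F)} (h : ∀ i x, emb i x ∈ A) : A = ⊤ := by
  have h1 : ∀ g : τ → Matrix κ κ F, pt g ∈ A := fun g => by
    have : ∀ s : Finset τ, pt (s.piecewise g 1) ∈ A := fun s => by
      induction s using Finset.induction_on with
      | empty => rw [Finset.piecewise_empty, pt_one]; exact A.one_mem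
      | insert i s hi ih =>
        have : (insert i s).piecewise g 1 = Pi.mulSingle i (g i) * s.piecewise g 1 := by
          funext j
          by_cases hj : j = i
          · subst hj; simp [hi]
          · simp [Finset.piecewise_insert_of_ne _ _ _ hj, Pi.mulSingle_eq_of_ne hj]
        rw [this, pt_mul]; exact A.mul_mem (h i _) ih
    simpa using this Finset.univ
  refine eq_top_iff.2 fun a _ => ?_
  rw [matrix_eq_sum_single a]
  refine A.sum_mem fun x _ => A.sum_mem fun y _ => ?_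
  rw [← mul_one (a x y), ← smul_eq_mul, ← smul_single, ← pt_single]
  exact A.smul_mem (h1 _) _

theorem isSc_of_emb {a : Matrix (τ → κ) (τ → κ) F} (h : ∀ i x, a * emb i x = emb i x * a) : IsSc a :=
  isSc_of_comm fun b => by
    have : Subalgebra.centralizer F {a} = ⊤ := emb_gen fun i x => by
      simpa [Subalgebra.mem_centralizer_iff] using h i x
    simpa [Subalgebra.mem_centralizer_iff] using (this ▸ Algebra.mem_top : b ∈ Subalgebra.centralizer F {a})

theorem pt_mul_emb (g : τ → Matrix κ κ F) (i : τ) (x y : Matrix κ κ F) (h : g i * x = y * g i) :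
    pt g * emb i x = emb i y * pt g := by
  rw [emb_apply, emb_apply, ← pt_mul, ← pt_mul]
  congr 1
  funext j
  by_cases hj : j = i
  · subst hj; simpa using h
  · simp [Pi.mulSingle_eq_of_ne hj]

/-- pure tensors of invertible matrices -/
def ptG (g : τ → GL κ F) : GL (τ → κ) F :=
  ⟨pt fun i => g i, pt fun i => (g i)⁻¹.1, by rw [← pt_mul, ← pt_one]; congr 1; funext i; simp,
    by rw [← pt_mul, ← pt_one]; congr 1; funext i; simp⟩

theorem ptG_val (g : τ → GL κ F) : ((ptG g : GL (τ → κ) F) : Matrix _ _ F) = pt fun i => (g i).1 := rfl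

theorem cj_ptG (g : τ → GL κ F) (i : τ) (x : Matrix κ κ F) :
    cj (ptG g) (emb i x) = emb i (cj (g i) x) :=
  cj_eq_iff.2 (pt_mul_emb _ _ _ _ (cj_mul_val _ _).symm)

/-- the permutations of the tensor factors -/
def pm (σ : Equiv.Perm τ) : Matrix (τ → κ) (τ → κ) F := of fun x y => if y = x ∘ σ then 1 else 0

theorem pm_mul (σ : Equiv.Perm τ) (a : Matrix (τ → κ) (τ → κ) F) (x y : τ → κ) :
    (pm σ * a : Matrix _ _ F) x y = a (x ∘ σ) y := by simp [pm, mul_apply]

theorem mul_pm (σ : Equiv.Perm τ) (a : Matrix (τ → κ) (τ → κ) F) (x y : τ → κ) :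
    (a * pm σ : Matrix _ _ F) x y = a x (y ∘ σ.symm) := by
  have : ∀ z : τ → κ, (y = z ∘ σ) = (z = y ∘ σ.symm) := fun z => propext
    ⟨fun h => by subst h; ext; simp, fun h => by subst h; ext; simp⟩
  simp [pm, mul_apply, this]

/-- the permutations of the tensor factors as invertible matrices -/
def pmG (σ : Equiv.Perm τ) : GL (τ → κ) F :=
  ⟨pm σ, pm σ.symm, by ext x y; rw [pm_mul]; simp [pm, one_apply, Function.comp_assoc, eq_comm],
    by ext x y; rw [pm_mul]; simp [pm, one_apply, Function.comp_assoc, eq_comm]⟩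

theorem cj_pmG (σ : Equiv.Perm τ) (i : τ) (x : Matrix κ κ F) :
    cj (pmG σ) (emb i x) = emb (σ i) x := by
  refine cj_eq_iff.2 ?_
  ext y z
  erw [pm_mul, mul_pm]
  simp only [emb_apply, pt, of_apply]
  refine Fintype.prod_equiv σ _ _ fun j => ?_
  by_cases hj : j = i
  · subst hj; simp
  · simp [Pi.mulSingle_eq_of_ne hj, Pi.mulSingle_eq_of_ne (σ.injective.ne hj)]

theorem exists_ptG [Nonempty κ] {g : GL (τ → κ) F} (σ : Equiv.Perm τ)
    (h : ∀ i x, cj g (emb i x) ∈ (emb (σ i) : Matrix κ κ F →ₐ[F] _).range) :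
    ∃ (c : Fˣ) (a : τ → GL κ F), g = sc c * pmG σ * ptG a := by
  have h1 : ∀ i x, cj ((pmG σ)⁻¹ * g) (emb i x) ∈ (emb i : Matrix κ κ F →ₐ[F] _).range := fun i x => by
    obtain ⟨y, hy⟩ := h i x
    have hy : emb (σ i) y = cj g (emb i x) := hy
    refine ⟨y, (?_ : emb i y = _)⟩
    rw [cj_mul, ← hy, ← cj_pmG σ i y, cj_inv_cj]
  choose a ha using fun i => exists_conj_cj (emb i) (emb i) ((pmG σ)⁻¹ * g) (h1 i)
  have h2 : ∀ i x, cj ((pmG σ)⁻¹ * g * (ptG a)⁻¹) (emb i x) = emb i x := fun i x => by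
    rw [cj_mul, ← cj_cj_inv (a i) x, ← cj_ptG, cj_inv_cj, cj_ptG]
    exact ha i _
  obtain ⟨c, hc⟩ := mem_sc.2 (isSc_of_emb fun i x => cj_eq_iff.1 (h2 i x))
  refine ⟨c, a, ?_⟩
  have hc : sc c = (pmG σ)⁻¹ * g * (ptG a)⁻¹ := hc
  rw [scalars_comm (sc_mem c), hc]; group

theorem mem_wreath {m t : ℕ} [NeZero m] [NeZero t] {g : GL (Fin t → Fin m) F} (σ : Equiv.Perm (Fin t))
    (h : ∀ i x, cj g (emb i x) ∈ (emb (σ i) : Matrix (Fin m) (Fin m) F →ₐ[F] _).range) :
    g ∈ tensorWreathStandard m t F := by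
  obtain ⟨c, a, rfl⟩ := exists_ptG σ h
  refine mul_mem (mul_mem (Subgroup.subset_closure (.inl ⟨Pi.mulSingle 0 (sc c), fun x y => ?_⟩))
    (Subgroup.subset_closure (.inr ⟨σ, fun _ _ => rfl⟩)))
    (Subgroup.subset_closure (.inl ⟨a, fun _ _ => rfl⟩))
  have := (emb (0 : Fin t) : Matrix (Fin m) (Fin m) F →ₐ[F] _).commutes (c : F)
  rw [Algebra.algebraMap_eq_smul_one, Algebra.algebraMap_eq_smul_one] at this
  rw [sc_val, ← this, emb_apply, pt, of_apply]
  refine Finset.prod_congr rfl fun j _ => ?_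
  by_cases hj : j = 0
  · subst hj; simp
  · simp [Pi.mulSingle_eq_of_ne hj]

theorem exists_ptensor [Nonempty ι] [Nonempty κ] (φ : τ → (Matrix κ κ F →ₐ[F] Matrix ι ι F))
    (hc : Pairwise fun i j => ∀ x y, Commute (φ i x) (φ j y))
    (hg : ∀ A : Subalgebra F (Matrix ι ι F), (∀ i x, φ i x ∈ A) → A = ⊤) :
    ∃ Ψ : Matrix (τ → κ) (τ → κ) F ≃ₐ[F] Matrix ι ι F, ∀ i x, Ψ (emb i x) = φ i x := by
  let ψ := MonoidHom.noncommPiCoprod (fun i => (φ i).toRingHom.toMonoidHom) hc
  have hψ : ∀ i x, ψ (Pi.mulSingle i x) = φ i x := fun i x =>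
    MonoidHom.noncommPiCoprod_mulSingle (fun i => (φ i).toRingHom.toMonoidHom) i x
  have hu : ∀ (g : τ → Matrix κ κ F) i x,
      ψ (Function.update g i x) = φ i x * ψ (Function.update g i 1) := fun g i x => by
    rw [← hψ, ← map_mul]
    congr 1
    funext j
    by_cases hj : j = i
    · subst hj; simp
    · simp [Pi.mulSingle_eq_of_ne hj, Function.update_of_ne hj]
  let ψ' : MultilinearMap F (fun _ : τ => Matrix κ κ F) (Matrix ι ι F) :=
    { toFun := ψ
      map_update_add' := fun {d} g i a b => by cases Subsingleton.elim d dτ; rw [hu, hu g i a, hu g i b, map_add, add_mul]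
      map_update_smul' := fun {d} g i c a => by cases Subsingleton.elim d dτ; rw [hu, hu g i a, map_smul, smul_mul_assoc] }
  let Φ : Matrix (τ → κ) (τ → κ) F →ₗ[F] Matrix ι ι F :=
    ∑ x, ∑ y, (entryLinearMap F F x y).smulRight (ψ fun i => single (x i) (y i) 1)
  have hΦ : ∀ g, Φ (pt g) = ψ g := fun g => by
    have : g = fun i => ∑ p : κ × κ, g i p.1 p.2 • single p.1 p.2 (1 : F) := by
      funext i
      rw [Fintype.sum_prod_type]
      simpa using matrix_eq_sum_single (g i)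
    conv_rhs => rw [this]
    erw [ψ'.map_sum]
    simp only [ψ'.map_smul_univ]
    rw [← (Equiv.arrowProdEquivProdArrow τ (fun _ => κ) fun _ => κ).symm.sum_comp, Fintype.sum_prod_type]
    simp [Φ, LinearMap.sum_apply, pt, ψ']
  have hm : ∀ a b, Φ (a * b) = Φ a * Φ b := fun a b => by
    have : ∀ a : Matrix (τ → κ) (τ → κ) F,
        a = ∑ x, ∑ y, a x y • pt fun i => single (x i) (y i) (1 : F) := fun a => by
      simpa [pt_single] using matrix_eq_sum_single a
    rw [this a, this b]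
    simp only [Finset.sum_mul, Finset.mul_sum, map_sum, smul_mul_assoc, mul_smul_comm, map_smul,
      ← pt_mul, hΦ, map_mul]
  let Φ' := AlgHom.ofLinearMap Φ (by rw [← pt_one, hΦ, map_one]) hm
  have h1 : ∀ i x, Φ' (emb i x) = φ i x := fun i x => (hΦ _).trans (hψ i x)
  exact ⟨AlgEquiv.ofBijective Φ' ⟨Φ'.toRingHom.injective,
    (AlgHom.range_eq_top _).1 (hg _ fun i x => ⟨_, h1 i x⟩)⟩, h1⟩

end power

end Cfsg.Agent.H4.As
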