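import Cfsg.Agent.H4.As2

/-! Aschbacher's theorem, part 3: minimal normal subgroups modulo the scalars, commutative
normalised subalgebras. -/

set_option autoImplicit false
set_option linter.unusedSectionVars false

namespace Cfsg.Agent.H4.As

open Matrix Module Cfsg.Geo
open scoped MatrixGroups Kronecker commutatorElement

section group
variable {G : Type*} [Group G] {Z H N : Subgroup G}

/-- `H` normalises `N` -/
def Nm (H N : Subgroup G) : Prop := ∀ g ∈ H, ∀ x ∈ N, g * x * g⁻¹ ∈ N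

theorem Nm.self : Nm H H := fun _ hg _ hx => H.mul_mem (H.mul_mem hg hx) (H.inv_mem hg)

theorem Nm.mono {K : Subgroup G} (h : Nm H N) (hK : K ≤ H) : Nm K N := fun g hg => h g (hK hg)

theorem Nm.inf {M : Subgroup G} (h : Nm H N) (h' : Nm H M) : Nm H (N ⊓ M) :=
  fun g hg x hx => ⟨h g hg x hx.1, h' g hg x hx.2⟩

theorem nm_iff : Nm H N ↔ H ≤ Subgroup.normalizer (N : Set G) :=
  ⟨fun h g hg => Subgroup.mem_normalizer_iff.2 fun x =>
    ⟨h g hg x, fun hx => by simpa [mul_assoc] using h _ (H.inv_mem hg) _ hx⟩,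
    fun h _ hg x hx => (Subgroup.mem_normalizer_iff.1 (h hg) x).1 hx⟩

/-- conjugate subgroups -/
def cg (g : G) (L : Subgroup G) : Subgroup G := L.map (MulAut.conj g).toMonoidHom

theorem mem_cg {g x : G} {L : Subgroup G} : x ∈ cg g L ↔ g⁻¹ * x * g ∈ L := by
  rw [cg, Subgroup.mem_map_equiv]; simp

theorem cg_mul (g h : G) (L : Subgroup G) : cg (g * h) L = cg g (cg h L) := by
  ext; simp [mem_cg, mul_assoc]

@[simp] theorem cg_one (L : Subgroup G) : cg 1 L = L := by ext; simp [mem_cg]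

theorem Nm.comm {A B : Subgroup G} (hA : Nm H A) (hB : Nm H B) : Nm H ⁅A, B⁆ := fun g hg x hx => by
  have : cg g ⁅A, B⁆ ≤ ⁅A, B⁆ := by
    rw [cg, Subgroup.map_commutator]
    exact Subgroup.commutator_mono (by rintro _ ⟨y, hy, rfl⟩; exact hA g hg y hy)
      (by rintro _ ⟨y, hy, rfl⟩; exact hB g hg y hy)
  exact this ⟨x, hx, rfl⟩

theorem comm_le_of_nm {A B : Subgroup G} (hA : Nm B A) : ⁅A, B⁆ ≤ A :=
  Subgroup.commutator_le.2 fun a ha b hb => by
    rw [commutatorElement_def, mul_assoc, mul_assoc, ← mul_assoc b]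
    exact A.mul_mem ha (hA b hb _ (A.inv_mem ha))

theorem comm_eq_bot {A B : Subgroup G} (hZ : Z ≤ Subgroup.center G) (h : ⁅A, B⁆ ≤ Z)
    (hB : ⁅B, B⁆ = B) : ⁅A, B⁆ = ⊥ := by
  have h1 : ∀ C D : Subgroup G, C ≤ Z → ⁅C, D⁆ = ⊥ := fun C D hC =>
    Subgroup.commutator_eq_bot_iff_le_centralizer.2 fun x hx y _ =>
      Subgroup.mem_center_iff.1 (hZ (hC hx)) y
  rw [Subgroup.commutator_comm, ← hB]
  exact Subgroup.commutator_commutator_eq_bot_of_rotate (h1 _ _ (Subgroup.commutator_comm A B ▸ h))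
    (h1 _ _ h)

/-- `N` is minimal among the normal subgroups of `H` not contained in `Z` -/
structure MinN (Z H N : Subgroup G) : Prop where
  le : N ≤ H
  nm : Nm H N
  nsc : ¬ N ≤ Z
  min : ∀ M ≤ N, Nm H M → M ≤ Z ∨ M = N

theorem exists_minN [Finite G] {K : Subgroup G} (hK : K ≤ H) (hn : Nm H K) (hZ : ¬ K ≤ Z) :
    ∃ N ≤ K, MinN Z H N := by
  obtain ⟨N, hN, h⟩ := exists_minimal_le_of_wellFoundedLT (fun M => Nm H M ∧ ¬ M ≤ Z) K ⟨hn, hZ⟩
  exact ⟨N, hN, hN.trans hK, h.1.1, h.1.2, fun M hM hm =>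
    or_iff_not_imp_left.2 fun h' => le_antisymm hM (h.2 ⟨hm, h'⟩ hM)⟩

theorem MinN.comm (h : MinN Z H N) : ⁅N, N⁆ ≤ Z ∨ ⁅N, N⁆ = N :=
  h.min _ (comm_le_of_nm Nm.self) (h.nm.comm h.nm)

theorem MinN.exists_prime [Finite G] (hZ : Z ≤ Subgroup.center G) (h : MinN Z H N)
    (hc : ⁅N, N⁆ ≤ Z) : ∃ r : ℕ, r.Prime ∧ ∀ x ∈ N, x ^ r ∈ Z := by
  have : Z.Normal := ⟨fun x hx g => by rw [Subgroup.mem_center_iff.1 (hZ hx) g]; simpa⟩
  obtain ⟨x, hx, hxZ⟩ := SetLike.not_le_iff_exists.1 h.nsc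
  let π := QuotientGroup.mk' Z
  have hπ : ∀ y, π y = 1 ↔ y ∈ Z := fun y => QuotientGroup.eq_one_iff y
  have h1 : orderOf (π x) ≠ 1 := fun h => hxZ ((hπ x).1 (orderOf_eq_one_iff.1 h))
  obtain ⟨r, hr, s, hs⟩ := Nat.exists_prime_and_dvd h1
  let M : Subgroup G :=
    { carrier := {y | y ∈ N ∧ y ^ r ∈ Z}
      one_mem' := ⟨N.one_mem, by simp⟩
      mul_mem' := fun {a b} ha hb => ⟨N.mul_mem ha.1 hb.1, (hπ _).1 (by
        have : Commute (π a) (π b) := by
          rw [← commutatorElement_eq_one_iff_commute, ← map_commutatorElement, hπ]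
          exact hc (Subgroup.commutator_mem_commutator ha.1 hb.1)
        rw [map_pow, map_mul, this.mul_pow, ← map_pow, ← map_pow, (hπ _).2 ha.2, (hπ _).2 hb.2, mul_one])⟩
      inv_mem' := fun {a} ha => ⟨N.inv_mem ha.1, by rw [inv_pow]; exact Z.inv_mem ha.2⟩ }
  rcases h.min M (fun _ h => h.1) (fun g hg y hy => ⟨h.nm g hg y hy.1, by
    rw [conj_pow]; exact this.conj_mem _ hy.2 g⟩) with h2 | h2
  · have h3 : x ^ s ∈ Z := h2 ⟨N.pow_mem hx s, (hπ _).1 (by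
      rw [← pow_mul, map_pow, mul_comm, ← hs, pow_orderOf_eq_one])⟩
    have h4 := orderOf_dvd_of_pow_eq_one ((map_pow π x s).symm.trans ((hπ _).2 h3))
    have h5 : 0 < s := Nat.pos_of_ne_zero fun h => (orderOf_pos (π x)).ne' (by rw [hs, h, mul_zero])
    have := Nat.le_of_dvd h5 h4
    have := hr.two_le
    nlinarith
  · exact ⟨r, hr, fun y hy => (h2 ▸ hy : y ∈ M).2⟩

theorem MinN.cg (hZ : Z ≤ Subgroup.center G) {L : Subgroup G} (h : MinN Z N L) (hN : Nm H N) {g : G}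
    (hg : g ∈ H) : MinN Z N (cg g L) := by
  have hZ' : ∀ g x, x ∈ Z → g * x * g⁻¹ ∈ Z := fun g x hx => by
    rw [Subgroup.mem_center_iff.1 (hZ hx) g]; simpa
  refine ⟨?_, fun n hn x hx => ?_, fun h' => h.nsc fun x hx => ?_, fun M hM hm => ?_⟩
  · rintro _ ⟨x, hx, rfl⟩; exact hN g hg x (h.le hx)
  · rw [mem_cg] at hx ⊢
    simpa [mul_assoc] using h.nm _ (hN _ (H.inv_mem hg) n hn) _ hx
  · simpa [mul_assoc] using hZ' g⁻¹ _ (h' ⟨x, hx, rfl⟩)
  · rcases h.min (As.cg g⁻¹ M) (fun x hx => by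
      simpa [mem_cg, mul_assoc] using mem_cg.1 (hM (mem_cg.1 hx))) (fun n hn x hx => by
      rw [mem_cg] at hx ⊢
      simpa [mul_assoc] using hm _ (hN _ hg n hn) _ hx) with h1 | h1
    · exact .inl fun x hx => by
        simpa [mul_assoc] using hZ' g _ (h1 (⟨x, hx, rfl⟩ : _ ∈ As.cg g⁻¹ M))
    · exact .inr (by rw [← h1, ← cg_mul]; simp)

theorem MinN.eq_or_le {L M : Subgroup G} (h : MinN Z N L) (h' : MinN Z N M) : L = M ∨ ⁅L, M⁆ ≤ Z := by
  rcases h.min (L ⊓ M) inf_le_left (h.nm.inf h'.nm) with h1 | h1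
  · refine .inr (le_trans (le_inf (comm_le_of_nm (h.nm.mono h'.le)) ?_) h1)
    rw [Subgroup.commutator_comm]; exact comm_le_of_nm (h'.nm.mono h.le)
  · exact .inl ((h'.min L (inf_eq_left.1 h1) h.nm).resolve_left h.nsc)

theorem MinN.exists_comp [Finite G] (hZ : Z ≤ Subgroup.center G) (h : MinN Z H N) (hp : ⁅N, N⁆ = N) :
    ∃ L ≤ N, ⁅L, L⁆ = L ∧ MinN Z L L ∧ Nm N L ∧ (⨆ g : H, As.cg (g : G) L) = N ∧
      ∀ g ∈ H, ∀ g' ∈ H, As.cg g L = As.cg g' L ∨ ⁅As.cg g L, As.cg g' L⁆ = ⊥ := by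
  have : Z.Normal := ⟨fun x hx g => by rw [Subgroup.mem_center_iff.1 (hZ hx) g]; simpa⟩
  obtain ⟨L, hL, hm⟩ := exists_minN le_rfl Nm.self h.nsc
  have h1 : (⨆ g : H, As.cg (g : G) L) = N := by
    refine (h.min _ (iSup_le fun g => (hm.cg hZ h.nm g.2).le) fun g hg x hx => ?_).resolve_left
      fun h' => hm.nsc (le_trans (by simpa using le_iSup (fun g : H => As.cg (g : G) L) 1) h')
    have : As.cg g (⨆ g : H, As.cg (g : G) L) ≤ ⨆ g : H, As.cg (g : G) L := by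
      rw [As.cg, Subgroup.map_iSup]
      exact iSup_le fun k => le_iSup_of_le ((⟨g, hg⟩ : H) * k) (cg_mul g k L).ge
    exact this ⟨x, hx, rfl⟩
  have h2 : ⁅L, L⁆ = L := hm.comm.resolve_left fun hc => h.nsc (by
    have key : ∀ A B : Subgroup G, ⁅A, B⁆ ≤ Z ↔ A ≤ (Subgroup.centralizer
        (B.map (QuotientGroup.mk' Z) : Set (G ⧸ Z))).comap (QuotientGroup.mk' Z) := fun A B => by
      rw [← Subgroup.map_le_iff_le_comap, ← Subgroup.commutator_eq_bot_iff_le_centralizer,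
        ← Subgroup.map_commutator, Subgroup.map_eq_bot_iff, QuotientGroup.ker_mk']
    rw [← hp, key]
    nth_rewrite 1 [← h1]
    refine iSup_le fun g => ?_
    rw [← key, Subgroup.commutator_comm, key]
    nth_rewrite 1 [← h1]
    refine iSup_le fun g' => ?_
    rw [← key]
    rcases (hm.cg hZ h.nm g'.2).eq_or_le (hm.cg hZ h.nm g.2) with h3 | h3
    · rw [h3, As.cg, ← Subgroup.map_commutator]
      rintro _ ⟨x, hx, rfl⟩
      exact this.conj_mem _ (hc hx) _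
    · exact h3)
  have h3 : ∀ g ∈ H, ∀ g' ∈ H, As.cg g L = As.cg g' L ∨ ⁅As.cg g L, As.cg g' L⁆ = ⊥ :=
    fun g hg g' hg' => ((hm.cg hZ h.nm hg).eq_or_le (hm.cg hZ h.nm hg')).imp_right fun h4 =>
      comm_eq_bot hZ h4 (by rw [As.cg, ← Subgroup.map_commutator, h2])
  refine ⟨L, hL, h2, ⟨le_rfl, Nm.self, hm.nsc, fun M hM hn => hm.min M hM ?_⟩, hm.nm, h1, h3⟩
  rw [nm_iff, ← h1]
  refine iSup_le fun g => nm_iff.1 ?_
  rcases h3 g g.2 1 H.one_mem with h4 | h4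
  · rw [h4, cg_one]; exact hn
  · intro x hx y hy
    rw [cg_one, Subgroup.commutator_eq_bot_iff_le_centralizer] at h4
    rw [← h4 hx y (hM hy)]; simpa

theorem MinN.simple [Z.Normal] {L : Subgroup G} (h : MinN Z L L) :
    IsSimpleGroup (L ⧸ Z.subgroupOf L) := by
  obtain ⟨x, hx, hxZ⟩ := SetLike.not_le_iff_exists.1 h.nsc
  have : Nontrivial (L ⧸ Z.subgroupOf L) :=
    ⟨⟨(⟨x, hx⟩ : L), 1, fun h => hxZ ((QuotientGroup.eq_one_iff (⟨x, hx⟩ : L)).1 h)⟩⟩
  refine ⟨fun K hK => ?_⟩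
  rcases h.min ((K.comap (QuotientGroup.mk' _)).map L.subtype) (Subgroup.map_subtype_le _) (by
    rintro g hg _ ⟨y, hy, rfl⟩
    exact ⟨_, (hK.comap (QuotientGroup.mk' _)).conj_mem y hy ⟨g, hg⟩, rfl⟩) with h1 | h1
  · refine .inl (eq_bot_iff.2 fun y hy => ?_)
    obtain ⟨y, rfl⟩ := QuotientGroup.mk'_surjective _ y
    exact (QuotientGroup.eq_one_iff _).2 (h1 ⟨y, hy, rfl⟩)
  · refine .inr (eq_top_iff.2 fun y _ => ?_)
    obtain ⟨y, rfl⟩ := QuotientGroup.mk'_surjective _ y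
    obtain ⟨z, hz, e⟩ : (y : G) ∈ (K.comap (QuotientGroup.mk' _)).map L.subtype := h1.symm ▸ y.2
    exact (Subtype.ext e : z = y) ▸ hz

theorem not_comm_of_perfect [Z.Normal] {L : Subgroup G} (h : ¬ L ≤ Z) (hp : ⁅L, L⁆ = L) :
    ¬ IsMulCommutative (L ⧸ Z.subgroupOf L) := fun hc => h (by
  rw [← hp]
  refine Subgroup.commutator_le.2 fun a ha b hb => ?_
  have := (QuotientGroup.eq_one_iff (N := Z.subgroupOf L) ⁅(⟨a, ha⟩ : L), ⟨b, hb⟩⁆).1 (by
    rw [← QuotientGroup.mk'_apply, map_commutatorElement, commutatorElement_eq_one_iff_mul_comm]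
    exact hc.is_comm.comm _ _)
  exact this)

end group

variable {ι : Type} [Fintype ι] [DecidableEq ι] {F : Type*} [Field F] {H : Subgroup (GL ι F)}

/-- the column space of a matrix -/
def rg (a : Matrix ι ι F) : Submodule F (ι → F) := LinearMap.range (toLin' a)

theorem mem_rg {a : Matrix ι ι F} {v : ι → F} : v ∈ rg a ↔ ∃ w, a *ᵥ w = v := Iff.rfl

theorem mem_rg_idem {a : Matrix ι ι F} (h : a * a = a) {v : ι → F} : v ∈ rg a ↔ a *ᵥ v = v :=
  ⟨by rintro ⟨w, rfl⟩; rw [toLin'_apply, mulVec_mulVec, h], fun h => ⟨v, h⟩⟩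

theorem rg_eq_bot {a : Matrix ι ι F} : rg a = ⊥ ↔ a = 0 := by
  rw [rg, LinearMap.range_eq_bot, EmbeddingLike.map_eq_zero_iff]

theorem map_rg (g : GL ι F) (a : Matrix ι ι F) : (rg a).map (toLin' (g : Matrix ι ι F)) = rg (cj g a) := by
  ext v
  constructor
  · rintro ⟨_, ⟨w, rfl⟩, rfl⟩
    exact ⟨(g : Matrix ι ι F) *ᵥ w, cj_mulVec g a w⟩
  · rintro ⟨w, rfl⟩
    refine ⟨_, ⟨((g⁻¹ : GL ι F) : Matrix ι ι F) *ᵥ w, rfl⟩, ?_⟩
    rw [toLin'_apply, toLin'_apply, toLin'_apply, ← cj_mulVec, mulVec_inv]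

theorem finrank_map_gl (g : GL ι F) (W : Submodule F (ι → F)) :
    finrank F (W.map (toLin' (g : Matrix ι ι F))) = finrank F W :=
  (Submodule.equivMapOfInjective _ (fun a b h => by
    rw [← inv_mulVec g a, ← inv_mulVec g b]; exact congrArg _ h) W).finrank_eq.symm

theorem Irr.eq_one_of_idem (hI : Irr H) {s : Matrix ι ι F} (h1 : s * s = s) (h0 : s ≠ 0)
    (h : ∀ g ∈ H, cj g s = s) : s = 1 := by
  rcases hI (rg s) fun g hg v hv => by
    rw [← h g hg, ← map_rg]; exact ⟨v, hv, rfl⟩ with h2 | h2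
  · exact absurd (rg_eq_bot.1 h2) h0
  · exact eq_of_mulVec fun v => by
      rw [one_mulVec]; exact (mem_rg_idem h1).1 (h2 ▸ Submodule.mem_top)

/-- a set of orthogonal idempotents permuted by `H` -/
structure IdS (H : Subgroup (GL ι F)) (E : Set (Matrix ι ι F)) : Prop where
  idem : ∀ e ∈ E, e * e = e
  ne : ∀ e ∈ E, e ≠ 0
  orth : ∀ e ∈ E, ∀ d ∈ E, e ≠ d → e * d = 0
  nrm : Nrm H E
  nonempty : E.Nonempty

theorem IdS.sum_eq (hI : Irr H) {E : Finset (Matrix ι ι F)} (h : IdS H E) : ∑ e ∈ E, e = 1 := by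
  classical
  have h1 : ∀ d ∈ E, d * ∑ e ∈ E, e = d := fun d hd => by
    rw [Finset.mul_sum, Finset.sum_eq_single d (fun e he hn => h.orth d hd e he hn.symm)
      (fun h => absurd hd h), h.idem d hd]
  refine hI.eq_one_of_idem ?_ (fun h0 => ?_) fun g hg => ?_
  · rw [Finset.sum_mul]; exact Finset.sum_congr rfl h1
  · obtain ⟨d, hd⟩ := h.nonempty
    exact h.ne d hd (by rw [← h1 d hd, h0, mul_zero])
  · rw [map_sum]
    exact Finset.sum_nbij' (cj g) (cj g⁻¹) (fun e he => h.nrm g hg e he)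
      (fun e he => h.nrm _ (H.inv_mem hg) e he) (by simp) (by simp) (by simp)

theorem IdS.trans [Finite F] (hI : Irr H) {E : Set (Matrix ι ι F)} (h : IdS H E) {e d : Matrix ι ι F}
    (he : e ∈ E) (hd : d ∈ E) : ∃ g ∈ H, cj g e = d := by
  let O : Set (Matrix ι ι F) := {d | ∃ g ∈ H, cj g e = d}
  have hO : ∀ d ∈ O, d ∈ E := by rintro _ ⟨g, hg, rfl⟩; exact h.nrm g hg e he
  have h1 : IdS H (Set.toFinite O).toFinset := by
    rw [Set.Finite.coe_toFinset]
    refine ⟨fun d hd => h.idem d (hO d hd), fun d hd => h.ne d (hO d hd),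
      fun d hd c hc => h.orth d (hO d hd) c (hO c hc), ?_, e, 1, H.one_mem, cj_one e⟩
    rintro g hg _ ⟨k, hk, rfl⟩
    exact ⟨g * k, H.mul_mem hg hk, cj_mul _ _ _⟩
  by_contra hn
  refine h.ne d hd ?_
  rw [← mul_one d, ← h1.sum_eq hI, Finset.mul_sum]
  refine Finset.sum_eq_zero fun c hc => ?_
  rw [Set.Finite.mem_toFinset] at hc
  exact h.orth d hd c (hO c hc) (by rintro rfl; exact hn hc)

theorem IdS.decomp [Finite F] (hI : Irr H) {E : Set (Matrix ι ι F)} (h : IdS H E) (h1 : E ≠ {1}) :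
    ∃ (t m : ℕ) (e : Fin t → Matrix ι ι F), Function.Injective e ∧ Set.range e = E ∧ ∑ i, e i = 1 ∧
      IsMDecomposition m (fun i => rg (e i)) ∧ H ≤ decompositionStabilizer fun i => rg (e i) := by
  classical
  have := Fintype.ofFinite E
  let e : Fin (Fintype.card E) → Matrix ι ι F := fun i => (Fintype.equivFin E).symm i
  have hi : Function.Injective e := Subtype.val_injective.comp (Equiv.injective _)
  have hr : Set.range e = E := by
    rw [show e = Subtype.val ∘ (Fintype.equivFin E).symm from rfl, Set.range_comp]; simp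
  have he : ∀ i, e i ∈ E := fun i => hr ▸ ⟨i, rfl⟩
  have hs : ∑ i, e i = 1 := by
    rw [← IdS.sum_eq hI (E := Finset.univ.image e) (by simpa [hr] using h),
      Finset.sum_image fun _ _ _ _ h => hi h]
  obtain ⟨d, hd⟩ := h.nonempty
  refine ⟨_, finrank F (rg d), e, hi, hr, hs, ⟨?_, ?_, fun i => ?_, ?_, ?_⟩, fun g hg => ?_⟩
  · by_contra h2
    have : Subsingleton E := Fintype.card_le_one_iff_subsingleton.1 (by omega)
    have h3 : E = {d} := Set.eq_singleton_iff_unique_mem.2 ⟨hd, fun x hx =>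
      congrArg Subtype.val (Subsingleton.elim (⟨x, hx⟩ : E) ⟨d, hd⟩)⟩
    have := IdS.sum_eq hI (E := {d}) (by simpa [← h3] using h)
    exact h1 (by rw [h3, ← this, Finset.sum_singleton])
  · exact Nat.pos_of_ne_zero fun h0 => h.ne d hd (rg_eq_bot.1 (Submodule.finrank_eq_zero.1 h0))
  · obtain ⟨g, -, hg⟩ := h.trans hI hd (he i)
    rw [← hg, ← map_rg, finrank_map_gl]
  · refine iSupIndep_def.2 fun i => Submodule.disjoint_def.2 fun v hv hv' => ?_
    have : (⨆ j, ⨆ _ : j ≠ i, rg (e j)) ≤ LinearMap.ker (toLin' (e i)) := iSup₂_le fun j hj => by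
      rintro _ ⟨w, rfl⟩
      rw [LinearMap.mem_ker, toLin'_apply, toLin'_apply, mulVec_mulVec,
        h.orth _ (he i) _ (he j) (hi.ne hj.symm), zero_mulVec]
    exact ((mem_rg_idem (h.idem _ (he i))).1 hv).symm.trans (this hv')
  · refine eq_top_iff.2 fun v _ => ?_
    rw [← one_mulVec v, ← hs, sum_mulVec]
    exact Submodule.sum_mem _ fun i _ => Submodule.mem_iSup_of_mem i ⟨v, rfl⟩
  · have : ∀ i, ∃ j, e j = cj g (e i) := fun i => by
      have := h.nrm g hg _ (he i); rwa [← hr] at this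
    choose s hs using this
    have hs' : Function.Injective s := fun i j h => hi ((cj g).injective (by rw [← hs, ← hs, h]))
    exact ⟨Equiv.ofBijective s (Finite.injective_iff_bijective.1 hs'), fun i => by
      rw [map_rg, ← hs]; rfl⟩

/-- primitive idempotents -/
def PI (K : Subalgebra F (Matrix ι ι F)) : Set (Matrix ι ι F) :=
  {e | e ∈ K ∧ e * e = e ∧ e ≠ 0 ∧ ∀ d ∈ K, d * d = d → d * e = 0 ∨ d * e = e}

theorem idS_PI [Nonempty ι] {K : Subalgebra F (Matrix ι ι F)} (hK : Nrm H K)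
    (hc : ∀ a ∈ K, ∀ b ∈ K, a * b = b * a) : IdS H (PI K) := by
  refine ⟨fun e he => he.2.1, fun e he => he.2.2.1, fun e he d hd hn => ?_, fun g hg e he => ?_, ?_⟩
  · refine (hd.2.2.2 e he.1 he.2.1).resolve_right fun h1 => ?_
    rcases he.2.2.2 d hd.1 hd.2.1 with h2 | h2
    · exact hd.2.2.1 (by rw [← h1, hc e he.1 d hd.1, h2])
    · exact hn (by rw [← h2, hc d hd.1 e he.1, h1])
  · refine ⟨hK g hg e he.1, by rw [← map_mul, he.2.1], by simpa using he.2.2.1, fun d hd hdd => ?_⟩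
    rw [← cj_cj_inv g d, ← map_mul]
    exact (he.2.2.2 _ (hK _ (H.inv_mem hg) d hd) (by rw [← map_mul, hdd])).imp
      (fun h => by rw [h, map_zero]) fun h => by rw [h]
  · obtain ⟨W, ⟨e, ⟨he, hee, h0⟩, rfl⟩, hm⟩ := exists_minimal_of_wellFoundedLT
      (fun W => ∃ e, (e ∈ K ∧ e * e = e ∧ e ≠ 0) ∧ rg e = W) ⟨_, 1, ⟨K.one_mem, mul_one _, one_ne_zero⟩, rfl⟩
    refine ⟨e, he, hee, h0, fun d hd hdd => or_iff_not_imp_left.2 fun h1 => ?_⟩
    have h2 : d * e * (d * e) = d * e := by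
      rw [mul_assoc, ← mul_assoc e, hc e he d hd, mul_assoc, hee, ← mul_assoc, hdd]
    have h3 := hm ⟨d * e, ⟨K.mul_mem hd he, h2, h1⟩, rfl⟩ (by
      rintro _ ⟨w, rfl⟩
      exact ⟨d *ᵥ w, by rw [toLin'_apply, toLin'_apply, mulVec_mulVec, hc e he d hd]⟩)
    refine eq_of_mulVec fun v => ?_
    rw [← (mem_rg_idem h2).1 (h3 (⟨v, rfl⟩ : e *ᵥ v ∈ rg e)), mulVec_mulVec, mul_assoc, hee]

theorem Irr.field_of_PI [Finite F] [Nonempty ι] (hI : Irr H) {K : Subalgebra F (Matrix ι ι F)}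
    (hK : Nrm H K) (hc : ∀ a ∈ K, ∀ b ∈ K, a * b = b * a) (h : PI K = {1}) :
    ∀ x ∈ K, x ≠ 0 → ∃ y ∈ K, x * y = 1 := by
  have h1 : (1 : Matrix ι ι F) ∈ PI K := h ▸ rfl
  let _ : CommRing K := { (inferInstance : Ring K) with mul_comm a b := Subtype.ext (hc _ a.2 _ b.2) }
  have := hI.semisimple hK
  intro x hx h0
  obtain ⟨e, he, h2⟩ := IsSemisimpleRing.ideal_eq_span_idempotent (Ideal.span {(⟨x, hx⟩ : K)})
  rcases h1.2.2.2 e e.2 (congrArg Subtype.val he) with h3 | h3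
  · have : e = 0 := Subtype.ext (by simpa using h3)
    have h4 := Ideal.mem_span_singleton_self (⟨x, hx⟩ : K)
    rw [h2, this] at h4
    exact absurd (congrArg Subtype.val (by simpa using h4 : (⟨x, hx⟩ : K) = 0)) h0
  · have : e = 1 := Subtype.ext (by simpa using h3)
    have h4 := Ideal.mem_span_singleton_self (1 : K)
    rw [← this, ← h2, this, Ideal.mem_span_singleton] at h4
    obtain ⟨y, hy⟩ := h4
    exact ⟨y, y.2, (congrArg Subtype.val hy).symm⟩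

/-- a commutative subalgebra with inverses is a field -/
theorem isField_of {K : Subalgebra F (Matrix ι ι F)} [Nonempty ι] (hc : ∀ a ∈ K, ∀ b ∈ K, a * b = b * a)
    (hi : ∀ x ∈ K, x ≠ 0 → ∃ y ∈ K, x * y = 1) : IsField K :=
  ⟨exists_pair_ne K, fun a b => Subtype.ext (hc _ a.2 _ b.2), fun {a} ha =>
    let ⟨y, hy, h⟩ := hi a a.2 fun h => ha (Subtype.ext h); ⟨⟨y, hy⟩, Subtype.ext h⟩⟩

theorem exists_subfield [Fintype F] [Nonempty ι] {K : Subalgebra F (Matrix ι ι F)}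
    (hc : ∀ a ∈ K, ∀ b ∈ K, a * b = b * a) (hi : ∀ x ∈ K, x ≠ 0 → ∃ y ∈ K, x * y = 1) {r : ℕ}
    (hr : r ∣ finrank F K) : ∃ K' : Subalgebra F (Matrix ι ι F), IsFieldSubalgebra r K' ∧
      ∀ x, x ∈ K' ↔ x ∈ K ∧ x ^ Fintype.card F ^ r = x := by
  let _ := (isField_of hc hi).toField
  have : Finite K := Module.finite_of_finite F
  let φ := FiniteField.frobeniusAlgEquivOfAlgebraic F K
  let L := IntermediateField.fixedField (Subgroup.zpowers (φ ^ r))
  have hL : ∀ x : K, x ∈ L ↔ x ^ Fintype.card F ^ r = x := fun x => by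
    have : (φ ^ r) x = x ^ Fintype.card F ^ r := by
      rw [AlgEquiv.coe_pow, FiniteField.coe_frobeniusAlgEquivOfAlgebraic_iterate]
    rw [← this]
    refine ⟨fun h => h ⟨_, Subgroup.mem_zpowers _⟩, fun h g => ?_⟩
    exact (Subgroup.zpowers_le (g := φ ^ r) (H := MulAction.stabilizer _ x)).2 h g.2
  have h1 : finrank F L = r := by
    have h2 := Module.finrank_mul_finrank F L K
    rw [IntermediateField.finrank_fixedField_eq_card, Nat.card_zpowers, orderOf_pow' _ (by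
      rintro rfl; exact Module.finrank_pos.ne' (zero_dvd_iff.1 hr)),
      FiniteField.orderOf_frobeniusAlgEquivOfAlgebraic, Nat.gcd_eq_right hr] at h2
    obtain ⟨s, hs⟩ := hr
    have h0 : 0 < r * s := hs ▸ Module.finrank_pos
    rw [hs, Nat.mul_div_cancel_left _ (Nat.pos_of_mul_pos_right h0)] at h2
    exact Nat.eq_of_mul_eq_mul_right (Nat.pos_of_mul_pos_left h0) h2
  have hm : ∀ x, x ∈ L.toSubalgebra.map K.val ↔ x ∈ K ∧ x ^ Fintype.card F ^ r = x := fun x =>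
    ⟨by rintro ⟨y, hy, rfl⟩; exact ⟨y.2, congrArg Subtype.val ((hL y).1 hy)⟩,
      fun h => ⟨⟨x, h.1⟩, (hL _).2 (Subtype.ext h.2), rfl⟩⟩
  refine ⟨L.toSubalgebra.map K.val, ⟨fun x hx y hy => hc x ((hm x).1 hx).1 y ((hm y).1 hy).1, ?_, ?_⟩, hm⟩
  · rintro _ ⟨y, hy, rfl⟩ h0
    exact ⟨_, ⟨y⁻¹, L.inv_mem hy, rfl⟩, 
      congrArg Subtype.val (mul_inv_cancel₀ (a := y) fun h => h0 (by simp [h]))⟩
  · rw [← h1]
    exact (Subalgebra.equivMapOfInjective _ _ Subtype.val_injective).toLinearEquiv.finrank_eq.symm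

theorem finrank_dvd [Nonempty ι] {K : Subalgebra F (Matrix ι ι F)}
    (hc : ∀ a ∈ K, ∀ b ∈ K, a * b = b * a) (hi : ∀ x ∈ K, x ≠ 0 → ∃ y ∈ K, x * y = 1) :
    finrank F K ∣ Fintype.card ι := by
  let _ := (isField_of hc hi).toField
  let m : Module K (ι → F) := Module.compHom _ (toLinAlgEquiv'.toAlgHom.comp K.val).toRingHom
  have : @IsScalarTower F K (ι → F) _ m.toSMul _ :=
    @IsScalarTower.mk F K (ι → F) _ m.toSMul _ fun c k v => smul_mulVec c (k : Matrix ι ι F) v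
  exact ⟨finrank K (ι → F), by rw [Module.finrank_mul_finrank F K (ι → F), finrank_fintype_fun_eq_card]⟩

theorem one_lt_finrank [Nonempty ι] {K : Subalgebra F (Matrix ι ι F)} (h : K ≠ ⊥) : 1 < finrank F K :=
  lt_of_le_of_ne Module.finrank_pos fun h1 => h (Subalgebra.finrank_eq_one_iff.1 h1.symm)

end Cfsg.Agent.H4.As
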