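import Cfsg.Agent.H4.As3
import Cfsg.Agent.H4.Lang2

/-! Aschbacher's theorem, part 4: Gram matrices, traces, descent to subfields. -/

set_option autoImplicit false
set_option linter.unusedSectionVars false

namespace Cfsg.Agent.H4.As

open Matrix Module Cfsg.Geo
open scoped MatrixGroups Kronecker commutatorElement

variable {ι : Type} [Fintype ι] [DecidableEq ι] {F : Type*} [Field F] {H L : Subgroup (GL ι F)}

/-- the form with a given Gram matrix -/
def fm (σ : F →+* F) (J : Matrix ι ι F) (u v : ι → F) : F := u ⬝ᵥ (J *ᵥ (σ ∘ v))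

section fm
variable {σ : F →+* F} {J J' : Matrix ι ι F}

theorem comp_mulVec (σ : F →+* F) (b : Matrix ι ι F) (v : ι → F) :
    σ ∘ (b *ᵥ v) = b.map σ *ᵥ (σ ∘ v) := funext fun i => RingHom.map_mulVec σ b v i

theorem fm_mulVec (a b : Matrix ι ι F) (u v : ι → F) :
    fm σ J (a *ᵥ u) (b *ᵥ v) = fm σ (aᵀ * J * b.map σ) u v := by
  rw [fm, fm, comp_mulVec, mulVec_mulVec, mul_assoc, ← mulVec_mulVec (σ ∘ v) aᵀ, dotProduct_mulVec u aᵀ,
    vecMul_transpose]

theorem fm_left (a : Matrix ι ι F) (u v : ι → F) : fm σ J (a *ᵥ u) v = fm σ (aᵀ * J) u v := by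
  simpa using fm_mulVec (σ := σ) (J := J) a 1 u v

theorem fm_right (b : Matrix ι ι F) (u v : ι → F) : fm σ J u (b *ᵥ v) = fm σ (J * b.map σ) u v := by
  simpa using fm_mulVec (σ := σ) (J := J) 1 b u v

theorem fm_single (i j : ι) : fm σ J (Pi.single i 1) (Pi.single j 1) = J i j := by
  have : σ ∘ (Pi.single j 1 : ι → F) = Pi.single j 1 := by
    ext k; by_cases h : k = j <;> simp [h]
  simp [fm, this]

theorem fm_inj (h : ∀ u v, fm σ J u v = fm σ J' u v) : J = J' := by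
  ext i j; rw [← fm_single (σ := σ) (J := J), h, fm_single]

theorem fm_smul (c : F) (u v : ι → F) : fm σ (c • J) u v = c * fm σ J u v := by
  simp [fm, smul_mulVec]

theorem fm_add (u v : ι → F) : fm σ (J + J') u v = fm σ J u v + fm σ J' u v := by
  simp [fm, add_mulVec]

theorem fm_eq_sum (u v : ι → F) : fm σ J u v = ∑ a, ∑ b, u a * J a b * σ (v b) := by
  simp [fm, dotProduct, mulVec, Finset.mul_sum, mul_assoc]

theorem formOfGram_eq (u v : ι → F) : formOfGram σ J u v = fm σ J u v := (fm_eq_sum u v).symm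

theorem fm_add_left (x y v : ι → F) : fm σ J (x + y) v = fm σ J x v + fm σ J y v := by simp [fm]

theorem fm_smul_left (c : F) (x v : ι → F) : fm σ J (c • x) v = c * fm σ J x v := by simp [fm]

theorem fm_add_right (v x y : ι → F) : fm σ J v (x + y) = fm σ J v x + fm σ J v y := by
  simp [fm_eq_sum, mul_add, Finset.sum_add_distrib]

theorem fm_smul_right (c : F) (v x : ι → F) : fm σ J v (c • x) = σ c * fm σ J v x := by
  simp only [fm_eq_sum, Finset.mul_sum, Pi.smul_apply, smul_eq_mul, map_mul]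
  exact Finset.sum_congr rfl fun _ _ => Finset.sum_congr rfl fun _ _ => by ring

theorem map_fm {φ : F →+* F} (h : ∀ a, φ (σ a) = σ (φ a)) (u v : ι → F) :
    φ (fm σ J u v) = fm σ (J.map φ) (φ ∘ u) (φ ∘ v) := by
  simp [fm_eq_sum, h]

theorem fm_swap (hσ : ∀ a, σ (σ a) = a) (u v : ι → F) :
    σ (fm σ J u v) = fm σ (J.map σ)ᵀ v u := by
  simp only [fm_eq_sum, map_sum, map_mul, hσ, transpose_apply, map_apply]
  rw [Finset.sum_comm]
  exact Finset.sum_congr rfl fun _ _ => Finset.sum_congr rfl fun _ _ => by ring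

theorem gram_fm : gramMatrix (fm σ J) = J := by ext i j; exact fm_single i j

theorem eq_fm {f : (ι → F) → (ι → F) → F} (h1 : ∀ x y v, f (x + y) v = f x v + f y v)
    (h2 : ∀ (c : F) x v, f (c • x) v = c * f x v) (h3 : ∀ v x y, f v (x + y) = f v x + f v y)
    (h4 : ∀ (c : F) v x, f v (c • x) = σ c * f v x) (u v : ι → F) : f u v = fm σ (gramMatrix f) u v := by
  let B := LinearMap.mk₂'ₛₗ (RingHom.id F) σ f h1 h2 h3 (fun c v x => h4 c v x)
  have : f u v = B (∑ a, u a • Pi.single a 1) (∑ b, v b • Pi.single b 1) := by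
    rw [← pi_eq_sum_univ', ← pi_eq_sum_univ']; rfl
  rw [this, fm_eq_sum]
  simp only [map_sum, LinearMap.sum_apply, map_smulₛₗ, LinearMap.smul_apply, Finset.smul_sum]
  rw [Finset.sum_comm]
  refine Finset.sum_congr rfl fun _ _ => Finset.sum_congr rfl fun _ _ => ?_
  simp [B, gramMatrix]; ring

theorem _root_.Cfsg.Geo.IsBilinearForm.as_eq {f : (ι → F) → (ι → F) → F} (h : IsBilinearForm f) :
    f = fm (RingHom.id F) (gramMatrix f) :=
  funext₂ (eq_fm h.add_left h.smul_left h.add_right h.smul_right)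

theorem _root_.Cfsg.Geo.IsUnitaryForm.as_eq {σ : F ≃+* F} {f : (ι → F) → (ι → F) → F}
    (h : IsUnitaryForm σ f) : f = fm (σ : F →+* F) (gramMatrix f) :=
  funext₂ (eq_fm h.add_left h.smul_left
    (fun v x y => by rw [h.herm, h.add_left, map_add, ← h.herm, ← h.herm])
    fun c v x => by rw [h.herm, h.smul_left, map_mul, ← h.herm]; rfl)

theorem isUnit_of_fm (h : ∀ u, (∀ v, fm σ J u v = 0) → u = 0) : IsUnit J := by
  rw [← vecMul_injective_iff_isUnit]
  refine (LinearMap.ker_eq_bot (f := vecMulLinear J)).1 (eq_bot_iff.2 fun u hu => h u fun v => ?_)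
  rw [fm, dotProduct_mulVec, show u ᵥ* J = 0 from hu, zero_dotProduct]

theorem isUnit_of_nondeg (h : IsNondegenerateForm (fm σ J)) : IsUnit J :=
  isUnit_of_fm fun u hu => by_contra fun h0 => let ⟨x, hx⟩ := (h u h0).2; hx (hu x)

theorem nondeg_fm (hσ : Function.Surjective σ) (hJ : IsUnit J) : IsNondegenerateForm (fm σ J) := by
  obtain ⟨J, rfl⟩ := hJ
  intro v hv
  constructor
  · have : σ ∘ v ≠ 0 := fun h => hv (funext fun i => σ.injective (by simpa using congrFun h i))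
    obtain ⟨i, hi⟩ := Function.ne_iff.1 (mulVec_ne_zero J this)
    exact ⟨Pi.single i 1, by simpa [fm] using hi⟩
  · obtain ⟨i, hi⟩ := Function.ne_iff.1 hv
    choose s hs using hσ
    refine ⟨s ∘ (((J⁻¹ : GL ι F) : Matrix ι ι F) *ᵥ Pi.single i 1), ?_⟩
    have : σ ∘ s ∘ (((J⁻¹ : GL ι F) : Matrix ι ι F) *ᵥ Pi.single i 1) =
        ((J⁻¹ : GL ι F) : Matrix ι ι F) *ᵥ Pi.single i 1 := funext fun _ => hs _
    rw [fm, this, mulVec_inv]
    simpa using hi

theorem bilin_fm : IsBilinearForm (fm (RingHom.id F) J) :=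
  ⟨fm_add_left, fm_smul_left, fm_add_right, fm_smul_right⟩

theorem fm_transpose (u v : ι → F) : fm (RingHom.id F) J u v = fm (RingHom.id F) Jᵀ v u :=
  fm_swap (σ := RingHom.id F) (fun _ => rfl) u v

theorem symp_fm (hJ : IsUnit J) (h : ∀ v, fm (RingHom.id F) J v v = 0) :
    IsSymplecticForm (fm (RingHom.id F) J) :=
  ⟨bilin_fm, fun v w => by
    have := h (v + w)
    rw [fm_add_left, fm_add_right, fm_add_right, h, h] at this
    linear_combination this, h, nondeg_fm Function.surjective_id hJ⟩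

theorem alt_of_skew (h2 : (2 : F) ≠ 0) (h : Jᵀ = -J) (v : ι → F) : fm (RingHom.id F) J v v = 0 := by
  have := fm_transpose (J := J) v v
  rw [h, ← neg_one_smul F J, fm_smul] at this
  exact (mul_eq_zero.1 (by linear_combination this)).resolve_left h2

theorem alt_of_diag (h : Jᵀ = -J) (hd : ∀ i, J i i = 0) (v : ι → F) : fm (RingHom.id F) J v v = 0 := by
  rw [fm_eq_sum, ← Fintype.sum_prod_type']
  refine Finset.sum_involution (fun p _ => p.swap) (fun p _ => ?_) (fun p _ h0 hp => h0 ?_)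
    (fun _ _ => Finset.mem_univ _) fun _ _ => rfl
  · have := congrFun (congrFun h p.1) p.2
    simp only [transpose_apply, neg_apply] at this
    simp [this]; ring
  · have : p.2 = p.1 := congrArg Prod.fst hp
    simp [this, hd]

theorem symm_fm (hJ : IsUnit J) (h : Jᵀ = J) : IsSymmetricForm (fm (RingHom.id F) J) :=
  ⟨bilin_fm, fun u v => by rw [fm_transpose, h], nondeg_fm Function.surjective_id hJ⟩

theorem polar_fm (J : Matrix ι ι F) : QuadraticMap.polar (fun v => fm (RingHom.id F) J v v) =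
    fm (RingHom.id F) (J + Jᵀ) := by
  ext u v
  rw [QuadraticMap.polar, fm_add_left, fm_add_right, fm_add_right, fm_add, ← fm_transpose]; ring

theorem quad_fm (hJ : IsUnit (J + Jᵀ)) : IsNondegenerateQuadraticForm fun v => fm (RingHom.id F) J v v :=
  ⟨fun c v => by rw [fm_smul_left, fm_smul_right]; simp [pow_two, mul_assoc], polar_fm J ▸ bilin_fm,
    polar_fm J ▸ nondeg_fm Function.surjective_id hJ⟩

theorem unit_fm {σ : F ≃+* F} (h1 : σ ≠ RingEquiv.refl F) (hσ : ∀ a, σ (σ a) = a) (hJ : IsUnit J)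
    (h : (J.map σ)ᵀ = J) : IsUnitaryForm σ (fm (σ : F →+* F) J) :=
  ⟨h1, hσ, fm_add_left, fm_smul_left, fun v w => by
    have := fm_swap (σ := (σ : F →+* F)) (J := J) hσ w v
    rw [show (J.map (σ : F →+* F))ᵀ = J from h] at this
    exact this.symm, nondeg_fm σ.surjective hJ⟩

/-- `g` is a similarity with multiplier `c` -/
def Sm (σ : F →+* F) (J g : Matrix ι ι F) (c : F) : Prop := gᵀ * J * g.map σ = c • J

theorem sm_iff {g : Matrix ι ι F} {c : F} :
    Sm σ J g c ↔ ∀ u v, fm σ J (g *ᵥ u) (g *ᵥ v) = c * fm σ J u v :=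
  ⟨fun h u v => by rw [fm_mulVec, h, fm_smul], fun h => fm_inj fun u v => by
    rw [← fm_mulVec, h, fm_smul]⟩

theorem Sm.mul {g h : Matrix ι ι F} {c d : F} (hg : Sm σ J g c) (hh : Sm σ J h d) :
    Sm σ J (g * h) (c * d) :=
  sm_iff.2 fun u v => by rw [← mulVec_mulVec, ← mulVec_mulVec, sm_iff.1 hg, sm_iff.1 hh, mul_assoc]

theorem sm_one : Sm σ J 1 1 := by simp [Sm]

theorem sm_smul (c : F) : Sm σ J (c • 1) (c * σ c) := by
  rw [sm_iff]; intro u v
  rw [smul_mulVec, smul_mulVec, one_mulVec, one_mulVec, fm_smul_left, fm_smul_right, mul_assoc]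

theorem Sm.pow {g : Matrix ι ι F} {c : F} (hg : Sm σ J g c) (n : ℕ) : Sm σ J (g ^ n) (c ^ n) := by
  induction n with
  | zero => simpa using sm_one
  | succ n ih => rw [pow_succ, pow_succ]; exact ih.mul hg

theorem Sm.unique [Nonempty ι] (hJ : IsUnit J) {g : Matrix ι ι F} {c d : F} (h : Sm σ J g c)
    (h' : Sm σ J g d) : c = d :=
  smul_left_injective F hJ.ne_zero (h.symm.trans h')

theorem Sm.ne_zero [Nonempty ι] (hJ : IsUnit J) {g : GL ι F} {c : F} (h : Sm σ J g c) : c ≠ 0 := by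
  rintro rfl
  have : IsUnit ((g : Matrix ι ι F)ᵀ * J * (g : Matrix ι ι F).map σ) :=
    (((isUnit_transpose _).2 g.isUnit).mul hJ).mul (g.isUnit.map σ.mapMatrix)
  exact this.ne_zero (h.trans (zero_smul _ _))

theorem Sm.inv {g : GL ι F} {c : F} (h : Sm σ J g c) (hc : c ≠ 0) :
    Sm σ J ((g⁻¹ : GL ι F) : Matrix ι ι F) c⁻¹ :=
  sm_iff.2 fun u v => by
    rw [eq_inv_mul_iff_mul_eq₀ hc, ← sm_iff.1 h, mulVec_inv, mulVec_inv]

theorem mem_sim_iff [Nonempty ι] (hJ : IsUnit J) {g : GL ι F} :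
    g ∈ similarityGroup (fm σ J) ↔ ∃ c, Sm σ J g c :=
  ⟨fun ⟨c, h⟩ => ⟨c, sm_iff.2 h⟩, fun ⟨_, h⟩ => ⟨Units.mk0 _ (h.ne_zero hJ), sm_iff.1 h⟩⟩

theorem Sm.smul {g : Matrix ι ι F} {c : F} (h : Sm σ J g c) (a : F) : Sm σ (a • J) g c := by
  rw [Sm, mul_smul_comm, smul_mul_assoc, h, smul_comm]

theorem Sm.cj {g : Matrix ι ι F} {c : F} (h : Sm σ J g c) (P : GL ι F) :
    Sm σ ((P : Matrix ι ι F)ᵀ * J * (P : Matrix ι ι F).map σ) (cj P⁻¹ g) c :=
  sm_iff.2 fun u v => by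
    have : ∀ u, (P : Matrix ι ι F) *ᵥ (As.cj P⁻¹ g *ᵥ u) = g *ᵥ ((P : Matrix ι ι F) *ᵥ u) := fun u => by
      rw [← cj_mulVec, cj_cj_inv]
    rw [← fm_mulVec, ← fm_mulVec, this, this, sm_iff.1 h]

theorem Sm.map {φ : F →+* F} (hφ : ∀ a, φ (σ a) = σ (φ a)) {g : Matrix ι ι F} {c : F}
    (h : Sm σ J g c) : Sm σ (J.map φ) (g.map φ) (φ c) := by
  have := congrArg (fun a => a.map φ) h
  simp only [Matrix.map_mul, map_map] at this
  rw [Sm, ← transpose_map, map_map, show σ ∘ φ = φ ∘ σ from funext fun a => (hφ a).symm, this]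
  ext; simp

theorem Sm.swap (hσ : ∀ a, σ (σ a) = a) {g : Matrix ι ι F} {c : F} (h : Sm σ J g c) :
    Sm σ (J.map σ)ᵀ g (σ c) :=
  sm_iff.2 fun u v => by rw [← fm_swap hσ, ← fm_swap hσ, sm_iff.1 h, map_mul]

/-- invariant forms of an absolutely irreducible group are proportional -/
theorem gram_unique [Nonempty ι] (hL : alg L = ⊤) (hJ : IsUnit J)
    (h : ∀ l ∈ L, ∃ c, Sm σ J (l : Matrix ι ι F) c ∧ Sm σ J' (l : Matrix ι ι F) c) :
    ∃ a : F, J' = a • J := by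
  obtain ⟨J, rfl⟩ := hJ
  obtain ⟨a, ha⟩ := isSc_of_alg hL (b := (J' * ((J⁻¹ : GL ι F) : Matrix ι ι F))ᵀ) fun l hl => by
    obtain ⟨c, h1, h2⟩ := h l hl
    have hc := h1.ne_zero J.isUnit
    rw [← transpose_transpose (l : Matrix ι ι F), ← transpose_mul, ← transpose_mul]
    congr 1
    have h3 : IsUnit ((J : Matrix ι ι F) * (l : Matrix ι ι F).map σ) :=
      J.isUnit.mul (l.isUnit.map σ.mapMatrix)
    rw [← h3.mul_left_inj, mul_assoc _ (l : Matrix ι ι F)ᵀ, ← mul_assoc (l : Matrix ι ι F)ᵀ (J : Matrix ι ι F), h1]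
    rw [mul_assoc, mul_assoc, Units.inv_mul_cancel_left, ← mul_assoc, h2]
    simp
  refine ⟨a, ?_⟩
  have := congrArg transpose ha
  rw [transpose_transpose, Units.mul_inv_eq_iff_eq_mul] at this
  simpa using this

theorem exists_sm [Nonempty ι] (hL : alg L = ⊤) (hn : Nm H L) (hJ : IsUnit J)
    (h : ∀ l ∈ L, Sm σ J (l : Matrix ι ι F) 1) {g : GL ι F} (hg : g ∈ H) : ∃ c, Sm σ J g c :=
  gram_unique hL hJ fun l hl => ⟨1, h l hl, by
    have := (h _ (hn g hg l hl)).cj g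
    rwa [← cj_val, cj_inv_cj] at this⟩

end fm

theorem exists_cj_of_trace {G : Type*} [Monoid G] (ρ₁ ρ₂ : G →* Matrix ι ι F)
    (h1 : Submodule.span F (Set.range ρ₁) = ⊤) (h2 : Submodule.span F (Set.range ρ₂) = ⊤)
    (ht : ∀ g, trace (ρ₁ g) = trace (ρ₂ g)) : ∃ T : GL ι F, ∀ g, cj T (ρ₁ g) = ρ₂ g := by
  rcases isEmpty_or_nonempty ι with _ | _
  · exact ⟨1, fun _ => Subsingleton.elim _ _⟩
  let α₁ := MonoidAlgebra.lift F (Matrix ι ι F) G ρ₁
  let α₂ := MonoidAlgebra.lift F (Matrix ι ι F) G ρ₂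
  have hs : ∀ ρ : G →* Matrix ι ι F, Submodule.span F (Set.range ρ) = ⊤ →
      Function.Surjective (MonoidAlgebra.lift F (Matrix ι ι F) G ρ) := fun ρ h => by
    rw [← AlgHom.range_eq_top, ← Algebra.toSubmodule_eq_top, eq_top_iff, ← h, Submodule.span_le]
    rintro _ ⟨g, rfl⟩
    exact ⟨MonoidAlgebra.of F G g, MonoidAlgebra.lift_of _ _⟩
  have ht' : ∀ x, trace (α₁ x) = trace (α₂ x) := fun x => by
    induction x using MonoidAlgebra.induction_on with
    | of g => simpa [α₁, α₂] using ht g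
    | add a b ha hb => simp [ha, hb]
    | smul c a ha => simp [ha]
  have hk : ∀ x y, α₁ x = α₁ y → α₂ x = α₂ y := fun x y h => ext_iff_trace_mul_right.2 fun m => by
    obtain ⟨z, hz⟩ : ∃ z, α₂ z = m := hs ρ₂ h2 m
    rw [← hz, ← map_mul α₂, ← map_mul α₂, ← ht', ← ht', map_mul, map_mul, h]
  choose s hs' using hs ρ₁ h1
  have hs' : ∀ a, α₁ (s a) = a := hs'
  let Ψ : Matrix ι ι F →ₐ[F] Matrix ι ι F :=
    { toFun a := α₂ (s a)
      map_one' := (hk _ 1 (by rw [hs', map_one])).trans (map_one α₂)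
      map_mul' a b := by rw [← map_mul α₂]; exact hk _ _ (by rw [map_mul, hs', hs', hs'])
      map_zero' := (hk _ 0 (by rw [hs', map_zero])).trans (map_zero α₂)
      map_add' a b := by rw [← map_add α₂]; exact hk _ _ (by rw [map_add, hs', hs', hs'])
      commutes' c := (hk _ _ (by rw [hs', α₁.commutes])).trans (α₂.commutes c) }
  have hi : Function.Injective Ψ := Ψ.toRingHom.injective
  obtain ⟨T, hT⟩ := exists_cj (AlgEquiv.ofBijective Ψ
    ⟨hi, (LinearMap.injective_iff_surjective (f := Ψ.toLinearMap)).1 hi⟩)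
  refine ⟨T, fun g => (hT _).symm.trans ?_⟩
  exact (hk _ (MonoidAlgebra.of F G g) ((hs' _).trans (MonoidAlgebra.lift_of _ _).symm)).trans
    (MonoidAlgebra.lift_of _ _)

theorem span_image_top {f : Matrix ι ι F → Matrix ι ι F} (hL : alg L = ⊤) (hf : Function.Surjective f)
    (h1 : ∀ a b, f (a + b) = f a + f b) (h2 : ∀ (c : F) a, ∃ d : F, f (c • a) = d • f a) (h0 : f 0 = 0)
    {S : Submodule F (Matrix ι ι F)} (h : ∀ l ∈ L, f l ∈ S) : S = ⊤ :=
  eq_top_iff.2 fun a _ => by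
    obtain ⟨a, rfl⟩ := hf a
    exact alg_induction (p := fun a => f a ∈ S) h (by rw [h0]; exact S.zero_mem)
      (fun a b ha hb => h1 a b ▸ S.add_mem ha hb)
      (fun c a ha => by obtain ⟨d, hd⟩ := h2 c a; exact hd ▸ S.smul_mem d ha) (hL ▸ Algebra.mem_top)

theorem span_map_top (hL : alg L = ⊤) (φ : F ≃+* F) : Submodule.span F (Set.range
    (((φ : F →+* F).mapMatrix.toMonoidHom.comp (Units.coeHom _)).comp L.subtype)) = ⊤ :=
  span_image_top (f := fun a => a.map φ) hL (fun a => ⟨a.map φ.symm, by ext; simp⟩)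
    (fun a b => by ext; simp) (fun c a => ⟨φ c, by ext; simp⟩) (by ext; simp)
    fun l hl => Submodule.subset_span ⟨⟨l, hl⟩, rfl⟩

theorem exists_twist (hL : alg L = ⊤) (φ : F ≃+* F)
    (h : ∀ l ∈ L, φ (trace (l : Matrix ι ι F)) = trace (l : Matrix ι ι F)) :
    ∃ T : GL ι F, ∀ l ∈ L, cj T ((l : Matrix ι ι F).map φ) = l := by
  obtain ⟨T, hT⟩ := exists_cj_of_trace _ ((Units.coeHom _).comp L.subtype) (span_map_top hL φ)
    (span_image_top (f := id) hL Function.surjective_id (fun _ _ => rfl) (fun c _ => ⟨c, rfl⟩) rfl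
      fun l hl => Submodule.subset_span ⟨⟨l, hl⟩, rfl⟩)
    fun l => ((AddMonoidHom.map_trace (φ : F →+* F) _).symm.trans (h l l.2))
  exact ⟨T, fun l hl => hT ⟨l, hl⟩⟩

/-- the inverse transpose -/
def itr : GL ι F →* Matrix ι ι F where
  toFun g := ((g⁻¹ : GL ι F) : Matrix ι ι F)ᵀ
  map_one' := by simp
  map_mul' a b := by rw [_root_.mul_inv_rev, Units.val_mul, transpose_mul]

theorem exists_gram (hL : alg L = ⊤) (σ : F ≃+* F)
    (h : ∀ l ∈ L, σ (trace (l : Matrix ι ι F)) = trace ((l⁻¹ : GL ι F) : Matrix ι ι F)) :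
    ∃ J : Matrix ι ι F, IsUnit J ∧ ∀ l ∈ L, Sm (σ : F →+* F) J (l : Matrix ι ι F) 1 := by
  obtain ⟨T, hT⟩ := exists_cj_of_trace _ (itr.comp L.subtype) (span_map_top hL σ)
    (span_image_top (f := transpose) hL (fun a => ⟨aᵀ, rfl⟩) transpose_add (fun c _ => ⟨c, rfl⟩) rfl
      fun l hl => Submodule.subset_span ⟨⟨l⁻¹, L.inv_mem hl⟩, by simp [itr]⟩)
    fun l => ((AddMonoidHom.map_trace (σ : F →+* F) _).symm.trans ((h l l.2).trans (trace_transpose _).symm))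
  refine ⟨T, T.isUnit, fun l hl => ?_⟩
  have : (T : Matrix ι ι F) * (l : Matrix ι ι F).map (σ : F →+* F) =
    ((l⁻¹ : GL ι F) : Matrix ι ι F)ᵀ * T := cj_eq_iff.1 (hT ⟨l, hl⟩)
  rw [Sm, mul_assoc, this, ← mul_assoc, ← transpose_mul]; simp

theorem twist_of_grams {σ : F ≃+* F} {B J l : GL ι F} {c d : F} 
    (h1 : Sm (RingHom.id F) (B : Matrix ι ι F) l c)
    (h2 : Sm (σ : F →+* F) (J : Matrix ι ι F) l d) (hd : d ≠ 0) :
    cj (B⁻¹ * J) ((l : Matrix ι ι F).map σ) = (d * c⁻¹) • l := by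
  rcases isEmpty_or_nonempty ι with _ | _
  · exact Subsingleton.elim _ _
  have hc := h1.ne_zero B.isUnit
  have hl : IsUnit ((l : Matrix ι ι F)ᵀ * B) := ((isUnit_transpose _).2 l.isUnit).mul B.isUnit
  rw [cj_eq_iff, ← hl.mul_right_inj, Units.val_mul, ← mul_assoc, ← mul_assoc, Units.mul_inv_cancel_right]
  erw [h2]
  have h1 : (l : Matrix ι ι F)ᵀ * B * l = c • B := by simpa [Sm] using h1
  rw [smul_mul_assoc, mul_smul_comm, ← mul_assoc, h1, smul_mul_assoc, Units.mul_inv_cancel_left, smul_smul,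
    inv_mul_cancel_right₀ hc]

open Gam in
/-- the semilinear map `v ↦ T φ(v)` -/
noncomputable def gam (φ : F ≃+* F) (T : GL ι F) : Gam F (ι → F) := lin (glE T) * fld ι φ

theorem gam_s (φ : F ≃+* F) (T : GL ι F) (v : ι → F) :
    (gam φ T).s v = (T : Matrix ι ι F) *ᵥ (φ ∘ v) := rfl

theorem gam_ρ (φ : F ≃+* F) (T : GL ι F) : (gam φ T).ρ = φ := one_mul _

theorem exists_fixed_basis [Fintype F] [Nonempty ι] {φ : F ≃+* F} {T : GL ι F}
    (h : gam φ T ^ orderOf φ ∈ Zs F (ι → F)) :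
    ∃ (d : Fˣ) (P : GL ι F), (d : F) • (T : Matrix ι ι F) * (P : Matrix ι ι F).map φ = P := by
  obtain ⟨d, hd⟩ := Gam.exists_sc_mul_pow (congrArg orderOf (gam_ρ φ T)) (orderOf_pos φ) h
  have hρ : (Gam.sc F (ι → F) d * gam φ T).ρ = φ := (one_mul _).trans (gam_ρ φ T)
  obtain ⟨k, hk⟩ := Gam.exists_gk (ι := ι) (γ := Gam.sc F (ι → F) d * gam φ T) (by simp)
    (orderOf_pos _) (by rw [hρ, hd])
  obtain ⟨P, rfl⟩ := glE.surjective k
  refine ⟨d, P, eq_of_mulVec fun v => ?_⟩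
  obtain ⟨v, rfl⟩ : ∃ w : ι → F, φ ∘ w = v := ⟨φ.symm ∘ v, by ext; simp⟩
  have := congrArg (fun γ : Gam F (ι → F) => γ.s (glE P v)) hk
  simp only [gk_s, LinearEquiv.symm_apply_apply, hρ] at this
  rw [← mulVec_mulVec, smul_mulVec]
  erw [← comp_mulVec (φ : F →+* F)]
  exact this

theorem gam_pow_mem [Fintype F] [Nonempty ι] (hL : alg L = ⊤) {φ : F ≃+* F} {T : GL ι F}
    (h : ∀ l ∈ L, cj T ((l : Matrix ι ι F).map φ) = l) : gam φ T ^ orderOf φ ∈ Zs F (ι → F) := by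
  have h1 : ∀ l ∈ L, Commute (Gam.lin (glE l)) (gam φ T) := fun l hl => by
    refine Gam.ext (AddEquiv.ext fun v => ?_) ((one_mul _).trans (mul_one _).symm)
    change (l : Matrix ι ι F) *ᵥ ((T : Matrix ι ι F) *ᵥ (φ ∘ v)) =
      (T : Matrix ι ι F) *ᵥ ((φ : F →+* F) ∘ ((l : Matrix ι ι F) *ᵥ v))
    rw [comp_mulVec, ← cj_mulVec T]
    erw [h l hl]; rfl
  obtain ⟨g, hg⟩ := Gam.exists_lin (a := gam φ T ^ orderOf φ) (by
    rw [Gam.pow_ρ, gam_ρ, pow_orderOf_eq_one])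
  obtain ⟨g, rfl⟩ := glE.surjective g
  obtain ⟨c, hc⟩ := mem_sc.2 (isSc_of_alg hL (b := g) fun l hl => by
    have := (h1 l hl).pow_right (orderOf φ)
    rw [← hg] at this
    exact congrArg Units.val (glE.injective (Gam.lin_injective (by
      rw [map_mul, map_mul, map_mul, map_mul]; exact this.symm.eq)) : g * l = l * g))
  refine ⟨c, hg ▸ ?_⟩
  have hc : sc c = g := hc
  subst hc
  exact congrArg Gam.lin (LinearEquiv.ext fun v => by simp [smul_mulVec, Units.smul_def])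

theorem map_cj_inv (φ : F →+* F) (P : GL ι F) (a : Matrix ι ι F) :
    (P : Matrix ι ι F).map φ * (cj P⁻¹ a).map φ = a.map φ * (P : Matrix ι ι F).map φ := by
  rw [← Matrix.map_mul, ← Matrix.map_mul, ← cj_mul_val, cj_cj_inv]

theorem map_cj_of {φ : F →+* F} {T P : GL ι F} {d c : F}
    (h : d • (T : Matrix ι ι F) * (P : Matrix ι ι F).map φ = P) {a : Matrix ι ι F}
    (ha : cj T (a.map φ) = c • a) : (cj P⁻¹ a).map φ = c • cj P⁻¹ a := by
  rw [← P.isUnit.mul_right_inj]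
  nth_rewrite 1 [← h]
  rw [mul_assoc, map_cj_inv, ← mul_assoc, smul_mul_assoc, cj_eq_iff.1 ha, smul_mul_assoc c, smul_comm d c,
    ← mul_smul_comm, smul_mul_assoc, mul_assoc, h, mul_smul_comm, ← cj_mul_val, cj_cj_inv]

/-- `L` is fixed by `φ` in the basis `P` -/
def Real (φ : F ≃+* F) (P : GL ι F) (L : Subgroup (GL ι F)) : Prop :=
  ∀ l ∈ L, (cj P⁻¹ (l : Matrix ι ι F)).map φ = cj P⁻¹ l

theorem exists_real [Fintype F] [Nonempty ι] (hL : alg L = ⊤) {φ : F ≃+* F} {T : GL ι F}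
    (h : ∀ l ∈ L, cj T ((l : Matrix ι ι F).map φ) = l) : ∃ P, Real φ P L := by
  obtain ⟨d, P, hP⟩ := exists_fixed_basis (gam_pow_mem hL h)
  exact ⟨P, fun l hl => (map_cj_of (φ := (φ : F →+* F)) (c := 1) hP (by simpa using h l hl)).trans
    (one_smul _ _)⟩

/-- the fixed field -/
abbrev fx (φ : F ≃+* F) : Subfield F := FixedPoints.subfield (Subgroup.zpowers φ) F

theorem Real.realisable {φ : F ≃+* F} {P : GL ι F} (h : Real φ P L) :
    RealisableOver (fx φ) (matrixSet L) :=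
  ⟨P⁻¹, by rintro _ ⟨l, hl, rfl⟩ i j; exact mem_fixed_subfield.2 (congrFun (congrFun (h l hl) i) j)⟩

theorem fx_ne_top {φ : F ≃+* F} (h : φ ≠ 1) : fx φ ≠ ⊤ := fun h' =>
  h (RingEquiv.ext fun x => mem_fixed_subfield.1 (h' ▸ Subfield.mem_top x : x ∈ fx φ))

theorem exists_prime_pow [Fintype F] {ψ : F ≃+* F} (h : ψ ≠ 1) : ∃ k, (orderOf (ψ ^ k)).Prime := by
  obtain ⟨r, hr, hd⟩ := Nat.exists_prime_and_dvd (fun h1 => h (orderOf_eq_one_iff.1 h1))
  exact ⟨_, (orderOf_pow_orderOf_div (orderOf_pos ψ).ne' hd).symm ▸ hr⟩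

theorem pow_apply_of_fix {ψ : F ≃+* F} {x : F} (h : ψ x = x) (k : ℕ) : (ψ ^ k) x = x := by
  induction k with
  | zero => rfl
  | succ k ih => rw [pow_succ, RingAut.mul_apply, h, ih]

theorem Real.pow {φ : F ≃+* F} {P : GL ι F} (h : Real φ P L) (k : ℕ) : Real (φ ^ k) P L := fun l hl => by
  ext i j; exact pow_apply_of_fix (congrFun (congrFun (h l hl) i) j) k

theorem exists_real_of_realisable [Fintype F] {F₀ : Subfield F} (h0 : F₀ ≠ ⊤)
    (h : RealisableOver F₀ (matrixSet L)) : ∃ φ P, (orderOf φ).Prime ∧ Real φ P L := by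
  obtain ⟨B, hB⟩ := h
  have := Fintype.ofFinite F₀
  let ψ := FiniteField.frobeniusAlgEquivOfAlgebraic F₀ F
  have h1 : (ψ : F ≃+* F) ≠ 1 := fun h => h0 (by
    have : ψ = 1 := AlgEquiv.ext fun x => congrArg (fun e : F ≃+* F => e x) h
    have h2 := FiniteField.orderOf_frobeniusAlgEquivOfAlgebraic F₀ F
    rw [show FiniteField.frobeniusAlgEquivOfAlgebraic F₀ F = 1 from this, orderOf_one] at h2
    refine eq_top_iff.2 fun x _ => ?_
    obtain ⟨y, rfl⟩ := (Algebra.finrank_eq_one_iff_bijective_algebraMap.1 h2.symm).2 x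
    exact y.2)
  obtain ⟨k, hk⟩ := exists_prime_pow h1
  refine ⟨_, B⁻¹, hk, Real.pow (fun l hl => ?_) k⟩
  ext i j
  rw [inv_inv]
  exact ψ.commutes ⟨_, hB _ ⟨l, hl, rfl⟩ i j⟩

theorem exists_fixed_smul {φ : F →+* F} {a : Matrix ι ι F} {c : F} (h0 : a ≠ 0)
    (h : a.map φ = c • a) : ∃ b : F, b ≠ 0 ∧ (b • a).map φ = b • a := by
  obtain ⟨i, j, hij⟩ : ∃ i j, a i j ≠ 0 := by
    by_contra! h; exact h0 (Matrix.ext h)
  have h1 : ∀ i j, φ (a i j) = c * a i j := fun i j => congrFun (congrFun h i) j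
  have hc : c ≠ 0 := fun h => hij (φ.injective (by simp [h1, h]))
  refine ⟨(a i j)⁻¹, inv_ne_zero hij, ?_⟩
  ext k l
  simp [h1]; field_simp

theorem mem_subfield [Nonempty ι] {φ : F ≃+* F} {P g : GL ι F} {c : F}
    (h : (cj P⁻¹ (g : Matrix ι ι F)).map φ = c • cj P⁻¹ g) : g ∈ subfieldSubgroup (fx φ) P := by
  obtain ⟨b, hb, h1⟩ := exists_fixed_smul (φ := (φ : F →+* F)) (by simp) h
  refine mem_cg.2 ?_
  let g' : GL ι F := sc (Units.mk0 b hb) * (P⁻¹ * g * P)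
  have h2 : (g' : Matrix ι ι F) = b • cj P⁻¹ (g : Matrix ι ι F) := by simp [g', cj_apply]
  let a : Matrix ι ι (fx φ) := of fun i j => ⟨g' i j, mem_fixed_subfield.2 (by
    rw [h2]; exact congrFun (congrFun h1 i) j)⟩
  have h3 : a.map (fx φ).subtype = g' := rfl
  have h4 : a.det ≠ 0 := fun h => g'.det_ne_zero (by
    rw [← h3, ← RingHom.mapMatrix_apply, ← RingHom.map_det, h, map_zero])
  have : P⁻¹ * g * P = (sc (Units.mk0 b hb))⁻¹ * g' := by simp [g']
  rw [this]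
  exact mul_mem (Subgroup.mem_sup_right (inv_mem (sc_mem _)))
    (Subgroup.mem_sup_left ⟨GeneralLinearGroup.mkOfDetNeZero a h4, Units.ext h3⟩)

theorem alg_cg (hL : alg L = ⊤) (P : GL ι F) : alg (cg P L) = ⊤ := eq_top_iff.2 fun a _ => by
  rw [← cj_cj_inv P a]
  exact cj_mem_alg (L := L) (fun x hx => (⟨x, hx, rfl⟩ : _ ∈ cg P L)) (hL ▸ Algebra.mem_top)

theorem Real.cg {φ : F ≃+* F} {P : GL ι F} (h : Real φ P L) :
    ∀ l ∈ cg P⁻¹ L, (l : Matrix ι ι F).map φ = l := by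
  rintro _ ⟨l, hl, rfl⟩
  exact h l hl

theorem Real.exists_map [Nonempty ι] {φ : F ≃+* F} {P : GL ι F} (h : Real φ P L) (hL : alg L = ⊤)
    (hn : Nm H L) {g : GL ι F} (hg : g ∈ H) :
    ∃ c : F, (cj P⁻¹ (g : Matrix ι ι F)).map φ = c • cj P⁻¹ g := by
  let g' := P⁻¹ * g * P
  have e : cj P⁻¹ (g : Matrix ι ι F) = g' := by simp [g', cj_apply]
  obtain ⟨c, hc⟩ := isSc_of_alg (alg_cg hL P⁻¹)
    (b := ((g'⁻¹ : GL ι F) : Matrix ι ι F) * (g' : Matrix ι ι F).map φ) fun l hl => by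
    have h1 := h.cg (g' * l * g'⁻¹) (by
      rw [mem_cg] at hl ⊢
      simpa [g', mul_assoc] using hn g hg _ hl)
    have h2 : (g' : Matrix ι ι F) * l = (g' * l * g'⁻¹ : GL ι F) * g' := by simp [mul_assoc]
    have h3 := congrArg (fun a => a.map (φ : F →+* F)) h2
    simp only [Matrix.map_mul] at h3
    erw [h.cg l hl, h1] at h3
    rw [mul_assoc]
    erw [h3]
    simp [mul_assoc]
  refine ⟨c, ?_⟩
  rw [e, ← Units.mul_inv_cancel_left g' ((g' : Matrix ι ι F).map φ), hc]; simp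

theorem Real.le [Nonempty ι] {φ : F ≃+* F} {P : GL ι F} (h : Real φ P L) (hL : alg L = ⊤)
    (hn : Nm H L) : H ≤ subfieldSubgroup (fx φ) P := fun _ hg =>
  let ⟨_, hc⟩ := h.exists_map hL hn hg; mem_subfield hc

theorem Real.gram [Nonempty ι] {φ : F ≃+* F} {P : GL ι F} (h : Real φ P L) (hL : alg L = ⊤)
    {σ : F →+* F} (hφ : ∀ a, φ (σ a) = σ (φ a)) {J : Matrix ι ι F} (hJ : IsUnit J)
    (hs : ∀ l ∈ L, ∃ c, Sm σ J (l : Matrix ι ι F) c ∧ φ c = c) :
    ∃ b : F, b ≠ 0 ∧ (b • ((P : Matrix ι ι F)ᵀ * J * (P : Matrix ι ι F).map σ)).map φ =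
      b • ((P : Matrix ι ι F)ᵀ * J * (P : Matrix ι ι F).map σ) := by
  have hJ' : IsUnit ((P : Matrix ι ι F)ᵀ * J * (P : Matrix ι ι F).map σ) :=
    (((isUnit_transpose _).2 P.isUnit).mul hJ).mul (P.isUnit.map σ.mapMatrix)
  obtain ⟨a, ha⟩ := gram_unique (σ := σ) (alg_cg hL P⁻¹) hJ'
    (J' := ((P : Matrix ι ι F)ᵀ * J * (P : Matrix ι ι F).map σ).map (φ : F →+* F)) (by
      rintro _ ⟨l, hl, rfl⟩
      obtain ⟨c, h1, h2⟩ := hs l hl
      have h3 := (h1.cj P).map (φ := (φ : F →+* F)) hφ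
      erw [h l hl, h2] at h3
      exact ⟨c, h1.cj P, h3⟩)
  exact exists_fixed_smul hJ'.ne_zero ha

theorem card_fx [Fintype F] (φ : F ≃+* F) : Fintype.card F = Nat.card (fx φ) ^ orderOf φ := by
  rw [card_fixed_pow, Nat.card_eq_fintype_card]

end Cfsg.Agent.H4.As
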