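import Cfsg.Agent.H4.As4

/-! Aschbacher's theorem, part 5: extraspecial normal subgroups, the raw case division. -/

set_option autoImplicit false
set_option linter.unusedSectionVars false

namespace Cfsg.Agent.H4.As

open Matrix Module Cfsg.Geo
open scoped MatrixGroups Kronecker commutatorElement

variable {ι κ : Type} [Fintype ι] [DecidableEq ι] [Fintype κ] [DecidableEq κ] {F : Type*} [Field F]
  {H N R : Subgroup (GL ι F)}

theorem mem_sup_sc {x : GL ι F} : x ∈ N ⊔ scalars ι F ↔ ∃ n ∈ N, ∃ c : Fˣ, x = sc c * n := by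
  rw [sup_comm, ← SetLike.mem_coe, Subgroup.normal_mul]
  exact ⟨by rintro ⟨_, ⟨c, rfl⟩, n, hn, rfl⟩; exact ⟨n, hn, c, rfl⟩,
    by rintro ⟨n, hn, c, rfl⟩; exact ⟨_, sc_mem c, n, hn, rfl⟩⟩

theorem sc_comm (c : Fˣ) (g : GL ι F) : sc c * g = g * sc c := scalars_comm (sc_mem c) g

theorem conj_sc_mul (c : Fˣ) (g x : GL ι F) : g * (sc c * x) * g⁻¹ = sc c * (g * x * g⁻¹) := by
  rw [← mul_assoc g, ← sc_comm]; simp [mul_assoc]

theorem sc_mul_conj (c : Fˣ) (g x : GL ι F) : sc c * g * x * (sc c * g)⁻¹ = g * x * g⁻¹ := by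
  rw [_root_.mul_inv_rev, mul_assoc (sc c), mul_assoc (sc c), sc_comm]; simp [mul_assoc]

theorem Nm.sup_sc (h : Nm H N) : Nm H (N ⊔ scalars ι F) := fun g hg x hx => by
  obtain ⟨n, hn, c, rfl⟩ := mem_sup_sc.1 hx
  exact mem_sup_sc.2 ⟨_, h g hg n hn, c, conj_sc_mul c g n⟩

theorem alg_le_of_sup (h : R ≤ N ⊔ scalars ι F) : alg R ≤ alg N := alg_le fun g hg => by
  obtain ⟨n, hn, c, rfl⟩ := mem_sup_sc.1 (h hg)
  rw [Units.val_mul, sc_val, smul_mul_assoc, one_mul]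
  exact (alg N).smul_mem (val_mem_alg hn) _

instance instIsCyclicScalars [Finite F] : IsCyclic (scalars ι F) :=
  isCyclic_of_surjective _ (MonoidHom.rangeRestrict_surjective _)

/-- groups which are extraspecial modulo scalars -/
structure ES (N : Subgroup (GL ι F)) (r : ℕ) : Prop where
  prime : r.Prime
  comm : ∀ x ∈ N, ∀ y ∈ N, ∃ c : Fˣ, y * x * y⁻¹ = sc c * x
  pow : ∀ x ∈ N, x ^ r ∈ scalars ι F
  ctr : ∀ x ∈ N, (∀ y ∈ N, x * y = y * x) → x ∈ scalars ι F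
  nsc : ¬ N ≤ scalars ι F

variable {r : ℕ}

theorem ES.of_sup (h : ES N r) (h1 : R ≤ N ⊔ scalars ι F) (h2 : N ≤ R ⊔ scalars ι F) : ES R r := by
  refine ⟨h.prime, fun x hx y hy => ?_, fun x hx => ?_, fun x hx hc => ?_,
    fun h3 => h.nsc (h2.trans (sup_le h3 le_rfl))⟩
  · obtain ⟨n, hn, c, rfl⟩ := mem_sup_sc.1 (h1 hx)
    obtain ⟨m, hm, d, rfl⟩ := mem_sup_sc.1 (h1 hy)
    obtain ⟨e, he⟩ := h.comm n hn m hm
    exact ⟨e, by rw [sc_mul_conj, conj_sc_mul, he, ← mul_assoc, sc_comm c, mul_assoc]⟩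
  · obtain ⟨n, hn, c, rfl⟩ := mem_sup_sc.1 (h1 hx)
    rw [Commute.mul_pow (sc_comm c n)]
    exact mul_mem (pow_mem (sc_mem c) r) (h.pow n hn)
  · obtain ⟨n, hn, c, rfl⟩ := mem_sup_sc.1 (h1 hx)
    refine mul_mem (sc_mem c) (h.ctr n hn fun y hy => ?_)
    obtain ⟨m, hm, d, rfl⟩ := mem_sup_sc.1 (h2 hy)
    have := hc m hm
    rw [← mul_assoc m, ← sc_comm, mul_assoc, mul_assoc, mul_left_cancel_iff] at this
    rw [← mul_assoc, ← sc_comm, mul_assoc, mul_assoc, this]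

variable [Nonempty ι]

theorem ES.pow_eq (h : ES N r) {x y : GL ι F} (hx : x ∈ N) {c : Fˣ} (hc : y * x * y⁻¹ = sc c * x) :
    c ^ r = 1 := by
  have := congrArg (· ^ r) hc
  simp only [conj_pow, Commute.mul_pow (sc_comm c x)] at this
  rw [← scalars_comm (h.pow x hx), mul_inv_cancel_right, right_eq_mul, ← sc_pow, ← sc_one] at this
  exact sc_inj this

theorem ES.exists_ne (h : ES N r) {x : GL ι F} (hx : x ∈ N) (h0 : x ∉ scalars ι F) :
    ∃ y ∈ N, ∃ c : Fˣ, orderOf c = r ∧ y * x * y⁻¹ = sc c * x := by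
  have := Fact.mk h.prime
  by_contra! h1
  refine h0 (h.ctr x hx fun y hy => ?_)
  obtain ⟨c, hc⟩ := h.comm x hx y hy
  by_cases h2 : c = 1
  · rw [h2, sc_one, one_mul, mul_inv_eq_iff_eq_mul] at hc; exact hc.symm
  · exact absurd hc (h1 y hy c (orderOf_eq_prime (h.pow_eq hx hc) h2))

theorem ES.exists_root (h : ES N r) : ∃ c : Fˣ, orderOf c = r := by
  obtain ⟨x, hx, h0⟩ := SetLike.not_le_iff_exists.1 h.nsc
  obtain ⟨-, -, c, hc, -⟩ := h.exists_ne hx h0
  exact ⟨c, hc⟩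

theorem ES.dvd [Fintype F] (h : ES N r) : r ∣ Fintype.card F - 1 := by
  classical
  obtain ⟨c, rfl⟩ := h.exists_root
  rw [← Fintype.card_units]
  exact orderOf_dvd_card

theorem ES.ne_char (h : ES N r) {p : ℕ} [CharP F p] : r ≠ p := by
  rintro rfl
  have := Fact.mk h.prime
  obtain ⟨c, hc⟩ := h.exists_root
  have h1 : (c : F) ^ r = 1 := by rw [← Units.val_pow_eq_pow_val, ← hc, pow_orderOf_eq_one, Units.val_one]
  have h2 : (c : F) = 1 := (frobenius F r).injective (by simpa [frobenius_def] using h1)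
  rw [Units.val_eq_one.1 h2, orderOf_one] at hc
  exact h.prime.one_lt.ne hc

theorem ES.trace_eq (h : ES N r) {x : GL ι F} (hx : x ∈ N) (h0 : x ∉ scalars ι F) :
    trace (x : Matrix ι ι F) = 0 := by
  obtain ⟨y, -, c, hc, h1⟩ := h.exists_ne hx h0
  have := congrArg (fun g : GL ι F => trace (g : Matrix ι ι F)) h1
  simp only [Units.val_mul, trace_units_conj, sc_val, smul_mul_assoc, one_mul, trace_smul,
    smul_eq_mul] at this
  refine (mul_eq_zero.1 (by linear_combination this : (1 - (c : F)) * _ = 0)).resolve_left fun h2 => ?_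
  rw [Units.val_eq_one.1 (sub_eq_zero.1 h2).symm, orderOf_one] at hc
  exact h.prime.one_lt.ne hc

theorem ES.exists_chi (h : ES N r) : ∃ χ : N → N →* Fˣ,
    ∀ x y : N, (y : GL ι F) * (x : GL ι F) * (y : GL ι F)⁻¹ = sc (χ x y) * (x : GL ι F) := by
  choose c hc using fun x y : N => h.comm x x.2 y y.2
  refine ⟨fun x => MonoidHom.mk' (c x) fun y z => sc_inj (ι := ι) ?_, hc⟩
  rw [← mul_left_inj (x : GL ι F), ← hc, mul_comm (c x y), sc_mul, mul_assoc (sc _), ← hc,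
    ← conj_sc_mul, ← hc]
  simp [mul_assoc]

theorem ES.finrank_alg [Finite F] (h : ES N r) :
    finrank F (alg N) = ((scalars ι F).subgroupOf N).index := by
  obtain ⟨χ, hχ⟩ := h.exists_chi
  have := Fintype.ofFinite (N ⧸ (scalars ι F).subgroupOf N)
  let v : N ⧸ (scalars ι F).subgroupOf N → Matrix ι ι F := fun a => ((a.out : N) : GL ι F)
  have hi : Function.Injective fun a : N ⧸ (scalars ι F).subgroupOf N =>
      (Units.coeHom F).comp (χ a.out) := fun a b hab => by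
    rw [← QuotientGroup.out_eq' a, ← QuotientGroup.out_eq' b, QuotientGroup.eq]
    refine h.ctr _ (a.out⁻¹ * b.out).2 fun y hy => ?_
    have h1 := hχ a.out ⟨y, hy⟩
    have h2 := hχ b.out ⟨y, hy⟩
    have h3 : χ a.out ⟨y, hy⟩ = χ b.out ⟨y, hy⟩ := Units.ext (DFunLike.congr_fun hab (⟨y, hy⟩ : N) :)
    change ((a.out : N) : GL ι F)⁻¹ * (b.out : N) * y = y * (((a.out : N) : GL ι F)⁻¹ * (b.out : N))
    rw [eq_comm, ← mul_inv_eq_iff_eq_mul]
    calc y * (((a.out : N) : GL ι F)⁻¹ * (b.out : N)) * y⁻¹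
        = (y * (a.out : N) * y⁻¹)⁻¹ * (y * (b.out : N) * y⁻¹) := by group
      _ = _ := by rw [show y * (a.out : N) * y⁻¹ = _ from h1, show y * (b.out : N) * y⁻¹ = _ from h2, h3]
                  group
  have hl : LinearIndependent F v := Fintype.linearIndependent_iff.2 fun g hg a => by
    have h1 : ∀ i j, g a * v a i j = 0 := fun i j =>
      Fintype.linearIndependent_iff.1 ((linearIndependent_monoidHom N F).comp _ hi)
        (fun a => g a * v a i j) (funext fun y => by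
          have h2 := congrArg (fun m => cj (y : GL ι F) m i j) hg
          simp only [map_sum, map_smul, v, cj_val, hχ, Units.val_mul, sc_val, smul_mul_assoc, one_mul,
            Matrix.sum_apply, Matrix.smul_apply, map_zero] at h2
          simp only [Finset.sum_apply, Pi.smul_apply, Function.comp_apply, MonoidHom.comp_apply,
            Units.coeHom_apply, smul_eq_mul, v]
          exact (Finset.sum_congr rfl fun _ _ => by simp only [smul_eq_mul]; ring).trans h2) a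
    by_contra h2
    exact ((a.out : N) : GL ι F).ne_zero (Matrix.ext fun i j => (mul_eq_zero.1 (h1 i j)).resolve_left h2)
  have hs : Submodule.span F (Set.range v) = Subalgebra.toSubmodule (alg N) := by
    refine le_antisymm (Submodule.span_le.2 ?_) (Submodule.span_le.2 ?_)
    · rintro _ ⟨a, rfl⟩; exact val_mem_alg (Subtype.prop _)
    · rintro _ ⟨x, hx, rfl⟩
      obtain ⟨⟨z, c, hc⟩, hz⟩ := QuotientGroup.mk_out_eq_mul ((scalars ι F).subgroupOf N) ⟨x, hx⟩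
      have hc : sc c = (z : GL ι F) := hc
      have : (x : Matrix ι ι F) = ((c⁻¹ : Fˣ) : F) • v (⟨x, hx⟩ : N) := by
        simp only [v, hz, Subgroup.coe_mul, ← hc, Units.val_mul, sc_val]; simp
      change (x : Matrix ι ι F) ∈ _
      rw [this]
      exact Submodule.smul_mem _ _ (Submodule.subset_span ⟨_, rfl⟩)
  rw [Subgroup.index, Nat.card_eq_fintype_card, ← finrank_span_eq_card hl, hs]; rfl

theorem ES.index_eq [Finite F] (h : ES N r) : ∃ j, ((scalars ι F).subgroupOf N).index = r ^ j := by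
  have := Fact.mk h.prime
  refine IsPGroup.iff_card.1 fun a => ⟨1, ?_⟩
  obtain ⟨x, rfl⟩ := QuotientGroup.mk_surjective a
  rw [pow_one, ← QuotientGroup.mk_pow, QuotientGroup.eq_one_iff]
  exact h.pow x x.2

theorem ES.exists_pow [Finite F] (h : ES N r) {k : ℕ} (hk : finrank F (alg N) = k * k) :
    ∃ m, 1 ≤ m ∧ k = r ^ m ∧ ((scalars ι F).subgroupOf N).index = r ^ (2 * m) := by
  obtain ⟨j, hj⟩ := h.index_eq
  rw [h.finrank_alg] at hk
  obtain ⟨m, -, rfl⟩ := (Nat.dvd_prime_pow h.prime).1 (hj ▸ hk ▸ dvd_mul_right k k : k ∣ r ^ j)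
  refine ⟨m, Nat.pos_of_ne_zero ?_, rfl, by rw [hk, two_mul, pow_add]⟩
  rintro rfl
  exact h.nsc (Subgroup.subgroupOf_eq_top.1 (Subgroup.index_eq_one.1 (by simpa using hk)))

theorem finrank_top_alg (h : alg N = ⊤) : finrank F (alg N) = Fintype.card ι * Fintype.card ι := by
  rw [h, (Subalgebra.topEquiv (R := F) (A := Matrix ι ι F)).toLinearEquiv.finrank_eq]
  simp [finrank_matrix]

theorem ES.center_eq (h : ES N r) : Subgroup.center N = (scalars ι F).subgroupOf N :=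
  le_antisymm (fun x hx => h.ctr (x : N) x.2 fun y hy =>
    (congrArg Subtype.val (Subgroup.mem_center_iff.1 hx ⟨y, hy⟩)).symm)
    fun x hx => Subgroup.mem_center_iff.2 fun y => Subtype.ext (scalars_comm hx y).symm

theorem mul_pow_of_conj {x y : GL ι F} {c : Fˣ} (h : y * x * y⁻¹ = sc c * x) (n : ℕ) :
    (x * y) ^ n = sc (c ^ n.choose 2) * (x ^ n * y ^ n) := by
  have h1 : ∀ n, y ^ n * x = sc (c ^ n) * (x * y ^ n) := fun n => by
    induction n with
    | zero => simp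
    | succ n ih => rw [pow_succ', mul_assoc, ih, ← mul_assoc, ← sc_comm, mul_assoc, ← mul_assoc y,
        mul_inv_eq_iff_eq_mul.1 h, pow_succ, sc_mul]; simp only [mul_assoc]
  induction n with
  | zero => simp
  | succ n ih =>
    rw [pow_succ, ih, Nat.choose_succ_succ, Nat.choose_one_right, mul_assoc, mul_assoc, ← mul_assoc (y ^ n),
      h1, add_comm n, pow_add, sc_mul, pow_succ, pow_succ, mul_assoc (sc (c ^ n)), ← mul_assoc (x ^ n),
      ← sc_comm]
    simp only [mul_assoc]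

theorem ES.mul_pow (h : ES N r) {x y : GL ι F} (hx : x ∈ N) (hy : y ∈ N) :
    (x * y) ^ (r * Nat.gcd 2 r) = x ^ (r * Nat.gcd 2 r) * y ^ (r * Nat.gcd 2 r) := by
  obtain ⟨c, hc⟩ := h.comm x hx y hy
  have : r ∣ (r * Nat.gcd 2 r).choose 2 := by
    rcases h.prime.eq_two_or_odd' with rfl | ho
    · decide
    · rw [(Nat.coprime_two_left.2 ho).gcd_eq_one, mul_one]
      have := h.prime.two_le
      have : r ≠ 2 := by rintro rfl; exact absurd ho (by decide)
      exact h.prime.dvd_choose_self two_ne_zero (by omega)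
  obtain ⟨s, hs⟩ := this
  rw [mul_pow_of_conj hc, hs, pow_mul, h.pow_eq hx hc]; simp

theorem ES.sup (h : ES N r) : ES (N ⊔ scalars ι F) r := h.of_sup le_rfl (le_sup_left.trans le_sup_left)

/-- the elements of `N Z` of order dividing `r` or `4` -/
def ES.rr (h : ES N r) : Subgroup (GL ι F) where
  carrier := {y | y ∈ N ⊔ scalars ι F ∧ y ^ (r * Nat.gcd 2 r) = 1}
  one_mem' := ⟨one_mem _, one_pow _⟩
  mul_mem' ha hb := ⟨mul_mem ha.1 hb.1, by rw [h.sup.mul_pow ha.1 hb.1, ha.2, hb.2, mul_one]⟩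
  inv_mem' ha := ⟨inv_mem ha.1, by rw [inv_pow, ha.2, inv_one]⟩

/-- a symplectic type group attached to `N` -/
structure RS (H N : Subgroup (GL ι F)) (r : ℕ) (R : Subgroup (GL ι F)) : Prop where
  le : R ≤ N ⊔ scalars ι F
  ge : N ≤ R ⊔ scalars ι F
  pow : ∀ y ∈ R, y ^ (r * Nat.gcd 2 r) = 1
  nm : Nm H R

theorem ES.not_comm (h : ES N r) (hc : ∀ x ∈ N, ∀ y ∈ N, x * y = y * x) : False :=
  h.nsc fun x hx => h.ctr x hx (hc x hx)

theorem ES.rs [Finite F] (h : ES N r) (hm : MinN (scalars ι F) H N) : RS H N r h.rr := by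
  have hn : Nm H h.rr := fun g hg y hy => ⟨hm.nm.sup_sc g hg y hy.1, by rw [conj_pow, hy.2]; simp⟩
  refine ⟨fun _ h => h.1, ?_, fun _ h => h.2, hn⟩
  refine inf_eq_left.1 ((hm.min _ inf_le_left (hm.nm.inf hn.sup_sc)).resolve_left fun h1 => ?_)
  choose a ha using fun x : N => (show (x : GL ι F) ^ (r * Nat.gcd 2 r) ∈ scalars ι F from
    pow_mul (x : GL ι F) r _ ▸ pow_mem (h.pow x x.2) _)
  have ha : ∀ x : N, sc (a x) = (x : GL ι F) ^ (r * Nat.gcd 2 r) := ha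
  let a' : N →* Fˣ := MonoidHom.mk' a fun x y => sc_inj (ι := ι) (by
    rw [sc_mul, ha, ha, ha, Subgroup.coe_mul, h.mul_pow x.2 y.2])
  let π := QuotientGroup.mk' (powMonoidHom (r * Nat.gcd 2 r) : Fˣ →* Fˣ).range
  have := isCyclic_of_surjective π (QuotientGroup.mk'_surjective _)
  refine h.not_comm fun x hx y hy => congrArg Subtype.val
    (commutative_of_cyclic_center_quotient (π.comp a') (fun z hz => ?_) ⟨x, hx⟩ ⟨y, hy⟩)
  obtain ⟨c, hc⟩ := (QuotientGroup.eq_one_iff _).1 hz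
  have hc : c ^ (r * Nat.gcd 2 r) = a z := hc
  rw [h.center_eq]
  refine h1 ⟨z.2, mem_sup_sc.2 ⟨sc c⁻¹ * (z : GL ι F), ⟨mem_sup_sc.2 ⟨z, z.2, _, rfl⟩, ?_⟩, c, by simp [sc_inv]⟩⟩
  rw [Commute.mul_pow (sc_comm _ _), ← ha, ← hc, ← sc_pow, ← sc_mul]; simp

theorem RS.es (hR : RS H N r R) (h : ES N r) : ES R r := h.of_sup hR.le hR.ge

theorem RS.alg_eq (hR : RS H N r R) : alg R = alg N :=
  le_antisymm (alg_le_of_sup hR.le) (alg_le_of_sup hR.ge)

theorem RS.sympType [Finite F] (hR : RS H N r R) (h : ES N r) (hm : MinN (scalars ι F) H N) :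
    IsSymplecticTypeGroup r R := by
  have hE := hR.es h
  have h1 : ∀ y : R, y ^ (r * Nat.gcd 2 r) = 1 := fun y => Subtype.ext (hR.pow y y.2)
  refine ⟨h.prime, fun y => ?_, fun A hA hc => ?_, ?_⟩
  · rcases h.prime.eq_two_or_odd' with rfl | ho
    · exact ⟨2, h1 y⟩
    · exact ⟨1, by simpa [(Nat.coprime_two_left.2 ho).gcd_eq_one] using h1 y⟩
  · have hn : Nm H (A.map R.subtype) := by
      rintro g hg _ ⟨x, hx, rfl⟩
      exact ⟨_, (Subgroup.characteristic_iff_le_comap.1 hA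
        (R.normalizerMonoidHom ⟨g, nm_iff.1 hR.nm hg⟩) hx), rfl⟩
    have h2 : A.map R.subtype ≤ scalars ι F := by
      rcases hm.min _ inf_le_left (hm.nm.inf hn.sup_sc) with h2 | h2
      · rintro _ ⟨x, hx, rfl⟩
        obtain ⟨n, hn, c, e⟩ := mem_sup_sc.1 (hR.le x.2)
        change (x : GL ι F) ∈ _
        have h3 := h2 ⟨hn, mem_sup_sc.2 ⟨x, ⟨x, hx, rfl⟩, c⁻¹, by rw [e]; simp [sc_inv]⟩⟩
        rw [e]
        exact mul_mem (sc_mem c) h3
      · refine (h.not_comm fun x hx y hy => ?_).elim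
        obtain ⟨_, ⟨a, ha, rfl⟩, c, rfl⟩ := mem_sup_sc.1 (inf_eq_left.1 h2 hx)
        obtain ⟨_, ⟨b, hb, rfl⟩, d, rfl⟩ := mem_sup_sc.1 (inf_eq_left.1 h2 hy)
        have : (a : GL ι F) * b = b * a :=
          congrArg (fun z : A => ((z : R) : GL ι F)) (hc.is_comm.comm ⟨a, ha⟩ ⟨b, hb⟩)
        exact ((Commute.mul_right (sc_comm c _) (sc_comm c _)).mul_left
          (Commute.mul_right (sc_comm d _).symm this)).eq
    have := Subgroup.isCyclic_of_le h2
    exact isCyclic_of_injective (A.equivMapOfInjective _ R.subtype_injective).toMonoidHom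
      (MulEquiv.injective _)
  · have h2 : Monoid.exponent R ∣ r * Nat.gcd 2 r := Monoid.exponent_dvd_of_forall_pow_eq_one h1
    have h3 : ¬ Monoid.exponent R ∣ 2 := fun h3 => hE.not_comm fun x hx y hy => congrArg Subtype.val
      ((Commute.of_orderOf_dvd_two (fun z : R => (Monoid.order_dvd_exponent z).trans h3)
        ⟨x, hx⟩ ⟨y, hy⟩).eq)
    rcases h.prime.eq_two_or_odd' with rfl | ho
    · obtain ⟨k, hk, h4⟩ := (Nat.dvd_prime_pow Nat.prime_two (m := 2)).1 h2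
      rw [h4] at h3 ⊢
      interval_cases k <;> simp_all
    · rw [(Nat.coprime_two_left.2 ho).gcd_eq_one, mul_one] at h2 ⊢
      exact ((Nat.dvd_prime h.prime).1 h2).resolve_left fun h4 => h3 (by simp [h4])

theorem card_sc (R : Subgroup (GL ι F)) (S : Subgroup Fˣ) (h : ∀ c, sc c ∈ R ↔ c ∈ S) :
    Nat.card ((scalars ι F).subgroupOf R) = Nat.card S :=
  (Nat.card_congr (Equiv.ofBijective (fun c : S => (⟨⟨sc c, (h c).2 c.2⟩, sc_mem _⟩ :
    (scalars ι F).subgroupOf R)) ⟨fun _ _ h => Subtype.ext (sc_inj (ι := ι)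
      (congrArg (fun z : (scalars ι F).subgroupOf R => ((z : R) : GL ι F)) h)), by
      rintro ⟨⟨x, h1⟩, c, hc⟩
      obtain rfl : sc c = x := hc
      exact ⟨⟨c, (h c).1 h1⟩, rfl⟩⟩)).symm

theorem ES.card_eq [Finite F] (h : ES R r) (ht : alg R = ⊤) : ∃ m, 1 ≤ m ∧ Fintype.card ι = r ^ m ∧
    Nat.card R = Nat.card (Subgroup.center R) * r ^ (2 * m) := by
  obtain ⟨m, h1, h2, h3⟩ := h.exists_pow (finrank_top_alg ht)
  exact ⟨m, h1, h2, by rw [h.center_eq, ← h3, Subgroup.card_mul_index]⟩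

theorem ES.card_center_rr [Fintype F] (h : ES N r) (hE : ES h.rr r) :
    Nat.card (Subgroup.center h.rr) = Nat.gcd (r * Nat.gcd 2 r) (Fintype.card F - 1) := by
  rw [hE.center_eq, ← card_rootsOfUnity_field]
  refine card_sc _ _ fun c => ⟨fun h1 => sc_inj (ι := ι) ?_, fun h1 =>
    ⟨Subgroup.mem_sup_right (sc_mem c), ?_⟩⟩
  · rw [sc_pow, h1.2, sc_one]
  · rw [← sc_pow, show c ^ _ = 1 from h1, sc_one]

theorem ES.pow_center [Finite F] (h : ES R r) {c : Fˣ} (hc : sc c ∈ R) :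
    c ^ Nat.card (Subgroup.center R) = 1 := by
  have := pow_card_eq_one' (x := (⟨⟨sc c, hc⟩, h.center_eq ▸ sc_mem c⟩ : Subgroup.center R))
  exact sc_inj (ι := ι) (by
    rw [sc_pow, sc_one]; exact congrArg (fun z : Subgroup.center R => ((z : R) : GL ι F)) this)

theorem ES.center_dvd [Fintype F] (h : ES R r) : Nat.card (Subgroup.center R) ∣ Fintype.card F - 1 := by
  rw [h.center_eq, card_sc R (R.comap (Units.map (Matrix.scalar ι : F →+* Matrix ι ι F).toMonoidHom))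
    fun _ => Iff.rfl, ← card_units_field]
  exact Subgroup.card_subgroup_dvd_card _

theorem ES.map_trace (h : ES R r) (φ : F ≃+* F) (hφ : ∀ c : Fˣ, sc c ∈ R → φ c = c) :
    ∀ l ∈ R, φ (trace (l : Matrix ι ι F)) = trace (l : Matrix ι ι F) := fun l hl => by
  by_cases h1 : l ∈ scalars ι F
  · obtain ⟨c, rfl⟩ := h1
    change φ (trace (sc c : GL ι F).1) = trace (sc c : GL ι F).1
    simp [hφ c hl]
  · rw [h.trace_eq hl h1, map_zero]

theorem ES.map_trace_inv (h : ES R r) (φ : F ≃+* F) (hφ : ∀ c : Fˣ, sc c ∈ R → φ c = (c : F)⁻¹) :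
    ∀ l ∈ R, φ (trace (l : Matrix ι ι F)) = trace ((l⁻¹ : GL ι F) : Matrix ι ι F) := fun l hl => by
  by_cases h1 : l ∈ scalars ι F
  · obtain ⟨c, rfl⟩ := h1
    change φ (trace (sc c : GL ι F).1) = trace ((sc c : GL ι F)⁻¹).1
    simp [hφ c hl, ← sc_inv]
  · rw [h.trace_eq hl h1, map_zero, h.trace_eq (R.inv_mem hl) (by simpa using h1)]

theorem exists_frob [Fintype F] {p e : ℕ} (hp : p.Prime) [CharP F p] (hF : Fintype.card F = p ^ e)
    {d : ℕ} (h0 : 0 < d) (hd : d < e) : ∃ φ : F ≃+* F, φ ≠ 1 ∧ ∀ x, φ x = x ^ p ^ d := by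
  have := Fact.mk hp
  refine ⟨iterateFrobeniusEquiv F p d, fun h => ?_, fun _ => rfl⟩
  have h1 : Fintype.card F - 1 ∣ p ^ d - 1 := (FiniteField.forall_pow_eq_one_iff F _).1 fun x => by
    have h2 : (x : F) ^ p ^ d = x := congrArg (fun ψ : F ≃+* F => ψ x) h
    rw [← mul_left_inj x, ← pow_succ, Nat.sub_add_cancel (Nat.one_le_pow _ _ hp.pos), one_mul]
    exact Units.ext (by simpa using h2)
  have h2 := Nat.pow_lt_pow_right hp.one_lt hd
  have h3 := Nat.one_lt_pow h0.ne' hp.one_lt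
  have := Nat.le_of_dvd (by omega) h1
  omega

theorem pow_eq_self_of_dvd {c : Fˣ} {z n : ℕ} (hc : c ^ z = 1) (h : z ∣ n - 1) (hn : n ≠ 0) :
    (c : F) ^ n = c := by
  obtain ⟨s, hs⟩ := h
  rw [← Nat.sub_add_cancel (Nat.pos_of_ne_zero hn), hs, pow_succ, pow_mul, ← Units.val_pow_eq_pow_val, hc]
  simp

theorem ES.min_or_real [Fintype F] (h : ES R r) (ht : alg R = ⊤) :
    (∃ p e, r ≠ p ∧ IsMinimalFieldFor (Nat.card (Subgroup.center R)) p e F) ∨
    ∃ φ P, (orderOf φ).Prime ∧ Real φ P R ∧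
      ∀ c : Fˣ, c ^ Nat.card (Subgroup.center R) = 1 → φ c = c := by
  obtain ⟨p, _, e, hp, hF⟩ := FiniteField.card' F
  by_cases h1 : ∀ d : ℕ, 0 < d → d < e → ¬ Nat.card (Subgroup.center R) ∣ p ^ d - 1
  · exact .inl ⟨p, e, h.ne_char, hp, ‹_›, hF, hF ▸ h.center_dvd, h1⟩
  push Not at h1
  obtain ⟨d, h0, hd, h1⟩ := h1
  obtain ⟨ψ, h2, h3⟩ := exists_frob hp hF h0 hd
  obtain ⟨k, hk⟩ := exists_prime_pow h2
  have h4 : ∀ c : Fˣ, c ^ Nat.card (Subgroup.center R) = 1 → (ψ ^ k) c = c := fun c hc =>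
    pow_apply_of_fix ((h3 _).trans (pow_eq_self_of_dvd hc h1 (pow_ne_zero _ hp.ne_zero))) k
  obtain ⟨T, hT⟩ := exists_twist ht (ψ ^ k) (h.map_trace _ fun c hc => h4 c (h.pow_center hc))
  obtain ⟨P, hP⟩ := exists_real ht hT
  exact .inr ⟨_, P, hk, hP, h4⟩

/-- the centre of a subalgebra -/
def ctr (A : Subalgebra F (Matrix ι ι F)) : Subalgebra F (Matrix ι ι F) :=
  A ⊓ Subalgebra.centralizer F A

theorem mem_ctr {A : Subalgebra F (Matrix ι ι F)} {a : Matrix ι ι F} :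
    a ∈ ctr A ↔ a ∈ A ∧ ∀ b ∈ A, b * a = a * b := Iff.rfl

theorem Nrm.ctr {A : Subalgebra F (Matrix ι ι F)} (h : Nrm H A) : Nrm H (ctr A) := fun g hg a ha =>
  ⟨h g hg a ha.1, fun b hb => by
    rw [← cj_cj_inv g b, ← map_mul, ← map_mul, ha.2 _ (h _ (H.inv_mem hg) b hb)]⟩

theorem ctr_comm {A : Subalgebra F (Matrix ι ι F)} : ∀ a ∈ ctr A, ∀ b ∈ ctr A, a * b = b * a :=
  fun _ ha _ hb => hb.2 _ ha.1

theorem ctr_top : ctr (⊤ : Subalgebra F (Matrix ι ι F)) = ⊥ :=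
  eq_bot_iff.2 fun _ ha => isSc_iff_bot.1 (isSc_of_comm fun b => (ha.2 b trivial).symm)

theorem MinN.es [Finite F] (hm : MinN (scalars ι F) H N) (hc : ⁅N, N⁆ ≤ scalars ι F)
    (hz : ctr (alg N) = ⊥) : ∃ r, ES N r := by
  obtain ⟨r, hr, h⟩ := hm.exists_prime scalars_le_center hc
  refine ⟨r, hr, fun x hx y hy => ?_, h, fun x hx hc => mem_sc.2 (isSc_iff_bot.2 (hz ▸
    ⟨val_mem_alg hx, fun b hb => (comm_alg (fun g hg => congrArg Units.val (hc g hg)) hb).symm⟩)), hm.nsc⟩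
  obtain ⟨c, hc⟩ := hc (Subgroup.commutator_mem_commutator hy hx)
  exact ⟨c, (eq_mul_inv_iff_mul_eq.1 hc).symm⟩

/-- the map induced on general linear groups -/
def uG (φ : Matrix κ κ F →ₐ[F] Matrix ι ι F) : GL κ F →* GL ι F := Units.map φ.toRingHom.toMonoidHom

@[simp] theorem uG_val (φ : Matrix κ κ F →ₐ[F] Matrix ι ι F) (g : GL κ F) :
    ((uG φ g : GL ι F) : Matrix ι ι F) = φ g := rfl

theorem uG_injective [Nonempty κ] (φ : Matrix κ κ F →ₐ[F] Matrix ι ι F) : Function.Injective (uG φ) :=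
  Units.map_injective φ.toRingHom.injective

theorem uG_sc (φ : Matrix κ κ F →ₐ[F] Matrix ι ι F) (c : Fˣ) : uG φ (sc c) = sc c :=
  Units.ext (by simp)

theorem alg_map (φ : Matrix κ κ F →ₐ[F] Matrix ι ι F) (L : Subgroup (GL κ F)) :
    alg (L.map (uG φ)) = (alg L).map φ := by
  refine le_antisymm (alg_le ?_) (Subalgebra.map_le.2 (alg_le fun g hg =>
    val_mem_alg (L := L.map (uG φ)) ⟨g, hg, rfl⟩))
  rintro _ ⟨g, hg, rfl⟩
  exact ⟨g, val_mem_alg hg, rfl⟩

theorem exists_comap [Nonempty κ] {φ : Matrix κ κ F →ₐ[F] Matrix ι ι F} (h : φ.range = alg N) :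
    ∃ L : Subgroup (GL κ F), alg L = ⊤ ∧ L.map (uG φ) = N := by
  have hi : Function.Injective φ := φ.toRingHom.injective
  have h1 : (N.comap (uG φ)).map (uG φ) = N := Subgroup.map_comap_eq_self fun g hg => by
    obtain ⟨x, hx⟩ : (g : Matrix ι ι F) ∈ φ.range := h ▸ val_mem_alg hg
    obtain ⟨y, hy⟩ : (g⁻¹ : GL ι F).1 ∈ φ.range := h ▸ val_mem_alg (N.inv_mem hg)
    have hx : φ x = g := hx
    have hy : φ y = (g⁻¹ : GL ι F).1 := hy
    exact ⟨⟨x, y, hi (by simp [hx, hy]), hi (by simp [hx, hy])⟩, Units.ext hx⟩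
  refine ⟨_, Subalgebra.map_injective hi ?_, h1⟩
  rw [← alg_map, h1, ← h, Algebra.map_top]

theorem isSc_of_subsingleton [Subsingleton κ] (a : Matrix κ κ F) : IsSc a :=
  isSc_of_comm fun b => by ext i j; simp [mul_apply, Fintype.sum_subsingleton _ i, Subsingleton.elim j i, mul_comm]

theorem two_le_of_range {k : ℕ} {φ : Matrix (Fin k) (Fin k) F →ₐ[F] Matrix ι ι F} (h : φ.range = alg N)
    (hN : ¬ N ≤ scalars ι F) : 2 ≤ k := by
  by_contra h2
  have : Subsingleton (Fin k) := Fin.subsingleton_iff_le_one.2 (by omega)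
  refine hN fun g hg => mem_sc.2 ?_
  obtain ⟨x, hx⟩ : (g : Matrix ι ι F) ∈ φ.range := h ▸ val_mem_alg hg
  obtain ⟨c, rfl⟩ := isSc_of_subsingleton x
  exact ⟨c, by simpa using hx.symm⟩

/-- the binary tensor case -/
structure Tens (H N : Subgroup (GL ι F)) {k l : ℕ}
    (Ψ : Matrix (Fin k × Fin l) (Fin k × Fin l) F ≃ₐ[F] Matrix ι ι F) (L : Subgroup (GL (Fin k) F)) :
    Prop where
  twok : 2 ≤ k
  twol : 2 ≤ l
  top : alg L = ⊤
  gen : L.map (uG (Ψ.toAlgHom.comp (kl (Fin l)))) = N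
  le : ∀ g ∈ H, ∃ a b, g = trG Ψ (kG a b)

/-- the tensor power case -/
structure Pow (H N : Subgroup (GL ι F)) {t k : ℕ}
    (Ψ : Matrix (Fin t → Fin k) (Fin t → Fin k) F ≃ₐ[F] Matrix ι ι F) (L : Subgroup (GL (Fin k) F)) :
    Prop where
  twot : 2 ≤ t
  twok : 2 ≤ k
  top : alg L = ⊤
  perf : ⁅L, L⁆ = L
  gen : ⨆ i, L.map (uG (Ψ.toAlgHom.comp (emb i))) = N
  le : ∀ g ∈ H, (trG Ψ).symm g ∈ tensorWreathStandard k t F

theorem exists_tens [Finite F] (hI : Irr H) (hn : Nm H N) (h0 : ¬ N ≤ scalars ι F)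
    (hz : ctr (alg N) = ⊥) (ht : alg N ≠ ⊤) : ∃ k l Ψ L, Tens (k := k) (l := l) H N Ψ L := by
  obtain ⟨k, _, φ, hφ⟩ := hI.exists_hom (nrm_alg hn) fun a ha h =>
    isSc_iff_bot.2 (hz ▸ ⟨ha, fun b hb => (h b hb).symm⟩)
  obtain ⟨l, Ψ, hΨ⟩ := exists_tensor φ
  have h1 : Ψ.toAlgHom.comp (kl (Fin l)) = φ := AlgHom.ext hΨ
  obtain ⟨L, h2, h3⟩ := exists_comap hφ
  have hl : 2 ≤ l := by
    by_contra h
    refine ht (hφ ▸ (AlgHom.range_eq_top _).2 fun a => ?_)
    obtain ⟨a, rfl⟩ := Ψ.surjective a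
    rcases (by omega : l = 0 ∨ l = 1) with rfl | rfl
    · exact ⟨0, by rw [map_zero, Subsingleton.elim a 0, map_zero]⟩
    · refine ⟨of fun i j => a (i, 0) (j, 0), (hΨ _).symm.trans (congrArg Ψ ?_)⟩
      ext ⟨i, x⟩ ⟨j, y⟩
      simp [kl_apply, Subsingleton.elim x 0, Subsingleton.elim y 0]
  have : NeZero l := ⟨by omega⟩
  refine ⟨k, l, Ψ, L, two_le_of_range hφ h0, hl, h2, h1 ▸ h3, fun g hg => ?_⟩
  obtain ⟨g, rfl⟩ := (trG Ψ).surjective g
  obtain ⟨a, b, rfl⟩ := exists_kG (g := g) fun x => by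
    obtain ⟨y, hy⟩ : cj (trG Ψ g) (φ x) ∈ φ.range := hφ ▸ nrm_alg hn _ hg _ (hφ ▸ ⟨x, rfl⟩)
    exact ⟨y, Ψ.injective ((hΨ y).trans (hy.trans (by rw [map_cj, hΨ])))⟩
  exact ⟨a, b, rfl⟩

theorem alg_cg_eq (g : GL ι F) (L : Subgroup (GL ι F)) : alg (cg g L) = (alg L).map (cj g).toAlgHom := by
  rw [← alg_map]
  congr 1
  exact congrArg (fun f => Subgroup.map f L) (MonoidHom.ext fun x => Units.ext (cj_val g x).symm)

/-- the invertible matrices commuting with `a` -/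
def cmG (a : Matrix ι ι F) : Subgroup (GL ι F) where
  carrier := {g | a * (g : Matrix ι ι F) = g * a}
  one_mem' := by simp
  mul_mem' {g h} hg hh := by
    change a * _ = _ * a
    rw [Units.val_mul, ← mul_assoc, hg, mul_assoc, hh, mul_assoc]
  inv_mem' {g} hg := (Commute.units_inv_right hg).eq

theorem exists_pow [Finite F] (hm : MinN (scalars ι F) H N) (hp : ⁅N, N⁆ = N) (ht : alg N = ⊤) :
    MinN (scalars ι F) N N ∨ ∃ t k Ψ L, Pow (t := t) (k := k) H N Ψ L := by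
  obtain ⟨L, hL, h1, h2, h3, h4, h5⟩ := hm.exists_comp scalars_le_center hp
  refine or_iff_not_imp_left.2 fun h6 => ?_
  let C := Set.range fun g : H => cg (g : GL ι F) L
  have := Fintype.ofFinite C
  choose h hh using fun i : Fin (Fintype.card C) => ((Fintype.equivFin C).symm i).2
  have hi : Function.Injective fun i => cg (h i : GL ι F) L := fun i j e =>
    (Fintype.equivFin C).symm.injective (Subtype.ext ((hh i).symm.trans (e.trans (hh j))))
  have hs : ∀ g : H, ∃ i, cg (h i : GL ι F) L = cg (g : GL ι F) L := fun g =>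
    ⟨Fintype.equivFin C ⟨_, g, rfl⟩, by simpa using hh (Fintype.equivFin C ⟨_, g, rfl⟩)⟩
  have h7 : ⨆ i, cg (h i : GL ι F) L = N := h4 ▸ le_antisymm
    (iSup_le fun i => le_iSup (fun g : H => cg (g : GL ι F) L) (h i))
    (iSup_le fun g => let ⟨i, hi⟩ := hs g; le_iSup_of_le i hi.ge)
  have hc : ∀ i j, i ≠ j → ∀ a ∈ alg (cg (h i : GL ι F) L), ∀ b ∈ alg (cg (h j : GL ι F) L),
      a * b = b * a := fun i j hij a ha b hb => by
    have := Subgroup.commutator_eq_bot_iff_le_centralizer.1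
      ((h5 _ (h i).2 _ (h j).2).resolve_left (hi.ne hij))
    exact comm_alg (fun y hy => (comm_alg (fun x hx => congrArg Units.val (this hx y hy)) ha).symm) hb
  have ht2 : 2 ≤ Fintype.card C := by
    by_contra h8
    have : Subsingleton (Fin (Fintype.card C)) := Fin.subsingleton_iff_le_one.2 (by omega)
    obtain ⟨i, hi⟩ := hs 1
    rw [OneMemClass.coe_one, cg_one] at hi
    have : N = L := by
      rw [← h7]
      exact le_antisymm (iSup_le fun j => by rw [Subsingleton.elim j i]; exact hi.le)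
        (le_iSup_of_le i hi.ge)
    exact h6 (this ▸ h2)
  obtain ⟨i₀, hi₀⟩ := hs 1
  rw [OneMemClass.coe_one, cg_one] at hi₀
  obtain ⟨k, _, φ, hφ⟩ := (irr_of_alg ht).exists_hom (nrm_alg h3) fun a ha hc' =>
    isSc_of_alg ht fun g hg => (h7.ge.trans (iSup_le fun i x hx => by
      by_cases e : i = i₀
      · exact hc' _ (val_mem_alg (hi₀ ▸ e ▸ hx))
      · exact hc _ _ (Ne.symm e) _ (hi₀.symm ▸ ha) _ (val_mem_alg hx)) : N ≤ cmG a) hg
  obtain ⟨L', h8, h9⟩ := exists_comap hφ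
  let ψ := fun i => (cj (h i : GL ι F)).toAlgHom.comp φ
  have hψ : ∀ i, (ψ i).range = alg (cg (h i : GL ι F) L) := fun i => by
    rw [alg_cg_eq, ← hφ, AlgHom.range_comp]
  obtain ⟨Ψ, hΨ⟩ := exists_ptensor ψ (fun i j hij x y =>
    hc i j hij _ (hψ i ▸ ⟨x, rfl⟩) _ (hψ j ▸ ⟨y, rfl⟩)) fun A hA =>
      top_le_iff.1 (ht.ge.trans (alg_le fun g hg => (h7.ge.trans (iSup_le fun i x hx => by
        obtain ⟨y, hy⟩ : (x : Matrix ι ι F) ∈ (ψ i).range := hψ i ▸ val_mem_alg hx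
        obtain ⟨z, hz⟩ : (x⁻¹ : GL ι F).1 ∈ (ψ i).range := hψ i ▸ val_mem_alg (inv_mem hx)
        exact ⟨show x.1 ∈ A from hy ▸ hA i y, show x⁻¹.1 ∈ A from hz ▸ hA i z⟩) : N ≤ A.toSubmonoid.units) hg |>.1))
  have : NeZero (Fintype.card C) := ⟨by omega⟩
  refine ⟨_, k, Ψ, L', ht2, two_le_of_range hφ h2.nsc, h8, ?_, ?_, fun g hg => ?_⟩
  · exact Subgroup.map_injective (uG_injective φ) (by rw [Subgroup.map_commutator, h9, h1])
  · rw [← h7]
    refine iSup_congr fun i => ?_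
    rw [← h9, cg, Subgroup.map_map]
    exact congrArg (fun f => Subgroup.map f L') (MonoidHom.ext fun x => Units.ext
      ((hΨ i x).trans (cj_val (h i : GL ι F) (uG φ x))))
  · choose σ hσ using fun i => hs (⟨g, hg⟩ * h i)
    simp only [Subgroup.coe_mul, cg_mul] at hσ
    refine mem_wreath (Equiv.ofBijective σ (Finite.injective_iff_bijective.1 fun i j e => hi
      (Subgroup.map_injective (MulAut.conj g).injective ((hσ i).symm.trans (e ▸ hσ j))))) fun i x => ?_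
    obtain ⟨y, hy⟩ : cj g (ψ i x) ∈ (ψ (σ i)).range := by
      rw [hψ, hσ, alg_cg_eq]
      exact ⟨_, hψ i ▸ ⟨x, rfl⟩, rfl⟩
    exact ⟨y, Ψ.injective ((hΨ _ y).trans (hy.trans (by rw [map_cj, hΨ]; simp)))⟩

end Cfsg.Agent.H4.As
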