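import Cfsg.Agent.H4.As5

/-! Aschbacher's theorem, part 6: invariant forms and the linear case. -/

set_option autoImplicit false
set_option linter.unusedSectionVars false

namespace Cfsg.Agent.H4.As

open Matrix Module Cfsg.Geo
open scoped MatrixGroups Kronecker commutatorElement

variable {ι κ : Type} [Fintype ι] [DecidableEq ι] [Fintype κ] [DecidableEq κ] {F : Type*} [Field F]
  {H N R L : Subgroup (GL ι F)} {J : Matrix ι ι F}

theorem map_id' (a : Matrix ι ι F) : a.map (RingHom.id F) = a := rfl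

theorem symm_or_skew [Nonempty ι] (hL : alg L = ⊤) (hJ : IsUnit J)
    (h : ∀ l ∈ L, ∃ c, Sm (RingHom.id F) J (l : Matrix ι ι F) c) : Jᵀ = J ∨ Jᵀ = -J := by
  obtain ⟨a, ha⟩ := gram_unique (J' := Jᵀ) hL hJ fun l hl =>
    let ⟨c, hc⟩ := h l hl; ⟨c, hc, hc.swap fun _ => rfl⟩
  have h1 : (a * a - 1) • J = 0 := by
    rw [sub_smul, mul_smul, ← ha, ← transpose_smul, ← ha, transpose_transpose, one_smul, sub_self]
  rcases mul_self_eq_one_iff.1 (sub_eq_zero.1 ((smul_eq_zero.1 h1).resolve_right hJ.ne_zero)) with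
    rfl | rfl
  · exact .inl (by simpa using ha)
  · exact .inr (by simpa using ha)

theorem exists_diag_zero [Finite F] (h2 : (2 : F) = 0) (hJ : Jᵀ = J) (hn : 2 ≤ Fintype.card ι) :
    ∃ v ≠ 0, fm (RingHom.id F) J v v = 0 := by
  have := Fintype.ofFinite F
  let d : (ι → F) →+ F := AddMonoidHom.mk' (fun v => fm (RingHom.id F) J v v) fun u v => by
    rw [fm_add_left, fm_add_right, fm_add_right, fm_transpose v u, hJ]
    linear_combination fm (RingHom.id F) J u v * h2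
  by_contra! h
  have := Fintype.card_le_of_injective d ((injective_iff_map_eq_zero d).2 fun v hv =>
    by_contra fun h0 => h v h0 hv)
  rw [Fintype.card_fun] at this
  have := Nat.pow_lt_pow_right (Fintype.one_lt_card (α := F)) (show 1 < Fintype.card ι by omega)
  rw [pow_one] at this
  omega

theorem alt_of_two [Finite F] (hI : Irr H) (h2 : (2 : F) = 0) (hJ : Jᵀ = J) (hn : 2 ≤ Fintype.card ι)
    (h : ∀ g ∈ H, ∃ c, Sm (RingHom.id F) J (g : Matrix ι ι F) c) (v : ι → F) :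
    fm (RingHom.id F) J v v = 0 := by
  let W : Submodule F (ι → F) :=
    { carrier := {v | fm (RingHom.id F) J v v = 0}
      add_mem' := fun {u v} hu hv => by
        change fm _ _ _ _ = 0
        rw [fm_add_left, fm_add_right, fm_add_right, fm_transpose v u, hJ, hu, hv]
        linear_combination fm (RingHom.id F) J u v * h2
      zero_mem' := by simp [fm]
      smul_mem' := fun c v hv => by
        change fm _ _ _ _ = 0
        rw [fm_smul_left, fm_smul_right, hv, mul_zero, mul_zero] }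
  obtain ⟨w, h0, hw⟩ := exists_diag_zero h2 hJ hn
  rcases hI W fun g hg u hu => by
    obtain ⟨c, hc⟩ := h g hg
    exact (sm_iff.1 hc u u).trans (by rw [hu, mul_zero]) with h1 | h1
  · exact absurd (h1.le (show w ∈ W from hw)) h0
  · exact h1.ge (Submodule.mem_top (x := v))

theorem even_of_symp {f : (ι → F) → (ι → F) → F} (h : IsSymplecticForm f) : Even (Fintype.card ι) := by
  have := CForm.Nondeg.symp_finrank (f := CForm.mkAlt f h.bilinear.add_left h.bilinear.smul_left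
    (fun x y => h.skew y x) h.alternating) fun x hx => by_contra fun h0 =>
      let ⟨y, hy⟩ := (h.nondegenerate x h0).2; hy (hx y)
  rw [finrank_fintype_fun_eq_card] at this
  exact ⟨_, this.trans (two_mul _)⟩

theorem le_sim [Nonempty ι] {σ : F →+* F} (hJ : IsUnit J)
    (h : ∀ g ∈ H, ∃ c, Sm σ J (g : Matrix ι ι F) c) : H ≤ similarityGroup (fm σ J) :=
  fun g hg => (mem_sim_iff hJ).2 (h g hg)

theorem le_quadSim [Nonempty ι] (hJ : IsUnit J)
    (h : ∀ g ∈ H, ∃ c, Sm (RingHom.id F) J (g : Matrix ι ι F) c) :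
    H ≤ quadSimilarityGroup fun v => fm (RingHom.id F) J v v := fun g hg =>
  let ⟨c, hc⟩ := h g hg; ⟨Units.mk0 c (hc.ne_zero hJ), fun v => sm_iff.1 hc v v⟩

theorem isUnit_smul {a : F} (ha : a ≠ 0) (hJ : IsUnit J) : IsUnit (a • J) := by
  simpa using (sc (Units.mk0 a ha) : GL ι F).isUnit.mul hJ

theorem quad_of_symm (h2 : (2 : F) ≠ 0) (hJ : IsUnit J) (h : Jᵀ = J) :
    IsNondegenerateQuadraticForm fun v => fm (RingHom.id F) J v v :=
  quad_fm (by rw [h, ← two_smul F]; exact isUnit_smul h2 hJ)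

theorem bilin_cases [Fintype F] [Nonempty ι] (hI : Irr H) (hn : 2 ≤ Fintype.card ι) (hJ : IsUnit J)
    (hs : Jᵀ = J ∨ Jᵀ = -J) (h : ∀ g ∈ H, ∃ c, Sm (RingHom.id F) J (g : Matrix ι ι F) c) :
    IsSymplecticForm (fm (RingHom.id F) J) ∨ (Odd (Fintype.card F) ∧ Jᵀ = J) := by
  by_cases h2 : (2 : F) = 0
  · refine .inl (symp_fm hJ (alt_of_two hI h2 (hs.elim id fun h1 => h1.trans ?_) hn h))
    rw [neg_eq_iff_add_eq_zero, ← two_smul F, h2, zero_smul]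
  · exact hs.symm.imp (fun h1 => symp_fm hJ (alt_of_skew h2 h1)) fun h1 => ⟨odd_of_two_ne_zero h2, h1⟩

theorem exists_h90 {σ : F →+* F} (h1 : σ ≠ RingHom.id F) (hσ : ∀ a, σ (σ a) = a) {b : F}
    (hb : b * σ b = 1) : ∃ a, a ≠ 0 ∧ σ a * b = a := by
  have : ∃ x, x + b * σ x ≠ 0 := by
    by_contra! h
    have h2 : b = -1 := by have := h 1; rw [map_one] at this; linear_combination this
    exact h1 (RingHom.ext fun x => by have := h x; rw [h2] at this; simp; linear_combination -this)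
  obtain ⟨x, hx⟩ := this
  exact ⟨_, hx, by rw [map_add, map_mul, hσ]; linear_combination x * hb⟩

theorem exists_herm [Nonempty ι] {σ : F →+* F} (h1 : σ ≠ RingHom.id F) (hσ : ∀ a, σ (σ a) = a)
    (hL : alg L = ⊤) (hJ : IsUnit J) (h : ∀ l ∈ L, Sm σ J (l : Matrix ι ι F) 1) :
    ∃ a : F, a ≠ 0 ∧ ((a • J).map σ)ᵀ = a • J := by
  obtain ⟨b, hb⟩ := gram_unique (J' := (J.map σ)ᵀ) hL hJ fun l hl =>
    ⟨1, h l hl, by simpa using (h l hl).swap hσ⟩
  have h2 : ∀ a, ((a • J).map σ)ᵀ = (σ a * b) • J := fun a => by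
    rw [mul_smul, ← hb]; ext; simp
  have h3 : (b * σ b - 1) • J = 0 := by
    rw [sub_smul, mul_comm, ← h2, ← hb, one_smul, sub_eq_zero]; ext; simp [hσ]
  obtain ⟨a, h0, ha⟩ := exists_h90 h1 hσ (sub_eq_zero.1 ((smul_eq_zero.1 h3).resolve_right hJ.ne_zero))
  exact ⟨a, h0, by rw [h2, ha]⟩

theorem coe_ne_id {σ : F ≃+* F} (h : σ ≠ 1) : (σ : F →+* F) ≠ RingHom.id F :=
  fun h1 => h (RingEquiv.ext fun x => RingHom.congr_fun h1 x)

theorem unit_of_gram [Nonempty ι] {σ : F ≃+* F} (h1 : σ ≠ 1) (hσ : ∀ a, σ (σ a) = a) (hL : alg L = ⊤)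
    (hn : Nm H L) (hJ : IsUnit J) (h : ∀ l ∈ L, Sm (σ : F →+* F) J (l : Matrix ι ι F) 1) :
    ∃ f, IsUnitaryForm σ f ∧ H ≤ similarityGroup f := by
  obtain ⟨a, h0, ha⟩ := exists_herm (coe_ne_id h1) hσ hL hJ h
  exact ⟨_, unit_fm h1 hσ (isUnit_smul h0 hJ) ha, le_sim (isUnit_smul h0 hJ) fun g hg =>
    let ⟨c, hc⟩ := exists_sm hL hn hJ h hg; ⟨c, hc.smul a⟩⟩

/-- transport of a Gram matrix -/
def trJ (σ : F →+* F) (e : ι ≃ κ) (P : GL ι F) (J : Matrix κ κ F) : Matrix ι ι F :=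
  ((P⁻¹ : GL ι F) : Matrix ι ι F)ᵀ * J.submatrix e e * ((P⁻¹ : GL ι F) : Matrix ι ι F).map σ

section trJ
variable {σ : F →+* F} {e : ι ≃ κ} {P : GL ι F} {J : Matrix κ κ F}

theorem fm_submatrix (x y : κ → F) : fm σ (J.submatrix e e) (x ∘ e) (y ∘ e) = fm σ J x y := by
  simp only [fm_eq_sum, ← e.sum_comp]; rfl

theorem fm_trJ (x y : κ → F) : fm σ (trJ σ e P J) ((P : Matrix ι ι F) *ᵥ (x ∘ e))
    ((P : Matrix ι ι F) *ᵥ (y ∘ e)) = fm σ J x y := by
  rw [trJ, ← fm_mulVec, inv_mulVec, inv_mulVec, fm_submatrix]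

theorem exists_coord (e : ι ≃ κ) (P : GL ι F) (v : ι → F) : ∃ x : κ → F, (P : Matrix ι ι F) *ᵥ (x ∘ e) = v :=
  ⟨(((P⁻¹ : GL ι F) : Matrix ι ι F) *ᵥ v) ∘ e.symm, by simp [Function.comp_assoc]⟩

theorem sm_trJ {g : Matrix κ κ F} {c : F} : Sm σ (trJ σ e P J) (tr e P g) c ↔ Sm σ J g c := by
  rw [sm_iff, sm_iff]
  refine ⟨fun h x y => by rw [← fm_trJ (e := e) (P := P), ← tr_mulVec, ← tr_mulVec, h, fm_trJ],
    fun h u v => ?_⟩
  obtain ⟨x, rfl⟩ := exists_coord e P u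
  obtain ⟨y, rfl⟩ := exists_coord e P v
  rw [tr_mulVec, tr_mulVec, fm_trJ, fm_trJ, h]

theorem isUnit_map {σ : F →+* F} {a : Matrix ι ι F} (h : IsUnit a) : IsUnit (a.map σ) :=
  h.map σ.mapMatrix

theorem isUnit_trJ (hJ : IsUnit J) : IsUnit (trJ σ e P J) :=
  (((isUnit_transpose _).2 (P⁻¹).isUnit).mul ((isUnit_submatrix_equiv e e).2 hJ)).mul
    (isUnit_map (P⁻¹).isUnit)

theorem exists_trJ (σ : F →+* F) (e : ι ≃ κ) (P : GL ι F) {J' : Matrix ι ι F} (hJ : IsUnit J') :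
    ∃ J, IsUnit J ∧ trJ σ e P J = J' :=
  ⟨((P : Matrix ι ι F)ᵀ * J' * (P : Matrix ι ι F).map σ).submatrix e.symm e.symm,
    (isUnit_submatrix_equiv _ _).2 ((((isUnit_transpose _).2 P.isUnit).mul hJ).mul (isUnit_map P.isUnit)),
    fm_inj (σ := σ) fun u v => by
      rw [trJ, ← fm_mulVec, submatrix_submatrix, e.symm_comp_self, submatrix_id_id, ← fm_mulVec,
        mulVec_inv, mulVec_inv]⟩

theorem trJ_swap (hσ : ∀ a, σ (σ a) = a) : ((trJ σ e P J).map σ)ᵀ = trJ σ e P (J.map σ)ᵀ :=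
  fm_inj (σ := σ) fun u v => by
    obtain ⟨x, rfl⟩ := exists_coord e P u
    obtain ⟨y, rfl⟩ := exists_coord e P v
    rw [← fm_swap hσ, fm_trJ, fm_trJ, fm_swap hσ]

theorem trJ_transpose : (trJ (RingHom.id F) e P J)ᵀ = trJ (RingHom.id F) e P Jᵀ :=
  trJ_swap (σ := RingHom.id F) fun _ => rfl

theorem trJ_smul (c : F) : trJ σ e P (c • J) = c • trJ σ e P J := by
  simp [trJ, submatrix_smul]

theorem trJ_inj {J' : Matrix κ κ F} (h : trJ σ e P J = trJ σ e P J') : J = J' :=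
  fm_inj (σ := σ) fun x y => by rw [← fm_trJ (e := e) (P := P), h, fm_trJ]

end trJ

theorem Sm.kron {σ : F →+* F} {J₁ a : Matrix ι ι F} {J₂ b : Matrix κ κ F} {c d : F}
    (h1 : Sm σ J₁ a c) (h2 : Sm σ J₂ b d) : Sm σ (J₁ ⊗ₖ J₂) (a ⊗ₖ b) (c * d) := by
  have : (a ⊗ₖ b).map σ = a.map σ ⊗ₖ b.map σ := by ext; simp
  rw [Sm, this, ← kroneckerMap_transpose, ← mul_kronecker_mul, ← mul_kronecker_mul, h1, h2,
    smul_kronecker, kronecker_smul, smul_smul]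

theorem isUnit_kron {a : Matrix ι ι F} {b : Matrix κ κ F} (ha : IsUnit a) (hb : IsUnit b) :
    IsUnit (a ⊗ₖ b) := by
  obtain ⟨a, rfl⟩ := ha
  obtain ⟨b, rfl⟩ := hb
  exact kG_val a b ▸ (kG a b).isUnit

section pt
variable {τ : Type} [Fintype τ] [DecidableEq τ]

theorem pt_smul (c : τ → F) (g : τ → Matrix κ κ F) : pt (fun i => c i • g i) = (∏ i, c i) • pt g := by
  ext; simp [pt, Finset.prod_mul_distrib]

theorem pt_transpose (g : τ → Matrix κ κ F) : (pt g)ᵀ = pt fun i => (g i)ᵀ := rfl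

theorem pt_map (σ : F →+* F) (g : τ → Matrix κ κ F) : (pt g).map σ = pt fun i => (g i).map σ := by
  ext; simp [pt]

theorem Sm.pt {σ : F →+* F} {J g : τ → Matrix κ κ F} {c : τ → F} (h : ∀ i, Sm σ (J i) (g i) (c i)) :
    Sm σ (pt J) (pt g) (∏ i, c i) := by
  rw [Sm, pt_transpose, pt_map, ← pt_mul, ← pt_mul, ← pt_smul]
  exact congrArg As.pt (funext h)

theorem Sm.emb {σ : F →+* F} {J : τ → Matrix κ κ F} {g : Matrix κ κ F} {c : F} {i : τ}
    (h : Sm σ (J i) g c) : Sm σ (As.pt J) (emb i g) c := by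
  have := Sm.pt (σ := σ) (J := J) (g := Pi.mulSingle i g) (c := Pi.mulSingle i c) fun j => by
    by_cases e : j = i
    · subst e; simpa using h
    · simpa [e] using sm_one
  rwa [Finset.prod_pi_mulSingle', if_pos (Finset.mem_univ i), ← emb_apply] at this

theorem isUnit_pt {J : τ → Matrix κ κ F} (h : ∀ i, IsUnit (J i)) : IsUnit (pt J) := by
  choose u hu using h
  obtain rfl : J = fun i => (u i).1 := funext fun i => (hu i).symm
  exact (ptG u).isUnit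

end pt

/-- the determinant form in dimension two -/
def J2 (F : Type*) [Field F] : Matrix (Fin 2) (Fin 2) F := !![0, 1; -1, 0]

theorem sm_J2 (a : Matrix (Fin 2) (Fin 2) F) : Sm (RingHom.id F) (J2 F) a a.det := by
  ext i j
  fin_cases i <;> fin_cases j <;> simp [J2, det_fin_two, mul_apply, Fin.sum_univ_two] <;> ring

theorem isUnit_J2 : IsUnit (J2 F) := (isUnit_iff_isUnit_det _).2 (by simp [J2, det_fin_two])

theorem J2_transpose : (J2 F)ᵀ = -J2 F := by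
  ext i j; fin_cases i <;> fin_cases j <;> simp [J2]

theorem det_of_perfect (h : ⁅L, L⁆ = L) {l : GL ι F} (hl : l ∈ L) : (l : Matrix ι ι F).det = 1 := by
  have : L ≤ (GeneralLinearGroup.det : GL ι F →* Fˣ).ker := h ▸ Subgroup.commutator_le.2
    fun a _ b _ => by simp [commutatorElement_def, mul_comm]
  exact congrArg Units.val (this hl)

/-- the subgroup of isometries -/
def isoG (σ : F →+* F) (J : Matrix ι ι F) : Subgroup (GL ι F) where
  carrier := {g | Sm σ J (g : Matrix ι ι F) 1}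
  one_mem' := sm_one
  mul_mem' ha hb := by simpa using ha.mul hb
  inv_mem' ha := by simpa using ha.inv one_ne_zero

theorem Pow.exists_form {t : ℕ} {Ψ : Matrix (Fin t → Fin 2) (Fin t → Fin 2) F ≃ₐ[F] Matrix ι ι F}
    {L : Subgroup (GL (Fin 2) F)} (h : Pow H N Ψ L) :
    ∃ J, IsUnit J ∧ ∀ l ∈ N, Sm (RingHom.id F) J (l : Matrix ι ι F) 1 := by
  obtain ⟨e, P, hΨ⟩ := exists_tr Ψ
  refine ⟨trJ (RingHom.id F) e P (pt fun _ => J2 F), isUnit_trJ (isUnit_pt fun _ => isUnit_J2),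
    fun l hl => (h.gen.ge.trans (iSup_le ?_) : N ≤ isoG _ _) hl⟩
  rintro i _ ⟨x, hx, rfl⟩
  change Sm _ _ (Ψ _) _
  rw [hΨ, sm_trJ]
  exact Sm.emb (det_of_perfect h.perf hx ▸ sm_J2 _)

variable [Nonempty ι] {r : ℕ}

theorem ES.fields [Fintype F] (h : ES N r) (hE : ES h.rr r) {p e : ℕ}
    (hm : IsMinimalFieldFor (Nat.card (Subgroup.center h.rr)) p e F) :
    (Odd r ∧ Nat.card (Subgroup.center h.rr) = r ∧ Odd e) ∨
    (r = 2 ∧ Nat.card (Subgroup.center h.rr) = 4 ∧ e = 1) ∨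
    (r = 2 ∧ Nat.card (Subgroup.center h.rr) = 2 ∧ e = 1) ∨
    (((Odd r ∧ Nat.card (Subgroup.center h.rr) = r) ∨
      (r = 2 ∧ e = 2 ∧ Nat.card (Subgroup.center h.rr) = 4)) ∧ ∃ σ : F ≃+* F, σ ≠ 1 ∧ (∀ a, σ (σ a) = a) ∧
      ∀ c : Fˣ, c ^ Nat.card (Subgroup.center h.rr) = 1 → σ c = (c : F)⁻¹) := by
  have hz := h.card_center_rr hE
  have hd := h.dvd
  generalize Nat.card (Subgroup.center h.rr) = z at *
  obtain ⟨hp, _, hF, h1, h2⟩ := hm
  have he : 0 < e := Nat.pos_of_ne_zero (by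
    rintro rfl; exact Fintype.one_lt_card.ne' (hF.trans (pow_zero p)))
  have key : ∀ d, e = d + d → z ∣ p ^ d + 1 → ∃ σ : F ≃+* F, σ ≠ 1 ∧ (∀ a, σ (σ a) = a) ∧
      ∀ c : Fˣ, c ^ z = 1 → σ c = (c : F)⁻¹ := by
    rintro d rfl ⟨s, hs⟩
    obtain ⟨σ, h3, h4⟩ := exists_frob hp hF (d := d) (by omega) (by omega)
    refine ⟨σ, h3, fun a => by rw [h4, h4, ← pow_mul, ← pow_add, ← hF, FiniteField.pow_card], fun c hc =>
      eq_inv_of_mul_eq_one_left ?_⟩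
    rw [h4, ← pow_succ, hs, pow_mul, ← Units.val_pow_eq_pow_val, hc]; simp
  rcases h.prime.eq_two_or_odd' with rfl | ho
  · have hp2 : p % 2 = 1 := (hp.eq_two_or_odd).resolve_left (h.ne_char).symm
    have h5 : 4 ∣ p ^ 2 - 1 := by
      obtain ⟨k, rfl⟩ : ∃ k, p = 2 * k + 1 := ⟨p / 2, by omega⟩
      exact ⟨k * k + k, Nat.sub_eq_of_eq_add (by ring)⟩
    have h3 : z = 2 ∨ z = 4 := by
      have h3 : z ∣ 4 := hz ▸ Nat.gcd_dvd_left _ _
      have h4 : 2 ∣ z := hz ▸ Nat.dvd_gcd (by decide) hd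
      have := Nat.le_of_dvd (by decide) h3
      have := Nat.pos_of_dvd_of_pos h3 (by decide)
      omega
    rcases h3 with rfl | rfl
    · refine .inr (.inr (.inl ⟨rfl, rfl, ?_⟩))
      by_contra h4
      exact h2 1 one_pos (by omega) (by rw [pow_one]; omega)
    · by_cases h4 : e = 1
      · exact .inr (.inl ⟨rfl, rfl, h4⟩)
      have h6 : e = 2 := by
        by_contra h6
        exact h2 2 two_pos (by omega) h5
      have h7 := h2 1 one_pos (by omega)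
      exact .inr (.inr (.inr ⟨.inr ⟨rfl, h6, rfl⟩, key 1 h6 (by rw [pow_one] at h7 ⊢; omega)⟩))
  · rw [(Nat.coprime_two_left.2 ho).gcd_eq_one, mul_one, Nat.gcd_eq_left hd] at hz
    subst hz
    rcases Nat.even_or_odd e with ⟨d, rfl⟩ | ho'
    · refine .inr (.inr (.inr ⟨.inl ⟨ho, rfl⟩, key d rfl ?_⟩))
      rw [← two_mul, mul_comm, pow_mul, show (p ^ d) ^ 2 - 1 = _ from Nat.sq_sub_sq _ 1] at h1
      exact ((Nat.Prime.dvd_mul h.prime).1 h1).resolve_right (h2 d (by omega) (by omega))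
    · exact .inl ⟨ho, rfl, ho'⟩

/-- the commutative case -/
theorem comm_cases [Finite F] (hI : Irr H) {K : Subalgebra F (Matrix ι ι F)} (hK : Nrm H K)
    (hc : ∀ a ∈ K, ∀ b ∈ K, a * b = b * a) :
    PI K ≠ {1} ∨ ∀ x ∈ K, x ≠ 0 → ∃ y ∈ K, x * y = 1 :=
  (ne_or_eq _ _).imp_right (hI.field_of_PI hK hc)

theorem nrm_subfield [Fintype F] {K K' : Subalgebra F (Matrix ι ι F)} (hK : Nrm H K) {s : ℕ}
    (h : ∀ x, x ∈ K' ↔ x ∈ K ∧ x ^ s = x) : Nrm H K' := fun g hg x hx =>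
  (h _).2 ⟨hK g hg x ((h x).1 hx).1, by rw [← map_pow, ((h x).1 hx).2]⟩

theorem hom_eq_one {G C : Type*} [Group G] [CommGroup C] {L : Subgroup G} (h : ⁅L, L⁆ = L)
    (f : L → C) (hf : ∀ a b, f (a * b) = f a * f b) (l : L) : f l = 1 :=
  Abelianization.commutator_subset_ker (MonoidHom.mk' f hf)
    ((commutator_eq_top_iff L).2 h.ge ▸ Subgroup.mem_top l)

theorem comm_of_perfect (hp : ⁅N, N⁆ = N) {g : GL ι F}
    (hc : ∀ x ∈ N, g * x * g⁻¹ * x⁻¹ ∈ scalars ι F) {x : GL ι F} (hx : x ∈ N) : g * x = x * g := by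
  choose c hc using fun x : N => hc x x.2
  have hc : ∀ x : N, g * (x : GL ι F) * g⁻¹ = sc (c x) * (x : GL ι F) := fun x =>
    (eq_mul_inv_iff_mul_eq.1 (hc x)).symm
  have h1 := hom_eq_one hp c (fun x y => sc_inj (ι := ι) (by
    rw [← mul_left_inj ((x * y : N) : GL ι F), ← hc, Subgroup.coe_mul, show g * ((x : GL ι F) * y) * g⁻¹ =
      g * x * g⁻¹ * (g * y * g⁻¹) by group, hc, hc, sc_mul, mul_assoc, ← mul_assoc (x : GL ι F), ← sc_comm]
    simp only [mul_assoc])) ⟨x, hx⟩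
  have := hc ⟨x, hx⟩
  rwa [h1, sc_one, one_mul, mul_inv_eq_iff_eq_mul] at this

theorem MinN.core (hm : MinN (scalars ι F) H N) (hp : ⁅N, N⁆ = N) (ht : alg N = ⊤)
    (hs : MinN (scalars ι F) N N) (h : ∀ F₀ : Subfield F, F₀ ≠ ⊤ → ¬ RealisableOver F₀ (matrixSet N)) :
    IsResidualCore H N :=
  ⟨hm.le, hm.nm, hp, hs.simple, not_comm_of_perfect hm.nsc hp, fun _ _ hc => mem_sc.2 (isSc_of_alg ht
    fun _ hx => congrArg Units.val (comm_of_perfect hp hc hx)), absIrr_of_alg ht, h⟩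

theorem exists_minN' [Finite F] (hI : Irr H) (hn : 2 ≤ Fintype.card ι) :
    ∃ N, MinN (scalars ι F) H N := by
  refine (exists_minN le_rfl Nm.self fun h => ?_).imp fun _ h => h.2
  obtain ⟨v, hv⟩ := exists_ne_zero (ι := ι) (F := F)
  rcases hI (Submodule.span F {v}) fun g hg w hw => by
    obtain ⟨c, rfl⟩ := h hg
    change (sc c : GL ι F).1 *ᵥ w ∈ _
    rw [sc_val, smul_mulVec, one_mulVec]
    exact Submodule.smul_mem _ _ hw with h1 | h1
  · exact hv (Submodule.span_singleton_eq_bot.1 h1)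
  · have := finrank_span_singleton (K := F) hv
    rw [h1, finrank_top, finrank_fintype_fun_eq_card] at this
    omega

/-- the raw case division -/
theorem MinN.raw [Finite F] (hI : Irr H) (hm : MinN (scalars ι F) H N) :
    ctr (alg N) ≠ ⊥ ∨ (∃ k l Ψ L, Tens (k := k) (l := l) H N Ψ L) ∨ (alg N = ⊤ ∧ ((∃ r, ES N r) ∨
      (⁅N, N⁆ = N ∧ (MinN (scalars ι F) N N ∨ ∃ t k Ψ L, Pow (t := t) (k := k) H N Ψ L)))) := by
  refine or_iff_not_imp_left.2 fun hz => ?_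
  rw [not_not] at hz
  by_cases ht : alg N = ⊤
  · exact .inr ⟨ht, hm.comm.imp (fun h => hm.es h hz) fun h => ⟨h, exists_pow hm h ht⟩⟩
  · exact .inl (exists_tens hI hm.nm hm.nsc hz ht)

theorem Tens.card {k l : ℕ} {Ψ : Matrix (Fin k × Fin l) (Fin k × Fin l) F ≃ₐ[F] Matrix ι ι F}
    {L : Subgroup (GL (Fin k) F)} (_ : Tens H N Ψ L) : Fintype.card ι = k * l := by
  obtain ⟨e, -⟩ := exists_tr Ψ
  simpa using Fintype.card_congr e

theorem mem_tensor {k l : ℕ} {e : ι ≃ Fin k × Fin l} {P : GL ι F} (a : GL (Fin k) F) (b : GL (Fin l) F) :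
    trG (tr e P) (kG a b) ∈ tensorProductSubgroup k l e P :=
  mem_map_tr.2 ⟨a, b, by rw [MulEquiv.symm_apply_apply, kG_val]⟩

theorem tr_swap {ν : Type} [Fintype ν] [DecidableEq ν] (e : ι ≃ κ × ν) (P : GL ι F) (a : Matrix κ κ F)
    (b : Matrix ν ν F) : tr e P (a ⊗ₖ b) = tr (e.trans (Equiv.prodComm _ _)) P (b ⊗ₖ a) := by
  rw [tr_apply, tr_apply]
  congr 1
  ext; simp [mul_comm]

theorem trG_swap {ν : Type} [Fintype ν] [DecidableEq ν] (e : ι ≃ κ × ν) (P : GL ι F) (a : GL κ F)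
    (b : GL ν F) : trG (tr e P) (kG a b) = trG (tr (e.trans (Equiv.prodComm _ _)) P) (kG b a) :=
  Units.ext (by simp only [trG_val, kG_val]; exact tr_swap e P _ _)

theorem tr_two (e : ι ≃ κ × κ) (P : GL ι F) (a b : Matrix κ κ F) :
    tr e P (a ⊗ₖ b) = tr (e.trans (finTwoArrowEquiv κ).symm) P (pt ![a, b]) := by
  rw [tr_apply, tr_apply]
  congr 1
  ext; simp [pt]

theorem ptG_mem {m t : ℕ} (a : Fin t → GL (Fin m) F) : ptG a ∈ tensorWreathStandard m t F :=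
  Subgroup.subset_closure (.inl ⟨a, fun _ _ => rfl⟩)

theorem mem_two {k : ℕ} {e : ι ≃ Fin k × Fin k} {P : GL ι F} (a b : GL (Fin k) F) :
    trG (tr e P) (kG a b) ∈ tensorWreathSubgroup k 2 (e.trans (finTwoArrowEquiv _).symm) P := by
  have : trG (tr e P) (kG a b) = trG (tr (e.trans (finTwoArrowEquiv _).symm) P) (ptG ![a, b]) :=
    Units.ext (by
      simp only [trG_val, kG_val, ptG_val, tr_two]
      congr 2)
  exact mem_map_tr.2 (by rw [this, MulEquiv.symm_apply_apply]; exact ptG_mem _)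

theorem eq_tr {Ψ : Matrix κ κ F ≃ₐ[F] Matrix ι ι F} : ∃ (e : ι ≃ κ) (P : GL ι F), Ψ = tr e P :=
  let ⟨e, P, h⟩ := exists_tr Ψ; ⟨e, P, AlgEquiv.ext h⟩

theorem fixes_iff {σ : F →+* F} : FixesForm (matrixSet N) (fm σ J) ↔
    ∀ l ∈ N, Sm σ J (l : Matrix ι ι F) 1 :=
  ⟨fun h l hl => sm_iff.2 fun u v => by rw [h _ ⟨l, hl, rfl⟩, one_mul], by
    rintro h _ ⟨l, hl, rfl⟩ u v; exact (sm_iff.1 (h l hl) u v).trans (one_mul _)⟩

theorem FixesQuadForm.polar {Q : (ι → F) → F} (h : FixesQuadForm (matrixSet N) Q) :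
    FixesForm (matrixSet N) (QuadraticMap.polar Q) := fun s hs u v => by
  simp only [QuadraticMap.polar, ← mulVec_add, h s hs]

theorem exists_gram_bilin {f : (ι → F) → (ι → F) → F} (h1 : IsBilinearForm f)
    (h2 : IsNondegenerateForm f) (h : FixesForm (matrixSet N) f) :
    ∃ J, IsUnit J ∧ ∀ l ∈ N, Sm (RingHom.id F) J (l : Matrix ι ι F) 1 :=
  ⟨gramMatrix f, isUnit_of_nondeg (h1.as_eq ▸ h2), fixes_iff.1 (h1.as_eq ▸ h)⟩

/-- the refined list of classes in the linear case -/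
def LinCl [Fintype F] (H : Subgroup (GL ι F)) : Prop :=
  (∃ (t m : ℕ) (D : Fin t → Submodule F (ι → F)), IsMDecomposition m D ∧ H ≤ decompositionStabilizer D) ∨
  (∃ (r : ℕ) (K : Subalgebra F (Matrix ι ι F)), r.Prime ∧ IsFieldSubalgebra r K ∧
      H ≤ subalgebraNormalizer K) ∨
  (∃ (n₁ n₂ : ℕ) (e : ι ≃ Fin n₁ × Fin n₂) (P : GL ι F), 2 ≤ n₁ ∧ n₁ < n₂ ∧
      H ≤ tensorProductSubgroup n₁ n₂ e P) ∨
  (∃ (F₀ : Subfield F) (r : ℕ) (P : GL ι F), r.Prime ∧ Fintype.card F = Nat.card F₀ ^ r ∧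
      H ≤ subfieldSubgroup F₀ P) ∨
  (∃ (r m : ℕ) (R : Subgroup (GL ι F)), IsLinearSymplecticTypeData r R ∧ ES R r ∧
      Fintype.card ι = r ^ m ∧ H ≤ subgroupNormalizer R) ∨
  (∃ (m t : ℕ) (e : ι ≃ (Fin t → Fin m)) (P : GL ι F), 3 ≤ m ∧ 2 ≤ t ∧
      H ≤ tensorWreathSubgroup m t e P) ∨
  (∃ f : (ι → F) → (ι → F) → F, IsSymplecticForm f ∧ H ≤ similarityGroup f) ∨
  (∃ (σ : F ≃+* F) (f : (ι → F) → (ι → F) → F), IsUnitaryForm σ f ∧ H ≤ similarityGroup f) ∨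
  (∃ Q : (ι → F) → F, IsNondegenerateQuadraticForm Q ∧ Odd (Fintype.card F) ∧
      H ≤ quadSimilarityGroup Q) ∨
  InLinearResidualClass H

theorem LinCl.of_bilin [Fintype F] (hI : Irr H) (hn : 2 ≤ Fintype.card ι) (hJ : IsUnit J)
    (hs : Jᵀ = J ∨ Jᵀ = -J) (h : ∀ g ∈ H, ∃ c, Sm (RingHom.id F) J (g : Matrix ι ι F) c) : LinCl H :=
  .inr <| .inr <| .inr <| .inr <| .inr <| .inr <| (bilin_cases hI hn hJ hs h).imp
    (fun h1 => ⟨_, h1, le_sim hJ h⟩) fun h1 => .inr (.inl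
      ⟨_, quad_of_symm (two_ne_zero_of_odd h1.1) hJ h1.2, h1.1, le_quadSim hJ h⟩)

theorem LinCl.of_fix [Fintype F] (hI : Irr H) (hn : 2 ≤ Fintype.card ι) (ht : alg N = ⊤) (hN : Nm H N)
    (h : ∃ J, IsUnit J ∧ ∀ l ∈ N, Sm (RingHom.id F) J (l : Matrix ι ι F) 1) : LinCl H :=
  let ⟨_, hJ, h⟩ := h
  .of_bilin hI hn hJ (symm_or_skew ht hJ fun l hl => ⟨1, h l hl⟩) fun _ hg => exists_sm ht hN hJ h hg

theorem LinCl.of_real [Fintype F] {φ : F ≃+* F} {P : GL ι F} (ht : alg N = ⊤) (hN : Nm H N)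
    (hp : (orderOf φ).Prime) (h : Real φ P N) : LinCl H :=
  .inr <| .inr <| .inr <| .inl ⟨_, _, P, hp, card_fx φ, h.le ht hN⟩

theorem LinCl.of_unit [Fintype F] {σ : F ≃+* F} (h : ∃ f, IsUnitaryForm σ f ∧ H ≤ similarityGroup f) :
    LinCl H :=
  .inr <| .inr <| .inr <| .inr <| .inr <| .inr <| .inr <| .inl ⟨σ, h⟩

theorem LinCl.of_comm [Fintype F] (hI : Irr H) {K : Subalgebra F (Matrix ι ι F)} (hK : Nrm H K)
    (hc : ∀ a ∈ K, ∀ b ∈ K, a * b = b * a) (h0 : K ≠ ⊥) : LinCl H := by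
  rcases comm_cases hI hK hc with h | h
  · obtain ⟨t, m, e, -, -, -, h1, h2⟩ := (idS_PI hK hc).decomp hI h
    exact .inl ⟨t, m, _, h1, h2⟩
  · obtain ⟨r, hr, h1⟩ := Nat.exists_prime_and_dvd (one_lt_finrank h0).ne'
    obtain ⟨K', h2, h3⟩ := exists_subfield hc h h1
    exact .inr (.inl ⟨r, K', hr, h2, (nrm_subfield hK h3).le⟩)

theorem linCl [Fintype F] (hn : 3 ≤ Fintype.card ι) (hI : Irr H) : LinCl H := by
  have hn2 : 2 ≤ Fintype.card ι := by omega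
  obtain ⟨N, hm⟩ := exists_minN' hI hn2
  rcases hm.raw hI with h | ⟨k, l, Ψ, L, h⟩ | ⟨ht, ⟨r, h⟩ | ⟨hp, h | ⟨t, k, Ψ, L, h⟩⟩⟩
  · exact .of_comm hI (nrm_alg hm.nm).ctr ctr_comm h
  · obtain ⟨e, P, rfl⟩ := eq_tr (Ψ := Ψ)
    rcases lt_trichotomy k l with h1 | rfl | h1
    · exact .inr <| .inr <| .inl ⟨k, l, e, P, h.twok, h1, fun g hg => by
        obtain ⟨a, b, rfl⟩ := h.le g hg; exact mem_tensor a b⟩
    · rcases h.twok.eq_or_lt with rfl | h1
      · refine .of_bilin hI hn2 (isUnit_trJ (σ := RingHom.id F) (e := e) (P := P)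
          (isUnit_kron isUnit_J2 isUnit_J2)) (.inl (trJ_transpose.trans ?_)) fun g hg => ?_
        · rw [← kroneckerMap_transpose, J2_transpose]
          congr 1; ext; simp
        · obtain ⟨a, b, rfl⟩ := h.le g hg
          exact ⟨_, sm_trJ.2 (kG_val a b ▸ (sm_J2 _).kron (sm_J2 _))⟩
      · exact .inr <| .inr <| .inr <| .inr <| .inr <| .inl ⟨k, 2, _, P, h1, le_rfl, fun g hg => by
          obtain ⟨a, b, rfl⟩ := h.le g hg; exact mem_two a b⟩
    · exact .inr <| .inr <| .inl ⟨l, k, _, P, h.twol, h1, fun g hg => by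
        obtain ⟨a, b, rfl⟩ := h.le g hg; rw [trG_swap]; exact mem_tensor b a⟩
  · have hR := h.rs hm
    have hE := hR.es h
    have ht' := hR.alg_eq.trans ht
    obtain ⟨m, h1, h2, h3⟩ := hE.card_eq ht'
    rcases hE.min_or_real ht' with ⟨p, e, h4, h5⟩ | ⟨φ, P, h4, h5, -⟩
    swap
    · exact .of_real ht' hR.nm h4 h5
    rcases h.fields hE h5 with ⟨h6, h7, h8⟩ | ⟨rfl, h7, h8⟩ | ⟨rfl, h7, -⟩ | ⟨-, σ, h6, h7, h8⟩
    · exact .inr <| .inr <| .inr <| .inr <| .inl ⟨r, m, _, ⟨hR.sympType h hm, absIrr_of_alg ht', p, e, h4,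
        h5, .inl ⟨h6, h8, h7, m, h1, by rw [h3, h7, pow_add, pow_one]⟩⟩, hE, h2, nm_iff.1 hR.nm⟩
    · refine .inr <| .inr <| .inr <| .inr <| .inl ⟨2, m, _, ⟨hR.sympType h hm, absIrr_of_alg ht', p, e, h4,
        h5, .inr (.inl ⟨rfl, h8, h7, ?_, m, by rw [h3, h7, pow_add]; rfl⟩)⟩, hE, h2, nm_iff.1 hR.nm⟩
      rcases h1.eq_or_lt with rfl | h1
      · omega
      · exact h2 ▸ Nat.pow_le_pow_right (n := 2) two_pos h1
    · refine .of_fix hI hn2 ht' hR.nm (exists_gram ht' 1 (hE.map_trace_inv 1 fun c hc => ?_))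
      have := hE.pow_center hc
      rw [h7, sq] at this
      exact eq_inv_of_mul_eq_one_left (congrArg Units.val this)
    · obtain ⟨J, hJ, h9⟩ := exists_gram ht' σ (hE.map_trace_inv σ fun c hc => h8 c (hE.pow_center hc))
      exact .of_unit (unit_of_gram h6 h7 ht' hR.nm hJ h9)
  · by_cases h1 : ∃ F₀ : Subfield F, F₀ ≠ ⊤ ∧ RealisableOver F₀ (matrixSet N)
    · obtain ⟨F₀, h1, h2⟩ := h1
      obtain ⟨φ, P, h3, h4⟩ := exists_real_of_realisable h1 h2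
      exact .of_real ht hm.nm h3 h4
    by_cases h2 : ∃ Q : (ι → F) → F, IsNondegenerateQuadraticForm Q ∧ FixesQuadForm (matrixSet N) Q
    · obtain ⟨Q, h2, h3⟩ := h2
      exact .of_fix hI hn2 ht hm.nm (exists_gram_bilin h2.polar_bilinear h2.nondegenerate
        (FixesQuadForm.polar h3))
    by_cases h3 : ∃ f : (ι → F) → (ι → F) → F, IsSymplecticForm f ∧ FixesForm (matrixSet N) f
    · obtain ⟨f, h3, h4⟩ := h3
      exact .of_fix hI hn2 ht hm.nm (exists_gram_bilin h3.bilinear h3.nondegenerate h4)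
    by_cases h4 : ∃ (σ : F ≃+* F) (f : (ι → F) → (ι → F) → F), IsUnitaryForm σ f ∧
      FixesForm (matrixSet N) f
    · obtain ⟨σ, f, h4, h5⟩ := h4
      exact .of_unit (unit_of_gram h4.ne_refl h4.involutive ht hm.nm
        (isUnit_of_nondeg (h4.as_eq ▸ h4.nondegenerate)) (fixes_iff.1 (h4.as_eq ▸ h5)))
    exact .inr <| .inr <| .inr <| .inr <| .inr <| .inr <| .inr <| .inr <| .inr
      ⟨N, hm.core hp ht h fun F₀ h5 h6 => h1 ⟨F₀, h5, h6⟩, h2, h3, h4⟩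
  · rcases h.twok.eq_or_lt with rfl | h1
    · exact .of_fix hI hn2 ht hm.nm h.exists_form
    · obtain ⟨e, P, rfl⟩ := eq_tr (Ψ := Ψ)
      exact .inr <| .inr <| .inr <| .inr <| .inr <| .inl ⟨k, t, e, P, h1, h.twot, fun g hg =>
        mem_map_tr.2 (h.le g hg)⟩

theorem irr_or (H : Subgroup (GL ι F)) : (∃ W, W ≠ ⊥ ∧ W ≠ ⊤ ∧ Inv H W) ∨ Irr H := by
  refine or_iff_not_imp_right.2 fun h => ?_
  simp only [Irr, not_forall, not_or] at h
  obtain ⟨W, h1, h2, h3⟩ := h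
  exact ⟨W, h2, h3, h1⟩

end Cfsg.Agent.H4.As
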