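import Cfsg.Agent.H4.As6

/-! Aschbacher's theorem, part 7: the classical groups lie in no member of the classes. -/

set_option autoImplicit false
set_option linter.unusedSectionVars false

namespace Cfsg.Agent.H4.As

open Matrix Module Cfsg.Geo
open scoped MatrixGroups Kronecker commutatorElement

variable {ι κ : Type} [Fintype ι] [DecidableEq ι] [Fintype κ] [DecidableEq κ] {F : Type*} [Field F]
  [Fintype F] {G H R : Subgroup (GL ι F)}

/-- the properties of a quasisimple classical group used to prove properness -/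
structure Big (G : Subgroup (GL ι F)) : Prop where
  two : 2 ≤ Fintype.card ι
  irr : Irr G
  cen : ∀ (φ : F ≃+* F) (T : GL ι F), (∀ l ∈ G, cj T ((l : Matrix ι ι F).map φ) = l) →
    φ = 1 ∧ T ∈ scalars ι F
  perf : ⁅G, G⁆ = G
  min : ∀ M ≤ G, Nm G M → M ≤ scalars ι F ∨ M = G
  pp : ringChar F ^ Fintype.card ι ∣ Nat.card G
  pk : 4 ≤ Fintype.card ι → Fintype.card F ^ (Fintype.card ι / 2) ∣ Nat.card G

theorem coprime_sub_one {k : ℕ} (hk : k ≠ 0) : (ringChar F).Coprime (Fintype.card F ^ k - 1) :=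
  (Nat.Prime.coprime_iff_not_dvd Fact.out).2
    (not_dvd_pow_sub_one Fact.out ringChar_dvd_card Fintype.card_pos hk)

theorem Irr.not_le (hI : Irr G) (hn : 2 ≤ Fintype.card ι) : ¬ G ≤ scalars ι F :=
  have : Nonempty ι := Fintype.card_pos_iff.1 (by omega)
  let ⟨_, h⟩ := exists_minN' hI hn; fun h1 => h.nsc (h.le.trans h1)

theorem Irr.isUnit (hI : Irr G) {a : Matrix ι ι F} (h : ∀ g ∈ G, a * (g : Matrix ι ι F) = g * a)
    (h0 : a ≠ 0) : IsUnit a := by
  by_contra h1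
  obtain ⟨v, hv, h2⟩ := exists_mulVec_eq_zero_iff.2 (by
    simpa [isUnit_iff_isUnit_det] using h1 : a.det = 0)
  refine h0 (hI.eq_zero (S := {a}) ?_ hv (by rintro _ rfl; exact h2) rfl)
  rintro g hg _ rfl
  exact cj_eq_iff.2 (h g hg).symm

namespace Big

variable (h : Big G)
include h

theorem nonempty : Nonempty ι := Fintype.card_pos_iff.1 (by have := h.two; omega)

theorem isSc {a : Matrix ι ι F} (hc : ∀ g ∈ G, a * (g : Matrix ι ι F) = g * a) : IsSc a := by
  have := h.nonempty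
  by_cases h0 : a = 0
  · exact ⟨0, by simp [h0]⟩
  obtain ⟨T, rfl⟩ := h.irr.isUnit hc h0
  exact mem_sc.1 (h.cen 1 T fun l hl => cj_eq_iff.2 (hc l hl)).2

theorem hom {X : Type*} [Group X] (f : G →* X) :
    (∀ g, f g = 1) ∨ ∀ s, ringChar F ^ s ∣ Nat.card G → ringChar F ^ s ∣ Nat.card X := by
  have := h.nonempty
  refine (h.min (f.ker.map G.subtype) (Subgroup.map_subtype_le _) ?_).symm.imp (fun h1 g => ?_)
    fun h1 s hs => ?_
  · rintro g hg _ ⟨x, hx, rfl⟩
    exact ⟨_, f.normal_ker.conj_mem x hx ⟨g, hg⟩, rfl⟩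
  · obtain ⟨x, hx, e⟩ := h1.ge g.2
    exact Subtype.ext e ▸ hx
  · have h2 : Nat.card f.ker ∣ Fintype.card F ^ 1 - 1 := by
      rw [← Subgroup.card_map_of_injective G.subtype_injective, pow_one, ← card_units_field]
      exact (Subgroup.card_dvd_of_le h1).trans (Subgroup.card_range_dvd _)
    rw [card_eq_card_range_mul_ker f] at hs
    exact (((coprime_sub_one one_ne_zero).coprime_dvd_right h2).pow_left s).dvd_of_dvd_mul_right hs
      |>.trans (Subgroup.card_subgroup_dvd_card _)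

theorem fix {α : Type*} (S : Set α) [Finite S] (act : GL ι F → α → α) (h1 : ∀ x, act 1 x = x)
    (h2 : ∀ a b x, act (a * b) x = act a (act b x)) (hS : ∀ g ∈ G, ∀ x ∈ S, act g x ∈ S)
    (hc : Nat.card S ≤ Fintype.card ι) {g : GL ι F} (hg : g ∈ G) {x : α} (hx : x ∈ S) : act g x = x := by
  let _ : MulAction G S :=
    { smul := fun g x => ⟨act g x, hS g g.2 x x.2⟩
      one_smul := fun x => Subtype.ext (h1 x)
      mul_smul := fun a b x => Subtype.ext (h2 a b x) }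
  rcases h.hom (MulAction.toPermHom G S) with h3 | h3
  · exact congrArg (fun e : Equiv.Perm S => (e ⟨x, hx⟩ : α)) (h3 ⟨g, hg⟩)
  · have h4 := h3 _ h.pp
    rw [Nat.card_perm, padicValNat_dvd_iff_le (Nat.factorial_ne_zero _)] at h4
    have : Nonempty S := ⟨⟨x, hx⟩⟩
    have := padicValNat_factorial_lt_of_ne_zero (p := ringChar F) (Nat.card_pos (α := S)).ne'
    omega

theorem not_stab {W : Submodule F (ι → F)} (h0 : W ≠ ⊥) (h1 : W ≠ ⊤) : ¬ G ≤ subspaceStabilizer W :=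
  fun h2 => (h.irr W (inv_iff.2 h2)).elim h0 h1

end Big

theorem _root_.Cfsg.Geo.IsMDecomposition.as_card {t m : ℕ} {D : Fin t → Submodule F (ι → F)}
    (h : IsMDecomposition m D) : t * m = Fintype.card ι := by
  have := (DirectSum.isInternal_submodule_of_iSupIndep_of_iSup_eq_top h.indep h.iSup_eq_top)
  have h1 := (LinearEquiv.ofBijective (DirectSum.coeLinearMap D) this).finrank_eq
  rw [finrank_directSum, finrank_fintype_fun_eq_card] at h1
  simpa [h.finrank_eq] using h1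

theorem _root_.Cfsg.Geo.IsMDecomposition.as_ne {t m : ℕ} {D : Fin t → Submodule F (ι → F)}
    (h : IsMDecomposition m D) (i : Fin t) : D i ≠ ⊥ ∧ D i ≠ ⊤ := by
  have h1 := h.finrank_eq i
  have h2 := h.as_card
  have := h.two_le
  have := h.pos
  constructor <;> intro e <;> rw [e] at h1
  · rw [finrank_bot] at h1; omega
  · rw [finrank_top, finrank_fintype_fun_eq_card] at h1; nlinarith

theorem Big.not_decomp (h : Big G) {t m : ℕ} {D : Fin t → Submodule F (ι → F)}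
    (hD : IsMDecomposition m D) : ¬ G ≤ decompositionStabilizer D := fun h1 => by
  have i : Fin t := ⟨0, by have := hD.two_le; omega⟩
  refine (h.irr (D i) fun g hg v hv => ?_).elim (hD.as_ne i).1 (hD.as_ne i).2
  rw [← h.fix (Set.range D) (fun g W => W.map (toLin' (g : Matrix ι ι F))) (fun _ => by simp)
    (fun _ _ _ => by simp [toLin'_mul, Submodule.map_comp]) (by
      rintro g hg _ ⟨j, rfl⟩
      obtain ⟨σ, hσ⟩ := h1 hg
      exact ⟨_, (hσ j).symm⟩) ((Finite.card_range_le D).trans (by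
        have := hD.as_card; have := hD.pos; simp; nlinarith)) hg ⟨i, rfl⟩]
  exact ⟨v, hv, rfl⟩

theorem comm_of_cyclic (hp : ⁅G, G⁆ = G) {z : GL ι F} (hn : Nm G (Subgroup.zpowers z)) {g : GL ι F}
    (hg : g ∈ G) : g * z = z * g := by
  let _ := (IsCyclic.mulAutMulEquiv (Subgroup.zpowers z)).toMonoidHom.commGroupOfInjective
    (MulEquiv.injective _)
  let f : G →* MulAut (Subgroup.zpowers z) :=
    (Subgroup.zpowers z).normalizerMonoidHom.comp (Subgroup.inclusion (nm_iff.1 hn))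
  exact mul_inv_eq_iff_eq_mul.1 (congrArg (fun e : MulAut (Subgroup.zpowers z) =>
    (e ⟨z, Subgroup.mem_zpowers z⟩ : GL ι F)) (hom_eq_one hp f f.map_mul ⟨g, hg⟩))

theorem exists_gen [Nonempty ι] {K : Subalgebra F (Matrix ι ι F)} (hc : ∀ a ∈ K, ∀ b ∈ K, a * b = b * a)
    (hi : ∀ x ∈ K, x ≠ 0 → ∃ y ∈ K, x * y = 1) :
    ∃ z : GL ι F, ∀ x : GL ι F, x ∈ Subgroup.zpowers z ↔ (x : Matrix ι ι F) ∈ K := by
  let _ := (isField_of hc hi).toField
  obtain ⟨z, hz⟩ := IsCyclic.exists_generator (α := Kˣ)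
  refine ⟨Units.map K.val.toRingHom.toMonoidHom z, fun x => ⟨?_, fun hx => ?_⟩⟩
  · rintro ⟨k, rfl⟩
    simp only [← map_zpow]
    exact (z ^ k).1.2
  · obtain ⟨k, hk⟩ := hz (Units.mk0 ⟨x, hx⟩ fun e => x.ne_zero (congrArg Subtype.val e))
    exact ⟨k, Units.ext (by simp only [← map_zpow, hk]; rfl)⟩

theorem Big.not_field (h : Big G) {r : ℕ} (hr : 1 < r) {K : Subalgebra F (Matrix ι ι F)}
    (hK : IsFieldSubalgebra r K) : ¬ G ≤ subalgebraNormalizer K := fun h1 => by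
  have := h.nonempty
  obtain ⟨z, hz⟩ := exists_gen hK.comm hK.inv
  have h2 : z ∈ scalars ι F := mem_sc.2 (h.isSc fun g hg => congrArg Units.val (comm_of_cyclic h.perf
    (fun g hg x hx => (hz _).2 (cj_val g x ▸ nrm_iff.2 h1 g hg _ ((hz x).1 hx))) hg).symm)
  have h3 : K = ⊥ := eq_bot_iff.2 fun x hx => isSc_iff_bot.1 (by
    by_cases h0 : x = 0
    · exact ⟨0, by simp [h0]⟩
    obtain ⟨y, hy, e⟩ := hK.inv x hx h0
    exact mem_sc.1 (Subgroup.zpowers_le.2 h2 ((hz ⟨x, y, e, (hK.comm y hy x hx).trans e⟩).2 hx)))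
  have := hK.finrank_eq
  rw [h3, Subalgebra.finrank_bot] at this
  omega

theorem pow_dvd_GL {k s : ℕ} (h : Fintype.card F ^ s ∣ Nat.card (GL (Fin k) F)) : s ≤ k * (k - 1) / 2 := by
  rw [card_GL_field, prod_pow_sub_pow] at h
  have h1 : (Fintype.card F).Coprime (∏ i : Fin k, (Fintype.card F ^ (k - i) - 1)) :=
    Nat.Coprime.prod_right fun i _ => by
      obtain ⟨e, hp, he⟩ := FiniteField.card F (ringChar F)
      conv_lhs => rw [he]
      exact (coprime_sub_one (F := F) (Nat.sub_ne_zero_of_lt i.2)).pow_left _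
  exact (Nat.pow_dvd_pow_iff_le_right Fintype.one_lt_card).1 ((h1.pow_left s).dvd_of_dvd_mul_right h)

theorem exists_quot_hom [Nonempty ι] [Nonempty κ] (φ : Matrix κ κ F →ₐ[F] Matrix ι ι F)
    (h1 : ∀ g ∈ G, ∀ x, cj g (φ x) ∈ φ.range) : ∃ f : G →* GL κ F ⧸ scalars κ F,
      ∀ g, f g = 1 → ∀ x, φ x * (g : GL ι F) = (g : GL ι F) * φ x := by
  have hi : Function.Injective φ := φ.toRingHom.injective
  choose a ha using fun g : G => exists_conj_cj φ φ g (h1 g g.2)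
  refine ⟨MonoidHom.mk' (fun g => a g) fun g g' => ?_, fun g hg x => ?_⟩
  · rw [← QuotientGroup.mk_mul, QuotientGroup.eq]
    refine mem_sc.2 (isSc_of_comm fun b => cj_eq_iff.1 ?_)
    have : cj (a (g * g')) b = cj (a g) (cj (a g') b) := hi (by
      rw [← ha, ← ha, ← ha, Subgroup.coe_mul, cj_mul])
    rw [cj_mul, cj_mul, ← this, cj_inv_cj]
  · have := ha g x
    rw [cj_sc ((QuotientGroup.eq_one_iff _).1 hg)] at this
    exact (cj_eq_iff.1 this).symm

theorem Big.not_range (h : Big G) {k : ℕ} (hk : 2 ≤ k) (hn : k * k ≤ Fintype.card ι)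
    (φ : Matrix (Fin k) (Fin k) F →ₐ[F] Matrix ι ι F) (h1 : ∀ g ∈ G, ∀ x, cj g (φ x) ∈ φ.range) :
    False := by
  have := h.nonempty
  have : Nonempty (Fin k) := ⟨⟨0, by omega⟩⟩
  obtain ⟨f, hf⟩ := exists_quot_hom φ h1
  rcases h.hom f with h2 | h2
  · obtain ⟨c, hc⟩ := h.isSc (a := φ (single ⟨0, by omega⟩ ⟨1, by omega⟩ 1)) fun g hg =>
      hf ⟨g, hg⟩ (h2 _) _
    have : single (⟨0, by omega⟩ : Fin k) (⟨1, by omega⟩ : Fin k) (1 : F) = c • 1 :=
      φ.toRingHom.injective (by simpa using hc)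
    simpa [one_apply, Fin.ext_iff] using congrFun (congrFun this ⟨0, by omega⟩) ⟨1, by omega⟩
  · obtain ⟨e, hp, he⟩ := FiniteField.card F (ringChar F)
    have h3 := h.pk (by nlinarith)
    rw [he, ← pow_mul] at h3
    have h4 := (h2 _ h3).trans (Subgroup.card_quotient_dvd_card _)
    rw [pow_mul, ← he] at h4
    have h5 := pow_dvd_GL h4
    obtain ⟨j, rfl⟩ : ∃ j, k = j + 1 := ⟨k - 1, by omega⟩
    rw [Nat.add_sub_cancel] at h5
    obtain ⟨s, hs⟩ := Nat.even_mul_succ_self j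
    have : (j + 1) * (j + 1) = s + s + (j + 1) := by rw [← hs]; ring
    rw [mul_comm, hs] at h5
    omega

theorem cj_kG_kl {ν : Type} [Fintype ν] [DecidableEq ν] (a : GL κ F) (b : GL ν F) (x : Matrix κ κ F) :
    cj (kG a b) (kl ν x) = kl ν (cj a x) :=
  cj_eq_iff.2 (by simp only [kG_val, kl_apply, ← mul_kronecker_mul, cj_mul_val, one_mul, mul_one])

theorem exists_of_mem_tensor {k l : ℕ} {e : ι ≃ Fin k × Fin l} {P g : GL ι F}
    (h : g ∈ tensorProductSubgroup k l e P) : ∃ a b, g = trG (tr e P) (kG a b) := by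
  obtain ⟨a, b, h⟩ := mem_map_tr.1 h
  exact ⟨a, b, (MulEquiv.symm_apply_eq _).1 (Units.ext (h.trans (kG_val a b).symm))⟩

theorem Big.not_tensor' (h : Big G) {k l : ℕ} (hk : 2 ≤ k) (hl : k ≤ l) {e : ι ≃ Fin k × Fin l}
    {P : GL ι F} (h1 : ∀ g ∈ G, ∃ a b, g = trG (tr e P) (kG a b)) : False :=
  h.not_range hk (by rw [Fintype.card_congr e]; simpa using Nat.mul_le_mul_left k hl)
    ((tr e P).toAlgHom.comp (kl (Fin l))) fun g hg x => by
      obtain ⟨a, b, rfl⟩ := h1 g hg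
      exact ⟨cj a x, ((map_cj (tr e P) _ _).symm.trans (congrArg _ (cj_kG_kl a b x))).symm⟩

theorem Big.not_tensor (h : Big G) {k l : ℕ} (hk : 2 ≤ k) (hl : 2 ≤ l) {e : ι ≃ Fin k × Fin l}
    {P : GL ι F} : ¬ G ≤ tensorProductSubgroup k l e P := fun h1 => by
  have := h.nonempty
  rcases le_total k l with h2 | h2
  · exact h.not_tensor' hk h2 fun g hg => exists_of_mem_tensor (h1 hg)
  · exact h.not_tensor' (e := e.trans (Equiv.prodComm _ _)) (P := P) hl h2 fun g hg => by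
      obtain ⟨a, b, rfl⟩ := exists_of_mem_tensor (h1 hg)
      exact ⟨b, a, trG_swap e P a b⟩

section wreath
variable {τ : Type} [Fintype τ] [DecidableEq τ]

/-- the matrices permuting the tensor factors -/
def wrG (τ κ : Type) [Fintype τ] [DecidableEq τ] [Fintype κ] [DecidableEq κ] (F : Type*) [Field F] :
    Subgroup (GL (τ → κ) F) where
  carrier := {g | ∃ (σ : Equiv.Perm τ) (a : τ → GL κ F), ∀ i x, cj g (emb i x) = emb (σ i) (cj (a i) x)}
  one_mem' := ⟨1, 1, fun _ _ => by simp⟩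
  mul_mem' := by
    rintro g h ⟨σ, a, h1⟩ ⟨ρ, b, h2⟩
    exact ⟨σ * ρ, fun i => a (ρ i) * b i, fun i x => by rw [cj_mul, h2, h1, cj_mul]; rfl⟩
  inv_mem' := by
    rintro g ⟨σ, a, h1⟩
    refine ⟨σ⁻¹, fun i => (a (σ⁻¹ i))⁻¹, fun i x => (cj g).injective ?_⟩
    rw [h1]; simp

theorem wreath_le {m t : ℕ} : tensorWreathStandard m t F ≤ wrG (Fin t) (Fin m) F := by
  refine (Subgroup.closure_le _).2 ?_
  rintro g (⟨a, ha⟩ | ⟨σ, hσ⟩)
  · obtain rfl : g = ptG a := Units.ext (Matrix.ext ha)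
    exact ⟨1, a, cj_ptG a⟩
  · obtain rfl : g = pmG σ := Units.ext (Matrix.ext hσ)
    exact ⟨σ, 1, fun i x => by simp [cj_pmG]⟩

end wreath

theorem map_cj_mul (a b : GL ι F) (A : Subalgebra F (Matrix ι ι F)) :
    A.map (cj (a * b)).toAlgHom = (A.map (cj b).toAlgHom).map (cj a).toAlgHom := by
  rw [Subalgebra.map_map]; congr 1; exact AlgHom.ext (cj_mul a b)

theorem Big.not_wreath (h : Big G) {k t : ℕ} (hk : 2 ≤ k) (ht : 2 ≤ t) {e : ι ≃ (Fin t → Fin k)}
    {P : GL ι F} : ¬ G ≤ tensorWreathSubgroup k t e P := fun h1 => by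
  have hn : Fintype.card ι = k ^ t := by simpa using Fintype.card_congr e
  let φ := fun i : Fin t => (tr e P).toAlgHom.comp (emb (κ := Fin k) i)
  refine h.not_range hk (hn ▸ sq k ▸ Nat.pow_le_pow_right (by omega) ht) (φ ⟨0, by omega⟩)
    fun g hg x => ?_
  rw [← h.fix (x := (φ ⟨0, by omega⟩).range) (Set.range fun i => (φ i).range) (fun g A => A.map (cj g).toAlgHom)
    (fun A => by rw [show (cj 1).toAlgHom = AlgHom.id F _ from AlgHom.ext cj_one, Subalgebra.map_id])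
    map_cj_mul ?_ ((Finite.card_range_le _).trans (by
      simpa [hn] using (Nat.lt_pow_self (by omega)).le)) hg ⟨_, rfl⟩]
  · exact ⟨_, ⟨x, rfl⟩, rfl⟩
  rintro g hg _ ⟨j, rfl⟩
  obtain ⟨σ, a, h2⟩ := wreath_le (mem_map_tr.1 (h1 hg))
  have h3 : ∀ x, cj g (φ j x) = φ (σ j) (cj (a j) x) := fun x => by
    have := congrArg (tr e P) (h2 j x)
    rwa [map_cj, MulEquiv.apply_symm_apply] at this
  refine ⟨σ j, le_antisymm ?_ ?_⟩
  · rintro _ ⟨x, rfl⟩
    exact ⟨_, ⟨cj (a j)⁻¹ x, rfl⟩, (h3 _).trans (by rw [cj_cj_inv]; rfl)⟩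
  · rintro _ ⟨_, ⟨x, rfl⟩, rfl⟩
    exact ⟨_, (h3 x).symm⟩

theorem Big.not_real (h : Big G) {φ : F ≃+* F} (h1 : φ ≠ 1) {P : GL ι F} : ¬ Real φ P G := fun h2 =>
  h1 (h.cen φ (P * (GeneralLinearGroup.map (φ : F →+* F) P)⁻¹) fun l hl => by
    have := map_cj_inv (φ : F →+* F) P l
    rw [show (cj P⁻¹ (l : Matrix ι ι F)).map (φ : F →+* F) = _ from h2 l hl] at this
    rw [cj_mul, show cj (GeneralLinearGroup.map (φ : F →+* F) P)⁻¹ ((l : Matrix ι ι F).map φ) =
      cj P⁻¹ l from (cj _).symm_apply_eq.2 (cj_eq_iff.2 this).symm, cj_cj_inv]).1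

theorem comm_le_of_sup {A : Subgroup (GL ι F)} (h : G ≤ A ⊔ scalars ι F) : ⁅G, G⁆ ≤ A :=
  Subgroup.commutator_le.2 fun x hx y hy => by
    obtain ⟨a, ha, c, rfl⟩ := mem_sup_sc.1 (h hx)
    obtain ⟨b, hb, d, rfl⟩ := mem_sup_sc.1 (h hy)
    rw [commutatorElement_def, sc_mul_conj, conj_sc_mul, mul_assoc, _root_.mul_inv_rev, ← mul_assoc,
      ← mul_assoc, sc_comm, mul_assoc _ (sc d), sc_comm, ← mul_assoc, mul_inv_cancel_right]
    exact mul_mem (mul_mem (mul_mem ha hb) (inv_mem ha)) (inv_mem hb)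

theorem map_conj_sc (P : GL ι F) : (scalars ι F).map (MulAut.conj P).toMonoidHom = scalars ι F :=
  Subgroup.Normal.map_conj_eq _ P

theorem Big.not_subfield (h : Big G) {F₀ : Subfield F} {r : ℕ} (hr : 1 < r)
    (hF : Fintype.card F = Nat.card F₀ ^ r) {P : GL ι F} : ¬ G ≤ subfieldSubgroup F₀ P := fun h1 => by
  rw [subfieldSubgroup, Subgroup.map_sup, map_conj_sc] at h1
  have h2 := h.perf.ge.trans (comm_le_of_sup h1)
  obtain ⟨φ, Q, h3, h4⟩ := exists_real_of_realisable (L := G) (F₀ := F₀) (by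
    rintro rfl
    rw [Nat.card_congr Subfield.topEquiv.toEquiv, Nat.card_eq_fintype_card] at hF
    exact (Nat.pow_lt_pow_right Fintype.one_lt_card hr).ne ((pow_one _).trans hF)) ⟨P⁻¹, by
      rintro _ ⟨g, hg, rfl⟩ i j
      obtain ⟨_, ⟨a, rfl⟩, rfl⟩ := h2 hg
      simp only [← Units.val_mul]
      simp [mul_assoc]⟩
  exact h.not_real (by rintro rfl; simp [Nat.not_prime_one] at h3) h4

theorem Big.not_norm (h : Big G) {r : ℕ} (hr : r.Prime) (hR : IsPGroup r R) (h0 : ¬ R ≤ scalars ι F)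
    (hn : Nm R G) : ¬ G ≤ subgroupNormalizer R := fun h1 => by
  have := h.nonempty
  have := Fact.mk hr
  have h2 : Nm G R := nm_iff.2 h1
  rcases h.min ⁅G, R⁆ (comm_le_of_nm hn) (Nm.self.comm h2) with h3 | h3
  · refine h0 fun x hx => mem_sc.2 (h.isSc fun g hg => congrArg Units.val (comm_of_perfect h.perf
      (fun y hy => ?_) hg))
    exact (Subgroup.commutator_comm G R ▸ h3) (Subgroup.commutator_mem_commutator hx hy)
  · have h4 : G ≤ R := h3 ▸ Subgroup.commutator_comm G R ▸ comm_le_of_nm h2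
    have := (hR.to_le h4).isNilpotent
    have h5 : Subsingleton G := not_nontrivial_iff_subsingleton.1 fun _ =>
      (IsSolvable.commutator_lt_top_of_nontrivial G).ne ((commutator_eq_top_iff G).2 h.perf.ge)
    exact h.irr.not_le h.two fun g hg =>
      (show g = 1 from congrArg Subtype.val (Subsingleton.elim (⟨g, hg⟩ : G) 1)) ▸ one_mem _

theorem sm_of_perfect [Nonempty ι] (hp : ⁅G, G⁆ = G) {σ : F →+* F} {J : Matrix ι ι F} (hJ : IsUnit J)
    (h : ∀ g ∈ G, ∃ c, Sm σ J (g : Matrix ι ι F) c) {g : GL ι F} (hg : g ∈ G) :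
    Sm σ J (g : Matrix ι ι F) 1 := by
  choose c hc using fun g : G => h g g.2
  have := hom_eq_one hp (fun g => Units.mk0 (c g) ((hc g).ne_zero hJ))
    (fun a b => Units.ext ((hc _).unique hJ ((hc a).mul (hc b)))) ⟨g, hg⟩
  exact (show c ⟨g, hg⟩ = 1 from congrArg Units.val this) ▸ hc ⟨g, hg⟩

theorem _root_.Cfsg.Geo.IsMaximalIn.as_eq {X : Type*} [Group X] {G H M : Subgroup X}
    (h : IsMaximalIn G H) (h1 : H ≤ M) (h2 : ¬ G ≤ M) : H = M ⊓ G :=
  ((h.2 _ (le_inf h1 h.1.le) inf_le_right).resolve_right fun e => h2 (e ▸ inf_le_left)).symm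

end Cfsg.Agent.H4.As
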