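import Cfsg.Agent.H4.As7

/-! Extension field structures: basic tools. -/

namespace Cfsg.Agent.H4.Ex
open Module Submodule
open scoped commutatorElement

section max
variable {F : Type*} [Field F] {V : Type*} [AddCommGroup V] [Module F V] [FiniteDimensional F V]

theorem exists_max {P : Submodule F V → Prop} {A B : Submodule F V} (hA : P A) (hB : P B) (h : A ≠ B) :
    ∃ A' B', P A' ∧ P B' ∧ A' ≠ B' ∧ finrank F (A ⊓ B :) ≤ finrank F (A' ⊓ B' :) ∧
      ∀ C D, P C → P D → finrank F (A' ⊓ B' :) < finrank F (C ⊓ D :) → C = D := by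
  classical
  have ex : ∃ n, ∃ A' B', P A' ∧ P B' ∧ A' ≠ B' ∧ finrank F V - finrank F (A' ⊓ B' :) = n :=
    ⟨_, A, B, hA, hB, h, rfl⟩
  obtain ⟨A', B', h1, h2, h3, h4⟩ := Nat.find_spec ex
  refine ⟨A', B', h1, h2, h3, ?_, fun C D c1 c2 c3 => by_contra fun c4 => ?_⟩
  · have := Nat.find_min' ex ⟨A, B, hA, hB, h, rfl⟩
    have := (A ⊓ B).finrank_le
    omega
  · have := Nat.find_min' ex ⟨C, D, c1, c2, c4, rfl⟩
    have := (C ⊓ D).finrank_le
    omega

theorem lt_finrank_inf_map {J W : Submodule F V} (hJ : J ≤ W) {w : V} (hw : w ∈ W) (hw' : w ∉ J)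
    {a : V ≃ₗ[F] V} (h1 : ∀ x ∈ J, a x ∈ W) (h2 : a w ∈ W) :
    finrank F J < finrank F (W ⊓ W.map (a : V →ₗ[F] V) :) := by
  have : finrank F J < finrank F (J ⊔ span F {w} :) := finrank_lt_finrank_of_lt
    (lt_of_le_of_ne le_sup_left fun e => hw' (e ▸ mem_sup_right (mem_span_singleton_self w)))
  rw [← a.finrank_map_eq (J ⊔ span F {w})] at this
  refine this.trans_le (finrank_mono (le_inf ?_ (map_mono (sup_le hJ (by simpa)))))
  rintro _ ⟨y, hy, rfl⟩
  obtain ⟨x, hx, c, rfl⟩ := mem_sup_span_singleton.1 hy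
  simpa using add_mem (h1 x hx) (smul_mem _ c h2)

/-- the part of the unipotent radical of the stabiliser of `W` lying in `M` -/
def Lam (M : Subgroup (V ≃ₗ[F] V)) (W : Submodule F V) : AddSubgroup (V →ₗ[F] V) where
  carrier := {ρ | (∀ y, ρ y ∈ W) ∧ (∀ y ∈ W, ρ y = 0) ∧ ∃ g ∈ M, ∀ y, g y = y + ρ y}
  zero_mem' := ⟨by simp, by simp, 1, one_mem _, by simp⟩
  add_mem' := by
    rintro a b ⟨a1, a2, g, hg, a3⟩ ⟨b1, b2, g', hg', b3⟩
    exact ⟨fun y => add_mem (a1 y) (b1 y), fun y hy => by simp [a2 y hy, b2 y hy], g * g', mul_mem hg hg',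
      fun y => by simp [a3, b3, a2 _ (b1 y)]; abel⟩
  neg_mem' := by
    rintro a ⟨a1, a2, g, hg, a3⟩
    exact ⟨fun y => neg_mem (a1 y), fun y hy => by simp [a2 y hy], g⁻¹, inv_mem hg,
      fun y => g.injective (by
        rw [a3 (y + _)]; exact (g.apply_symm_apply y).trans (by simp [a2 _ (a1 y)]))⟩

omit [FiniteDimensional F V] in
theorem Lam.conj {M : Subgroup (V ≃ₗ[F] V)} {W W' : Submodule F V} {ρ : V →ₗ[F] V} (h : ρ ∈ Lam M W)
    {a : V ≃ₗ[F] V} (ha : a ∈ M) (h1 : W.map (a : V →ₗ[F] V) = W') :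
    (a : V →ₗ[F] V) ∘ₗ ρ ∘ₗ ((a⁻¹ : V ≃ₗ[F] V) : V →ₗ[F] V) ∈ Lam M W' := by
  obtain ⟨a1, a2, g, hg, a3⟩ := h
  subst h1
  exact ⟨fun y => mem_map_of_mem (a1 _), fun y hy => by simpa using a2 _ (mem_map_equiv'.1 hy),
    a * g * a⁻¹, mul_mem (mul_mem ha hg) (inv_mem ha), fun y => by simp [a3]⟩

omit [FiniteDimensional F V] in
theorem Lam.dt {M : Subgroup (V ≃ₗ[F] V)} {W : Submodule F V} {χ : V →ₗ[F] F} {z : V}
    (h : χ.smulRight z ∈ Lam M W) (h0 : z ≠ 0) (hz : z ∈ W) : χ z = 0 ∧ H4.dt χ z ∈ M := by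
  obtain ⟨-, a2, g, hg, a3⟩ := h
  have : χ z = 0 := by simpa [h0] using a2 z hz
  exact ⟨this, by rwa [show H4.dt χ z = g from LinearEquiv.ext fun y => by rw [dt_apply this, a3]; rfl]⟩

end max

variable {F K : Type*} [Field F] [Field K] [Algebra F K] {V : Type*} [AddCommGroup V] [Module F V]
  [Module K V] [IsScalarTower F K V]

variable (F) in
/-- restriction of scalars -/
def rs : (V ≃ₗ[K] V) →* (V ≃ₗ[F] V) where
  toFun g := g.restrictScalars F
  map_one' := rfl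
  map_mul' _ _ := rfl

@[simp] theorem rs_apply (g : V ≃ₗ[K] V) (v : V) : rs F g v = g v := rfl

theorem det_rs (g : V ≃ₗ[K] V) :
    ((LinearEquiv.det (rs F g) : Fˣ) : F) = Algebra.norm F ((LinearEquiv.det g : Kˣ) : K) := by
  rw [LinearEquiv.coe_det, LinearEquiv.coe_det, ← LinearMap.det_restrictScalars]; rfl

variable (F K V) in
/-- the normaliser of `K` -/
def NK : Subgroup (V ≃ₗ[F] V) where
  carrier := {g | (∀ k : K, ∃ k' : K, ∀ v, g (k • v) = k' • g v) ∧
    ∀ k : K, ∃ k' : K, ∀ v, g (k' • v) = k • g v}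
  one_mem' := ⟨fun k => ⟨k, fun _ => rfl⟩, fun k => ⟨k, fun _ => rfl⟩⟩
  mul_mem' := by
    rintro a b ⟨a1, a2⟩ ⟨b1, b2⟩
    refine ⟨fun k => ?_, fun k => ?_⟩
    · obtain ⟨k', h⟩ := b1 k; obtain ⟨k'', h'⟩ := a1 k'; exact ⟨k'', fun v => by simp [h, h']⟩
    · obtain ⟨k', h⟩ := a2 k; obtain ⟨k'', h'⟩ := b2 k'; exact ⟨k'', fun v => by simp [h, h']⟩
  inv_mem' := by
    rintro a ⟨a1, a2⟩
    refine ⟨fun k => ?_, fun k => ?_⟩
    · obtain ⟨k', h⟩ := a2 k; exact ⟨k', fun v => a.injective (by simp [h])⟩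
    · obtain ⟨k', h⟩ := a1 k; exact ⟨k', fun v => a.injective (by simp [h])⟩

theorem rs_mem_NK (g : V ≃ₗ[K] V) : rs F g ∈ NK F K V :=
  ⟨fun k => ⟨k, fun v => by simp⟩, fun k => ⟨k, fun v => by simp⟩⟩

omit [Algebra F K] [IsScalarTower F K V] in
theorem mem_NK_of [Finite K] [Nontrivial V] {g : V ≃ₗ[F] V}
    (h : ∀ k : K, ∃ k' : K, ∀ v, g (k • v) = k' • g v) : g ∈ NK F K V := by
  refine ⟨h, fun k => ?_⟩
  choose f hf using h
  obtain ⟨v, hv⟩ := exists_ne (0 : V)
  obtain ⟨k', rfl⟩ := Finite.injective_iff_surjective.1 (show Function.Injective f from fun a b e =>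
    smul_left_injective K hv (g.injective (by simp only [hf, e]))) k
  exact ⟨k', hf k'⟩

variable (F K) in
/-- the `K`-point through a vector -/
def pt (v : V) : Submodule F V := (span K {v}).restrictScalars F

theorem mem_pt {v x : V} : x ∈ pt F K v ↔ ∃ k : K, k • v = x := mem_span_singleton

theorem smul_mem_pt (k : K) (v : V) : k • v ∈ pt F K v := mem_pt.2 ⟨k, rfl⟩

theorem self_mem_pt (v : V) : v ∈ pt F K v := mem_span_singleton_self v

theorem ker_pt {v x : V} (hx : x ∈ pt F K v) {ψ : V →ₗ[K] K} (h : ψ v = 0) : ψ x = 0 := by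
  obtain ⟨k, rfl⟩ := mem_pt.1 hx; simp [h]

theorem finrank_pt {v : V} (h : v ≠ 0) : finrank F (pt F K v) = finrank F K :=
  ((LinearEquiv.toSpanNonzeroSingleton K V v h).restrictScalars F).finrank_eq.symm

theorem map_pt (g : V ≃ₗ[K] V) (v : V) : (pt F K v).map (rs F g : V →ₗ[F] V) = pt F K (g v) := by
  ext x
  simp only [mem_map, mem_pt]
  exact ⟨by rintro ⟨_, ⟨k, rfl⟩, rfl⟩; exact ⟨k, by simp⟩, by rintro ⟨k, rfl⟩; exact ⟨_, ⟨k, rfl⟩, by simp⟩⟩

theorem kappa [FiniteDimensional F V] {g : V ≃ₗ[F] V} {k a b : K} {v w : V}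
    (h : ∀ k : K, g (k • v) ∈ pt F K (g v)) (h0 : v ≠ 0) (hw : w ∉ span K {v}) (h1 : g (k • v) = a • g v)
    (h2 : g (k • w) = b • g w) (h3 : g (k • (v + w)) ∈ pt F K (g (v + w))) : a = b := by
  have hg : g w ∉ span K {g v} := fun e => hw (by
    have : (pt F K v).map (g : V →ₗ[F] V) = pt F K (g v) := map_eq_of_le
      (fun x hx => by obtain ⟨k, rfl⟩ := mem_pt.1 hx; exact h k)
      (by rw [finrank_pt h0, finrank_pt (by simpa using h0)])
    simpa [pt] using mem_map_equiv'.1 (this ▸ e : g w ∈ (pt F K v).map (g : V →ₗ[F] V)))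
  obtain ⟨c, hc⟩ := mem_pt.1 h3
  rw [smul_add k, map_add, map_add, h1, h2] at hc
  have e1 : c = b := by_contra fun e => hg (mem_span_singleton.2 ⟨(a - c) / (c - b), by
    have := sub_ne_zero.2 e
    rw [div_eq_inv_mul, mul_smul, inv_smul_eq_iff₀ this]
    linear_combination (norm := module) -hc⟩)
  subst e1
  exact smul_left_injective K (show g v ≠ 0 by simpa using h0) (by
    show a • g v = c • g v; linear_combination (norm := module) -hc)

theorem mem_NK_of_pts [Finite K] [FiniteDimensional F V] (h2 : 2 ≤ finrank K V) {g : V ≃ₗ[F] V}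
    (h : ∀ (v : V) (k : K), g (k • v) ∈ pt F K (g v)) : g ∈ NK F K V := by
  haveI : FiniteDimensional K V := .of_finrank_pos (by omega)
  haveI : Nontrivial V := nontrivial_of_finrank_pos (R := K) (by omega)
  obtain ⟨v, hv⟩ := exists_ne (0 : V)
  refine mem_NK_of fun k => ?_
  obtain ⟨a, ha⟩ := mem_pt.1 (h v k)
  refine ⟨a, fun w => ?_⟩
  obtain ⟨b, hb⟩ := mem_pt.1 (h w k)
  by_cases w0 : w = 0
  · simp [w0]
  rw [← hb]; congr 1
  by_cases e : w ∈ span K {v}
  · obtain ⟨u, -, hu⟩ := exists_notMem_of_finrank_lt (U := span K {v}) (W := ⊤) (by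
      have := finrank_span_singleton_le (F := K) v; rw [finrank_top]; omega)
    obtain ⟨c, hc⟩ := mem_pt.1 (h u k)
    rw [kappa (h v) hv hu ha.symm hc.symm (h _ k),
      kappa (h w) w0 (fun e' => hu (span_le.2 (by simpa) e')) hb.symm hc.symm (h _ k)]
  · exact (kappa (h v) hv e ha.symm hb.symm (h _ k)).symm

theorem exists_psi [FiniteDimensional F K] {τ : K →ₗ[F] F} (hτ : τ ≠ 0) (χ : V →ₗ[F] F) :
    ∃ ψ : V →ₗ[K] K, ∀ (k : K) v, τ (k * ψ v) = χ (k • v) := by
  have inj : ∀ a : K, (∀ k, τ (k * a) = 0) → a = 0 := fun a h => by_contra fun a0 => hτ (LinearMap.ext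
    fun k => by simpa [a0] using h (k * a⁻¹))
  have ext : ∀ a b : K, (∀ k, τ (k * a) = τ (k * b)) → a = b := fun a b h =>
    sub_eq_zero.1 (inj _ fun k => by rw [mul_sub, map_sub, h, sub_self])
  let B : K →ₗ[F] Dual F K := (LinearMap.mul F K).flip.compr₂ τ
  have hB : Function.Surjective B := (LinearMap.injective_iff_surjective_of_finrank_eq_finrank
    (Subspace.dual_finrank_eq).symm).1 ((injective_iff_map_eq_zero _).2 fun a h => inj a fun k => congr($h k))
  have : ∀ v : V, ∃ a : K, ∀ k, τ (k * a) = χ (k • v) := fun v => by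
    obtain ⟨a, ha⟩ := hB (χ ∘ₗ (LinearMap.toSpanSingleton K V v).restrictScalars F)
    exact ⟨a, fun k => congr($ha k)⟩
  choose f hf using this
  exact ⟨⟨⟨f, fun a b => ext _ _ fun k => by rw [mul_add, map_add, hf, hf, hf, smul_add, map_add]⟩,
    fun c a => ext _ _ fun k => by simp [← mul_assoc, hf, mul_smul]⟩, fun k v => hf v k⟩

theorem subring_top [Fintype F] [Finite K] (h2 : 2 ≤ finrank F K) (R : Subring K)
    (h : ∀ x : K, x ≠ 0 → Algebra.norm F x = 1 → x ∈ R) : R = ⊤ := by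
  classical
  haveI := Fintype.ofFinite K
  by_contra hR
  obtain ⟨y, hy⟩ : ∃ y, y ∉ R := by by_contra! e; exact hR (eq_top_iff.2 fun x _ => e x)
  have hK1 := Fintype.one_lt_card (α := K)
  have h1 : Nat.card R * Nat.card R ≤ Nat.card K := by
    rw [← Nat.card_prod]
    refine Nat.card_le_card_of_injective (fun p : R × R => (p.1 : K) + p.2 * y) fun p q e => ?_
    have e2 : p.2 = q.2 := by_contra fun e' => hy (by
      have h0 : (p.2 : K) - q.2 ≠ 0 := sub_ne_zero.2 (Subtype.coe_ne_coe.2 e')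
      have h3 := FiniteField.pow_card_sub_one_eq_one _ h0
      obtain ⟨n, hn⟩ : ∃ n, Fintype.card K - 1 = n + 1 := ⟨Fintype.card K - 2, by omega⟩
      rw [hn, pow_succ] at h3
      have : y = ((p.2 : K) - q.2) ^ n * (q.1 - p.1) := by
        simp only at e; linear_combination -y * h3 + ((p.2 : K) - q.2) ^ n * e
      rw [this]
      exact mul_mem (pow_mem (sub_mem p.2.2 q.2.2) _) (sub_mem q.1.2 p.1.2))
    simp only [e2, add_left_inj] at e
    exact Prod.ext (Subtype.ext e) e2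
  let N := Units.map (Algebra.norm F (S := K))
  have h3 := card_eq_card_ker_mul_of_surjective N (FiniteField.unitsMap_norm_surjective F K)
  have h4 : Nat.card N.ker + 1 ≤ Nat.card R := by
    rw [← Finite.card_option]
    refine Nat.card_le_card_of_injective (fun o : Option N.ker => o.elim 0 fun u =>
      ⟨(u.1 : K), h _ u.1.ne_zero congr(($(u.2) : F))⟩) ?_
    rintro (_ | a) (_ | b) e
    · rfl
    · exact absurd congr(($e : K)).symm b.1.ne_zero
    · exact absurd congr(($e : K)) a.1.ne_zero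
    · exact congrArg some (Subtype.ext (Units.ext congr(($e : K))))
  rw [card_units_field, card_units_field] at h3
  have h5 : Fintype.card F ^ 2 ≤ Fintype.card K := by
    rw [Module.card_eq_pow_finrank (K := F) (V := K)]
    exact Nat.pow_le_pow_right Fintype.card_pos h2
  have hF := Fintype.one_lt_card (α := F)
  rw [Nat.card_eq_fintype_card (α := K)] at h1
  obtain ⟨q, hq⟩ : ∃ q, Fintype.card F = q + 1 := ⟨Fintype.card F - 1, by omega⟩
  obtain ⟨n, hn⟩ : ∃ n, Fintype.card K = n + 1 := ⟨Fintype.card K - 1, by omega⟩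
  rw [hq, hn] at h5 h3
  rw [hn] at h1
  simp only [Nat.add_sub_cancel] at h3
  generalize Nat.card N.ker = s at *
  have : (s + 1) * (s + 1) ≤ n + 1 := (Nat.mul_le_mul h4 h4).trans h1
  nlinarith

theorem smul_mem_of_norm [Fintype F] [Finite K] (h2 : 2 ≤ finrank F K) {X : Type*} [AddCommGroup X]
    [Module K X] (S : AddSubgroup X) (h : ∀ b : K, b ≠ 0 → Algebra.norm F b = 1 → ∀ x ∈ S, b • x ∈ S)
    (k : K) {x : X} (hx : x ∈ S) : k • x ∈ S := by
  let R : Subring K :=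
    { carrier := {k | ∀ x ∈ S, k • x ∈ S}
      mul_mem' := fun ha hb x hx => by rw [mul_smul]; exact ha _ (hb x hx)
      one_mem' := fun x hx => by simpa
      add_mem' := fun ha hb x hx => by rw [add_smul]; exact add_mem (ha x hx) (hb x hx)
      zero_mem' := fun x hx => by simp
      neg_mem' := fun ha x hx => by rw [neg_smul]; exact neg_mem (ha x hx) }
  exact ((subring_top h2 R h).ge (Subring.mem_top k) :) x hx

theorem mem_bot_of_stab (hr : (finrank F K).Prime) {J : Submodule F V} {v x : V} (hJ : J < pt F K v)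
    (hx : x ∈ J) (h0 : x ≠ 0) {k : K} (hk : ∀ y ∈ J, k • y ∈ J) : ∃ c : F, algebraMap F K c = k := by
  let S : Subalgebra F K :=
    { carrier := {k | ∀ x ∈ J, k • x ∈ J}
      mul_mem' := fun ha hb x hx => by rw [mul_smul]; exact ha _ (hb x hx)
      add_mem' := fun ha hb x hx => by rw [add_smul]; exact add_mem (ha x hx) (hb x hx)
      algebraMap_mem' := fun c x hx => by rw [algebraMap_smul]; exact smul_mem _ _ hx }
  rcases (Subalgebra.isSimpleOrder_of_finrank_prime F K hr).eq_bot_or_eq_top S with e | e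
  · exact Algebra.mem_bot.1 (e ▸ hk : k ∈ (⊥ : Subalgebra F K))
  · refine (hJ.not_ge fun y hy => ?_).elim
    obtain ⟨a, rfl⟩ := mem_pt.1 (hJ.le hx)
    obtain ⟨b, rfl⟩ := mem_pt.1 hy
    have a0 : a ≠ 0 := by rintro rfl; simp at h0
    simpa [smul_smul, a0] using (e.ge (Algebra.mem_top (x := b / a)) :) _ hx

section geo
variable {ι : Type} [Fintype ι] [DecidableEq ι] {r : ℕ} {A : Subalgebra F (Matrix ι ι F)}

theorem isField [Nonempty ι] (h : Geo.IsFieldSubalgebra r A) : IsField A where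
  exists_pair_ne := ⟨0, 1, zero_ne_one⟩
  mul_comm x y := Subtype.ext (h.comm _ x.2 _ y.2)
  mul_inv_cancel {x} h0 := by
    obtain ⟨y, hy, e⟩ := h.inv _ x.2 fun e => h0 (Subtype.ext e)
    exact ⟨⟨y, hy⟩, Subtype.ext e⟩

/-- the action of a subalgebra on column vectors -/
abbrev modA (A : Subalgebra F (Matrix ι ι F)) : Module A (ι → F) :=
  Module.compHom (ι → F) (Matrix.toLinAlgEquiv'.toAlgHom.comp A.val).toRingHom

theorem mem_norm [Module A (ι → F)] (hs : ∀ (k : A) v, k • v = (k : Matrix ι ι F).mulVec v) {g : GL ι F} :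
    g ∈ Geo.subalgebraNormalizer A ↔ (∀ k : A, ∃ k' : A, ∀ v, glE g (k • v) = k' • glE g v) ∧
      ∀ k : A, ∃ k' : A, ∀ v, glE g (k' • v) = k • glE g v := by
  simp only [hs, glE_apply]
  refine ⟨fun h => ⟨fun k => ⟨⟨As.cj g k, (h k).1 k.2⟩, fun v => (As.cj_mulVec g k v).symm⟩,
    fun k => ⟨⟨As.cj g⁻¹ k, (h _).2 (by rw [← As.cj_apply]; simp)⟩, fun v => by
      rw [← As.cj_mulVec]; simp⟩⟩, fun ⟨h1, h2⟩ k => ⟨fun hk => ?_, fun hk => ?_⟩⟩
  · obtain ⟨k', h⟩ := h1 ⟨k, hk⟩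
    rw [← As.cj_apply, As.cj_eq_iff.2 (As.eq_of_mulVec fun v => by
      rw [← Matrix.mulVec_mulVec, ← Matrix.mulVec_mulVec]; exact h v)]
    exact k'.2
  · obtain ⟨k', h⟩ := h2 ⟨_, hk⟩
    rw [show k = k' from As.eq_of_mulVec fun v => (glE g).injective (by
      simpa [← As.cj_apply, As.cj_mulVec] using (h v).symm)]
    exact k'.2

end geo

end Cfsg.Agent.H4.Ex
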