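import Cfsg.Agent.H4.Ex1

/-! Extension field normalisers of prime degree are maximal in `SL` and `GL`. -/

namespace Cfsg.Agent.H4.Ex
open Module Submodule
open scoped commutatorElement

variable {F K : Type*} [Field F] [Field K] [Algebra F K] {V : Type*} [AddCommGroup V] [Module F V]
  [Module K V] [IsScalarTower F K V]

/-- an `F`-functional from a `K`-functional -/
abbrev tc (τ : K →ₗ[F] F) (ψ : V →ₗ[K] K) : V →ₗ[F] F := τ ∘ₗ ψ.restrictScalars F

theorem exists_ker_ne (h2 : 2 ≤ finrank K V) (ψ : V →ₗ[K] K) : ∃ n, n ≠ 0 ∧ ψ n = 0 := by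
  haveI : FiniteDimensional K V := .of_finrank_pos (by omega)
  obtain ⟨n, h1, h0⟩ := exists_notMem_of_finrank_lt (U := ⊥) (W := LinearMap.ker ψ) (by
    have := finrank_ker_dual_ge ψ; rw [finrank_bot]; omega)
  exact ⟨n, by simpa using h0, h1⟩

theorem exists_eq_of_ne {ψ : V →ₗ[K] K} (h : ψ ≠ 0) (c : K) : ∃ u, ψ u = c := by
  obtain ⟨u, hu⟩ : ∃ u, ψ u ≠ 0 := by by_contra! e; exact h (LinearMap.ext e)
  exact ⟨(c / ψ u) • u, by simp [hu]⟩

theorem SL_of_tr [FiniteDimensional F K] [FiniteDimensional F V] (h2 : 2 ≤ finrank K V)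
    {M : Subgroup (V ≃ₗ[F] V)} (hM : ∀ (ψ : V →ₗ[K] K) u, ψ u = 0 → rs F (dt ψ u) ∈ M) {χ : V →ₗ[F] F}
    (h0 : χ ≠ 0) {p : V} (hp : p ≠ 0) (h : ∀ k : K, χ (k • p) = 0 ∧ dt χ (k • p) ∈ M) : SLg F V ≤ M := by
  obtain ⟨τ, hτ⟩ := exists_dual_of_ne (F := F) (one_ne_zero (α := K)) 1
  have τ0 : τ ≠ 0 := by rintro rfl; simp at hτ
  have psi : ∀ χ : V →ₗ[F] F, ∃ ψ : V →ₗ[K] K, χ = tc τ ψ := fun χ => by
    obtain ⟨ψ, e⟩ := exists_psi τ0 χ
    exact ⟨ψ, LinearMap.ext fun v => by simpa using (e 1 v).symm⟩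
  obtain ⟨ψ, rfl⟩ := psi χ
  have ψ0 : ψ ≠ 0 := by rintro rfl; exact h0 (LinearMap.ext fun v => by simp)
  have ψp : ψ p = 0 := by_contra fun e => by simpa [e, hτ] using (h (ψ p)⁻¹).1
  let P : (V →ₗ[K] K) → Prop := fun ψ => ∀ u, ψ u = 0 → u ∈ cns M (tc τ ψ)
  have step : ∀ ψ ψ' u, ψ u = 1 → ψ' u = 1 → P ψ → P ψ' := fun ψ ψ' u e e' hP x hx => by
    have e1 : (ψ - ψ') u = 0 := by simp [e, e']
    have e2 : ∀ y, ψ' (dt (ψ - ψ') u y) = ψ y := fun y => by simp [dt_apply e1, e']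
    obtain ⟨a, rfl⟩ := (dt (ψ - ψ') u).surjective x
    refine ⟨by simp [hx], dt_mem_of_conj' (hM _ _ e1) ?_⟩
    convert (hP a (by rw [← e2, hx])).2 using 2
    ext y; simp [e2]
  have hP : P ψ := fun u hu => by
    by_cases e : u ∈ span K {p}
    · obtain ⟨k, rfl⟩ := mem_span_singleton.1 e; exact h k
    obtain ⟨θ, -, t1, t2⟩ := exists_dual_two (U := ⊥) (u := p) (v := u) (by simpa) (by simpa) 1 (0 : K)
    have : rs F (dt θ u) p ∈ cns M (tc τ ψ) := ⟨by simp [dt_apply t2, hu, ψp], dt_mem_of_conj' (hM _ _ t2) (by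
      convert (h 1).2 using 2
      · ext y; simp [dt_apply t2, hu]
      · simp)⟩
    simpa [dt_apply t2, t1] using sub_mem this (show p ∈ cns M (tc τ ψ) from mem_cns.2 (by simpa using h 1))
  have all : ∀ ψ', P ψ' := fun ψ' => by
    by_cases e : ψ' = 0
    · subst e; exact fun u _ => ⟨by simp, by rw [show tc τ (0 : V →ₗ[K] K) = 0 by ext; simp]; simp⟩
    obtain ⟨u, hu⟩ := exists_eq_of_ne ψ0 1
    obtain ⟨u', hu', e'⟩ : ∃ u', ψ' u' = 1 ∧ u' ∉ span K {u} := by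
      obtain ⟨u', hu'⟩ := exists_eq_of_ne e 1
      obtain ⟨n, n0, hn⟩ := exists_ker_ne h2 ψ'
      by_contra! hc
      obtain ⟨a, rfl⟩ := mem_span_singleton.1 (hc u' hu')
      obtain ⟨b, hb⟩ := mem_span_singleton.1 (sub_mem (hc (a • u + n) (by simp [hn, ← hu'])) (hc _ hu'))
      rw [add_sub_cancel_left] at hb; subst hb
      have : ψ' u ≠ 0 := fun e => by simp [e] at hu'
      simp [this] at hn; simp [hn] at n0
    obtain ⟨θ, -, t1, t2⟩ := exists_dual_two (U := ⊥) (u := u) (v := u') (by rintro rfl; simp at hu)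
      (by simpa) 1 (1 : K)
    exact step _ _ _ t2 hu' (step _ _ _ hu t1 hP)
  refine SLg_le_of_tr fun φ a ha => ?_
  obtain ⟨ψ', rfl⟩ := psi φ
  by_cases e : ψ' a = 0
  · exact (all _ _ e).2
  obtain ⟨n, n0, hn⟩ := exists_ker_ne h2 ψ'
  obtain ⟨θ, t1, t2⟩ := exists_dual_pair (F := K) (u := a) (v := n) (fun e' => by
    obtain ⟨b, rfl⟩ := mem_span_singleton.1 e'
    simp [e] at hn; simp [hn] at n0) (-1)
  have := commutator_dt (all _ _ hn).1 (all _ _ t1).1 ha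
  rw [show dt (tc τ ψ') a = _ by simpa [t2, hτ] using this.symm, commutatorElement_def]
  exact mul_mem (mul_mem (mul_mem (all _ _ hn).2 (all _ _ t1).2) (inv_mem (all _ _ hn).2))
    (inv_mem (all _ _ t1).2)

omit [Algebra F K] [IsScalarTower F K V] in
theorem Lam.conj' {M : Subgroup (V ≃ₗ[F] V)} {W W' : Submodule F V} {ρ ρ' : V →ₗ[F] V} (h : ρ ∈ Lam M W)
    {a : V ≃ₗ[F] V} (ha : a ∈ M) (h1 : W.map (a : V →ₗ[F] V) = W') (e : ∀ y, ρ' (a y) = a (ρ y)) :
    ρ' ∈ Lam M W' := by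
  convert Lam.conj h ha h1 using 1
  ext y
  obtain ⟨y, rfl⟩ := a.surjective y
  simp [e]

omit [Algebra F K] [IsScalarTower F K V] in
theorem mapi (g : V ≃ₗ[F] V) (W : Submodule F V) :
    (W.map (g : V →ₗ[F] V)).map ((g⁻¹ : V ≃ₗ[F] V) : V →ₗ[F] V) = W := by
  ext y; rw [mem_map_equiv', mem_map_equiv', inv_inv]; exact (g.symm_apply_apply y).symm ▸ Iff.rfl

variable [Fintype F] [Finite K] [FiniteDimensional F V] {M : Subgroup (V ≃ₗ[F] V)}

omit [Fintype F] [Finite K] in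
theorem rs_mem (hM : NK F K V ⊓ SLg F V ≤ M) {g : V ≃ₗ[K] V}
    (h : Algebra.norm F ((LinearEquiv.det g : Kˣ) : K) = 1) : rs F g ∈ M :=
  hM ⟨rs_mem_NK g, Units.ext ((det_rs g).trans h)⟩

omit [Fintype F] [Finite K] in
theorem rs_dt_mem (hM : NK F K V ⊓ SLg F V ≤ M) (ψ : V →ₗ[K] K) (u : V) (h : ψ u = 0) :
    rs F (dt ψ u) ∈ M := by
  haveI := Module.Finite.of_restrictScalars_finite F K V
  exact rs_mem hM (by rw [mem_SLg.1 (dt_mem_SLg h)]; simp)

omit [Fintype F] [Finite K] in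
theorem Lam.lin (hM : NK F K V ⊓ SLg F V ≤ M) {η : V →ₗ[K] K} {p : V} (h : η p = 0) :
    (η.smulRight p).restrictScalars F ∈ Lam M (pt F K p) :=
  ⟨fun y => smul_mem_pt _ _, fun y hy => by simp [ker_pt hy h], _, rs_dt_mem hM η p h,
    fun y => by simp [dt_apply h]⟩

theorem Lam.ksmul (hr : 2 ≤ finrank F K) (hM : NK F K V ⊓ SLg F V ≤ M) {p : V} (hp : p ≠ 0) (k : K)
    {ρ : V →ₗ[F] V} (h : ρ ∈ Lam M (pt F K p)) : k • ρ ∈ Lam M (pt F K p) := by
  haveI := Module.Finite.of_restrictScalars_finite F K V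
  refine smul_mem_of_norm hr _ (fun b b0 hb ρ h => ?_) k h
  obtain ⟨θ, hθ⟩ := exists_dual_of_ne hp (1 : K)
  have e : 1 + θ ((b - 1) • p) = b := by simp [hθ]
  have e1 : ∀ y ∈ pt F K p, H4.dt θ ((b - 1) • p) y = b • y := fun y hy => by
    obtain ⟨k, rfl⟩ := mem_pt.1 hy
    rw [dt_apply' (e.symm ▸ b0)]; simp only [map_smul, hθ, smul_eq_mul]; module
  refine Lam.conj' h (rs_mem hM (g := H4.dt θ ((b - 1) • p)) (by rw [det_dt (e.symm ▸ b0), e, hb]))
    ((map_pt _ _).trans (le_antisymm ?_ ?_)) fun y => ?_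
  rotate_right
  · have := h.2.1 _ (smul_mem_pt (θ y * (b - 1)) p)
    rw [rs_apply, rs_apply, e1 _ (h.1 _)]
    simp [dt_apply' (e.symm ▸ b0), smul_smul, this]
  · intro y hy
    obtain ⟨k, rfl⟩ := mem_pt.1 hy
    rw [e1 _ (self_mem_pt p), smul_smul]; exact smul_mem_pt _ _
  · intro y hy
    obtain ⟨k, rfl⟩ := mem_pt.1 hy
    exact mem_pt.2 ⟨k / b, by rw [e1 _ (self_mem_pt p), smul_smul, div_mul_cancel₀ _ b0]⟩

theorem SL_of_lam (hr : 2 ≤ finrank F K) (h2 : 2 ≤ finrank K V) (hM : NK F K V ⊓ SLg F V ≤ M) {p : V}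
    (hp : p ≠ 0) {ρ : V →ₗ[F] V} (h : ρ ∈ Lam M (pt F K p)) {χ : V →ₗ[F] F} (h0 : χ ≠ 0) {c : K}
    (hc : c ≠ 0) (e : ∀ y, ρ y = χ y • c • p) : SLg F V ≤ M := by
  refine SL_of_tr h2 (rs_dt_mem hM) h0 hp fun k => ?_
  by_cases k0 : k = 0
  · simp [k0]
  refine Lam.dt ?_ (smul_ne_zero k0 hp) (smul_mem_pt _ _)
  convert Lam.ksmul hr hM hp (k / c) h using 1
  ext y
  simp only [LinearMap.smulRight_apply, LinearMap.smul_apply, e]
  rw [smul_comm (k / c), smul_smul (k / c), div_mul_cancel₀ _ hc]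

theorem special (hq : Fintype.card F = 2) (hr : finrank F K = 2) (hm : finrank K V = 2)
    (hM : NK F K V ⊓ SLg F V ≤ M) {g : V ≃ₗ[F] V} (hg : g ∈ M) {p : V} (hp : p ≠ 0) {ω : K}
    (hω : ∀ c : F, algebraMap F K c ≠ ω) (hw : g (ω • p) ∉ span K {g p}) : SLg F V ≤ M := by
  haveI := Fintype.ofFinite K
  haveI := Module.Finite.of_restrictScalars_finite F K V
  haveI : Nontrivial V := nontrivial_of_ne _ _ hp
  have k4 : ∀ k : K, k ^ 4 = k := fun k => by
    simpa [Module.card_eq_pow_finrank (K := F) (V := K), hq, hr] using FiniteField.pow_card k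
  have c2 : (2 : K) = 0 := by
    have := congrArg (algebraMap F K) (FiniteField.cast_card_eq_zero F)
    rwa [hq, map_natCast, map_zero] at this
  have ω0 : ω ≠ 0 := fun e => hω 0 (by simp [e])
  have ω1 : ω ≠ 1 := fun e => hω 1 (by simp [e])
  have hω2 : ω ^ 2 + ω + 1 = 0 := by have := k4 ω; grind
  have kk : ∀ k : K, k = 0 ∨ k = 1 ∨ k = ω ∨ k = ω + 1 := fun k => by have := k4 k; grind
  have SL : ∀ a, a ∈ SLg F V := fun a => by
    classical
    haveI : Subsingleton Fˣ := Fintype.card_le_one_iff_subsingleton.1 (by simp [Fintype.card_units, hq])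
    exact Subsingleton.elim _ _
  set τ := Algebra.trace F K
  have hτ : ∀ k, algebraMap F K (τ k) = k + k ^ 2 := fun k => by
    simp [τ, FiniteField.algebraMap_trace_eq_sum_pow, hr, hq, Finset.sum_range_succ]
  have hτ' : ∀ k (v : V), τ k • v = (k + k ^ 2) • v := fun k v => by rw [← hτ, algebraMap_smul]
  have τ0 : ∀ k, k + k ^ 2 = 0 → τ k = 0 := fun k h => (algebraMap F K).injective (by simp [hτ, h])
  set x := g p with hx
  set w := g (ω • p) with hw'
  have x0 : x ≠ 0 := by simpa [x]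
  obtain ⟨ψ₁, -, a1, a2⟩ := exists_dual_two (U := ⊥) (u := x) (v := w) (by simpa) (by simpa) 1 (0 : K)
  obtain ⟨ψ₂, -, a3, a4⟩ := exists_dual_two (U := ⊥) (u := x) (v := w) (by simpa) (by simpa) 0 (1 : K)
  have sp : ∀ y, ∃ s t : K, y = s • x + t • w := fun y => by
    have : span K {x} ⊔ span K {w} = ⊤ := eq_top_of_finrank_eq (le_antisymm (finrank_le _) (by
      have := finrank_lt_finrank_of_lt (lt_of_le_of_ne (le_sup_left (a := span K {x}) (b := span K {w}))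
        fun e => hw (e.ge (mem_sup_right (mem_span_singleton_self w))))
      rw [finrank_span_singleton x0] at this; omega))
    obtain ⟨_, h, t, rfl⟩ := mem_sup_span_singleton.1 (this.ge (mem_top (x := y)))
    obtain ⟨s, rfl⟩ := mem_span_singleton.1 h
    exact ⟨s, t, rfl⟩
  have gω : g (ω • ω • p) = x + w := by
    rw [← map_add]; congr 1; match_scalars; grind
  have hW : ∀ y ∈ (pt F K p).map (g : V →ₗ[F] V), y = 0 ∨ y = x ∨ y = w ∨ y = x + w := by
    rintro _ ⟨_, hy, rfl⟩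
    obtain ⟨k, rfl⟩ := mem_pt.1 hy
    rcases kk k with rfl | rfl | rfl | rfl <;> simp [x, w, add_smul, add_comm]
  have xW : x ∈ (pt F K p).map (g : V →ₗ[F] V) := mem_map_of_mem (self_mem_pt p)
  have wW : w ∈ (pt F K p).map (g : V →ₗ[F] V) := mem_map_of_mem (smul_mem_pt ω p)
  let ρ := (tc τ ψ₁).smulRight x + (tc τ ψ₂).smulRight w
  have ρa : ∀ s t : K, ρ (s • x + t • w) = τ s • x + τ t • w := fun s t => by simp [ρ, a1, a2, a3, a4]
  have t1 : τ 1 = 0 := τ0 _ (by grind)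
  have hρ : ρ ∈ Lam M ((pt F K p).map (g : V →ₗ[F] V)) := by
    have e1 : tc τ ψ₁ x = 0 := by simp [a1, t1]
    have e2 : tc τ ψ₂ w = 0 := by simp [a4, t1]
    have e3 : ∀ y, (dt (tc τ ψ₁) x * dt (tc τ ψ₂) w) y = y + ρ y := fun y => by
      simp [dt_apply e1, dt_apply e2, ρ, a2]; abel
    refine ⟨fun y => add_mem (smul_mem _ _ xW) (smul_mem _ _ wW), fun y hy => ?_, _,
      hM ⟨mem_NK_of fun k => ⟨k ^ 2, fun y => ?_⟩, SL _⟩, e3⟩
    · rcases hW y hy with rfl | rfl | rfl | rfl <;> simp [ρ, a1, a2, a3, a4, t1]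
    · obtain ⟨s, t, rfl⟩ := sp y
      rw [e3, e3, smul_add k, smul_smul, smul_smul, ρa, ρa]
      simp only [hτ']
      match_scalars <;> grind
  obtain ⟨-, -, h, hh, e⟩ := Lam.ksmul hr.ge hM hp ω (Lam.conj hρ (inv_mem hg) (W' := pt F K p)
    (mapi g _))
  let a := g * h * g⁻¹ * rs F (LinearEquiv.smulOfNeZero K V ω ω0)
  have ha : ∀ s t : K, a (s • x + t • w) =
      (ω * s) • x + (ω * t) • w + τ (ω * s) • w + τ (ω * t) • (x + w) := fun s t => by
    have : a (s • x + t • w) = (ω * s) • x + (ω * t) • w + g (ω • g⁻¹ (ρ ((ω * s) • x + (ω * t) • w))) := by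
      simp [a, e, smul_smul]
    have e1 : g⁻¹ x = p := g.symm_apply_apply _
    have e2 : g⁻¹ w = ω • p := g.symm_apply_apply _
    rw [this, ρa, g⁻¹.map_add, g⁻¹.map_smul, g⁻¹.map_smul, e1, e2, smul_add ω, smul_comm ω, smul_comm ω (τ _),
      g.map_add, g.map_smul, g.map_smul, gω, add_assoc (_ + _)]
  have tω : algebraMap F K (τ ω) = 1 := by rw [hτ]; grind
  have ax : a x = ω • (x + ω ^ 2 • w) := by
    have := ha 1 0; simp only [hτ'] at this; rw [show x = (1 : K) • x + (0 : K) • w by simp, this]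
    match_scalars <;> grind
  have aw : a w = x + ω ^ 2 • w := by
    have := ha 0 1; simp only [hτ'] at this; rw [show w = (0 : K) • x + (1 : K) • w by simp, this]
    match_scalars <;> grind
  have p0 : x + ω ^ 2 • w ≠ 0 := fun e => by simpa [a1, a2] using congrArg ψ₁ e
  have aM : a ∈ M := mul_mem (mul_mem (mul_mem hg hh) (inv_mem hg)) (hM ⟨rs_mem_NK _, SL _⟩)
  have aW : ((pt F K p).map (g : V →ₗ[F] V)).map (a : V →ₗ[F] V) = pt F K (x + ω ^ 2 • w) :=
    map_eq_of_le (fun y hy => by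
      rcases hW y hy with rfl | rfl | rfl | rfl
      · simp
      · rw [ax]; exact smul_mem_pt _ _
      · rw [aw]; exact self_mem_pt _
      · rw [map_add, ax, aw]; exact add_mem (smul_mem_pt _ _) (self_mem_pt _))
      (by rw [LinearEquiv.finrank_map_eq, finrank_pt hp, finrank_pt p0])
  have η0 : (ω ^ 2 • ψ₁ + ψ₂) (x + ω ^ 2 • w) = 0 := by simp [a1, a2, a3, a4]; grind
  refine SL_of_lam hr.ge hm.ge hM p0 (sub_mem (Lam.conj hρ aM aW) (Lam.lin hM η0))
    (χ := tc τ (ω ^ 2 • ψ₁ + ψ₂)) (fun e => ?_) one_ne_zero fun y => ?_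
  · have := congr($e (ω • w))
    simp [a2, a4] at this
    simp [this] at tω
  · obtain ⟨y, rfl⟩ := a.surjective y
    obtain ⟨s, t, rfl⟩ := sp y
    have : a (ρ (s • x + t • w)) = τ s • ω • (x + ω ^ 2 • w) + τ t • (x + ω ^ 2 • w) := by
      rw [ρa, map_add, map_smul, map_smul, ax, aw]
    have s4 := k4 s
    have t4 := k4 t
    have e1 : ∀ y, a⁻¹ (a y) = y := a.symm_apply_apply
    simp only [LinearMap.sub_apply, LinearMap.comp_apply, LinearEquiv.coe_coe, e1, this,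
      LinearMap.restrictScalars_apply, LinearMap.smulRight_apply, hτ']
    simp only [ha, hτ', LinearMap.add_apply, LinearMap.smul_apply, map_add, map_smul, a1, a2, a3, a4,
      smul_eq_mul]
    match_scalars <;> grind

end Cfsg.Agent.H4.Ex
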