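import Cfsg.Agent.H4.Ex2

/-! Extension field normalisers of prime degree are maximal in `SL` and `GL`. -/

namespace Cfsg.Agent.H4.Ex
open Module Submodule

variable {F K : Type*} [Field F] [Field K] [Algebra F K] {V : Type*} [AddCommGroup V] [Module F V]
  [Module K V] [IsScalarTower F K V]
variable [Fintype F] [Finite K] [FiniteDimensional F V] {M : Subgroup (V ≃ₗ[F] V)}

omit [Fintype F] [Finite K] in
theorem exists_notMem_bot (hr : 2 ≤ finrank F K) : ∃ ω : K, ∀ c : F, algebraMap F K c ≠ ω := by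
  by_contra! h
  have : (⊥ : Subalgebra F K) = ⊤ := eq_top_iff.2 fun k _ => Algebra.mem_bot.2 (h k)
  have := Subalgebra.bot_eq_top_iff_finrank_eq_one.1 this
  omega

theorem SL_of_pair (hr : (finrank F K).Prime) (h2 : 2 ≤ finrank K V) (hM : NK F K V ⊓ SLg F V ≤ M)
    {g : V ≃ₗ[F] V} (hg : g ∈ M) {p v : V} (hp : p ≠ 0) (hv : v ≠ 0) {W : Submodule F V}
    (hW : (pt F K p).map (g : V →ₗ[F] V) = W) (hne : pt F K v ≠ W) {x₀ : V} (h0 : x₀ ≠ 0)
    (hx₀ : x₀ ∈ pt F K v ⊓ W) (hmax : ∀ a ∈ M, finrank F (pt F K v ⊓ W :) <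
      finrank F (W ⊓ W.map (a : V →ₗ[F] V) :) → W = W.map (a : V →ₗ[F] V)) : SLg F V ≤ M := by
  haveI := Module.Finite.of_restrictScalars_finite F K V
  have dW : finrank F W = finrank F K := by rw [← hW, LinearEquiv.finrank_map_eq, finrank_pt hp]
  have hJ : pt F K v ⊓ W < pt F K v := lt_of_le_of_ne inf_le_left fun e =>
    hne (eq_of_le_of_finrank_eq (inf_eq_left.1 e) (by rw [dW, finrank_pt hv]))
  obtain ⟨e, he, he'⟩ := SetLike.exists_of_lt hJ
  replace he' : e ∉ W := fun h => he' ⟨he, h⟩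
  obtain ⟨w, hw, hw'⟩ : ∃ w ∈ W, w ∉ pt F K v := by
    by_contra! h
    exact hne (eq_of_le_of_finrank_eq h (by rw [dW, finrank_pt hv])).symm
  have st : ∀ ψ : V →ₗ[K] K, ψ v = 0 → ψ w = 1 → ∀ x ∈ pt F K v ⊓ W, ∀ y ∈ W, ψ y • x ∈ W := by
    intro ψ h1 h2 x hx y hy
    have e1 := ker_pt hx.1 h1
    have := hmax _ (rs_dt_mem hM ψ x e1) (lt_finrank_inf_map inf_le_right hw (fun h => hw' h.1)
      (fun y hy => by simpa [dt_apply e1, ker_pt hy.1 h1] using hy.2)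
      (by simpa [dt_apply e1, h2] using add_mem hw hx.2))
    simpa [dt_apply e1] using sub_mem (this.ge (mem_map_of_mem hy)) hy
  have inF : ∀ ψ : V →ₗ[K] K, ψ v = 0 → ψ w = 1 → ∀ y ∈ W, ∃ c : F, algebraMap F K c = ψ y :=
    fun ψ h1 h2 y hy => mem_bot_of_stab hr hJ hx₀ h0 fun x hx =>
      ⟨by obtain ⟨k, rfl⟩ := mem_pt.1 hx.1; rw [smul_smul]; exact smul_mem_pt _ _, st ψ h1 h2 x hx y hy⟩
  obtain ⟨ψ, ψ1, ψ2⟩ := exists_dual_pair (F := K) (u := v) (v := w) hw' 1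
  obtain ⟨ω, hω⟩ := exists_notMem_bot hr.two_le
  have d1 : finrank F K ≤ finrank F (pt F K v ⊓ W :) + 1 := by
    refine dW ▸ (finrank_mono fun y hy => ?_).trans (finrank_sup_span_le _ w)
    by_cases e : y ∈ span K {v} ⊔ span K {w}
    · obtain ⟨z, hz, b, rfl⟩ := mem_sup_span_singleton.1 e
      obtain ⟨c, hc⟩ := inF ψ ψ1 ψ2 _ hy
      rw [map_add, ker_pt (F := F) hz ψ1, map_smul, ψ2, zero_add, smul_eq_mul, mul_one] at hc
      subst hc
      rw [algebraMap_smul] at hy ⊢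
      exact add_mem (mem_sup_left ⟨hz, by simpa using sub_mem hy (smul_mem _ c hw)⟩)
        (mem_sup_right (smul_mem _ _ (mem_span_singleton_self w)))
    · obtain ⟨ψ', a1, a2, a3⟩ := exists_dual_two (U := span K {v}) hw' e 1 ω
      obtain ⟨c, hc⟩ := inF ψ' (a1 _ (mem_span_singleton_self v)) a2 _ hy
      exact absurd (hc.trans a3) (hω c)
  obtain ⟨l, l1, l2⟩ := exists_dual_of_notMem he' 1
  have hl : ∀ y ∈ pt F K v, y - l y • e ∈ W := fun y hy => by
    have : pt F K v ⊓ W ⊔ span F {e} = pt F K v := eq_of_le_of_finrank_le (sup_le inf_le_left (by simpa))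
      (by
        have := finrank_lt_finrank_of_lt (lt_of_le_of_ne (le_sup_left (a := pt F K v ⊓ W) (b := span F {e}))
          fun h => he' (h.ge (mem_sup_right (mem_span_singleton_self e))).2)
        rw [finrank_pt hv]; omega)
    obtain ⟨z, hz, c, rfl⟩ := mem_sup_span_singleton.1 (this.ge hy)
    simpa [l1 _ hz.2, l2] using hz.2
  obtain ⟨τ, hτ⟩ := exists_dual_of_ne (F := F) (one_ne_zero (α := K)) 1
  have gW : ∀ y ∈ W, g⁻¹ y ∈ pt F K p := fun y hy => mem_map_equiv'.1 (hW.ge hy)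
  have Wg : ∀ k : K, g (k • p) ∈ W := fun k => hW.le (mem_map_of_mem (smul_mem_pt k p))
  let φ : V →ₗ[F] F := tc τ ψ ∘ₗ g
  have hφ : ∀ k : K, ∀ x : V, ψ (g (k • p)) • x = φ (k • p) • x := fun k x => by
    obtain ⟨c, hc⟩ := inF ψ ψ1 ψ2 _ (Wg k)
    simp [φ, ← hc, Algebra.algebraMap_eq_smul_one, hτ]
  let χ : V → V →ₗ[F] F := fun x => l ∘ₗ (ψ.smulRight x).restrictScalars F ∘ₗ g
  have χa : ∀ x x' y, χ (x + x') y = χ x y + χ x' y := fun x x' y => by simp [χ]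
  have χ0 : ∀ x ∈ pt F K v, x ≠ 0 → χ x ≠ 0 := fun x hx x0 h => by
    obtain ⟨a, rfl⟩ := mem_pt.1 hx
    obtain ⟨b, rfl⟩ := mem_pt.1 he
    have a0 : a ≠ 0 := by rintro rfl; simp at x0
    simpa [χ, ψ2, smul_smul, a0, l2] using congr($h (g⁻¹ ((b / a) • w)))
  have hA : ∀ η : V →ₗ[K] K, η p = 0 → ∀ x ∈ pt F K v ⊓ W, ∃ A ∈ Lam M (pt F K p), ∀ y, A y =
      φ (η y • p) • g⁻¹ x - χ x y • η (g⁻¹ e) • p - χ x y • φ (η (g⁻¹ e) • p) • g⁻¹ x := by
    intro η hη x hx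
    have e1 := ker_pt hx.1 ψ1
    have a1 : ∀ k : K, (g⁻¹ * rs F (dt ψ x) * g) (k • p) = k • p + φ (k • p) • g⁻¹ x := fun k => by
      simp [dt_apply e1, hφ]
    refine ⟨_, sub_mem (Lam.conj (Lam.lin hM hη) (mul_mem (mul_mem (inv_mem hg) (rs_dt_mem hM ψ x e1)) hg)
      (map_eq_of_le (fun y hy => ?_) le_rfl)) (Lam.lin hM hη), fun y => ?_⟩
    · obtain ⟨k, rfl⟩ := mem_pt.1 hy
      rw [a1]; exact add_mem hy (smul_mem _ _ (gW _ hx.2))
    · have e2 : η ((g⁻¹ * rs F (dt ψ x) * g)⁻¹ y) = η y - χ x y • η (g⁻¹ e) := by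
        have := ker_pt (gW _ (hl (ψ (g y) • x) (by
          obtain ⟨k, rfl⟩ := mem_pt.1 hx.1; rw [smul_smul]; exact smul_mem_pt _ _))) hη
        rw [map_sub, map_sub, g⁻¹.map_smul, LinearMap.map_smul_of_tower, sub_eq_zero] at this
        rw [mul_inv_rev, mul_inv_rev, inv_inv, ← map_inv]
        simp only [LinearEquiv.mul_apply, rs_apply, dt_inv_apply e1, map_sub, this]
        simp [χ]
      simp only [LinearMap.sub_apply, LinearMap.comp_apply, LinearEquiv.coe_coe, e2,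
        LinearMap.restrictScalars_apply, LinearMap.smulRight_apply, a1]
      rw [sub_smul, smul_assoc, map_sub, φ.map_smul, smul_eq_mul]
      module
  obtain ⟨c, hc⟩ := mem_pt.1 (gW w hw)
  have φc : φ (c • p) = 1 := by simp [φ, hc, ψ2, hτ]
  have ep : g⁻¹ e ∉ span K {p} := fun h => he' (hW.le (mem_map_equiv'.2 h))
  have nz : ∀ {x} {k : K}, x ≠ 0 → k • p = g⁻¹ x → k ≠ 0 := by
    rintro x k h h' rfl; exact h (g⁻¹.injective (by rw [← h']; simp))
  by_cases two : ∃ x' ∈ pt F K v ⊓ W, x' ≠ 0 ∧ x' ≠ x₀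
  · obtain ⟨η, η1, η2⟩ := exists_dual_pair ep c
    obtain ⟨k, hk⟩ := mem_pt.1 (gW _ hx₀.2)
    obtain ⟨x', hx', x0, k', hk', hne⟩ : ∃ x' ∈ pt F K v ⊓ W, x' ≠ 0 ∧ ∃ k' : K, k' • p = g⁻¹ x' ∧
        2 * c + k + k' ≠ 0 := by
      obtain ⟨x', hx', x0, hne⟩ := two
      obtain ⟨k', hk'⟩ := mem_pt.1 (gW _ hx'.2)
      by_cases h : 2 * c + k + k' = 0
      · exact ⟨x₀, hx₀, h0, k, hk, fun h' => hne (g⁻¹.injective (by
          rw [← hk, ← hk', show k' = k by linear_combination h - h']))⟩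
      · exact ⟨x', hx', x0, k', hk', h⟩
    obtain ⟨A, hA1, a1⟩ := hA η η1 _ hx₀
    obtain ⟨B, hB1, b1⟩ := hA η η1 _ hx'
    obtain ⟨C, hC1, c1⟩ := hA η η1 _ (add_mem hx₀ hx')
    refine SL_of_lam hr.two_le h2 hM hp (sub_mem (sub_mem (Lam.ksmul hr.two_le hM hp k' hA1)
      (Lam.ksmul hr.two_le hM hp k hB1)) (Lam.ksmul hr.two_le hM hp (c + k) (sub_mem (sub_mem hC1 hA1) hB1)))
      (χ0 _ hx'.1 x0) (mul_ne_zero (nz h0 hk) hne) fun y => ?_
    simp only [LinearMap.sub_apply, LinearMap.smul_apply, a1, b1, c1, η2, φc, χa, map_add, ← hk, ← hk']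
    module
  push Not at two
  rcases h2.lt_or_eq with h3 | h3
  · obtain ⟨u, -, hu⟩ := exists_notMem_of_finrank_lt (U := span K {p} ⊔ span K {g⁻¹ e}) (W := ⊤) (by
      have := finrank_sup_span_le (span K {p}) (g⁻¹ e)
      have := finrank_span_singleton_le (F := K) p
      rw [finrank_top]; omega)
    obtain ⟨η, η1, η2, η3⟩ := exists_dual_two ep hu 0 c
    obtain ⟨A, hA1, a1⟩ := hA η (η1 _ (mem_span_singleton_self p)) _ hx₀
    obtain ⟨k, hk⟩ := mem_pt.1 (gW _ hx₀.2)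
    exact SL_of_lam hr.two_le h2 hM hp hA1 (χ := φ ∘ₗ (η.smulRight p).restrictScalars F)
      (fun h => by simpa [η3, φc] using congr($h u)) (nz h0 hk) fun y => by rw [a1, η2, hk]; simp
  · have hq : Fintype.card F = 2 := by
      classical
      rw [← Finset.card_univ, ← Finset.card_pair (zero_ne_one (α := F))]
      congr 1; ext a
      simpa [or_iff_not_imp_left] using fun h => smul_left_injective F h0
        ((two _ (smul_mem _ a hx₀) (smul_ne_zero h h0)).trans (one_smul _ _).symm)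
    have : finrank F (pt F K v ⊓ W :) ≤ 1 := (finrank_mono (t := span F {x₀}) fun y hy => by
      by_cases e : y = 0
      · simp [e]
      · rw [two y hy e]; exact mem_span_singleton_self _).trans (finrank_span_singleton_le _)
    have := hr.two_le
    obtain ⟨k, hk⟩ := mem_pt.1 (gW _ hx₀.2)
    refine special hq (by omega) h3.symm hM hg (p := g⁻¹ x₀) (by simpa) hω fun h => ?_
    have e1 : g (g⁻¹ x₀) = x₀ := g.apply_symm_apply _
    have : g (ω • g⁻¹ x₀) ∈ pt F K v ⊓ W :=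
      ⟨span_le.2 (show {g (g⁻¹ x₀)} ⊆ (span K {v} : Set V) by simpa [e1, pt] using hx₀.1) h, by rw [← hk, smul_smul]; exact Wg _⟩
    by_cases e : ω = 0
    · exact hω 0 (by simp [e])
    · have := two _ this (by simp [e, h0])
      exact hω 1 ((map_one _).trans (smul_left_injective K (show g⁻¹ x₀ ≠ 0 by simpa)
        (g.injective (by simp only [this, one_smul, e1]))))

theorem dich (hr : (finrank F K).Prime) (h2 : 2 ≤ finrank K V) (hM : NK F K V ⊓ SLg F V ≤ M) :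
    SLg F V ≤ M ∨ M ≤ NK F K V := by
  refine or_iff_not_imp_right.2 fun h => ?_
  obtain ⟨g, hg, hg'⟩ := SetLike.not_le_iff_exists.1 h
  obtain ⟨v, k, hk⟩ : ∃ v k, g (k • v) ∉ pt F K (g v) := by
    by_contra! e; exact hg' (mem_NK_of_pts h2 e)
  have v0 : v ≠ 0 := by rintro rfl; simp at hk
  let P : Submodule F V → Prop := fun W => ∃ g ∈ M, ∃ v, v ≠ 0 ∧ (pt F K v).map (g : V →ₗ[F] V) = W
  have Pm : ∀ a ∈ M, ∀ W, P W → P (W.map (a : V →ₗ[F] V)) := by
    rintro a ha _ ⟨g, hg, v, hv, rfl⟩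
    exact ⟨a * g, mul_mem ha hg, v, hv, map_comp _ _ _⟩
  obtain ⟨_, B, ⟨a, ha, u, hu, rfl⟩, hB, h3, h4, h5⟩ := exists_max (P := P) ⟨1, one_mem _, g v, by simpa, map_id _⟩
    ⟨g, hg, v, v0, rfl⟩ fun e => hk (e.ge (mem_map_of_mem (smul_mem_pt k v)))
  obtain ⟨b, hb, p, hp, hW⟩ := Pm _ (inv_mem ha) _ hB
  have e1 : finrank F (pt F K u ⊓ B.map ((a⁻¹ : V ≃ₗ[F] V) : V →ₗ[F] V) :) =
      finrank F ((pt F K u).map (a : V →ₗ[F] V) ⊓ B :) := by
    rw [← a⁻¹.finrank_map_eq ((pt F K u).map _ ⊓ B), map_inf _ a⁻¹.injective, mapi]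
  obtain ⟨x, hx, x0⟩ := exists_notMem_of_finrank_lt (U := ⊥)
    (W := pt F K u ⊓ B.map ((a⁻¹ : V ≃ₗ[F] V) : V →ₗ[F] V)) (by
      rw [e1, finrank_bot]
      refine lt_of_lt_of_le (Nat.pos_of_ne_zero fun e => v0 ?_) h4
      simpa using (finrank_eq_zero.1 e).le ⟨self_mem_pt (g v), mem_map_of_mem (self_mem_pt v)⟩)
  refine SL_of_pair hr h2 hM hb hp hu hW (fun e => h3 ?_) (by simpa using x0) hx fun c hc e =>
    h5 _ _ (Pm _ (inv_mem ha) _ hB) (Pm _ hc _ (Pm _ (inv_mem ha) _ hB)) (e1 ▸ e)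
  rw [e]; exact mapi a⁻¹ B

omit [Fintype F] [Finite K] in
theorem not_SL_le (hr : 2 ≤ finrank F K) (h2 : 2 ≤ finrank K V) : ∃ g ∈ SLg F V, g ∉ NK F K V := by
  haveI : Nontrivial V := nontrivial_of_finrank_pos (R := K) (by omega)
  obtain ⟨v, hv⟩ := exists_ne (0 : V)
  obtain ⟨ψ, hψ⟩ := exists_dual_of_ne hv (1 : K)
  obtain ⟨p, hp, e⟩ := exists_ker_ne h2 ψ
  obtain ⟨τ, hτ⟩ := exists_dual_of_ne (F := F) (one_ne_zero (α := K)) 1
  obtain ⟨ω, hω⟩ := exists_notMem_bot hr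
  have e1 : tc τ ψ p = 0 := by simp [e]
  refine ⟨dt (tc τ ψ) p, dt_mem_SLg e1, fun h => ?_⟩
  obtain ⟨k, hk⟩ := h.1 ω
  obtain rfl : ω = k := smul_left_injective K hp (by simpa [dt_apply e1, e] using hk p)
  exact hω (τ ω) (smul_left_injective K hp (by simpa [dt_apply e1, hψ, hτ] using hk v))

theorem isMaximalIn_NK (hr : (finrank F K).Prime) (h2 : 2 ≤ finrank K V) :
    Geo.IsMaximalIn (SLg F V) (NK F K V ⊓ SLg F V) := by
  obtain ⟨g, h1, h3⟩ := not_SL_le (F := F) hr.two_le h2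
  exact isMaximalIn_of inf_le_right ⟨g, h1, fun h => h3 h.1⟩ fun M h1 h3 g hg hH =>
    (dich hr h2 h1).resolve_right fun h => hH ⟨h hg, h3 hg⟩

theorem isMaximalIn_NK_top (hr : (finrank F K).Prime) (h2 : 2 ≤ finrank K V) :
    Geo.IsMaximalIn ⊤ (NK F K V) := by
  haveI := Module.Finite.of_restrictScalars_finite F K V
  obtain ⟨g, -, h3⟩ := not_SL_le (F := F) hr.two_le h2
  refine isMaximalIn_of le_top ⟨g, trivial, h3⟩ fun M h1 _ g hg hH a _ => ?_
  have hS := (dich hr h2 (inf_le_left.trans h1)).resolve_right fun h => hH (h hg)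
  obtain ⟨u, hu⟩ := FiniteField.unitsMap_norm_surjective F K (LinearEquiv.det a)
  obtain ⟨b, -, hb⟩ := exists_det_fix (W := (⊥ : Submodule K V)) (fun e => by
    have := finrank_top K V; rw [← e, finrank_bot] at this; omega) u
  have : LinearEquiv.det (rs F b) = LinearEquiv.det a := Units.ext (by rw [det_rs, hb, ← hu]; rfl)
  simpa using mul_mem (hS (show a * (rs F b)⁻¹ ∈ SLg F V by rw [mem_SLg, map_mul, map_inv, this]; simp))
    (h1 (rs_mem_NK b))

theorem geo_ext {ι : Type} [Fintype ι] [DecidableEq ι] {r : ℕ} {A : Subalgebra F (Matrix ι ι F)}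
    (hA : Geo.IsFieldSubalgebra r A) (hr : r.Prime) (hlt : r < Fintype.card ι) :
    Geo.IsMaximalIn ⊤ (Geo.subalgebraNormalizer A) ∧ Geo.IsMaximalIn (Geo.specialLinear ι F)
      (Geo.subalgebraNormalizer A ⊓ Geo.specialLinear ι F) := by
  haveI : Nonempty ι := Fintype.card_pos_iff.1 (by omega)
  letI := (isField hA).toField
  letI m := modA A
  haveI := @IsScalarTower.mk F A (ι → F) _ m.toSMul _ fun c k v => Matrix.smul_mulVec c (k : Matrix ι ι F) v
  have e := hA.finrank_eq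
  have h := finrank_mul_finrank F A (ι → F)
  rw [finrank_pi] at h
  have h2 : 2 ≤ finrank A (ι → F) := by
    by_contra h'
    have : finrank A (ι → F) ≤ 1 := by omega
    nlinarith
  exact ⟨isMaximalIn_of_glE (fun g => Iff.rfl) (fun g => mem_norm fun _ _ => rfl)
    (isMaximalIn_NK_top (K := A) (e ▸ hr) h2), isMaximalIn_of_glE (H' := NK F A _ ⊓ SLg F _)
    (fun g => mem_specialLinear) (fun g => and_congr (mem_norm fun _ _ => rfl) mem_specialLinear)
    (isMaximalIn_NK (K := A) (e ▸ hr) h2)⟩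

end Cfsg.Agent.H4.Ex
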