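import Cfsg.Agent.H4.Ex3

/-! Extension field normalisers of composite degree are not maximal. -/

namespace Cfsg.Agent.H4.Ex
open Module Submodule

variable {F K : Type*} [Field F] [Field K] [Algebra F K] {V : Type*} [AddCommGroup V] [Module F V]
  [Module K V] [IsScalarTower F K V] [Fintype F] [Finite K] [FiniteDimensional F V]

theorem exists_inter {r : ℕ} (hr : r ∣ finrank F K) : ∃ L : IntermediateField F K, finrank F L = r ∧
    ∀ x : K, x ∈ L ↔ x ^ Fintype.card F ^ r = x := by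
  let φ := FiniteField.frobeniusAlgEquivOfAlgebraic F K
  let L := IntermediateField.fixedField (Subgroup.zpowers (φ ^ r))
  refine ⟨L, ?_, fun x => ?_⟩
  · have h2 := Module.finrank_mul_finrank F L K
    rw [IntermediateField.finrank_fixedField_eq_card, Nat.card_zpowers, orderOf_pow' _ (by
      rintro rfl; exact Module.finrank_pos.ne' (zero_dvd_iff.1 hr)),
      FiniteField.orderOf_frobeniusAlgEquivOfAlgebraic, Nat.gcd_eq_right hr] at h2
    obtain ⟨s, hs⟩ := hr
    have h0 : 0 < r * s := hs ▸ Module.finrank_pos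
    rw [hs, Nat.mul_div_cancel_left _ (Nat.pos_of_mul_pos_right h0)] at h2
    exact Nat.eq_of_mul_eq_mul_right (Nat.pos_of_mul_pos_left h0) h2
  · have : (φ ^ r) x = x ^ Fintype.card F ^ r := by
      rw [AlgEquiv.coe_pow, FiniteField.coe_frobeniusAlgEquivOfAlgebraic_iterate]
    rw [← this]
    refine ⟨fun h => h ⟨_, Subgroup.mem_zpowers _⟩, fun h g => ?_⟩
    exact (Subgroup.zpowers_le (g := φ ^ r) (H := MulAction.stabilizer _ x)).2 h g.2

theorem exists_over (h1 : 1 < finrank F K) (hr : ¬ (finrank F K).Prime) (h2 : 2 ≤ finrank K V) :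
    ∃ M, NK F K V ≤ M ∧ (∃ g ∈ M, g ∈ SLg F V ∧ g ∉ NK F K V) ∧ ∃ g ∈ SLg F V, g ∉ M := by
  obtain ⟨s, hs, s2, s3⟩ := (Nat.not_prime_iff_exists_dvd_lt h1).1 hr
  obtain ⟨L, e, hL⟩ := exists_inter (F := F) (K := K) hs
  haveI : Nontrivial V := nontrivial_of_finrank_pos (R := K) (by omega)
  haveI : IsScalarTower F L V := ⟨fun c k v => smul_assoc c (k : K) v⟩
  haveI := Module.Finite.of_restrictScalars_finite F L V
  have e1 := finrank_mul_finrank F L K
  have e2 := finrank_mul_finrank L K V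
  have e3 : 2 ≤ finrank L K := by
    by_contra h
    have : finrank L K ≤ 1 := by omega
    nlinarith
  obtain ⟨g, g1, g2⟩ := not_SL_le (F := L) (K := K) e3 h2
  refine ⟨NK F L V, fun g hg => mem_NK_of fun k => ?_, ⟨rs F g, rs_mem_NK g, Units.ext ?_, g2⟩,
    not_SL_le (by omega) (by nlinarith)⟩
  · obtain ⟨k', h⟩ := hg.1 k
    have : ∀ (n : ℕ) v, g ((k : K) ^ n • v) = k' ^ n • g v := fun n => by
      induction n with
      | zero => simp
      | succ n ih => intro v; rw [pow_succ', mul_smul, h, ih, pow_succ', mul_smul]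
    obtain ⟨v, hv⟩ := exists_ne (0 : V)
    exact ⟨⟨k', (hL _).2 (smul_left_injective K (show g v ≠ 0 by simpa) (by
      simp only [← this, (hL _).1 k.2, h]))⟩, h⟩
  · rw [det_rs, mem_SLg.1 g1]; simp

theorem geo_not {ι : Type} [Fintype ι] [DecidableEq ι] {r : ℕ} {A : Subalgebra F (Matrix ι ι F)}
    (hA : Geo.IsFieldSubalgebra r A) (h1 : 1 < r) (hr : ¬ r.Prime) (hlt : r < Fintype.card ι) :
    (∃ M, Geo.subalgebraNormalizer A < M ∧ M < ⊤) ∧ ∃ M,
      Geo.subalgebraNormalizer A ⊓ Geo.specialLinear ι F < M ∧ M < Geo.specialLinear ι F := by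
  haveI : Nonempty ι := Fintype.card_pos_iff.1 (by omega)
  letI := (isField hA).toField
  letI m := modA A
  haveI := @IsScalarTower.mk F A (ι → F) _ m.toSMul _ fun c k v => Matrix.smul_mulVec c (k : Matrix ι ι F) v
  have e := hA.finrank_eq
  have h := finrank_mul_finrank F A (ι → F)
  rw [finrank_pi] at h
  have h2 : 2 ≤ finrank A (ι → F) := by
    by_contra h'
    have : finrank A (ι → F) ≤ 1 := by omega
    nlinarith
  obtain ⟨M, a1, ⟨g, a2, a3, a4⟩, g', a5, a6⟩ := exists_over (F := F) (K := A) (e ▸ h1) (e ▸ hr) h2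
  exact ⟨exists_between_of_glE (H' := NK F A _) (fun g => Iff.rfl) (fun g => mem_norm fun _ _ => rfl)
    (exists_between_of (le_inf a1 le_top) ⟨g, a2, trivial, a4⟩ ⟨g', trivial, a6⟩),
    exists_between_of_glE (H' := NK F A _ ⊓ SLg F _) (fun g => mem_specialLinear)
    (fun g => and_congr (mem_norm fun _ _ => rfl) mem_specialLinear)
    (exists_between_of (inf_le_inf_right _ a1) ⟨g, a2, a3, fun h => a4 h.1⟩ ⟨g', a5, a6⟩)⟩

end Cfsg.Agent.H4.Ex
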