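import Cfsg.Agent.H4.Inv3

/-! Explicit involutions. -/

set_option autoImplicit false
set_option linter.unusedSectionVars false

namespace Cfsg.Agent.H4

open Module Matrix

variable {F : Type*} [Field F] {ι : Type} [Fintype ι] [DecidableEq ι] {n l : ℕ}

/-- shifted inclusion of coordinates -/
def shf (F : Type*) [Field F] (n l a : ℕ) : Matrix (Fin n) (Fin l) F := of fun i k => if i.1 = k.1 + a then 1 else 0

theorem shf_mul (a b : ℕ) (i j : Fin n) : (shf F n l a * (shf F n l b)ᵀ) i j =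
    if b ≤ j.1 ∧ j.1 < l + b ∧ i.1 + b = j.1 + a then 1 else 0 := by
  simp only [mul_apply, shf, transpose_apply, of_apply]
  split_ifs with h
  · rw [Finset.sum_eq_single ⟨j.1 - b, by omega⟩ (fun k _ hk => by
      rw [if_neg (c := j.1 = k.1 + b) fun h => hk (Fin.ext (by simp; omega)), mul_zero]) (by simp)]
    rw [if_pos (by simp; omega), if_pos (by simp; omega), one_mul]
  · exact Finset.sum_eq_zero fun k _ => by
      have := k.2
      split_ifs <;> first | omega | simp

theorem shf_mul' {a b : ℕ} (ha : l + a ≤ n) (i j : Fin l) : ((shf F n l a)ᵀ * shf F n l b) i j =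
    if i.1 + a = j.1 + b then 1 else 0 := by
  simp only [mul_apply, shf, transpose_apply, of_apply]
  rw [Finset.sum_eq_single ⟨i.1 + a, by omega⟩ (fun k _ hk => by
      rw [if_neg (c := k.1 = i.1 + a) fun h => hk (Fin.ext h), zero_mul]) (by simp)]
  simp

theorem exists_SL_inv (h2 : (2 : F) = 0) {A B : Matrix (Fin n) (Fin l) F} (h : Bᵀ * A = 0) (h1 : 1 ≤ l)
    {c d : Fin l → Fin n} (h3 : (A * Bᵀ).submatrix d c = 1) : ∃ a : SpecialLinearGroup (Fin n) F,
      a.1 = 1 + A * Bᵀ ∧ a.1 * a.1 = 1 ∧ orderOf a = 2 ∧ (a.1 - 1).rank = l := by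
  have h4 : (1 + A * Bᵀ) * (1 + A * Bᵀ) = 1 := by
    have : A * Bᵀ * (A * Bᵀ) = 0 := by rw [Matrix.mul_assoc, ← Matrix.mul_assoc Bᵀ, h]; simp
    rw [add_mul, mul_add, mul_add, this]
    simp only [one_mul, mul_one]
    rw [add_zero, add_assoc, ← two_smul F, h2, zero_smul, add_zero]
  have h5 : (1 + A * Bᵀ - 1).rank = l := by simpa using rank_eq_of_sub h3
  refine ⟨⟨_, eq_one_of_sq h2 (by rw [← det_mul, h4, det_one])⟩, rfl, h4,
    orderOf_eq_prime (Subtype.ext ((sq _).trans h4)) fun h => ?_, h5⟩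
  rw [show 1 + A * Bᵀ = 1 from congrArg Subtype.val h] at h5
  simp at h5; omega

end Cfsg.Agent.H4
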