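import Cfsg.Agent.H4.Lang3

/-! Conjugacy classes and centralizers of field automorphisms. -/

set_option autoImplicit false

namespace Cfsg.Agent.H4

open Module Submodule Gam

section groups

variable {G : Type*} [Group G] {D N : Subgroup G} {x y x₀ α δ : G}

theorem card_eq_of_surj {A B C : Type*} (p : A → B) (q : A → C) (hp : Function.Surjective p)
    (hq : Function.Surjective q) (h : ∀ a b, p a = p b ↔ q a = q b) : Nat.card B = Nat.card C := by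
  rw [← Nat.card_congr (Setoid.quotientKerEquivOfSurjective p hp),
    ← Nat.card_congr (Setoid.quotientKerEquivOfSurjective q hq), show Setoid.ker p = Setoid.ker q from
      Setoid.ext h]

theorem isConjUnder_equiv (D : Subgroup G) : Equivalence (IsConjUnder D) :=
  ⟨fun x => ⟨1, D.one_mem, by simp⟩, fun ⟨h, h1, h2⟩ => ⟨h⁻¹, D.inv_mem h1, by simp [h2, mul_assoc]⟩,
    fun ⟨h, h1, h2⟩ ⟨k, k1, k2⟩ => ⟨k * h, D.mul_mem k1 h1, by simp [h2, k2, mul_assoc]⟩⟩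

theorem isConjUnder_conj [hD : D.Normal] (α : G) :
    IsConjUnder D (α * x * α⁻¹) (α * y * α⁻¹) ↔ IsConjUnder D x y :=
  ⟨fun ⟨h, h1, h2⟩ => ⟨α⁻¹ * h * α, hD.conj_mem' h h1 α, by
    rw [mul_inv_eq_iff_eq_mul, ← eq_inv_mul_iff_mul_eq] at h2; rw [h2]; group⟩,
    fun ⟨h, h1, h2⟩ => ⟨α * h * α⁻¹, hD.conj_mem h h1 α, by rw [h2]; group⟩⟩

theorem IsConjUnder.orderOf_eq (h : IsConjUnder D x y) : orderOf y = orderOf x := by
  obtain ⟨h, -, rfl⟩ := h
  exact MulEquiv.orderOf_eq (MulAut.conj h) x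

theorem lang_transfer [hD : D.Normal] {r : ℕ} (h : α * x * α⁻¹ = x₀) (hx : orderOf x = r) (hδ : δ ∈ D)
    (H : ∀ δ ∈ D, (δ * x₀) ^ r = 1 → IsConjUnder D x₀ (δ * x₀)) :
    orderOf (δ * x) = r ↔ IsConjUnder D x (δ * x) := by
  refine ⟨fun h1 => (isConjUnder_conj α).1 ?_, fun h => (IsConjUnder.orderOf_eq h).trans hx⟩
  have e : α * (δ * x) * α⁻¹ = α * δ * α⁻¹ * x₀ := by rw [← h]; group
  rw [h, e]
  exact H _ (hD.conj_mem δ hδ α) (by rw [← e, conj_pow, ← h1, pow_orderOf_eq_one]; simp)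

theorem map_conj_cent [hD : D.Normal] (h : α * x * α⁻¹ = x₀) :
    (D ⊓ Subgroup.centralizer {x}).map (MulAut.conj α : G →* G) = D ⊓ Subgroup.centralizer {x₀} := by
  subst h
  ext g
  simp only [Subgroup.mem_map, Subgroup.mem_inf, Subgroup.mem_centralizer_singleton_iff]
  constructor
  · rintro ⟨g, ⟨h1, h2⟩, rfl⟩
    exact ⟨hD.conj_mem g h1 α, by simp [mul_assoc, ← mul_assoc g, h2]⟩
  · rintro ⟨h1, h2⟩
    refine ⟨α⁻¹ * g * α, ⟨hD.conj_mem' g h1 α, ?_⟩, by simp [mul_assoc]⟩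
    calc α⁻¹ * g * α * x = α⁻¹ * (g * (α * x * α⁻¹)) * α := by group
      _ = _ := by rw [h2]; group

theorem cent_transfer [hD : D.Normal] (h : α * x * α⁻¹ = x₀) {A : Type*} [Group A]
    (e : Nonempty (↥(D ⊓ Subgroup.centralizer {x₀}) ≃* A)) :
    Nonempty (↥(D ⊓ Subgroup.centralizer {x}) ≃* A) :=
  e.map fun e => (((MulAut.conj α).subgroupMap _).trans (MulEquiv.subgroupCongr (map_conj_cent h))).trans e

theorem splitClassCount_eq' [hN : N.Normal] (h : N ≤ D) (x : G) :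
    splitClassCount D N x = (D ⊓ Subgroup.centralizer {x} ⊔ N).relIndex D := by
  refine card_eq_of_surj (fun d : D => Quot.mk _ ⟨d * x * d⁻¹, d, d.2, rfl⟩) QuotientGroup.mk
    (by rintro ⟨_, d, hd, rfl⟩; exact ⟨⟨d, hd⟩, rfl⟩) QuotientGroup.mk_surjective fun a b => ?_
  rw [Quot.eq, Equivalence.eqvGen_iff ((isConjUnder_equiv N).comap Subtype.val), QuotientGroup.eq,
    Subgroup.mem_subgroupOf, Subgroup.mem_sup_of_normal_right]
  constructor
  · rintro ⟨n, hn, e⟩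
    refine ⟨_, ⟨D.mul_mem (D.inv_mem a.2) (D.mul_mem (D.inv_mem (h hn)) b.2), ?_⟩, _,
      hN.conj_mem' n hn b, by simp [mul_assoc]⟩
    refine Subgroup.mem_centralizer_singleton_iff.2 ?_
    dsimp only at e
    calc _ = (a : G)⁻¹ * n⁻¹ * (b * x * (b : G)⁻¹) * b := by group
      _ = _ := by rw [Subgroup.coe_inv, Subgroup.coe_inv] at e; rw [e]; group
  · rintro ⟨c, ⟨-, hc⟩, n, hn, e⟩
    replace hc := Subgroup.mem_centralizer_singleton_iff.1 hc
    rw [Subgroup.coe_mul, Subgroup.coe_inv, eq_inv_mul_iff_mul_eq] at e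
    refine ⟨a * c * n * (a * c)⁻¹, hN.conj_mem n hn _, ?_⟩
    dsimp only
    rw [Subgroup.coe_inv, Subgroup.coe_inv, ← e]
    calc _ = a * c * n * (c⁻¹ * (c * x * c⁻¹) * c) * n⁻¹ * c⁻¹ * (a : G)⁻¹ := by group
      _ = _ := by rw [hc]; group

theorem splitClassCount_eq [N.Normal] (h : N ≤ D) (x : G) : splitClassCount D N x =
    ((D ⊓ Subgroup.centralizer {x}).map (QuotientGroup.mk' N)).relIndex (D.map (QuotientGroup.mk' N)) := by
  rw [splitClassCount_eq' h, Subgroup.relIndex_map_map, QuotientGroup.ker_mk', sup_eq_left.2 h]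

theorem map_conj_normal [hD : D.Normal] (α : G) : D.map (MulAut.conj α : G →* G) = D :=
  le_antisymm (by rintro _ ⟨g, hg, rfl⟩; exact hD.conj_mem g hg α) fun g hg =>
    ⟨_, hD.conj_mem' g hg α, by simp [mul_assoc]⟩

theorem split_transfer [D.Normal] [N.Normal] (hN : N ≤ D) (h : α * x * α⁻¹ = x₀) :
    splitClassCount D N x = splitClassCount D N x₀ := by
  rw [splitClassCount_eq' hN, splitClassCount_eq' hN, ← map_conj_cent h,
    ← Subgroup.relIndex_map_map_of_injective _ _ (f := (MulAut.conj α : G →* G)) (MulAut.conj α).injective,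
    Subgroup.map_sup, map_conj_normal (D := N), map_conj_normal (D := D)]

theorem index_sup_pow {A : Type*} [CommGroup A] [Finite A] [IsCyclic A] (B : Subgroup A) (n : ℕ) :
    (B ⊔ (powMonoidHom n).range).index = Nat.gcd n B.index := by
  have := isCyclic_of_surjective _ (QuotientGroup.mk'_surjective B)
  have h := Subgroup.index_map (powMonoidHom n : A →* A).range (QuotientGroup.mk' B)
  rw [QuotientGroup.ker_mk', QuotientGroup.range_mk', Subgroup.index_top, mul_one, sup_comm] at h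
  rw [← h, Nat.gcd_comm, show B.index = Nat.card (A ⧸ B) from rfl, ← IsCyclic.index_powMonoidHom_range]
  congr 1
  ext x
  obtain ⟨x, rfl⟩ := QuotientGroup.mk'_surjective B x
  constructor
  · rintro ⟨_, ⟨y, rfl⟩, h⟩; exact ⟨QuotientGroup.mk' B y, h⟩
  · rintro ⟨y, h⟩
    obtain ⟨y, rfl⟩ := QuotientGroup.mk'_surjective B y
    exact ⟨_, ⟨y, rfl⟩, h⟩

theorem relIndex_range_eq {K₀ K A B : Type*} [Group K₀] [Group K] [Group A] [Group B] (θ : K₀ →* K)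
    (κ : K →* B) (d : K →* A) (hd : Function.Surjective d) (P : Subgroup A)
    (h : ∀ g, κ g = 1 ↔ d g ∈ P) : (κ.comp θ).range.relIndex κ.range = ((d.comp θ).range ⊔ P).index := by
  rw [← Subgroup.index_comap, MonoidHom.range_comp, Subgroup.comap_map_eq, MonoidHom.range_comp,
    ← Subgroup.index_comap_of_surjective _ hd, ← Subgroup.comap_sup_eq d _ _ hd, Subgroup.comap_map_eq,
    show κ.ker = P.comap d from Subgroup.ext h, sup_assoc, sup_eq_right.2 (Subgroup.ker_le_comap d P)]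

theorem orderOf_eq_of_prime {A : Type*} [Group A] {σ : A} {r : ℕ} (hr : r.Prime) (h1 : σ ≠ 1)
    (h : σ ^ r = 1) : orderOf σ = r :=
  haveI := Fact.mk hr
  orderOf_eq_prime h h1

end groups

variable {F : Type*} [Field F] {V : Type*} [AddCommGroup V] [Module F V]
  {ι : Type} [Fintype ι] [DecidableEq ι] {F₀ : Type*} [Field F₀]

theorem mem_scalars {g : GL ι F} : g ∈ Geo.scalars ι F ↔ ∃ c, glE g = CForm.scal _ c := by
  rw [Geo.mem_scalars_iff]
  refine exists_congr fun c => ⟨fun h => LinearEquiv.ext fun x => ?_, fun h => matrix_ext_mulVec fun x => ?_⟩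
  · simp [glE_apply, h, Matrix.smul_mulVec]
  · simpa [glE_apply, Matrix.smul_mulVec] using LinearEquiv.congr_fun h x

theorem exists_projQuot {K : Subgroup (GL ι F)} {K' : Subgroup ((ι → F) ≃ₗ[F] (ι → F))}
    (h : ∀ g, g ∈ K ↔ glE g ∈ K') : ∃ η : K' →* projQuot K, Function.Surjective η ∧
      ∀ g, η g = 1 ↔ ∃ c, g.1 = CForm.scal _ c := by
  refine ⟨(QuotientGroup.mk' _).comp (glSub h).symm.toMonoidHom,
    (QuotientGroup.mk'_surjective _).comp (glSub h).symm.surjective, fun g => ?_⟩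
  obtain ⟨g, rfl⟩ := (glSub h).surjective g
  simp only [MonoidHom.comp_apply, MulEquiv.coe_toMonoidHom, MulEquiv.symm_apply_apply,
    QuotientGroup.mk'_apply, QuotientGroup.eq_one_iff, Subgroup.mem_subgroupOf, mem_scalars]
  rfl

theorem exists_pgl : ∃ η : (⊤ : Subgroup ((ι → F) ≃ₗ[F] (ι → F))) →* Matrix.ProjGenLinGroup ι F,
    Function.Surjective η ∧ ∀ g, η g = 1 ↔ ∃ c, g.1 = CForm.scal _ c := by
  refine ⟨(QuotientGroup.mk' _).comp (glE.symm.toMonoidHom.comp (Subgroup.subtype _)),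
    (QuotientGroup.mk'_surjective _).comp (glE.symm.surjective.comp fun g => ⟨⟨g, trivial⟩, rfl⟩),
    fun ⟨g, _⟩ => ?_⟩
  obtain ⟨g, rfl⟩ := glE.surjective g
  rw [← mem_scalars]
  refine (QuotientGroup.eq_one_iff _).trans ?_
  simp only [MonoidHom.comp_apply, MulEquiv.coe_toMonoidHom, Subgroup.subtype_apply,
    MulEquiv.symm_apply_apply, Matrix.GeneralLinearGroup.center_eq_range_scalar]
  rfl

namespace Mdl

variable {X : Type*} [Group X] {H : Subgroup (Gam F V)} {E : Subgroup (V ≃ₗ[F] V)} (M : Mdl X H E)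
  {K : Subgroup (V ≃ₗ[F] V)} (hK : K ≤ H.comap lin)

include hK in
theorem isConj_of {γ γ' : H} {s} (hs : s ∈ K) {d : Fˣ}
    (h : sc F V d * γ'.1 = lin s * γ.1 * (lin s)⁻¹) : IsConjUnder (M.im (K.map lin)) (M.Φ γ) (M.Φ γ') :=
  ⟨M.Φ ⟨lin s, hK hs⟩, ⟨_, ⟨s, hs, rfl⟩, rfl⟩, by
    rw [← map_inv, ← map_mul, ← map_mul]; exact (M.Φ_eq_iff.2 ⟨d, h.symm⟩).symm⟩

theorem pow_ρ_eq_one {γ : H} {r : ℕ} (h : M.Φ γ ^ r = 1) : γ.1 ^ r ∈ Zs F V ∧ γ.1.ρ ^ r = 1 := by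
  rw [← map_pow, M.ker] at h
  refine ⟨h, ?_⟩
  obtain ⟨c, hc⟩ := h
  rw [← pow_ρ, ← Subgroup.coe_pow, ← hc, sc_ρ]

theorem orderOf_gk {k : (ι → F) ≃ₗ[F] V} {σ} (h : gk k σ ∈ H) : orderOf (M.Φ ⟨_, h⟩) = orderOf σ :=
  orderOf_eq_orderOf_iff.2 fun n => ⟨fun h => (M.pow_ρ_eq_one h).2, fun h' => by
    rw [← map_pow, ← map_one M.Φ]; congr 1; exact Subtype.ext (by simp [gk_pow, h', gk_one])⟩

include hK in
theorem lang (γ : H) {r : ℕ} (h : ∀ g ∈ K, (lin g * γ.1) ^ r ∈ Zs F V →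
    ∃ d, ∃ s ∈ K, sc F V d * (lin g * γ.1) = lin s * γ.1 * (lin s)⁻¹) :
    ∀ δ ∈ M.im (K.map lin), (δ * M.Φ γ) ^ r = 1 → IsConjUnder (M.im (K.map lin)) (M.Φ γ) (δ * M.Φ γ) := by
  rintro _ ⟨⟨_, h1⟩, ⟨g, hg, rfl⟩, rfl⟩ e
  rw [← map_mul] at e ⊢
  obtain ⟨d, s, hs, e'⟩ := h g hg (M.pow_ρ_eq_one e).1
  exact M.isConj_of hK hs e'

include hK in
theorem Inn_le (h : E ≤ K) : Inn X ≤ M.im (K.map lin) := M.Inn_eq ▸ M.im_mono (Subgroup.map_mono h)

variable {φ : F₀ →+* F} {k : (ι → F) ≃ₗ[F] V} {K₀ : Subgroup ((ι → F₀) ≃ₗ[F₀] (ι → F₀))}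
  (h1 : ∀ g ∈ K₀, bk φ k g ∈ K)

/-- the rational points -/
noncomputable def _root_.Cfsg.Agent.H4.bkR : K₀ →* K :=
  ((bk φ k).comp K₀.subtype).codRestrict K fun g => h1 g g.2

@[simp] theorem _root_.Cfsg.Agent.H4.bkR_coe (g : K₀) : (bkR h1 g).1 = bk φ k g.1 := rfl

variable [Nonempty ι] {σ : F ≃+* F} (hσ : ∀ x, σ x = x ↔ ∃ y, φ y = x) (h0 : 0 < orderOf σ)
  (hγ : gk k σ ∈ H)
  (h2 : ∀ c g, CForm.scal V c * bk φ k g ∈ K → ∃ c₀, ∃ g' ∈ K₀, g = CForm.scal _ c₀ * g')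
include hσ h0 h2

theorem range_cent : ((M.im (K.map lin)).subtype.comp ((M.rs hK).comp (bkR h1))).range =
    M.im (K.map lin) ⊓ Subgroup.centralizer {M.Φ ⟨_, hγ⟩} := by
  haveI := k.symm.toEquiv.nontrivial
  ext x
  rw [Subgroup.mem_inf, Subgroup.mem_centralizer_singleton_iff]
  constructor
  · rintro ⟨g, rfl⟩
    refine ⟨Subtype.prop _, ?_⟩
    change M.Φ _ * _ = _ * M.Φ _
    rw [← map_mul, ← map_mul]
    exact congrArg M.Φ (Subtype.ext (commute_gk_bk k hσ g.1))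
  · rintro ⟨⟨⟨_, h3⟩, ⟨s, hs, rfl⟩, rfl⟩, e⟩
    rw [← map_mul, ← map_mul, M.Φ_eq_iff] at e
    obtain ⟨c, e⟩ := e
    obtain ⟨d, g, rfl⟩ := exists_bk_of_comm k hσ h0 e
    obtain ⟨c₀, g', h4, rfl⟩ := h2 d g hs
    refine ⟨⟨g', h4⟩, (M.Φ_eq_iff.2 ⟨d * Units.map (φ : F₀ →* F) c₀, ?_⟩).symm⟩
    simp only [map_mul, bk_scal, sc_eq_lin, mul_assoc]
    rfl

include hK h1 in
theorem cent_equiv {A : Type*} [Group A] (η : K₀ →* A) (hη : Function.Surjective η)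
    (hη' : ∀ g, η g = 1 ↔ ∃ c, g.1 = CForm.scal _ c) :
    Nonempty (↥(M.im (K.map lin) ⊓ Subgroup.centralizer {M.Φ ⟨_, hγ⟩}) ≃* A) := by
  refine equiv_of_range _ η hη (fun g => ?_) (M.range_cent hK h1 hσ h0 hγ h2)
  rw [hη', MonoidHom.comp_apply, Subgroup.subtype_apply, OneMemClass.coe_eq_one, MonoidHom.comp_apply,
    M.rs_eq_one]
  exact ⟨fun ⟨c, hc⟩ => isSc_of_bk φ k hc, fun ⟨c, hc⟩ => ⟨_, by rw [bkR_coe, hc, bk_scal]⟩⟩

theorem split_eq (h : E ≤ K) : splitClassCount (M.im (K.map lin)) (Inn X) (M.Φ ⟨_, hγ⟩) =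
    ((M.κ hK).comp (bkR h1)).range.relIndex (M.κ hK).range := by
  rw [splitClassCount_eq (M.Inn_le hK h), ← M.range_cent hK h1 hσ h0 hγ h2, ← M.range_κ hK,
    ← MonoidHom.range_comp]
  rfl

end Mdl

end Cfsg.Agent.H4
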