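import Cfsg.Agent.H4.Lang4

/-! Field and graph-field automorphisms of linear, unitary and symplectic groups. -/

set_option autoImplicit false

namespace Cfsg.Agent.H4

open Module Submodule Gam Matrix

variable {F : Type*} [Field F] {V : Type*} [AddCommGroup V] [Module F V]
  {ι : Type} [Fintype ι] [DecidableEq ι] {F₀ : Type*} [Field F₀]

section fields

theorem orderOf_dvd_of_card [Fintype F] {p f : ℕ} [Fact p.Prime] (hF : Fintype.card F = p ^ f)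
    (σ : F ≃+* F) : orderOf σ ∣ f := card_ringAut hF ▸ orderOf_dvd_natCard σ

theorem exists_fixed_hom' [Fintype F] {p f : ℕ} [Fact p.Prime] (hF : Fintype.card F = p ^ f)
    (σ : F ≃+* F) [Fintype F₀] (hF₀ : Fintype.card F₀ = p ^ (f / orderOf σ)) :
    ∃ φ : F₀ →+* F, ∀ x, σ x = x ↔ ∃ y, φ y = x :=
  exists_fixed_hom σ F₀ (by rw [hF₀, hF, ← pow_mul, Nat.div_mul_cancel (orderOf_dvd_of_card hF σ)])

theorem exists_fixed_field.{u} {F : Type u} [Field F] [Finite F] (σ : F ≃+* F) :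
    ∃ (F₀ : Type u) (_ : Field F₀) (_ : Fintype F₀)
    (φ : F₀ →+* F), (∀ x, σ x = x ↔ ∃ y, φ y = x) ∧ Fintype.card F₀ ^ orderOf σ = Nat.card F :=
  ⟨FixedPoints.subfield (Subgroup.zpowers σ) F, inferInstance, Fintype.ofFinite _, Subfield.subtype _,
    fun x => ⟨fun h => ⟨⟨x, mem_fixed_subfield.2 h⟩, rfl⟩, by
      rintro ⟨y, rfl⟩; exact mem_fixed_subfield.1 y.2⟩, by
    rw [← card_fixed_pow σ, ← @Nat.card_eq_fintype_card _ (Fintype.ofFinite _)]⟩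

theorem index_units_map [Fintype F] [Fintype F₀] (φ : F₀ →+* F) :
    (Units.map (φ : F₀ →* F)).range.index = (Fintype.card F - 1) / (Fintype.card F₀ - 1) := by
  have h := (Units.map (φ : F₀ →* F)).range.card_mul_index
  rw [← Nat.card_congr (MonoidHom.ofInjective (f := Units.map (φ : F₀ →* F))
    (Units.map_injective φ.injective)).toEquiv,
    card_units_field, card_units_field] at h
  have := Fintype.one_lt_card (α := F₀)
  rw [← h, Nat.mul_div_cancel_left _ (by omega)]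

theorem eq_of_sq_eq_one [Finite F] {σ τ : F ≃+* F} (h1 : σ ≠ 1) (h2 : σ ^ 2 = 1) (h3 : τ ≠ 1)
    (h4 : τ ^ 2 = 1) : σ = τ := by
  classical
  have := Fintype.ofFinite F
  have := Fintype.ofFinite (F ≃+* F)
  have := isCyclic_ringAut (F := F)
  by_contra h
  have h5 := IsCyclic.card_pow_eq_one_le (α := F ≃+* F) two_pos
  have h6 : ({1, σ, τ} : Finset (F ≃+* F)) ⊆ Finset.univ.filter fun a => a ^ 2 = 1 := by
    intro x hx; simp only [Finset.mem_insert, Finset.mem_singleton] at hx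
    rcases hx with rfl | rfl | rfl <;> simp [h2, h4]
  have h7 := Finset.card_le_card h6
  rw [Finset.card_eq_three.2 ⟨1, σ, τ, h1.symm, h3.symm, h, rfl⟩] at h7
  omega

/-- the involutory automorphism -/
def frobE [Fintype F] {q : ℕ} (hF : Fintype.card F = q ^ 2) : F ≃+* F :=
  RingEquiv.ofRingHom (frobq hF) (frobq hF) (RingHom.ext (frobq_frobq hF)) (RingHom.ext (frobq_frobq hF))

theorem eq_frobq [Fintype F] {q : ℕ} (hF : Fintype.card F = q ^ 2) {σ : F ≃+* F} (h1 : σ ≠ 1)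
    (h2 : σ ^ 2 = 1) (x : F) : σ x = frobq hF x := by
  rw [eq_of_sq_eq_one (τ := frobE hF) h1 h2 (fun h => frobq_ne hF (RingHom.ext fun x =>
    DFunLike.congr_fun h x)) (RingEquiv.ext (frobq_frobq hF))]; rfl

theorem sqc_map_eq [Fintype F] [Fintype F₀] (φ : F₀ →+* F) {r : ℕ}
    (h : Fintype.card F₀ ^ r = Fintype.card F) (a : F₀ˣ) : sqc (Units.map (φ : F₀ →* F) a) = sqc a ^ r := by
  by_cases h2 : (2 : F₀) = 0
  · rw [sqc_eq_one.2 (isSquare_of_two_eq_zero h2 _), one_pow]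
    exact sqc_eq_one.2 (isSquare_of_two_eq_zero (by rw [← map_ofNat φ 2, h2, map_zero]) _)
  have h2' : (2 : F) ≠ 0 := fun h => h2 (φ.injective (by rw [map_ofNat φ 2, h, map_zero]))
  have c1 : ringChar F₀ ≠ 2 := fun h => h2 (by simpa [h] using ringChar.Nat.cast_ringChar (R := F₀))
  have c2 : ringChar F ≠ 2 := fun h => h2' (by simpa [h] using ringChar.Nat.cast_ringChar (R := F))
  have h3 := FiniteField.odd_card_of_char_ne_two c1
  have h4 : Fintype.card F / 2 = Fintype.card F₀ / 2 * ∑ i ∈ Finset.range r, Fintype.card F₀ ^ i := by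
    have := Nat.geomSum_eq (m := Fintype.card F₀) Fintype.one_lt_card r
    have h5 := Nat.div_mul_cancel (Nat.sub_one_dvd_pow_sub_one (Fintype.card F₀) r)
    have h6 := FiniteField.odd_card_of_char_ne_two c2
    rw [← this, h, show Fintype.card F₀ - 1 = 2 * (Fintype.card F₀ / 2) by omega] at h5
    rw [mul_comm]
    rw [mul_left_comm] at h5
    omega
  have h5 : Even (∑ i ∈ Finset.range r, Fintype.card F₀ ^ i) ↔ Even r := by
    rw [Nat.even_iff, Nat.even_iff, Finset.sum_nat_mod]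
    simp [Nat.pow_mod, h3]
  apply units_eq_of_iff
  rw [sqc_eq_one, FiniteField.isSquare_iff c2 (Units.ne_zero _), h4, pow_mul]
  change (φ a ^ _) ^ _ = 1 ↔ _
  rw [← map_pow]
  rcases FiniteField.pow_dichotomy c1 a.ne_zero with h6 | h6
  · rw [sqc_eq_one.2 ((FiniteField.isSquare_iff c1 a.ne_zero).2 h6), h6]; simp
  · have h7 : (-1 : F) ≠ 1 := fun h => h2' (by linear_combination -h)
    have h8 : (-1 : F₀) ≠ 1 := fun h => h2 (by linear_combination -h)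
    rw [sqc_eq_neg.2 (by rw [FiniteField.isSquare_iff c1 a.ne_zero, h6]; exact h8), h6, map_neg, map_one,
      neg_one_pow_eq_one_iff_even h7, neg_one_pow_eq_one_iff_even (by decide), h5]

end fields

theorem scal_one_mul (g : V ≃ₗ[F] V) : g = CForm.scal V 1 * g := by ext; simp

theorem Mdl.im_eq_of {X : Type*} [Group X] {H : Subgroup (Gam F V)} {E : Subgroup (V ≃ₗ[F] V)}
    (M : Mdl X H E) {K K' : Subgroup (V ≃ₗ[F] V)} (h : K ≤ K')
    (h' : ∀ g ∈ K', ∃ c, ∃ k ∈ K, g = CForm.scal V c * k) : M.im (K.map lin) = M.im (K'.map lin) :=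
  le_antisymm (M.im_mono (Subgroup.map_mono h)) (by
    rintro _ ⟨⟨_, h1⟩, ⟨g, hg, rfl⟩, rfl⟩; exact (M.Φ_mem_im_lin h1).2 (h' g hg))

theorem CForm.Nondeg.lang_Sim {T : FType F} {T₀ : FType F₀} {φ : F₀ →+* F} {f : CForm T V} [Finite F]
    [FiniteDimensional F V] [Nontrivial V] (hf : f.Nondeg) {k₀ : (ι → F) ≃ₗ[F] V}
    {f₀ : CForm T₀ (ι → F₀)} {l₀ : F} (h₀ : CForm.Ext φ k₀ f₀ f l₀) {σ : F ≃+* F}
    (hσ : ∀ x, σ x = x ↔ ∃ y, φ y = x) {γ : Gam F V} (hγ : γ ∈ f.GamS) (hρ : γ.ρ = σ)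
    (h : γ ^ orderOf σ ∈ Zs F V)
    (hs : ∀ d k (f₁ : CForm T₀ (ι → F₀)) l, sc F V d * γ = gk k σ → CForm.Ext φ k f₁ f l →
      ∃ g l', CForm.Ext φ ((bc φ g).trans k) f₀ f l') :
    ∃ d, ∃ s ∈ f.Sim, sc F V d * γ = lin s * gk k₀ σ * (lin s)⁻¹ := by
  subst hρ
  obtain ⟨d, k, f₁, l, h1, h2⟩ := hf.lang (ι := ι) h₀.hom (by simp [← k₀.finrank_eq]) hγ hσ h
  obtain ⟨g, l', h3⟩ := hs d k f₁ l h1 h2
  obtain ⟨s, h4, h5⟩ := h₀.conj h3 γ.ρ
  exact ⟨d, s, h4, by rw [h1, ← h5, gk_trans k hσ]⟩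

/-! ### linear groups -/

section SL

/-- similarities of the sesquilinear form attached to a semilinear map -/
def bsim (a : Gam F (ι → F)) : Subgroup ((ι → F) ≃ₗ[F] (ι → F)) where
  carrier := {g | ∃ c : Fˣ, ∀ x y, g x ⬝ᵥ a.s (g y) = c * (x ⬝ᵥ a.s y)}
  one_mem' := ⟨1, by simp⟩
  mul_mem' := fun ⟨c, hc⟩ ⟨d, hd⟩ => ⟨c * d, fun x y => by simp [hc, hd, mul_assoc]⟩
  inv_mem' := fun {g} ⟨c, hc⟩ => ⟨c⁻¹, fun x y => by
    have := hc (g⁻¹ x) (g⁻¹ y)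
    simp only [← LinearEquiv.mul_apply, mul_inv_cancel, LinearEquiv.coe_one, id_eq] at this
    simp [this]⟩

theorem gr_conj_iff {a b : Gam F (ι → F)} (h : a.ρ = b.ρ) {g : (ι → F) ≃ₗ[F] (ι → F)} :
    lin (gr g) * a = b * lin g ↔ ∀ x y, g x ⬝ᵥ b.s (g y) = x ⬝ᵥ a.s y := by
  refine ⟨fun e x y => ?_, fun e => ext' (fun y => eq_of_dot fun x => ?_) (by simp [h])⟩
  · rw [← gr_dot g x]; exact congrArg (fun γ : Gam F (ι → F) => g x ⬝ᵥ γ.s y) e.symm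
  · obtain ⟨x, rfl⟩ := g.surjective x
    simp [gr_dot, e]

theorem mem_bsim {a : Gam F (ι → F)} {g} : g ∈ bsim a ↔ ∃ c, lin (gr g) * a = sc F _ c * (a * lin g) := by
  simp only [← mul_assoc, gr_conj_iff (a := a) (b := sc F _ _ * a) (by simp)]
  exact ⟨fun ⟨c, hc⟩ => ⟨c⁻¹, fun x y => by simp [hc, -map_inv]⟩,
    fun ⟨c, hc⟩ => ⟨c⁻¹, fun x y => by rw [← hc x y]; simp⟩⟩

theorem gr_scal (c : Fˣ) : gr (CForm.scal (ι → F) c) = CForm.scal _ c⁻¹ :=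
  lin_injective (by rw [← dual_lin, ← sc_eq_lin, dual_sc, sc_eq_lin])

theorem nm_two (σ : F ≃+* F) (c : Fˣ) : nm σ 2 c = c * Units.map (σ : F →* F) c := by
  simp [nm_apply, Finset.prod_range_succ]; rfl

theorem exists_sc_dual [Nonempty ι] {a : Gam F (ι → F)} (h2 : orderOf a.ρ = 2)
    (h : a * dual a ∈ Zs F (ι → F)) : ∃ d, (sc F _ d * a) * dual (sc F _ d * a) = 1 := by
  obtain ⟨c, hc⟩ := h
  have h1 := congrArg dual hc
  rw [dual_sc, map_mul, dual_dual] at h1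
  have h3 := a.mul_sc c⁻¹
  rw [h1, ← mul_assoc, ← hc, mul_left_inj] at h3
  obtain ⟨d, hd⟩ := hilbert90 h2 two_pos (c := c⁻¹) (by rw [nm_two, ← sc_injective h3, inv_mul_cancel])
  refine ⟨d, ?_⟩
  rw [map_mul, dual_sc, mul_assoc, ← mul_assoc a, mul_sc, mul_assoc, ← hc, ← map_mul, ← map_mul,
    map_inv, ← map_one (sc F _)]
  congr 1
  rw [eq_inv_mul_iff_mul_eq.2 hd]; simp

theorem symm_of_dual {a : Gam F (ι → F)} (h : a * dual a = 1) (x y) :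
    y ⬝ᵥ a.s x = a.ρ (x ⬝ᵥ a.s y) := by
  rw [← dual_dot, dotProduct_comm, ← eq_inv_of_mul_eq_one_right h |>.symm]; simp

theorem exists_conj_herm [Finite F] {σ : F ≃+* F} (h2 : orderOf σ = 2) {a b : Gam F (ι → F)}
    (ha : a.ρ = σ) (hb : b.ρ = σ) (ha' : a * dual a = 1) (hb' : b * dual b = 1) :
    ∃ g, lin (gr g) * a = b * lin g := by
  have hσσ : ∀ x, (σ : F →+* F) ((σ : F →+* F) x) = x := fun x =>
    DFunLike.congr_fun (show σ * σ = 1 by rw [← sq, ← h2, pow_orderOf_eq_one]) x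
  have hσ : (σ : F →+* F) ≠ RingHom.id F := fun h => by
    rw [show σ = 1 from RingEquiv.ext fun x => DFunLike.congr_fun h x] at h2; simp at h2
  have key : ∀ a : Gam F (ι → F), a.ρ = σ → a * dual a = 1 → ∃ f : CForm (FType.unit _ hσσ) (ι → F),
      f.Nondeg ∧ ∀ x y, f.B x y = x ⬝ᵥ a.s y := fun a h h' =>
    ⟨CForm.mkHerm _ hσσ hσ (fun x y => x ⬝ᵥ a.s y) (by simp) (by simp)
      fun x y => by rw [symm_of_dual h', h]; rfl, fun x hx => eq_of_dot fun z => by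
        obtain ⟨z, rfl⟩ := a.s.surjective z
        rw [dotProduct_comm]; simpa using hx z, fun _ _ => rfl⟩
  obtain ⟨f, h1, h3⟩ := key a ha ha'
  obtain ⟨f', h1', h3'⟩ := key b hb hb'
  obtain ⟨g, hg⟩ := h1.unit_isom hσ h1' rfl
  exact ⟨g, (gr_conj_iff (ha.trans hb.symm)).2 fun x y => by rw [← h3, ← h3']; exact hg.B x y⟩

variable [Fintype F] {n : ℕ} (hn : 2 ≤ n)
include hn

theorem inndiagPSL_eq' : inndiagPSL n F = (slM F hn).im ((⊤ : Subgroup _).map lin) := by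
  rw [inndiagPSL_eq hn, Lin_eq (K' := ⊤) (by simp)]

theorem mem_inndiagPSL {δ} : δ ∈ inndiagPSL n F ↔ ∃ g, slΦ F hn (lin g) = δ := by
  rw [inndiagPSL_eq' hn]
  exact ⟨by rintro ⟨⟨_, h⟩, ⟨g, -, rfl⟩, rfl⟩; exact ⟨g, rfl⟩,
    by rintro ⟨g, rfl⟩; exact ⟨_, ⟨g, trivial, rfl⟩, rfl⟩⟩

theorem inndiagPSL_normal : (inndiagPSL n F).Normal := by
  rw [inndiagPSL_eq' hn]
  have : ((⊤ : Subgroup ((Fin n → F) ≃ₗ[F] (Fin n → F))).map lin).Normal := by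
    rw [← MonoidHom.range_eq_map, range_lin]; infer_instance
  exact slM_im_normal hn (by rintro _ ⟨g, -, rfl⟩; exact ⟨_, trivial, (dual_lin g).symm⟩)

theorem Inn_le_inndiagPSL : Inn _ ≤ inndiagPSL n F :=
  inndiagPSL_eq' (F := F) hn ▸ (slM F hn).Inn_le top_le_comap le_top

theorem orderOf_slΦ_fld (σ : F ≃+* F) : orderOf (slΦ F hn (fld _ σ)) = orderOf σ :=
  (slM F hn).orderOf_gk (k := LinearEquiv.refl _ _) trivial

theorem sl_lang (σ : F ≃+* F) : ∀ δ ∈ inndiagPSL n F, (δ * slΦ F hn (fld _ σ)) ^ orderOf σ = 1 →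
    IsConjUnder (inndiagPSL n F) (slΦ F hn (fld _ σ)) (δ * slΦ F hn (fld _ σ)) := by
  have : Nonempty (Fin n) := ⟨⟨0, by omega⟩⟩
  rw [inndiagPSL_eq' hn]
  refine (slM F hn).lang top_le_comap ⟨fld _ σ, trivial⟩ fun g _ h => ?_
  obtain ⟨d, hd⟩ := exists_sc_mul_pow (by simp) (orderOf_pos _) h
  obtain ⟨k, hk⟩ := exists_gk (ι := Fin n) (by simp) (γ := sc F _ d * (lin g * fld _ σ))
    (by simpa using orderOf_pos _) (by simpa using hd)
  exact ⟨d, _, trivial, hk.trans (by simpa [gk_refl] using gk_conj (LinearEquiv.refl _ _) k σ)⟩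

theorem sl_cent {φ : F₀ →+* F} {σ : F ≃+* F} (hσ : ∀ x, σ x = x ↔ ∃ y, φ y = x) :
    Nonempty (↥(inndiagPSL n F ⊓ Subgroup.centralizer {slΦ F hn (fld _ σ)}) ≃*
      ProjGenLinGroup (Fin n) F₀) := by
  have : Nonempty (Fin n) := ⟨⟨0, by omega⟩⟩
  obtain ⟨η, h1, h2⟩ := exists_pgl (ι := Fin n) (F := F₀)
  rw [inndiagPSL_eq' hn]
  exact (slM F hn).cent_equiv top_le_comap (k := LinearEquiv.refl _ _) (K₀ := ⊤) (fun _ _ => trivial) hσ
    (orderOf_pos σ) trivial (fun c g _ => ⟨1, g, trivial, scal_one_mul g⟩) η h1 h2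

theorem sl_relIndex {K₀ : Type*} [Group K₀] (θ : K₀ →* (⊤ : Subgroup ((Fin n → F) ≃ₗ[F] (Fin n → F))))
    {B : Subgroup Fˣ} (h : ∀ c, c ∈ B ↔ ∃ g, LinearEquiv.det (θ g).1 = c) :
    (((slM F hn).κ top_le_comap).comp θ).range.relIndex ((slM F hn).κ top_le_comap).range =
      Nat.gcd n B.index := by
  have : Nonempty (Fin n) := ⟨⟨0, by omega⟩⟩
  rw [relIndex_range_eq θ _ (LinearEquiv.det.comp (Subgroup.subtype _))
    (det_surj.comp fun g => ⟨⟨g, trivial⟩, rfl⟩) (powMonoidHom n).range fun g => slκ_eq_one hn,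
    index_sup_pow]
  congr 2
  exact Subgroup.ext fun c => (h c).symm

theorem sl_split [Fintype F₀] {φ : F₀ →+* F} {σ : F ≃+* F} (hσ : ∀ x, σ x = x ↔ ∃ y, φ y = x) :
    splitClassCount (inndiagPSL n F) (Inn _) (slΦ F hn (fld _ σ)) =
      Nat.gcd n ((Fintype.card F - 1) / (Fintype.card F₀ - 1)) := by
  have : Nonempty (Fin n) := ⟨⟨0, by omega⟩⟩
  rw [inndiagPSL_eq' hn, ← index_units_map φ]
  refine ((slM F hn).split_eq top_le_comap (k := LinearEquiv.refl _ _) (K₀ := ⊤) (fun _ _ => trivial) hσ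
    (orderOf_pos σ) trivial (fun c g _ => ⟨1, g, trivial, scal_one_mul g⟩) le_top).trans
    (sl_relIndex hn _ fun c => ⟨?_, ?_⟩)
  · rintro ⟨c, rfl⟩
    obtain ⟨g, rfl⟩ := det_surj (F := F₀) (V := Fin n → F₀) c
    exact ⟨⟨g, trivial⟩, det_bk _ _ _⟩
  · rintro ⟨g, rfl⟩; exact ⟨_, (det_bk _ _ _).symm⟩

theorem slΦ_eq_iff {a b} : slΦ F hn a = slΦ F hn b ↔ ∃ c, a = sc F _ c * b := (slM F hn).Φ_eq_iff

theorem slΦι_sq (a) : (slΦ F hn a * slι F n) ^ 2 = slΦ F hn (a * dual a) := by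
  rw [sq, mul_assoc, ← mul_assoc (slι F n), slι_mul_Φ hn, mul_assoc, slι_mul, mul_one, map_mul]

theorem slΦι_pow (h3 : 3 ≤ n) {a} {r : ℕ} (h : (slΦ F hn a * slι F n) ^ r = 1) : Even r := by
  refine (Nat.even_or_odd r).resolve_right fun ⟨k, hk⟩ => slι_notMem (F := F) hn h3 ?_
  rw [hk, pow_succ, pow_mul, slΦι_sq, ← map_pow, ← mul_assoc, ← map_mul, mul_eq_one_iff_inv_eq,
    ← map_inv] at h
  exact ⟨⟨_, trivial⟩, h⟩

theorem slΦι_conj {a b : Gam F (Fin n → F)} {d g} (h : lin (gr g) * a = sc F _ d * b * lin g) :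
    IsConjUnder (inndiagPSL n F) (slΦ F hn a * slι F n) (slΦ F hn b * slι F n) :=
  ⟨_, (mem_inndiagPSL hn).2 ⟨gr g, rfl⟩, by
    rw [mul_assoc, mul_assoc, ← map_inv, slι_mul_Φ, ← mul_assoc, ← mul_assoc, ← map_mul, ← map_mul, h,
      map_inv, dual_lin, gr_gr, mul_inv_cancel_right, (slΦ_eq_iff hn).2 ⟨d, rfl⟩]⟩

theorem sl_lang_herm {a b : Gam F (Fin n → F)} (h2 : orderOf a.ρ = 2) (hb : b.ρ = a.ρ)
    (ha' : (slΦ F hn a * slι F n) ^ 2 = 1) (hb' : (slΦ F hn b * slι F n) ^ 2 = 1) :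
    IsConjUnder (inndiagPSL n F) (slΦ F hn a * slι F n) (slΦ F hn b * slι F n) := by
  have : Nonempty (Fin n) := ⟨⟨0, by omega⟩⟩
  rw [slΦι_sq] at ha' hb'
  obtain ⟨c, hc⟩ := exists_sc_dual h2 (((slM F hn).ker _).1 ha')
  obtain ⟨d, hd⟩ := exists_sc_dual (hb ▸ h2) (((slM F hn).ker _).1 hb')
  obtain ⟨g, hg⟩ := exists_conj_herm h2 (by simp) (by simp [hb]) hc hd
  refine slΦι_conj hn (d := c⁻¹ * d) (g := g) ?_
  rw [map_mul, mul_assoc, mul_assoc, ← mul_assoc (sc F _ d), ← hg, ← mul_assoc (lin _), lin_mul_sc]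
  simp [mul_assoc]

variable {a : Gam F (Fin n → F)} {K₀ : Subgroup ((Fin n → F) ≃ₗ[F] (Fin n → F))} (h1 : K₀ ≤ bsim a)
  (h2 : ∀ g ∈ bsim a, ∃ c, ∃ g' ∈ K₀, g = CForm.scal _ c * g')
include h1 h2

theorem range_cent_graph : ((slΦ F hn).comp (lin.comp (gr.toMonoidHom.comp K₀.subtype))).range =
    inndiagPSL n F ⊓ Subgroup.centralizer {slΦ F hn a * slι F n} := by
  have key : ∀ g, slΦ F hn (lin (gr g)) ∈ Subgroup.centralizer {slΦ F hn a * slι F n} ↔ g ∈ bsim a := by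
    intro g
    rw [Subgroup.mem_centralizer_singleton_iff, mul_assoc, slι_mul_Φ, ← mul_assoc, ← mul_assoc,
      mul_left_inj, ← map_mul, ← map_mul, slΦ_eq_iff, dual_lin, gr_gr, mem_bsim]
  ext x
  rw [Subgroup.mem_inf, mem_inndiagPSL hn]
  constructor
  · rintro ⟨g, rfl⟩; exact ⟨⟨_, rfl⟩, (key g).2 (h1 g.2)⟩
  · rintro ⟨⟨g, rfl⟩, h⟩
    obtain ⟨g, rfl⟩ := gr.surjective g
    obtain ⟨c, g', h3, rfl⟩ := h2 g ((key g).1 h)
    exact ⟨⟨g', h3⟩, ((slΦ_eq_iff hn).2 ⟨c⁻¹, by rw [map_mul, gr_scal, map_mul]; rfl⟩).symm⟩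

theorem sl_cent_graph {A : Type*} [Group A] (η : K₀ →* A) (hη : Function.Surjective η)
    (hη' : ∀ g, η g = 1 ↔ ∃ c, g.1 = CForm.scal _ c) :
    Nonempty (↥(inndiagPSL n F ⊓ Subgroup.centralizer {slΦ F hn a * slι F n}) ≃* A) := by
  refine equiv_of_range _ η hη (fun g => ?_) (range_cent_graph hn h1 h2)
  rw [hη']
  refine ((slM F hn).ker _).trans ⟨fun ⟨c, hc⟩ => ⟨c⁻¹, ?_⟩, fun ⟨c, hc⟩ => ⟨c⁻¹, ?_⟩⟩
  · rw [← gr_scal, show CForm.scal _ c = gr g.1 from lin_injective hc, gr_gr]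
  · change _ = lin (gr g.1); rw [hc, gr_scal]; rfl

theorem sl_split_graph {B : Subgroup Fˣ} (h : ∀ c, c ∈ B ↔ ∃ g ∈ K₀, LinearEquiv.det g = c) :
    splitClassCount (inndiagPSL n F) (Inn _) (slΦ F hn a * slι F n) = Nat.gcd n B.index := by
  rw [splitClassCount_eq (Inn_le_inndiagPSL hn), ← range_cent_graph hn h1 h2, inndiagPSL_eq' hn,
    ← Mdl.range_κ _ top_le_comap, ← MonoidHom.range_comp]
  refine sl_relIndex hn ((gr.toMonoidHom.comp K₀.subtype).codRestrict ⊤ fun _ => trivial)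
    fun c => ⟨fun hc => ?_, ?_⟩
  · obtain ⟨g, hg, e⟩ := (h _).1 (B.inv_mem hc)
    exact ⟨⟨g, hg⟩, (det_gr g).trans (by rw [e, inv_inv])⟩
  · rintro ⟨g, rfl⟩
    exact (det_gr g.1).symm ▸ B.inv_mem ((h _).2 ⟨g, g.2, rfl⟩)

end SL

/-! ### unitary groups -/

section SU

variable [Fintype F] {q : ℕ} (hF : Fintype.card F = q ^ 2)

include hF in
theorem index_rootsOfUnity_succ : (rootsOfUnity (q + 1) F).index = q - 1 := by
  have h := (rootsOfUnity (q + 1) F).card_mul_index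
  rw [CForm.card_rootsOfUnity_succ hF, card_units_field, hF, ← one_pow 2, Nat.sq_sub_sq] at h
  exact Nat.eq_of_mul_eq_mul_left (by omega) h

theorem unF_det_iff {n : ℕ} (hn : 0 < n) (c : Fˣ) :
    c ∈ rootsOfUnity (q + 1) F ↔ ∃ g ∈ (unF hF n).iso, LinearEquiv.det g = c :=
  haveI : Nonempty (Fin n) := ⟨⟨0, hn⟩⟩
  ⟨fun h => (unF_nondeg hF n).unit_exists_det (frobq_ne hF) ((CForm.mem_rootsOfUnity_succ hF).1 h),
    by rintro ⟨g, hg, rfl⟩; exact (CForm.mem_rootsOfUnity_succ hF).2 ((unF_nondeg hF n).det_norm hg)⟩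

theorem unT_exists_scal [FiniteDimensional F V] {f : CForm (unT hF) V} (hf : f.Nondeg) [Nontrivial V]
    {g : V ≃ₗ[F] V} (hg : g ∈ f.Sim) : ∃ c : Fˣ, ∃ g' ∈ f.iso, g = CForm.scal V c * g' :=
  let ⟨c, g', h1, h2⟩ := unT_exists_sc hF hf hg
  ⟨c, g', h1, lin_injective h2⟩

theorem mem_bsim_fld {σ : F ≃+* F} (hσ : ∀ x, σ x = frobq hF x) {n : ℕ} {g} :
    g ∈ bsim (fld (Fin n) σ) ↔ g ∈ (unF hF n).Sim :=
  Iff.trans (by simp [bsim, hermForm, dotProduct, hσ, ← SetLike.mem_coe]) (unT_mem_GamS hF).symm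

variable [Fintype F₀] {q₀ : ℕ} (hF₀ : Fintype.card F₀ = q₀ ^ 2)

theorem unT_hom (φ : F₀ →+* F) {r : ℕ} (hr : Odd r) (h : q = q₀ ^ r) :
    FType.Hom φ (unT hF₀) (unT hF) := by
  have key : ∀ x, φ (frobq hF₀ x) = frobq hF (φ x) := fun x => by
    obtain ⟨k, rfl⟩ := hr
    rw [frobq_apply, frobq_apply, ← map_pow, h, pow_succ, pow_mul q₀, ← hF₀, pow_mul,
      FiniteField.pow_card_pow]
  refine ⟨CForm.unT_natl hF, CForm.unT_natl hF₀, key, fun x => by simp [← key], by simp, by simp,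
    fun y c hc => exists_trace_eq (frobq_ne hF₀) (frobq_frobq hF₀) (φ.injective ?_), Or.inr ?_⟩
  · rw [key, ← hc]; simp [add_comm, -frobq_apply, frobq_frobq]
  · by_contra! h; exact frobq_ne hF₀ (RingHom.ext h)

theorem unF_ext {φ : F₀ →+* F} (h : FType.Hom φ (unT hF₀) (unT hF)) (n : ℕ) :
    CForm.Ext φ (LinearEquiv.refl _ _) (unF hF₀ n) (unF hF n) 1 :=
  have key : ∀ x y, (unF hF n).B (jv φ (LinearEquiv.refl _ _) x) (jv φ (LinearEquiv.refl _ _) y) =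
      1 * φ ((unF hF₀ n).B x y) := fun x y => by
    simp only [unF_B, hermForm, jv_refl, cv, map_sum, map_mul, one_mul]
    exact Finset.sum_congr rfl fun i _ => congrArg _ (h.σ (y i)).symm
  ⟨h, one_ne_zero, map_one _, key, fun x => by rw [CForm.unit_Q, CForm.unit_Q, key]⟩

variable {n : ℕ} (hn : 3 ≤ n) (hs : ¬ (n = 3 ∧ q = 2))
include hn hs

theorem inndiagPSU_eq_iso : inndiagPSU n F q = (suM hF hn hs).im ((unF hF n).iso.map lin) := by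
  rw [inndiagPSU_eq hF hn hs, Lin_eq fun _ => mem_GU hF]

theorem inndiagPSU_eq_Sim : inndiagPSU n F q = (suM hF hn hs).im ((unF hF n).Sim.map lin) :=
  haveI : Nonempty (Fin n) := ⟨⟨0, by omega⟩⟩
  (inndiagPSU_eq_iso hF hn hs).trans (Mdl.im_eq_of _ CForm.iso_le_Sim fun _ =>
    unT_exists_scal hF (unF_nondeg hF n))

include hF in
theorem inndiagPSU_normal : (inndiagPSU n F q).Normal := by
  rw [inndiagPSU_eq_Sim hF hn hs]
  refine Mdl.im_normal _ (suM_surj hF hn hs) ?_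
  rintro a ha _ ⟨g, hg, rfl⟩
  exact ⟨_, CForm.cj_mem_Sim ha hg, lin_cj a g⟩

include hF in
theorem Inn_le_inndiagPSU : Inn _ ≤ inndiagPSU n F q :=
  inndiagPSU_eq_iso hF hn hs ▸ (suM hF hn hs).Inn_le CForm.iso_le_Sim CForm.E_le_iso

theorem su_relIndex {K₀ : Type*} [Group K₀] (θ : K₀ →* (unF hF n).iso) {B : Subgroup Fˣ}
    (h : ∀ c, c ∈ B ↔ ∃ g, LinearEquiv.det (θ g).1 = c) :
    (((suM hF hn hs).κ CForm.iso_le_Sim).comp θ).range.relIndex ((suM hF hn hs).κ CForm.iso_le_Sim).range =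
      Nat.gcd n (B.relIndex (rootsOfUnity (q + 1) F)) := by
  have : Nonempty (Fin n) := ⟨⟨0, by omega⟩⟩
  have hf := unF_nondeg hF n
  rw [relIndex_range_eq θ _ ((LinearEquiv.det.comp (Subgroup.subtype _)).codRestrict
    (rootsOfUnity (q + 1) F) fun g => (unF_det_iff hF (by omega) _).2 ⟨_, g.2, rfl⟩) (fun a => ?_)
    (powMonoidHom n).range fun g => ?_, index_sup_pow]
  · congr 2
    exact Subgroup.ext fun c => ⟨by rintro ⟨g, rfl⟩; exact (h _).2 ⟨g, rfl⟩, fun hc =>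
      let ⟨g, e⟩ := (h _).1 hc; ⟨g, Subtype.ext e⟩⟩
  · obtain ⟨g, hg, h⟩ := (unF_det_iff hF (n := n) (by omega) _).1 a.2
    exact ⟨⟨g, hg⟩, Subtype.ext h⟩
  · rw [Mdl.κ_eq_one, unF_E_eq hF (by omega)]
    constructor
    · rintro ⟨c, s, hs, h⟩
      obtain ⟨v, hv⟩ := exists_ne (0 : Fin n → F)
      have h3 : CForm.scal (Fin n → F) c ∈ (unF hF n).iso := by
        rw [eq_mul_inv_of_mul_eq h.symm]; exact Subgroup.mul_mem _ g.2 (Subgroup.inv_mem _ hs.1)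
      refine ⟨⟨c, (CForm.mem_rootsOfUnity_succ hF).2 (CForm.iso_scalar_norm hf h3 (fun _ => rfl) hv)⟩,
        Subtype.ext ?_⟩
      change c ^ n = LinearEquiv.det g.1
      rw [h, map_mul, mem_SLg.1 hs.2, det_scal]; simp
    · rintro ⟨c, hc⟩
      have hc' : c.1 ^ n = LinearEquiv.det g.1 := congrArg Subtype.val hc
      refine ⟨c, (CForm.scal _ c.1)⁻¹ * g.1, ⟨Subgroup.mul_mem _ (Subgroup.inv_mem _
        (CForm.scal_mem_iso ((CForm.mem_rootsOfUnity_succ hF).1 c.2))) g.2, ?_⟩, by simp⟩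
      refine mem_SLg.2 ?_
      rw [map_mul, map_inv, det_scal, ← hc']; simp

variable {φ : F₀ →+* F} (hT : FType.Hom φ (unT hF₀) (unT hF)) {σ : F ≃+* F}
  (hσ : ∀ x, σ x = x ↔ ∃ y, φ y = x)
include hT hσ

theorem su_lang : ∀ δ ∈ inndiagPSU n F q,
    (δ * (suM hF hn hs).Φ ⟨_, fld_mem_unF hF n σ⟩) ^ orderOf σ = 1 → IsConjUnder (inndiagPSU n F q)
      ((suM hF hn hs).Φ ⟨_, fld_mem_unF hF n σ⟩) (δ * (suM hF hn hs).Φ ⟨_, fld_mem_unF hF n σ⟩) := by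
  have : Nonempty (Fin n) := ⟨⟨0, by omega⟩⟩
  rw [inndiagPSU_eq_Sim hF hn hs]
  exact Mdl.lang _ le_rfl _ fun g hg h => (unF_nondeg hF n).lang_Sim (unF_ext hF hF₀ hT n) hσ
    (mul_mem hg (fld_mem_unF hF n σ)) (by simp) h fun d k f₁ l _ h =>
      let ⟨g, hg⟩ := h.isom ((unF_nondeg hF₀ n).unit_isom (frobq_ne hF₀) (h.nondeg (unF_nondeg hF n)) rfl)
      ⟨g, l, hg⟩

omit hs hσ in
theorem su_h2 (c g) (h : CForm.scal _ c * bk φ (LinearEquiv.refl _ _) g ∈ (unF hF n).iso) :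
    ∃ c₀, ∃ g' ∈ (unF hF₀ n).iso, g = CForm.scal _ c₀ * g' :=
  haveI : Nonempty (Fin n) := ⟨⟨0, by omega⟩⟩
  unT_exists_scal hF₀ (unF_nondeg hF₀ n) (((unF_ext hF hF₀ hT n).bk_mem_Sim (unF_nondeg hF n)).1
    ((Subgroup.mul_mem_cancel_left _ (CForm.scal_mem_Sim c)).1 (CForm.iso_le_Sim h)))

theorem su_cent : Nonempty (↥(inndiagPSU n F q ⊓
    Subgroup.centralizer {(suM hF hn hs).Φ ⟨_, fld_mem_unF hF n σ⟩}) ≃* PGU n F₀ q₀) := by
  have : Nonempty (Fin n) := ⟨⟨0, by omega⟩⟩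
  obtain ⟨η, h1, h2⟩ := exists_projQuot fun g : GL (Fin n) F₀ => mem_GU hF₀
  rw [inndiagPSU_eq_iso hF hn hs]
  exact Mdl.cent_equiv _ CForm.iso_le_Sim (fun _ => (unF_ext hF hF₀ hT n).bk_mem_iso (unF_nondeg hF n))
    hσ (orderOf_pos σ) (fld_mem_unF hF n σ) (su_h2 hF hF₀ hn hT) η h1 h2

theorem su_split : splitClassCount (inndiagPSU n F q) (Inn _) ((suM hF hn hs).Φ ⟨_, fld_mem_unF hF n σ⟩) =
    Nat.gcd n ((q + 1) / (q₀ + 1)) := by
  have : Nonempty (Fin n) := ⟨⟨0, by omega⟩⟩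
  rw [inndiagPSU_eq_iso hF hn hs]
  have hB : ∀ c, c ∈ (rootsOfUnity (q₀ + 1) F₀).map (Units.map (φ : F₀ →* F)) ↔
      ∃ g, LinearEquiv.det (bkR (fun _ => (unF_ext hF hF₀ hT n).bk_mem_iso (unF_nondeg hF n)) g).1 = c :=
    fun c => ⟨by
      rintro ⟨c, hc, rfl⟩
      obtain ⟨g, hg, rfl⟩ := (unF_det_iff hF₀ (n := n) (by omega) _).1 hc
      exact ⟨⟨g, hg⟩, det_bk _ _ _⟩, by
      rintro ⟨g, rfl⟩; exact ⟨_, (unF_det_iff hF₀ (by omega) _).2 ⟨_, g.2, rfl⟩, (det_bk _ _ _).symm⟩⟩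
  refine (Mdl.split_eq _ CForm.iso_le_Sim _ hσ (orderOf_pos σ) (fld_mem_unF hF n σ) (su_h2 hF hF₀ hn hT)
    CForm.E_le_iso).trans ((su_relIndex hF hn hs _ hB).trans (congrArg _ ?_))
  have h1 : (rootsOfUnity (q₀ + 1) F₀).map (Units.map (φ : F₀ →* F)) ≤ rootsOfUnity (q + 1) F := fun c hc =>
    let ⟨g, e⟩ := (hB c).1 hc; (unF_det_iff hF (by omega) _).2 ⟨_, Subtype.prop _, e⟩
  have h2 := (((rootsOfUnity (q₀ + 1) F₀).map (Units.map (φ : F₀ →* F))).subgroupOf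
    (rootsOfUnity (q + 1) F)).card_mul_index
  rw [Nat.card_congr (Subgroup.subgroupOfEquivOfLe h1).toEquiv,
    Subgroup.card_map_of_injective (f := Units.map (φ : F₀ →* F)) (Units.map_injective φ.injective), CForm.card_rootsOfUnity_succ hF,
    CForm.card_rootsOfUnity_succ hF₀] at h2
  exact (Nat.div_eq_of_eq_mul_right (by omega) h2.symm).symm

end SU

/-! ### symplectic groups -/

theorem index_sup_bot_sqc [Fintype F] [Fintype F₀] (φ : F₀ →+* F) {r : ℕ}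
    (h : Fintype.card F₀ ^ r = Fintype.card F) (h2 : (2 : F) ≠ 0) {B : Subgroup ℤˣ}
    (hB : ∀ c, c ∈ B ↔ ∃ a, sqc (Units.map (φ : F₀ →* F) a) = c) : (B ⊔ ⊥).index = Nat.gcd 2 r := by
  rw [sup_bot_eq]
  simp only [sqc_map_eq φ h] at hB
  rcases Nat.even_or_odd r with hr | hr
  · rw [show B = ⊥ from eq_bot_iff.2 fun c hc => by
      obtain ⟨a, rfl⟩ := (hB c).1 hc
      rcases Int.units_eq_one_or (sqc a) with h | h <;> simp [h, hr.neg_one_pow], Subgroup.index_bot,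
      Nat.gcd_eq_left hr.two_dvd]
    simp
  · obtain ⟨μ, h0, hμ⟩ := exists_not_isSquare (F := F₀) fun h => h2 (by rw [← map_ofNat φ 2, h, map_zero])
    rw [Nat.coprime_two_left.2 hr, Subgroup.index_eq_one, eq_top_iff]
    intro c _
    rcases Int.units_eq_one_or c with rfl | rfl
    · exact one_mem _
    · exact (hB _).2 ⟨Units.mk0 μ h0, by rw [sqc_eq_neg.2 hμ, hr.neg_one_pow]⟩

theorem sqc_surj [Finite F] (h2 : (2 : F) ≠ 0) : Function.Surjective (sqc : Fˣ →* ℤˣ) := fun c => by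
  obtain ⟨μ, h0, hμ⟩ := exists_not_isSquare h2
  rcases Int.units_eq_one_or c with rfl | rfl
  exacts [⟨1, map_one _⟩, ⟨Units.mk0 μ h0, sqc_eq_neg.2 hμ⟩]

section Sp

theorem spF_ext (φ : F₀ →+* F) (m : ℕ) : CForm.Ext φ (LinearEquiv.refl _ _) (spF F₀ m) (spF F m) 1 :=
  ⟨FType.symp_hom φ, one_ne_zero, rfl, fun x y => by simp [sympForm_eq, jv_refl, cv],
    fun x => by simp [CForm.symp_Q]⟩

theorem symp_exists_mu [FiniteDimensional F V] [Nontrivial V] {f : CForm (FType.symp F) V}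
    (hf : f.Nondeg) (c : Fˣ) : ∃ g ∈ f.Sim, f.mu (lin g) = c := by
  obtain ⟨g, hg⟩ := CForm.Nondeg.symp_isom (f := CForm.mkAlt (fun x y => c * f.B x y) (by simp [mul_add])
    (by simp [mul_left_comm]) (fun x y => by simp [f.symm x y]) fun x => by simp [f.B_self])
    (fun x hx => hf x fun y => by simpa using hx y) hf rfl
  have h : g ∈ f.Sim := symp_mem_GamS.2 ⟨c, hg.B⟩
  exact ⟨g, h, Units.ext (hf.mu_eq h hg.B)⟩

variable [Fintype F] {m : ℕ} (hm : 2 ≤ m)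
include hm

theorem inndiagPSp_eq' : inndiagPSp m F = (spM F hm).im ((spF F m).Sim.map lin) := by
  rw [inndiagPSp_eq hm, Lin_eq (K' := (spF F m).Sim) fun _ => mem_GSp]

theorem spκ_eq_one {g} : (spM F hm).κ (K := (spF F m).Sim) le_rfl g = 1 ↔ sqc ((spF F m).mu (lin g.1)) = 1 := by
  have : Nonempty (Fin m) := ⟨⟨0, by omega⟩⟩
  have hf := spF_nondeg (F := F) m
  rw [Mdl.κ_eq_one, hf.symp_E_eq, sqc_eq_one]
  refine ⟨fun ⟨c, k, hk, e⟩ => ?_, CForm.exists_iso_of_sq hf (fun _ => rfl) g.2⟩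
  rw [e, hf.mu_lin_mul (CForm.scal_mem_Sim c) (CForm.iso_le_Sim hk), hf.mu_iso hk, mul_one]
  exact ⟨(c : F), hf.mu_sc c⟩

theorem Inn_le_inndiagPSp : Inn _ ≤ inndiagPSp m F :=
  inndiagPSp_eq' (F := F) hm ▸ (spM F hm).Inn_le le_rfl (CForm.E_le_iso.trans CForm.iso_le_Sim)

theorem inndiagPSp_two (h2 : (2 : F) = 0) : inndiagPSp m F = Inn _ := by
  refine le_antisymm ?_ (Inn_le_inndiagPSp hm)
  rw [inndiagPSp_eq' hm]
  rintro _ ⟨⟨_, h⟩, ⟨g, hg, rfl⟩, rfl⟩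
  exact (QuotientGroup.eq_one_iff _).1 ((spκ_eq_one hm (g := ⟨g, hg⟩)).2
    (sqc_eq_one.2 (isSquare_of_two_eq_zero h2 _)))

theorem inndiagPSp_normal : (inndiagPSp m F).Normal := by
  by_cases h2 : (2 : F) = 0
  · rw [inndiagPSp_two hm h2]; infer_instance
  rw [inndiagPSp_eq' hm]
  refine Mdl.im_normal _ (spM_surj hm fun _ => h2) ?_
  rintro a ha _ ⟨g, hg, rfl⟩
  exact ⟨_, CForm.cj_mem_Sim ha hg, lin_cj a g⟩

variable {φ : F₀ →+* F} {σ : F ≃+* F} (hσ : ∀ x, σ x = x ↔ ∃ y, φ y = x)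
include hσ

theorem sp_lang : ∀ δ ∈ inndiagPSp m F,
    (δ * (spM F hm).Φ ⟨_, fld_mem_spF m σ⟩) ^ orderOf σ = 1 → IsConjUnder (inndiagPSp m F)
      ((spM F hm).Φ ⟨_, fld_mem_spF m σ⟩) (δ * (spM F hm).Φ ⟨_, fld_mem_spF m σ⟩) := by
  have : Nonempty (Fin m) := ⟨⟨0, by omega⟩⟩
  rw [inndiagPSp_eq' hm]
  exact Mdl.lang _ le_rfl _ fun g hg h => (spF_nondeg m).lang_Sim (spF_ext φ m) hσ
    (mul_mem hg (fld_mem_spF m σ)) (by simp) h fun d k f₁ l _ h =>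
      let ⟨g, hg⟩ := h.isom ((spF_nondeg m).symp_isom (h.nondeg (spF_nondeg m)) rfl)
      ⟨g, l, hg⟩

omit hσ [Fintype F] in
theorem sp_h2 (c g) (h : CForm.scal _ c * bk φ (LinearEquiv.refl _ _) g ∈ (spF F m).Sim) :
    ∃ c₀, ∃ g' ∈ (spF F₀ m).Sim, g = CForm.scal _ c₀ * g' :=
  haveI : Nonempty (Fin m) := ⟨⟨0, by omega⟩⟩
  ⟨1, g, ((spF_ext φ m).bk_mem_Sim (spF_nondeg m)).1
    ((Subgroup.mul_mem_cancel_left _ (CForm.scal_mem_Sim c)).1 h), scal_one_mul g⟩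

theorem sp_cent : Nonempty (↥(inndiagPSp m F ⊓
    Subgroup.centralizer {(spM F hm).Φ ⟨_, fld_mem_spF m σ⟩}) ≃* PGSp m F₀) := by
  have : Nonempty (Fin m) := ⟨⟨0, by omega⟩⟩
  obtain ⟨η, h1, h2⟩ := exists_projQuot (K' := (spF F₀ m).Sim) fun g => mem_GSp
  rw [inndiagPSp_eq' hm]
  exact Mdl.cent_equiv _ le_rfl (fun _ => ((spF_ext φ m).bk_mem_Sim (spF_nondeg m)).2)
    hσ (orderOf_pos σ) (fld_mem_spF m σ) (sp_h2 hm) η h1 h2

theorem sp_split [Fintype F₀] (h : Fintype.card F₀ ^ orderOf σ = Fintype.card F) (h2 : (2 : F) ≠ 0) :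
    splitClassCount (inndiagPSp m F) (Inn _) ((spM F hm).Φ ⟨_, fld_mem_spF m σ⟩) =
      Nat.gcd 2 (orderOf σ) := by
  have : Nonempty (Fin m) := ⟨⟨0, by omega⟩⟩
  have hf := spF_nondeg (F := F) m
  rw [inndiagPSp_eq' hm]
  refine (Mdl.split_eq _ le_rfl (fun _ => ((spF_ext φ m).bk_mem_Sim hf).2) hσ (orderOf_pos σ)
    (fld_mem_spF m σ) (sp_h2 hm) (CForm.E_le_iso.trans CForm.iso_le_Sim)).trans ?_
  rw [relIndex_range_eq _ _ (sqc.comp hf.muH) ((sqc_surj h2).comp fun c =>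
    let ⟨g, h1, h2⟩ := symp_exists_mu hf c; ⟨⟨g, h1⟩, h2⟩) ⊥ fun g => spκ_eq_one hm]
  refine index_sup_bot_sqc φ h h2 fun c => ⟨?_, ?_⟩
  · rintro ⟨g, rfl⟩; exact ⟨_, congrArg sqc ((spF_ext φ m).mu_bk hf g.2).symm⟩
  · rintro ⟨a, rfl⟩
    obtain ⟨g, h1, rfl⟩ := symp_exists_mu (spF_nondeg (F := F₀) m) a
    exact ⟨⟨g, h1⟩, congrArg sqc ((spF_ext φ m).mu_bk hf h1)⟩

end Sp

theorem splitClassCount_self {G : Type*} [Group G] (N : Subgroup G) [N.Normal] (x : G) :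
    splitClassCount N N x = 1 := by
  rw [splitClassCount_eq' le_rfl, Subgroup.relIndex_eq_one]; exact le_sup_right

end Cfsg.Agent.H4
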