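import Cfsg.Agent.H4.Lang5

/-! Field and graph-field automorphisms of orthogonal groups. -/

set_option autoImplicit false

namespace Cfsg.Agent.H4

open Module Submodule Gam

variable {F : Type*} [Field F] {V : Type*} [AddCommGroup V] [Module F V]
  {ι : Type} [Fintype ι] [DecidableEq ι] {F₀ : Type*} [Field F₀]

theorem exists_aniso (F : Type*) [Field F] [Finite F] : ∃ a b : F,
    ∀ z₁ z₂ : F, z₁ ^ 2 + a * z₁ * z₂ + b * z₂ ^ 2 = 0 → z₁ = 0 ∧ z₂ = 0 := by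
  obtain ⟨b, hb⟩ : ∃ b : F, ∀ z, -(z ^ 2 + z) ≠ b := by
    by_contra! h
    exact one_ne_zero (neg_eq_zero.1 (Finite.injective_iff_surjective.2 h (a₁ := -1) (a₂ := 0) (by simp)))
  refine ⟨1, b, fun z₁ z₂ h => ?_⟩
  have h2 : z₂ = 0 := by
    by_contra h0
    exact hb (z₁ / z₂) (by field_simp; linear_combination -h)
  exact ⟨by simpa [h2] using h, h2⟩

theorem minusF_wi_of_not {m : ℕ} {a b : F} (h0 : 4 * b - a ^ 2 ≠ 0)
    (h : ¬ ∀ z₁ z₂ : F, z₁ ^ 2 + a * z₁ * z₂ + b * z₂ ^ 2 = 0 → z₁ = 0 ∧ z₂ = 0) :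
    (minusF m a b).wi = m + 1 := by
  push Not at h
  obtain ⟨z₁, z₂, h1, h2⟩ := h
  have h3 := (minusF_nondeg' m h0).two_mul_wi_le
  let L : (Option (Fin m) → F) →ₗ[F] ((Fin m ⊕ Fin m) ⊕ Fin 2 → F) :=
    { toFun := fun x => Sum.elim (Sum.elim (fun i => x (some i)) 0) ![x none * z₁, x none * z₂]
      map_add' := fun x y => by ext ((i | i) | i) <;> (try fin_cases i) <;> simp [add_mul]
      map_smul' := fun c x => by ext ((i | i) | i) <;> (try fin_cases i) <;> simp [mul_assoc] }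
  have hL : Function.Injective L := (injective_iff_map_eq_zero L).2 fun x hx => by
    ext (_ | i)
    · by_contra h
      exact h2 ((mul_eq_zero.1 (congrFun hx (.inr 0))).resolve_left h)
        ((mul_eq_zero.1 (congrFun hx (.inr 1))).resolve_left h)
    · exact congrFun hx (.inl (.inl i))
  have h4 := (CForm.orth_TS_iff (f := minusF m a b) (W := LinearMap.range L)).2 (by
    rintro _ ⟨x, rfl⟩
    simp only [minusF_Q, quadFormMinus, L]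
    simp
    linear_combination x none ^ 2 * h1) |>.le_wi
  rw [LinearMap.finrank_range_of_inj hL] at h4
  simp at h3 h4
  omega

theorem minusF_ext (φ : F₀ →+* F) (m : ℕ) (a b : F₀) :
    CForm.Ext φ (LinearEquiv.refl _ _) (minusF m a b) (minusF m (φ a) (φ b)) 1 :=
  ⟨FType.orth_hom φ, one_ne_zero, rfl, fun x y => by simp [minusF_B, polar_minus, jv_refl, cv, map_ofNat],
    fun x => by simp [minusF_Q, quadFormMinus, jv_refl, cv]⟩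

theorem plusF_ext (φ : F₀ →+* F) (m : ℕ) : CForm.Ext φ (LinearEquiv.refl _ _) (plusF F₀ m) (plusF F m) 1 :=
  ⟨FType.orth_hom φ, one_ne_zero, rfl, fun x y => by simp [plusF_B, polar_plus, jv_refl, cv],
    fun x => by simp [plusF_Q, quadFormPlus, jv_refl, cv]⟩

theorem oddF_ext (φ : F₀ →+* F) (m : ℕ) : CForm.Ext φ (LinearEquiv.refl _ _) (oddF F₀ m) (oddF F m) 1 :=
  ⟨FType.orth_hom φ, one_ne_zero, rfl, fun x y => by simp [oddF_B, polar_odd, jv_refl, cv, map_ofNat],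
    fun x => by simp [oddF_Q, quadFormOdd, jv_refl, cv]⟩

namespace CForm

section sg

variable [Finite F] {f : CForm (FType.orth F) (ι → F)} (hf : f.Nondeg) {m : ℕ}
  (hm : finrank F (ι → F) = 2 * m) (h5 : 5 ≤ finrank F (ι → F))
include hf hm h5

theorem Nondeg.sg_cj {a} (ha : a ∈ f.GamS) (g : f.Sim) :
    hf.sg hm h5 ⟨cj a g, cj_mem_Sim ha g.2⟩ = hf.sg hm h5 g := by
  have := nontrivial_of_five h5
  by_cases h2 : (2 : F) = 0
  · obtain ⟨c, u, hu, e⟩ := exists_iso_of_sq hf (fun _ => rfl) g.2 (isSquare_of_two_eq_zero h2 _)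
    rw [hf.sg_of_eq hm h5 hu e, hf.sg_of_eq hm h5 (cj_mem_iso ha hu)
      (c := Units.map (a.ρ : F →* F) c) (by
        change cj a g.1 = _
        rw [e, map_mul]; congr 1; ext1 x; simp [a.smul]), hf.dk_cj (n24_of_five h5) ha hu]
  · rw [hf.sg_eq_eps hm h5 h2]; exact hf.eps_cj _ _ _ ha g

theorem Nondeg.cj_mem_SimP {a} (ha : a ∈ f.GamS) {g} (hg : g ∈ hf.SimP hm h5) : cj a g ∈ hf.SimP hm h5 :=
  let ⟨h1, h2⟩ := (hf.mem_SimP hm h5).1 hg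
  (hf.mem_SimP hm h5).2 ⟨_, (hf.sg_cj hm h5 ha ⟨g, h1⟩).trans h2⟩

theorem Nondeg.im_SimP_normal {X : Type*} [Group X] (M : Mdl X f.GamS f.E)
    (hs : Function.Surjective M.Φ) : (M.im ((hf.SimP hm h5).map lin)).Normal := by
  refine Mdl.im_normal _ hs ?_
  rintro a ha _ ⟨g, hg, rfl⟩
  exact ⟨_, hf.cj_mem_SimP hm h5 ha hg, lin_cj a g⟩

theorem Nondeg.not_sq_mem (γ₀ : f.GamS) (h1 : γ₀.1.ρ = frob F) {w} (hw : f.Q w ≠ 0)
    (h : γ₀.1 ^ Nat.card (F ≃+* F) = lin (f.rfx w)) {γ} (hγ : γ ∈ f.GamS) (hρ : γ.ρ ≠ 1) :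
    γ ^ 2 ∉ Zs F _ := by
  rintro ⟨c, hc⟩
  obtain ⟨k, g, hg, e⟩ := exists_zpow_mul_lin γ₀ (h1 ▸ mem_zpowers_frob) ⟨γ, hγ⟩
  obtain rfl : γ = γ₀.1 ^ k * lin g := congrArg Subtype.val e
  have h2 : (γ₀.1 ^ k).ρ = frob F ^ k := h1 ▸ map_zpow (rho F _) γ₀.1 k
  have h3 := congrArg Gam.ρ hc
  rw [pow_ρ, mul_ρ, h2, lin_ρ, mul_one, sc_ρ, ← zpow_natCast, ← zpow_mul, eq_comm,
    ← orderOf_dvd_iff_zpow_eq_one, orderOf_frob] at h3
  obtain ⟨j, hj⟩ := h3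
  rw [mul_ρ, h2, lin_ρ, mul_one, Ne, ← orderOf_dvd_iff_zpow_eq_one, orderOf_frob] at hρ
  obtain ⟨j, rfl⟩ := (Int.even_or_odd j).resolve_left fun ⟨i, hi⟩ => hρ ⟨i, by
    rw [hi] at hj; push_cast at hj; linarith⟩
  have h4 : CForm.scal _ c = cj (γ₀.1 ^ k) g * (f.rfx w ^ (2 * j + 1) * g) := lin_injective (by
    rw [← sc_eq_lin, hc, map_mul, map_mul, map_zpow lin, ← h, lin_cj, ← zpow_natCast γ₀.1, ← zpow_mul, ← hj,
      sq]
    push_cast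
    rw [mul_two, zpow_add]
    group)
  have h5' := hf.sg_scal hm h5 c
  rw [show (⟨_, scal_mem_Sim c⟩ : f.Sim) = ⟨_, cj_mem_Sim (γ₀ ^ k).2 hg⟩ *
    ((⟨_, iso_le_Sim (rfx_mem_iso w)⟩ : f.Sim) ^ (2 * j + 1) * ⟨g, hg⟩) from Subtype.ext h4, map_mul,
    hf.sg_cj hm h5 (γ₀ ^ k).2 ⟨g, hg⟩, map_mul, map_zpow, hf.sg_iso hm h5 (rfx_mem_iso w), hf.dk_rfx hw,
    mul_left_comm, Int.units_mul_self, zpow_add, zpow_mul] at h5'
  simp at h5'

end sg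

variable [Finite F] [FiniteDimensional F V] {f : CForm (FType.orth F) V} (hf : f.Nondeg)
include hf

theorem Nondeg.lang_odd (h2 : (2 : F) ≠ 0) (ho : Odd (finrank F V)) {γ γ' : Gam F V} (hγ : γ ∈ f.GamS)
    (hγ' : γ' ∈ f.GamS) (hρ : γ'.ρ = γ.ρ) (h : γ ^ orderOf γ.ρ ∈ Zs F V)
    (h' : γ' ^ orderOf γ.ρ ∈ Zs F V) : ∃ d, ∃ s ∈ f.Sim, sc F V d * γ' = lin s * γ * (lin s)⁻¹ := by
  have : Nontrivial V := Module.nontrivial_of_finrank_pos (R := F) ho.pos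
  obtain ⟨F₀, _, _, φ, hσ, -⟩ := exists_fixed_field γ.ρ
  obtain ⟨d₀, k₀, f₀, l₀, h1, h3⟩ := hf.lang (ι := Fin (finrank F V)) (FType.orth_hom φ) (by simp) hγ hσ h
  obtain ⟨d, s, hs, e⟩ := hf.lang_Sim h3 hσ hγ' hρ h' fun _ _ _ _ _ h => h.similar hf
    (fun h => h2 (by rw [← map_ofNat φ 2, h, map_zero])) ho (h3.nondeg hf)
  exact ⟨d₀⁻¹ * d, s, hs, by rw [map_mul, mul_assoc, e, ← h1, ← mul_assoc (lin s), lin_mul_sc]; simp [mul_assoc]⟩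

variable {m : ℕ} (hm : finrank F V = 2 * m) (h5 : 5 ≤ finrank F V)
include hm h5

theorem Nondeg.scal_mem_SimP (c) : scal V c ∈ hf.SimP hm h5 := (hf.mem_SimP hm h5).2 ⟨_, hf.sg_scal hm h5 c⟩

theorem Nondeg.E_le_SimP : f.E ≤ hf.SimP hm h5 := fun _ hg => (hf.mem_SimP hm h5).2
  ⟨_, (hf.sg_iso hm h5 (E_le_iso hg)).trans ((hf.orth_mem_E h5 (E_le_iso hg)).1 hg).1⟩

theorem Nondeg.im_SimP_two {X : Type*} [Group X] (M : Mdl X f.GamS f.E) (h2 : (2 : F) = 0) :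
    M.im ((hf.SimP hm h5).map lin) = Inn X := by
  have := nontrivial_of_five h5
  rw [M.Inn_eq]
  refine (M.im_eq_of (hf.E_le_SimP hm h5) fun g hg => ?_).symm
  obtain ⟨h1, h3⟩ := (hf.mem_SimP hm h5).1 hg
  obtain ⟨c, u, hu, e⟩ := exists_iso_of_sq hf (fun _ => rfl) h1 (isSquare_of_two_eq_zero h2 _)
  exact ⟨c, u, (hf.orth_mem_E h5 hu).2 ⟨(hf.sg_of_eq hm h5 hu e).symm.trans h3, spn_of_two h2 _⟩, e⟩

theorem Nondeg.lang_even {γ γ' : Gam F V} (hγ : γ ∈ f.GamS)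
    (hγ' : γ' ∈ f.GamS) (hρ : γ'.ρ = γ.ρ) (h : γ ^ orderOf γ.ρ ∈ Zs F V)
    (h' : γ' ^ orderOf γ.ρ ∈ Zs F V) (hp : ∀ hw, hf.par hm hw ⟨γ', hγ'⟩ = hf.par hm hw ⟨γ, hγ⟩) :
    ∃ d, ∃ s ∈ hf.SimP hm h5, sc F V d * γ' = lin s * γ * (lin s)⁻¹ := by
  have := nontrivial_of_five h5
  have : Nonempty (Fin (finrank F V)) := ⟨⟨0, by omega⟩⟩
  obtain ⟨F₀, _, _, φ, hσ, -⟩ := exists_fixed_field γ.ρ
  obtain ⟨d₀, k₀, f₀, l₀, h1, h3⟩ := hf.lang (ι := Fin (finrank F V)) (FType.orth_hom φ) (by simp) hγ hσ h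
  obtain ⟨d, s, hs, e⟩ := hf.lang_Sim h3 hσ hγ' hρ h' fun d k f₁ l h6 h => by
    have key : f₀.wi = m ↔ f₁.wi = m := by
      by_cases hw : f.wi = m
      · rw [← h.par_iff hf hm hw hσ, ← h3.par_iff hf hm hw hσ,
          show (⟨gk k γ.ρ, _⟩ : f.GamS) = ⟨_, sc_mem_GamS d⟩ * ⟨γ', hγ'⟩ from Subtype.ext h6.symm,
          show (⟨gk k₀ γ.ρ, _⟩ : f.GamS) = ⟨_, sc_mem_GamS d₀⟩ * ⟨γ, hγ⟩ from Subtype.ext h1.symm,
          map_mul, map_mul, hf.par_sc, hf.par_sc, hp]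
      · have := hf.two_mul_wi_le
        have := h.wi_le
        have := h3.wi_le
        omega
    have k1 := (h.nondeg hf).two_mul_wi_le
    have k2 := (h.nondeg hf).orth_finrank_le
    have k3 := (h3.nondeg hf).two_mul_wi_le
    have k4 := (h3.nondeg hf).orth_finrank_le
    have k5 := h.finrank_eq
    obtain ⟨g, hg⟩ := h.isom ((h3.nondeg hf).orth_isom_even (h.nondeg hf) ⟨m, by omega⟩ rfl (by omega))
    exact ⟨g, l, hg⟩
  obtain ⟨s, hs, e⟩ : ∃ s ∈ hf.SimP hm h5, sc F V d * γ' = lin s * gk k₀ γ.ρ * (lin s)⁻¹ := by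
    rcases Int.units_eq_one_or (hf.sg hm h5 ⟨s, hs⟩) with h6 | h6
    · exact ⟨s, (hf.mem_SimP hm h5).2 ⟨hs, h6⟩, e⟩
    obtain ⟨v, hv⟩ := (h3.nondeg hf).orth_represents (by simp; omega) 1
    refine ⟨s * f.rfx (jv φ k₀ v), (hf.mem_SimP hm h5).2 ⟨mul_mem hs (iso_le_Sim (rfx_mem_iso _)), ?_⟩, ?_⟩
    · refine (map_mul (hf.sg hm h5) ⟨s, hs⟩ ⟨_, iso_le_Sim (rfx_mem_iso _)⟩).trans ?_
      rw [h6, hf.sg_iso hm h5 (rfx_mem_iso _), hf.dk_rfx (h3.Q_ne (by simp [hv]))]; simp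
    · rw [e, ← h3.bk_rfx, map_mul, mul_assoc (lin s) _ (gk _ _), (commute_gk_bk k₀ hσ _).eq]; group
  exact ⟨d₀⁻¹ * d, s, hs, by rw [map_mul, mul_assoc, e, ← h1, ← mul_assoc (lin s), lin_mul_sc]; simp [mul_assoc]⟩

theorem Nondeg.even_lang {X : Type*} [Group X] (M : Mdl X f.GamS f.E) (γ : f.GamS)
    (h : γ.1 ^ orderOf γ.1.ρ ∈ Zs F V) : ∀ δ ∈ M.im ((hf.SimP hm h5).map lin),
      (δ * M.Φ γ) ^ orderOf γ.1.ρ = 1 →
        IsConjUnder (M.im ((hf.SimP hm h5).map lin)) (M.Φ γ) (δ * M.Φ γ) := by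
  refine M.lang (hf.SimP_le hm h5) γ fun g hg h' => ?_
  obtain ⟨h1, h2⟩ := (hf.mem_SimP hm h5).1 hg
  refine hf.lang_even hm h5 (γ' := lin g * γ.1) γ.2 (f.GamS.mul_mem h1 γ.2) (by simp) h h' fun hw => ?_
  have := map_mul (hf.par hm hw) ⟨lin g, h1⟩ γ
  rw [hf.par_lin hm h5 hw ⟨g, h1⟩, h2, one_mul] at this
  exact this

end CForm

theorem minusF_not_sq [Finite F] {m : ℕ} (hm : 2 ≤ m) {a b : F}
    (hab : ∀ z₁ z₂ : F, z₁ ^ 2 + a * z₁ * z₂ + b * z₂ ^ 2 = 0 → z₁ = 0 ∧ z₂ = 0) {γ}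
    (hγ : γ ∈ (minusF m a b).GamS) (hρ : γ.ρ ≠ 1) : γ ^ 2 ∉ Zs F _ :=
  let ⟨γ₀, h1, _, _, hw, h⟩ := exists_minus_gam m hab
  (minusF_nondeg m hab).not_sq_mem (m := m + 1) (by simp; omega) (by simp; omega) γ₀ h1 hw h hγ hρ

theorem minusF_wi_ext [Finite F] {m : ℕ} (hm : 2 ≤ m) {a b : F} (h0 : 4 * b - a ^ 2 ≠ 0) (K : Type*) [Field K]
    [Algebra F K] (hK : finrank F K = 2) : (minusF m (algebraMap F K a) (algebraMap F K b)).wi = m + 1 := by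
  have : FiniteDimensional F K := Module.finite_of_finrank_pos (by omega)
  have : Finite K := finite_vec (F := F)
  refine minusF_wi_of_not (by simpa [map_ofNat] using (map_ne_zero (algebraMap F K)).2 h0) fun hab => ?_
  have h1 : Nat.card Gal(K/F) = 2 := (IsGalois.card_aut_eq_finrank F K).trans hK
  obtain ⟨σ, h2, -⟩ := (Nat.card_eq_two_iff' (1 : Gal(K/F))).1 h1
  refine minusF_not_sq hm hab (fld_mem_minusF m (σ := σ.toRingEquiv) (σ.commutes a) (σ.commutes b))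
    (fun h => h2 (AlgEquiv.ext fun x => DFunLike.congr_fun h x)) ⟨1, ?_⟩
  rw [← map_pow, show σ.toRingEquiv ^ 2 = 1 from RingEquiv.ext fun x =>
    DFunLike.congr_fun (show σ ^ 2 = 1 from h1 ▸ pow_card_eq_one') x, map_one, map_one]

theorem preservesMinus_iff [Finite F] {m : ℕ} (hm : 2 ≤ m) {a b : F}
    (hab : ∀ z₁ z₂ : F, z₁ ^ 2 + a * z₁ * z₂ + b * z₂ ^ 2 = 0 → z₁ = 0 ∧ z₂ = 0) (hm' h5) {g}
    (hg : glE g ∈ (minusF m a b).Sim) : PreservesSingularClassesMinus m a b g ↔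
      (minusF_nondeg m hab).sg (m := m + 1) hm' h5 ⟨_, hg⟩ = 1 := by
  have key : ∀ (K : Type _) [Field K] [Algebra F K], finrank F K = 2 →
      (PreservesSingularClasses (quadFormMinus m K (algebraMap F K a) (algebraMap F K b))
        (g.1.map (algebraMap F K)) ↔ (minusF_nondeg m hab).sg (m := m + 1) hm' h5 ⟨_, hg⟩ = 1) := by
    intro K _ _ hK
    have : FiniteDimensional F K := Module.finite_of_finrank_pos (by omega)
    have : Finite K := finite_vec (F := F)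
    have h0 := aniso_disc_ne hab
    have hf := minusF_nondeg' m (a := algebraMap F K a) (b := algebraMap F K b)
      (by simpa [map_ofNat] using (map_ne_zero (algebraMap F K)).2 h0)
    have h := minusF_ext (algebraMap F K) m a b
    rw [← h.sg_bk hf (m := m + 1) (by simp; omega) (by simp; omega) hm' h5 ⟨_, hg⟩]
    simp only [bk_refl, bc_glE]
    exact hf.preserves_iff (g := Matrix.GeneralLinearGroup.map (algebraMap F K) g) _ _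
      (minusF_wi_ext hm h0 K hK) _
  have := fact_of_aniso hab
  exact ⟨fun ⟨K, _, _, h1, h2⟩ => (key K h1).1 h2, fun h => ⟨QuadraticAlgebra F (-b) a, inferInstance,
    inferInstance, QuadraticAlgebra.finrank_eq_two _ _, (key _ (QuadraticAlgebra.finrank_eq_two _ _)).2 h⟩⟩

section model

variable [Fintype F] {f f' : CForm (FType.orth F) (ι → F)} (hf : f.Nondeg) (h7 : 7 ≤ Fintype.card ι)

theorem omM_sub' {K : Subgroup ((ι → F) ≃ₗ[F] (ι → F))} (hK : K ≤ f.Sim) {P : GL ι F → Prop}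
    (hP : ∀ g (h : glE g ∈ f.Sim), P g ↔ glE g ∈ K) {β} :
    (∃ g, g ∈ Geo.quadSimilarityGroup (F := F) f.Q ∧ P g ∧
      IsInducedBySemilinearPOmega f.Q g (RingEquiv.refl F) β) ↔ β ∈ (omM hf h7).im (K.map lin) := by
  constructor
  · rintro ⟨g, h1, h2, h3⟩
    exact ⟨_, ⟨_, (hP g (mem_quadSim.1 h1)).1 h2, rfl⟩, (omM_lin hf h7 (mem_quadSim.1 h1)).1 h3⟩
  · rintro ⟨⟨_, h⟩, ⟨g, hg, rfl⟩, rfl⟩
    obtain ⟨g, rfl⟩ := glE.surjective g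
    exact ⟨g, mem_quadSim.2 h, (hP g h).2 hg, (omM_lin hf h7 h).2 rfl⟩

theorem omM_transfer (hf' : f'.Nondeg) (h8 : Fintype.card ι = 8 → f'.wi ≠ 4)
    (ψ : POmega F f.Q ≃* POmega F f'.Q) {β : MulAut (POmega F f.Q)} {a' : f'.GamS}
    (h : (omM hf' h7).Φ a' = (ψ.symm.trans β).trans ψ) :
    ∃ a : f.GamS, (omM hf h7).Φ a = β ∧ ∃ b, a.1 = b⁻¹ * a'.1 * b := by
  obtain ⟨s, ρ, μ, hs, hc⟩ := hf.orth_ind hf' (by simpa using h7) rfl (by simpa using h8)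
    ((omC hf h7).corr (omC hf' h7) ψ)
  let b : Gam F (ι → F) := ⟨s, ρ, hs.smul⟩
  obtain ⟨μ', hμ'⟩ := a'.2
  have hb : b⁻¹ * a'.1 * b ∈ f.GamS := CForm.mem_GamS.2 ⟨ρ⁻¹ (μ⁻¹ * μ' * a'.1.ρ μ),
    by simp [hs.ne, hμ'.ne], fun x y => ρ.injective (mul_left_cancel₀ hs.ne (by
      rw [← hs.B]; simp [b, hμ'.B, hs.B, hs.ne, mul_assoc])),
    fun x => ρ.injective (mul_left_cancel₀ hs.ne (by
      rw [← hs.Q]; simp [b, hμ'.Q, hs.Q, hs.ne, mul_assoc]))⟩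
  refine ⟨⟨_, hb⟩, ((omC hf h7).eq_Phi_of _ _ ?_).symm, b, rfl⟩
  rintro _ _ ⟨t, t', rfl, rfl, e⟩
  obtain ⟨u, hu⟩ := QuotientGroup.mk_surjective (ψ (QuotientGroup.mk t))
  have e1 := DFunLike.congr_fun h (QuotientGroup.mk u)
  rw [MulEquiv.trans_apply, MulEquiv.trans_apply, (MulEquiv.symm_apply_eq ψ).2 hu, e] at e1
  obtain ⟨c1, h1⟩ := hc _ _ ((Carr.corr_R _ _).2 hu.symm)
  obtain ⟨c2, h2⟩ := hc _ _ ((Carr.corr_R _ _).2 e1.symm)
  have h3 := isSc_of_ind (a := b) h1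
  have h4 := isSc_of_ind (a := b) h2
  erw [Carr.e_act] at h4
  have := isSc_cj (a := b⁻¹) (h4.inv.mul (isSc_cj (a := a'.1) h3))
  simpa [mul_assoc] using this

theorem inndiagPOmegaOdd_eq {m : ℕ} (hf : (oddF F m).Nondeg) (h7) :
    inndiagPOmegaOdd m F = (omM hf h7).im ((oddF F m).Sim.map lin) :=
  (pgoAut_eq hf h7).trans (by rw [Lin_quadSim])

theorem inndiagPOmegaPlus_eq {m : ℕ} (h7 hm h5) : inndiagPOmegaPlus m F =
    (omM (plusF_nondeg m) h7).im (((plusF_nondeg m).SimP (m := m) hm h5).map lin) :=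
  autSubgroupOf_eq fun _ => omM_sub' (plusF_nondeg m) h7 ((plusF_nondeg m).SimP_le hm h5)
    (P := fun g => PreservesSingularClasses (quadFormPlus m F) g.1) fun g h => by
    rw [CForm.Nondeg.mem_SimP]
    exact ((plusF_nondeg m).preserves_iff hm h5 (plusF_wi m) h).trans ⟨fun h => ⟨_, h⟩, fun h => h.2⟩

theorem inndiagPOmegaMinus_eq {m : ℕ} {a b : F}
    (hab : ∀ z₁ z₂ : F, z₁ ^ 2 + a * z₁ * z₂ + b * z₂ ^ 2 = 0 → z₁ = 0 ∧ z₂ = 0) (h7 hm h5) :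
    inndiagPOmegaMinus m F a b =
      (omM (minusF_nondeg m hab) h7).im (((minusF_nondeg m hab).SimP (m := m + 1) hm h5).map lin) :=
  autSubgroupOf_eq fun _ => omM_sub' (minusF_nondeg m hab) h7 ((minusF_nondeg m hab).SimP_le hm h5)
    (P := fun g => PreservesSingularClassesMinus m a b g.1) fun g h => by
    rw [CForm.Nondeg.mem_SimP]
    exact (preservesMinus_iff (by simp at h7; omega) hab hm h5 h).trans ⟨fun h => ⟨_, h⟩, fun h => h.2⟩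

theorem exists_minus_fld {m : ℕ} {a b : F}
    (hab : ∀ z₁ z₂ : F, z₁ ^ 2 + a * z₁ * z₂ + b * z₂ ^ 2 = 0 → z₁ = 0 ∧ z₂ = 0) (h7) {x}
    (hx : IsFieldAutClassPOmegaMinus m x) : ∃ γ : (minusF m a b).GamS,
      (omM (minusF_nondeg m hab) h7).Φ γ = x ∧ γ.1.ρ ≠ 1 ∧ γ.1 ^ orderOf γ.1.ρ = 1 := by
  obtain ⟨a', b', ψ, σ, h1, h2, h3, h4, h5⟩ := hx
  obtain ⟨γ, h6, c, h8⟩ := omM_transfer (minusF_nondeg m hab) h7 (minusF_nondeg m h1) (fun h => by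
    rw [minusF_wi _ h1]; simp at h; omega) ψ ((omM_fld _ h7 (fld_mem_minusF m h3 h4)).1 h5)
  have h9 : γ.1.ρ = σ := by simp [h8, ringAut_comm _ σ]
  refine ⟨γ, h6, h9 ▸ h2, ?_⟩
  rw [h9, h8, ← inv_inv c, inv_inv c⁻¹, conj_pow, ← map_pow, pow_orderOf_eq_one]; simp

end model

end Cfsg.Agent.H4
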