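import Cfsg.Agent.H4.Lang6

/-! Centralizers and class splitting for field automorphisms of orthogonal groups. -/

set_option autoImplicit false

namespace Cfsg.Agent.H4

open Module Submodule Gam

variable {F : Type*} [Field F] {V : Type*} [AddCommGroup V] [Module F V]
  {ι κ : Type} [Fintype ι] [DecidableEq ι] [Fintype κ] [DecidableEq κ] {F₀ : Type*} [Field F₀]

theorem conj_pow_eq_one {G : Type*} [Group G] {α x y : G} {r : ℕ} (h : α * x * α⁻¹ = y)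
    (hx : orderOf x = r) : y ^ r = 1 := by rw [← h, conj_pow, ← hx, pow_orderOf_eq_one]; simp

theorem index_pow_range {r : ℕ} {B : Subgroup ℤˣ} (hB : ∀ c, c ∈ B ↔ ∃ a : ℤˣ, a ^ r = c) :
    (B ⊔ ⊥).index = Nat.gcd 2 r := by
  rw [sup_bot_eq, show B = (powMonoidHom r).range from Subgroup.ext hB, IsCyclic.index_powMonoidHom_range]
  simp

theorem relIndex_zpowers {G : Type*} [Group G] {R : Subgroup G} {y : G} (hy : y ∈ R) (h : y * y = 1)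
    (hR : Nat.card R = 4) [Decidable (y = 1)] :
    (Subgroup.zpowers y).relIndex R = if y = 1 then 4 else 2 := by
  have h1 := ((Subgroup.zpowers y).subgroupOf R).card_mul_index
  rw [Nat.card_congr (Subgroup.subgroupOfEquivOfLe (Subgroup.zpowers_le.2 hy)).toEquiv, Nat.card_zpowers,
    hR] at h1
  split_ifs with h2
  · rw [h2, orderOf_one, one_mul] at h1; rwa [h2]
  · rw [orderOf_eq_prime (sq y ▸ h) h2] at h1
    exact Nat.eq_of_mul_eq_mul_left two_pos h1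

theorem isSquare_of_card_sq [Fintype F] [Fintype F₀] (φ : F₀ →+* F)
    (h : Fintype.card F₀ ^ 2 = Fintype.card F) (a : F₀ˣ) : sqc (Units.map (φ : F₀ →* F) a) = 1 := by
  rw [sqc_map_eq φ h, Int.units_sq]

theorem sqc_of_sq [Fintype F] [Fintype F₀] (φ : F₀ →+* F) (h : Fintype.card F₀ ^ 2 = Fintype.card F)
    (h2 : (2 : F₀) ≠ 0) {μ : F₀ˣ} (hμ : sqc μ = -1) {c : Fˣ} {k : ℕ} (hc : (c : F) ^ k = φ μ) {n : ℕ}
    (hn : Fintype.card F / 2 = k * (Fintype.card F₀ / 2) * n) : sqc c = (-1) ^ n := by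
  have h2' : (2 : F) ≠ 0 := fun h => h2 (φ.injective (by rw [map_ofNat φ 2, h, map_zero]))
  have c1 : ringChar F₀ ≠ 2 := fun h => h2 (by simpa [h] using ringChar.Nat.cast_ringChar (R := F₀))
  have c2 : ringChar F ≠ 2 := fun h => h2' (by simpa [h] using ringChar.Nat.cast_ringChar (R := F))
  have h6 := (FiniteField.pow_dichotomy c1 μ.ne_zero).resolve_left fun h =>
    sqc_eq_neg.1 hμ ((FiniteField.isSquare_iff c1 μ.ne_zero).2 h)
  have h7 : (-1 : F) ≠ 1 := fun h => h2' (by linear_combination -h)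
  apply units_eq_of_iff
  rw [sqc_eq_one, FiniteField.isSquare_iff c2 (Units.ne_zero _), hn, pow_mul, pow_mul, hc, ← map_pow, h6,
    map_neg, map_one, neg_one_pow_eq_one_iff_even h7, neg_one_pow_eq_one_iff_even (by decide)]

namespace CForm

variable [Fintype F] [FiniteDimensional F V] {f : CForm (FType.orth F) V} (hf : f.Nondeg)
  {X : Type*} [Group X] (M : Mdl X f.GamS f.E)
include hf

omit hf [Fintype F] [FiniteDimensional F V] in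
theorem im_Sim_normal {T : FType F} {f : CForm T V} (M : Mdl X f.GamS f.E)
    (hs : Function.Surjective M.Φ) : (M.im (f.Sim.map lin)).Normal := by
  refine Mdl.im_normal _ hs ?_
  rintro a ha _ ⟨g, hg, rfl⟩
  exact ⟨_, cj_mem_Sim ha hg, lin_cj a g⟩

theorem Nondeg.odd_lang (h2 : (2 : F) ≠ 0) (ho : Odd (finrank F V)) (hs : Function.Surjective M.Φ)
    {x α δ : MulAut X} {γ : f.GamS} (h : α * x * α⁻¹ = M.Φ γ) (hρ : γ.1.ρ ≠ 1) {r : ℕ} (hr : r.Prime)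
    (hx : orderOf x = r) (hδ : δ ∈ M.im (f.Sim.map lin)) :
    orderOf (δ * x) = r ↔ IsConjUnder (M.im (f.Sim.map lin)) x (δ * x) := by
  have := im_Sim_normal M hs
  have h3 := M.pow_ρ_eq_one (conj_pow_eq_one h hx)
  have h4 := orderOf_eq_of_prime hr hρ h3.2
  exact lang_transfer h hx hδ (Mdl.lang _ le_rfl _ fun g hg h => hf.lang_odd h2 ho γ.2
    (γ' := lin g * γ.1) (f.GamS.mul_mem hg γ.2) (by simp) (h4 ▸ h3.1) (h4 ▸ h))

theorem Nondeg.even_lang' {m : ℕ} (hm : finrank F V = 2 * m) (h5 : 5 ≤ finrank F V)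
    {x α δ : MulAut X} (hN : (M.im ((hf.SimP hm h5).map lin)).Normal)
    {γ : f.GamS} (h : α * x * α⁻¹ = M.Φ γ) (hρ : γ.1.ρ ≠ 1) {r : ℕ} (hr : r.Prime)
    (hx : orderOf x = r) (hδ : δ ∈ M.im ((hf.SimP hm h5).map lin)) :
    orderOf (δ * x) = r ↔ IsConjUnder (M.im ((hf.SimP hm h5).map lin)) x (δ * x) := by
  have h3 := M.pow_ρ_eq_one (conj_pow_eq_one h hx)
  have h4 := orderOf_eq_of_prime hr hρ h3.2
  exact lang_transfer h hx hδ (h4 ▸ hf.even_lang hm h5 _ γ (h4 ▸ h3.1))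

theorem Nondeg.exists_SO_of_odd (h2 : (2 : F) ≠ 0) (ho : Odd (finrank F V)) {g} (hg : g ∈ f.Sim) :
    ∃ c, ∃ k ∈ f.iso ⊓ SLg F V, g = scal V c * k := by
  have : Nontrivial V := Module.nontrivial_of_finrank_pos (R := F) ho.pos
  obtain ⟨c, k, hk, rfl⟩ := exists_iso_of_sq hf (fun _ => rfl) hg (hf.mu_sq_of_odd ho hg)
  rcases hf.det_iso hk with h | h
  · exact ⟨c, k, ⟨hk, h⟩, rfl⟩
  · refine ⟨-c, scal V (-1) * k, ⟨mul_mem (scal_mem_iso (by simp)) hk, mem_SLg.2 ?_⟩, by ext; simp⟩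
    rw [map_mul, h, det_scal, ho.neg_one_pow]; simp

theorem Nondeg.oI_eq_one_odd (h5 : 5 ≤ finrank F V) (h2 : (2 : F) ≠ 0) (ho : Odd (finrank F V))
    {g : f.iso} (hg : dk g.1 = 1) : oI M g = 1 ↔ f.spn g.1 = 1 := by
  have hn : scal V (-1 : Fˣ) ∈ f.iso := scal_mem_iso (by simp)
  have hd : dk (scal V (-1 : Fˣ)) = -1 := by
    refine (Int.units_eq_one_or _).resolve_left fun h => ?_
    rw [← hf.det_eq_one_iff_dk h2 hn, det_scal, ho.neg_one_pow] at h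
    exact neg_one_ne_one_units h2 h
  rw [hf.oI_eq_one h5, hf.orth_mem_E h5 g.2, hf.orth_mem_E h5 (f.iso.mul_mem hn g.2),
    hf.dk_mul (n24_of_five h5) hn g.2, hg, hd]
  simp

variable [Fintype F₀] {φ : F₀ →+* F} {k : (ι → F) ≃ₗ[F] V} {f₀ : CForm (FType.orth F₀) (ι → F₀)} {l : F}
  (h : Ext φ k f₀ f l) (h5 : 5 ≤ finrank F V) {σ : F ≃+* F} (hσ : ∀ x, σ x = x ↔ ∃ y, φ y = x)
include h h5

omit hf [Fintype F] [FiniteDimensional F V] [Fintype F₀] in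
theorem Ext.nonempty : Nonempty ι := by
  have := h.finrank_eq
  exact Fintype.card_pos_iff.1 (by simp at this; omega)

theorem Ext.spn_bk' (h2 : (2 : F) ≠ 0) {r : ℕ} (hr : Fintype.card F₀ ^ r = Fintype.card F) {g}
    (hg : g ∈ f₀.iso) (hd : dk g = 1) : f.spn (bk φ k g) = f₀.spn g ^ r := by
  obtain ⟨s, h1, h3⟩ := h.spn_bk hf h2 (n24_of_five (h.finrank_eq ▸ h5)) hg hd
  rw [h1, h3, sqc_map_eq φ hr]

theorem Ext.bk_mem_SO {g} (hg : g ∈ f₀.iso ⊓ SLg F₀ _) : bk φ k g ∈ f.iso ⊓ SLg F V :=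
  haveI := h.nonempty h5
  ⟨h.bk_mem_iso hf hg.1, mem_SLg.2 (by rw [det_bk, mem_SLg.1 hg.2, map_one])⟩

include hσ

theorem Ext.odd_all (h2 : (2 : F) ≠ 0) (ho : Odd (finrank F V)) (hs : Function.Surjective M.Φ)
    {X₀ : Type*} [Group X₀] (M₀ : Mdl X₀ f₀.GamS f₀.E) (hr : Fintype.card F₀ ^ orderOf σ = Fintype.card F)
    {x α : MulAut X} (e : α * x * α⁻¹ = M.Φ ⟨_, h.gk_mem hσ⟩) :
    Nonempty (↥(M.im (f.Sim.map lin) ⊓ Subgroup.centralizer {x}) ≃* M₀.im (f₀.Sim.map lin)) ∧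
      splitClassCount (M.im (f.Sim.map lin)) (Inn X) x = Nat.gcd 2 (orderOf σ) := by
  have := h.nonempty h5
  have := im_Sim_normal M hs
  have hf₀ := h.nondeg hf
  have h2' : (2 : F₀) ≠ 0 := fun h => h2 (by rw [← map_ofNat φ 2, h, map_zero])
  have k1 : ∀ c g, scal V c * bk φ k g ∈ f.Sim → g ∈ f₀.Sim := fun c g hg =>
    (h.bk_mem_Sim hf).1 ((Subgroup.mul_mem_cancel_left _ (scal_mem_Sim c)).1 hg)
  refine ⟨cent_transfer e (M.cent_equiv le_rfl (fun _ => (h.bk_mem_Sim hf).2) hσ (orderOf_pos σ) _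
    (fun c g hg => ⟨1, g, k1 c g hg, scal_one_mul g⟩) (M₀.rs le_rfl) (M₀.rs_surj _)
    fun _ => M₀.rs_eq_one _), ?_⟩
  rw [split_transfer (M.Inn_le le_rfl (E_le_iso.trans iso_le_Sim)) e,
    ← M.im_eq_of SO_le_Sim fun _ => hf.exists_SO_of_odd h2 ho,
    M.split_eq SO_le_Sim (fun _ => h.bk_mem_SO hf h5) hσ (orderOf_pos σ) _ (fun c g hg =>
      hf₀.exists_SO_of_odd h2' (h.finrank_eq ▸ ho) (k1 c g (SO_le_Sim hg))) fun g hg =>
      ⟨E_le_iso hg, (hf.det_eq_one_iff_dk h2 (E_le_iso hg)).2 ((hf.orth_mem_E h5 (E_le_iso hg)).1 hg).1⟩,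
    relIndex_range_eq _ (M.κ SO_le_Sim) ((hf.spnHom h2).comp (Subgroup.inclusion inf_le_left))
      (fun u => ?_) ⊥
      fun g => hf.oI_eq_one_odd M h5 h2 ho (g := ⟨g.1, g.2.1⟩) ((hf.det_eq_one_iff_dk h2 g.2.1).1 g.2.2)]
  · refine index_pow_range fun c => ⟨?_, ?_⟩
    · rintro ⟨g, rfl⟩
      exact ⟨_, (h.spn_bk' hf h5 h2 hr g.2.1 ((hf₀.det_eq_one_iff_dk h2' g.2.1).1 g.2.2)).symm⟩
    · rintro ⟨a, rfl⟩
      obtain ⟨g, h1, h3, rfl⟩ := hf₀.exists_dk_spn h2' (by rw [h.finrank_eq]; omega) 1 a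
      exact ⟨⟨g, h1, (hf₀.det_eq_one_iff_dk h2' h1).2 h3⟩, h.spn_bk' hf h5 h2 hr h1 h3⟩
  · obtain ⟨g, h1, h3, h4⟩ := hf.exists_dk_spn h2 (by omega) 1 u
    exact ⟨⟨g, h1, (hf.det_eq_one_iff_dk h2 h1).2 h3⟩, h4⟩

variable {m : ℕ} (hm : finrank F V = 2 * m)
include hm

omit hσ in
theorem Ext.even_h2 (c g) (hg : scal V c * bk φ k g ∈ hf.SimP hm h5) :
    ∃ c₀, ∃ g' ∈ (h.nondeg hf).SimP (h.finrank_eq.trans hm) (h.finrank_eq ▸ h5), g = scal _ c₀ * g' :=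
  haveI := h.nonempty h5
  ⟨1, g, (h.bk_mem_SimP hf hm h5 _ _).1
    ((Subgroup.mul_mem_cancel_left _ (hf.scal_mem_SimP hm h5 c)).1 hg), scal_one_mul g⟩

theorem Ext.even_cent {X₀ : Type*} [Group X₀] (M₀ : Mdl X₀ f₀.GamS f₀.E) :
    Nonempty (↥(M.im ((hf.SimP hm h5).map lin) ⊓ Subgroup.centralizer {M.Φ ⟨_, h.gk_mem hσ⟩}) ≃*
      M₀.im (((h.nondeg hf).SimP (h.finrank_eq.trans hm) (h.finrank_eq ▸ h5)).map lin)) :=
  haveI := h.nonempty h5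
  M.cent_equiv (hf.SimP_le hm h5) (fun _ => (h.bk_mem_SimP hf hm h5 _ _).2) hσ (orderOf_pos σ) _
    (h.even_h2 hf h5 hm) (M₀.rs (Nondeg.SimP_le _ _ _)) (M₀.rs_surj _) fun _ => M₀.rs_eq_one _

omit hσ in
theorem Ext.exists_SO_mul [Nonempty ι] (h2 : (2 : F₀) ≠ 0) {g δ} (hg : g ∈ f₀.Sim) (hδ : δ ∈ f₀.Sim)
    (h1 : (h.nondeg hf).sg (h.finrank_eq.trans hm) (h.finrank_eq ▸ h5) ⟨g, hg⟩ =
      (h.nondeg hf).sg (h.finrank_eq.trans hm) (h.finrank_eq ▸ h5) ⟨δ, hδ⟩)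
    (h3 : sqc (f₀.mu (lin g)) = sqc (f₀.mu (lin δ))) : ∃ u, ∃ hu : u ∈ f₀.iso, dk u = 1 ∧
      oK M ⟨_, (h.bk_mem_Sim hf).2 hg⟩ = oK M ⟨_, (h.bk_mem_Sim hf).2 hδ⟩ * oI M ⟨_, h.bk_mem_iso hf hu⟩ := by
  obtain ⟨c, u, hu, rfl⟩ := (h.nondeg hf).exists_iso_of_chi hg hδ h3
  refine ⟨u, hu, ?_, ?_⟩
  · rw [show (⟨_, hg⟩ : f₀.Sim) = ⟨_, scal_mem_Sim c⟩ * ⟨δ, hδ⟩ * ⟨u, iso_le_Sim hu⟩ from rfl, map_mul,
      map_mul, Nondeg.sg_scal, Nondeg.sg_iso _ _ _ hu, one_mul, mul_eq_left] at h1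
    exact h1
  · exact (oK_eq M (g' := ⟨_, (h.bk_mem_Sim hf).2 hδ⟩ * ⟨_, iso_le_Sim (h.bk_mem_iso hf hu)⟩)
      (Units.map (φ : F₀ →* F) c) (by simp [bk_scal, mul_assoc])).trans (map_mul (oK M) _ _)

theorem Ext.even_split_odd (hr : Fintype.card F₀ ^ orderOf σ = Fintype.card F) (ho : Odd (orderOf σ)) :
    splitClassCount (M.im ((hf.SimP hm h5).map lin)) (Inn X) (M.Φ ⟨_, h.gk_mem hσ⟩) = 1 := by
  by_cases h2 : (2 : F) = 0
  · rw [hf.im_SimP_two hm h5 M h2, splitClassCount_self]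
  have := h.nonempty h5
  have := nontrivial_of_five h5
  have hf₀ := h.nondeg hf
  have h2' : (2 : F₀) ≠ 0 := fun h => h2 (by rw [← map_ofNat φ 2, h, map_zero])
  have hm' := h.finrank_eq.trans hm
  have h5' : 5 ≤ finrank F₀ (ι → F₀) := h.finrank_eq ▸ h5
  rw [M.split_eq (hf.SimP_le hm h5) (fun _ => (h.bk_mem_SimP hf hm h5 hm' h5').2) hσ (orderOf_pos σ) _
    (h.even_h2 hf h5 hm) (hf.E_le_SimP hm h5), Subgroup.relIndex_eq_one]
  rintro _ ⟨⟨g, hg⟩, rfl⟩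
  obtain ⟨h1, h3⟩ := (hf.mem_SimP hm h5).1 hg
  obtain ⟨δ, hδ⟩ := hf₀.ce_surj h5' h2' hm' (sqc (f.mu (lin g)), 1)
  have h4 : hf₀.sg hm' h5' δ = 1 := by rw [hf₀.sg_eq_eps hm' h5' h2']; exact congrArg Prod.snd hδ
  have h6 := (h.bk_mem_Sim hf).2 δ.2
  obtain ⟨c, u, hu, e⟩ := hf.exists_iso_of_chi h1 h6 (by
    rw [h.mu_bk hf δ.2, sqc_map_eq φ hr, show sqc (f₀.mu (lin δ.1)) = _ from congrArg Prod.fst hδ]
    rcases Int.units_eq_one_or (sqc (f.mu (lin g))) with h | h <;> simp [h, ho.neg_one_pow])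
  have h7 : dk u = 1 := by
    rw [show (⟨g, h1⟩ : f.Sim) = ⟨_, scal_mem_Sim c⟩ * ⟨_, h6⟩ * ⟨u, iso_le_Sim hu⟩ from Subtype.ext e,
      map_mul, map_mul, Nondeg.sg_scal, Nondeg.sg_iso _ _ _ hu, h.sg_bk hf hm h5 hm' h5', h4] at h3
    simpa using h3
  obtain ⟨z, z1, z2, z3⟩ := hf₀.exists_dk_spn h2' (by omega) 1 (f.spn u)
  have h8 : oI M ⟨_, h.bk_mem_iso hf z1⟩ = oI M ⟨u, hu⟩ := hf.oI_eq_of h5 M
    ((h.dk_bk hf (n24_of_five h5') z1).trans (z2.trans h7.symm)) (by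
      rw [h.spn_bk' hf h5 h2 hr z1 z2, z3]
      rcases Int.units_eq_one_or (f.spn u) with h | h <;> simp [h, ho.neg_one_pow])
  refine ⟨⟨δ * z, (hf₀.mem_SimP hm' h5').2 ⟨mul_mem δ.2 (iso_le_Sim z1), ?_⟩⟩, ?_⟩
  · exact (map_mul (hf₀.sg hm' h5') δ ⟨z, iso_le_Sim z1⟩).trans (by rw [h4, hf₀.sg_iso _ _ z1, z2, one_mul])
  · have e1 : oK M ⟨g, h1⟩ = oK M ⟨_, h6⟩ * oI M ⟨u, hu⟩ :=
      (oK_eq M (g' := ⟨_, h6⟩ * ⟨u, iso_le_Sim hu⟩) c (e.trans (mul_assoc _ _ _))).trans (map_mul (oK M) _ _)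
    rw [← h8] at e1
    refine Eq.trans ?_ e1.symm
    refine Eq.trans ?_ (map_mul (oK M) ⟨_, h6⟩ ⟨_, iso_le_Sim (h.bk_mem_iso hf z1)⟩)
    exact oK_eq M (g := ⟨bk φ k (δ * z), (h.bk_mem_Sim hf).2 (mul_mem δ.2 (iso_le_Sim z1))⟩) 1 ((map_mul (bk φ k) δ.1 z).trans (scal_one_mul _))

theorem Ext.even_split_two (hr : Fintype.card F₀ ^ 2 = Fintype.card F) (h2 : (2 : F) ≠ 0)
    (hn : scal V (-1) ∈ f.E) {c : Fˣ} {u} (hu : u ∈ f.iso) (hd : dk u = 1)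
    (h1 : cj (gk k σ) (scal V c * u) = scal V c * u) {μ : F₀ˣ} (hμ : sqc μ = -1) (hc : (c : F) ^ 2 = φ μ) :
    splitClassCount (M.im ((hf.SimP hm h5).map lin)) (Inn X) (M.Φ ⟨_, h.gk_mem hσ⟩) =
      if f.spn u = 1 then 4 else 2 := by
  classical
  have := h.nonempty h5
  have := nontrivial_of_five h5
  have hf₀ := h.nondeg hf
  have h2' : (2 : F₀) ≠ 0 := fun h => h2 (by rw [← map_ofNat φ 2, h, map_zero])
  have hm' := h.finrank_eq.trans hm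
  have h5' : 5 ≤ finrank F₀ (ι → F₀) := h.finrank_eq ▸ h5
  obtain ⟨δ, hδ⟩ := exists_bk k hσ h1
  have h3 : bk φ k δ ∈ f.Sim := hδ ▸ mul_mem (scal_mem_Sim c) (iso_le_Sim hu)
  have h4 := (h.bk_mem_Sim hf).1 h3
  have h6 : hf₀.sg hm' h5' ⟨δ, h4⟩ = 1 := by
    rw [← h.sg_bk hf hm h5 hm' h5', hf.sg_of_eq hm h5 hu hδ, hd]
  have h7 : f₀.mu (lin δ) = μ := Units.ext (φ.injective (by
    have := congrArg Units.val (h.mu_bk hf h4)
    rw [hδ, hf.mu_lin_mul (scal_mem_Sim c) (iso_le_Sim hu), hf.mu_iso hu, mul_one, ← sc_eq_lin,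
      hf.mu_sc] at this
    rw [← hc, sq]; exact this.symm))
  have h8 : oK M ⟨_, h3⟩ = oI M ⟨u, hu⟩ := oK_eq_oI M c hδ
  have h9 : ∀ z (hz : z ∈ f₀.iso), dk z = 1 → oI M ⟨_, h.bk_mem_iso hf hz⟩ = 1 := fun z hz h' =>
    (hf.oI_eq_one_even h5 M h2 hm).2 ⟨(h.dk_bk hf (n24_of_five h5') hz).trans h', Or.inl (by
      rw [h.spn_bk' hf h5 h2 hr hz h', Int.units_sq])⟩
  rw [M.split_eq (hf.SimP_le hm h5) (fun _ => (h.bk_mem_SimP hf hm h5 hm' h5').2) hσ (orderOf_pos σ) _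
    (h.even_h2 hf h5 hm) (hf.E_le_SimP hm h5), show MonoidHom.range _ = Subgroup.zpowers (oI M ⟨u, hu⟩)
      from le_antisymm ?_ ?_, relIndex_zpowers ?_ (hf.oI_mul_self h5 M _) ?_]
  · simp only [hf.oI_eq_one_even h5 M h2 hm, hd, hn, not_true, or_false, true_and]
  · exact ⟨⟨u, (hf.mem_SimP hm h5).2 ⟨_, (hf.sg_iso hm h5 hu).trans hd⟩⟩, rfl⟩
  · rw [hf.range_SimP hm h5, hf.sg_eq_eps hm h5 h2, hf.card_eps_ker h5 M h2 hm, hf.card_SO h5 M h2 hm,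
      if_pos hn]
  · rintro _ ⟨⟨g, hg⟩, rfl⟩
    obtain ⟨g1, g2⟩ := (hf₀.mem_SimP hm' h5').1 hg
    rcases Int.units_eq_one_or (sqc (f₀.mu (lin g))) with g3 | g3
    · obtain ⟨z, z1, z2, e⟩ := h.exists_SO_mul hf M h5 hm h2' g1 (one_mem _) (g2.trans (map_one _).symm)
        (by rw [g3, map_one, hf₀.mu_one, map_one])
      rw [h9 z z1 z2, mul_one, show (⟨bk φ k 1, _⟩ : f.Sim) = 1 from Subtype.ext (map_one _), map_one] at e
      exact e ▸ one_mem _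
    · obtain ⟨z, z1, z2, e⟩ := h.exists_SO_mul hf M h5 hm h2' g1 h4 (g2.trans h6.symm) (by rw [g3, h7, hμ])
      rw [h9 z z1 z2, mul_one, h8] at e
      exact e ▸ Subgroup.mem_zpowers _
  · rw [Subgroup.zpowers_le]
    exact ⟨⟨δ, (hf₀.mem_SimP hm' h5').2 ⟨h4, h6⟩⟩, h8⟩

end CForm

/-- diagonal elements of the Levi subgroup -/
noncomputable def levD {m : ℕ} (d : Fin m → Fˣ) : (Fin m ⊕ Fin m → F) ≃ₗ[F] (Fin m ⊕ Fin m → F) :=
  glE (lev ⟨Matrix.diagonal fun i => d i, Matrix.diagonal fun i => (d i)⁻¹, by simp, by simp⟩)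

theorem levD_apply {m : ℕ} (d : Fin m → Fˣ) (v) :
    levD d v = Sum.elim (fun i => d i * v (.inl i)) fun i => (d i : F)⁻¹ * v (.inr i) := by
  rw [levD, glE_lev]
  ext (i | i)
  · simp [Matrix.mulVec_diagonal]
  · change (Matrix.diagonal fun i => ((d i)⁻¹ : F)).transpose.mulVec _ i = _
    simp [Matrix.mulVec_diagonal]

theorem levD_mem {m : ℕ} (d : Fin m → Fˣ) : levD d ∈ (plusF F m).iso := lev_mem_plusF _

theorem levD_spec [Finite F] {m : ℕ} (hm : 3 ≤ m) (d : Fin m → Fˣ) :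
    CForm.dk (levD d) = 1 ∧ (plusF F m).spn (levD d) = sqc (∏ i, d i) := by
  have h4 : N24 F (Fin m ⊕ Fin m → F) := Or.inr (by simp; omega)
  have h1 : CForm.dk (levD d) = 1 := (plusF_nondeg m).dk_of_stab h4 (plusF_TS_inlSub m)
    (by simp [finrank_inlSub, two_mul]) (lev_mem_plusF _) (lev_mem_stab _)
  refine ⟨h1, units_eq_of_iff ?_⟩
  rw [← and_iff_right (b := _ = 1) h1, ← (plusF_nondeg m).mem_Om h4 (levD_mem d), levD, lev_mem_Om (by omega) h4,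
    sqc_eq_one]
  simp

theorem odd_card_of_two_ne_zero [Fintype F] (h2 : (2 : F) ≠ 0) : Odd (Fintype.card F) :=
  Nat.odd_iff.2 (FiniteField.odd_card_of_char_ne_two fun h =>
    h2 (by simpa [h] using ringChar.Nat.cast_ringChar (R := F)))

theorem odd_div (n : ℕ) : (2 * n + 1) / 2 = n := by omega

theorem odd_sq_div (n : ℕ) : (2 * n + 1) ^ 2 / 2 = 2 * n * (n + 1) := by
  rw [show (2 * n + 1) ^ 2 = 2 * (2 * n * (n + 1)) + 1 by ring, odd_div]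

section plus

variable [Fintype F] [Fintype F₀] {m : ℕ} (hm : 3 ≤ m) {X : Type*} [Group X]
  (M : Mdl X (plusF F m).GamS (plusF F m).E) {φ : F₀ →+* F} {σ : F ≃+* F}
  (hσ : ∀ x, σ x = x ↔ ∃ y, φ y = x) (hr : Fintype.card F₀ ^ 2 = Fintype.card F) (h2 : (2 : F) ≠ 0)
include hr h2

omit hσ in
theorem exists_sqrt_nonsq : ∃ (μ : F₀ˣ) (c : Fˣ), sqc μ = -1 ∧ (c : F) ^ 2 = φ μ ∧
    (sqc c = 1 ↔ Fintype.card F₀ % 4 ≠ 1) := by
  have h2' : (2 : F₀) ≠ 0 := fun h => h2 (by rw [← map_ofNat φ 2, h, map_zero])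
  obtain ⟨μ, hμ⟩ := sqc_surj h2' (-1)
  obtain ⟨c, hc⟩ := sqc_eq_one.1 (isSquare_of_card_sq φ hr μ)
  have h0 : c ≠ 0 := by rintro rfl; simp at hc
  obtain ⟨n, hn⟩ := odd_card_of_two_ne_zero h2'
  refine ⟨μ, Units.mk0 c h0, hμ, (sq c).trans hc.symm, ?_⟩
  rcases Nat.even_or_odd' n with ⟨j, rfl | rfl⟩
  · rw [sqc_of_sq φ hr h2' hμ (k := 2) (n := 2 * j + 1) ((sq c).trans hc.symm) (by
      rw [← hr, hn, odd_sq_div, odd_div])]
    simp [hn, pow_succ]; omega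
  · rw [sqc_of_sq φ hr h2' hμ (k := 2) (n := 2 * (j + 1)) ((sq c).trans hc.symm) (by
      rw [← hr, hn, odd_sq_div, odd_div]; ring)]
    simp [hn]; omega

omit hσ in
include hm in
theorem plusF_neg_mem_of_sq (φ : F₀ →+* F) : CForm.scal _ (-1) ∈ (plusF F m).E := by
  have h2' : (2 : F₀) ≠ 0 := fun h => h2 (by rw [← map_ofNat φ 2, h, map_zero])
  rw [plusF_neg_mem_E (odd_card_of_two_ne_zero h2) hm, ← hr,
    (pow_mod_four_eq_one (odd_card_of_two_ne_zero h2')).2 (by simp)]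
  simp

include hσ hm in
theorem plus_split_fld (hd h5) : splitClassCount (M.im (((plusF_nondeg m).SimP (m := m) hd h5).map lin))
    (Inn X) (M.Φ ⟨_, fld_mem_plusF m σ⟩) = if Odd m ∧ Fintype.card F₀ % 4 = 1 then 2 else 4 := by
  obtain ⟨μ, c, h1, h3, h4⟩ := exists_sqrt_nonsq (φ := φ) hr h2
  obtain ⟨h6, h7⟩ := levD_spec hm fun _ : Fin m => c
  have h8 : σ ((c : F) ^ 2) = c ^ 2 := (hσ _).2 ⟨_, h3.symm⟩
  refine ((plusF_ext φ m).even_split_two (plusF_nondeg m) M h5 hσ hd hr h2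
    (plusF_neg_mem_of_sq hm hr h2 φ) (levD_mem _) h6 ?_ h1 h3).trans ?_
  · ext v (i | i)
    · simp [levD_apply, gk_refl, ← mul_assoc, ← sq, ← inv_s, ← map_inv, h8, -map_pow]
    · simp [levD_apply, gk_refl, ← inv_s, ← map_inv]
  · rw [h7, Finset.prod_const, map_pow, Finset.card_fin]
    rcases Int.units_eq_one_or (sqc c) with h | h <;> rcases Nat.even_or_odd m with h' | h' <;>
      simp [h, h', h'.neg_one_pow] at h4 ⊢ <;> simp [h4, h']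

omit hr h2 in
theorem plus_graph_ext {γ : (plusF F (m + 1)).GamS} (hσ : ∀ x, γ.1.ρ x = x ↔ ∃ y, φ y = x)
    (h1 : γ.1 ^ orderOf γ.1.ρ ∈ Zs F _) (hd)
    (h3 : (plusF_nondeg (m + 1)).par (m := m + 1) hd (plusF_wi _) γ = -1) {a b : F₀}
    (hab : ∀ z₁ z₂ : F₀, z₁ ^ 2 + a * z₁ * z₂ + b * z₂ ^ 2 = 0 → z₁ = 0 ∧ z₂ = 0) :
    ∃ d k l, sc F _ d * γ.1 = gk k γ.1.ρ ∧ CForm.Ext φ k (minusF m a b) (plusF F (m + 1)) l := by
  have hf := plusF_nondeg (F := F) (m + 1)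
  obtain ⟨d, k, f₀, l, h4, h⟩ := hf.lang (ι := (Fin m ⊕ Fin m) ⊕ Fin 2) (FType.orth_hom φ)
    (by simp; omega) γ.2 hσ h1
  obtain ⟨g, hg⟩ := h.isom ((h.nondeg hf).isom_minusF (m := m) (by simp; omega) (by
    rw [Ne, ← h.par_iff hf hd (plusF_wi _) hσ, show (⟨gk k γ.1.ρ, _⟩ : (plusF F (m + 1)).GamS) =
      ⟨_, CForm.sc_mem_GamS d⟩ * γ from Subtype.ext h4.symm, map_mul, hf.par_sc, h3]
    decide) hab).symm
  exact ⟨d, _, l, by rw [gk_trans k hσ, h4], hg⟩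

omit hr h2 in
theorem plusF_rfx_swap (i₀ : Fin m) (v : Fin m ⊕ Fin m → F) :
    (plusF F m).rfx (Pi.single (.inl i₀) 1 - Pi.single (.inr i₀) 1) v =
      v ∘ Equiv.swap (.inl i₀) (.inr i₀) := by
  rw [CForm.rfx_apply]
  ext (i | i) <;> by_cases h : i = i₀ <;>
    simp [plusF_B, plusF_Q, quadFormPlus, polar_plus, Pi.single_apply, h, Finset.sum_add_distrib,
      Equiv.swap_apply_def]

omit hr h2 in
theorem exists_graph_gam (hd) {σ : F ≃+* F} (hσ2 : σ ^ 2 = 1) {v} (h1 : (plusF F m).Q v ≠ 0)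
    (h3 : (fld _ σ).s v = v) (h5 : 5 ≤ finrank F (Fin m ⊕ Fin m → F)) :
    ∃ h : lin ((plusF F m).rfx v) * fld _ σ ∈ (plusF F m).GamS,
      (plusF_nondeg m).par (m := m) hd (plusF_wi _) ⟨_, h⟩ = -1 ∧
      (lin ((plusF F m).rfx v) * fld _ σ) ^ 2 = 1 := by
  have hf := plusF_nondeg (F := F) m
  refine ⟨mul_mem (CForm.lin_mem_GamS (CForm.rfx_mem_iso v)) (fld_mem_plusF m σ), ?_, ?_⟩
  · have := map_mul (hf.par hd (plusF_wi _)) ⟨_, CForm.lin_mem_GamS (CForm.rfx_mem_iso v)⟩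
      ⟨_, fld_mem_plusF m σ⟩
    rw [hf.par_iso hd _ (CForm.n24_of_five h5) (CForm.rfx_mem_iso v), hf.dk_rfx h1,
      hf.par_of_img hd _ (plusF_TS_inlSub m) (finrank_inlSub m) (a := ⟨_, fld_mem_plusF m σ⟩)
        (img_eq_of_le fun x hx => mem_inlSub.2 fun i => by simp [mem_inlSub.1 hx i]), mul_one] at this
    exact this
  · have := lin_cj (fld _ σ) ((plusF F m).rfx v)
    rw [CForm.cj_rfx (fld_mem_plusF m σ), h3, eq_mul_inv_iff_mul_eq] at this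
    rw [Commute.mul_pow this, ← map_pow, ← map_pow, hσ2, sq, CForm.rfx_mul_self]; simp

include hσ hm in
theorem plus_split_graph (M : Mdl X (plusF F (m + 1)).GamS (plusF F (m + 1)).E) (hd h5)
    (hN : (M.im (((plusF_nondeg _).SimP (m := m + 1) hd h5).map lin)).Normal)
    {γ : (plusF F (m + 1)).GamS} (hρ : γ.1.ρ = σ) (hσ2 : orderOf σ = 2) (h1 : γ.1 ^ 2 ∈ Zs F _)
    (h3 : (plusF_nondeg (m + 1)).par (m := m + 1) hd (plusF_wi _) γ = -1) :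
    splitClassCount (M.im (((plusF_nondeg _).SimP (m := m + 1) hd h5).map lin)) (Inn X) (M.Φ γ) =
      if Odd (m + 1) ∧ Fintype.card F₀ % 4 = 1 then 4 else 2 := by
  have hf := plusF_nondeg (F := F) (m + 1)
  have h2' : (2 : F₀) ≠ 0 := fun h => h2 (by rw [← map_ofNat φ 2, h, map_zero])
  have hσ1 : σ ≠ 1 := by rintro rfl; simp at hσ2
  have hσ3 : σ ^ 2 = 1 := hσ2 ▸ pow_orderOf_eq_one σ
  obtain ⟨g1, g2, g3⟩ := exists_graph_gam hd hσ3 (v := Pi.single (.inl 0) 1 - Pi.single (.inr 0) 1)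
    (by simp [plusF_Q, quadFormPlus, Pi.single_apply]) (by ext i; simp [Pi.single_apply, apply_ite σ]) h5
  obtain ⟨d, s, hs, e⟩ := hf.lang_even hd h5 γ.2 g1 (by simp [hρ]) (by rwa [hρ, hσ2])
    (by rw [hρ, hσ2, g3]; exact one_mem _) fun _ => g2.trans h3.symm
  obtain ⟨α, -, e'⟩ := M.isConj_of (hf.SimP_le hd h5) (γ := γ) (γ' := ⟨_, g1⟩) hs e
  obtain ⟨a, b, hab⟩ := exists_aniso F₀
  obtain ⟨d', k, l, k1, h⟩ := plus_graph_ext (φ := φ) (γ := ⟨_, g1⟩) (by simpa using hσ)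
    (by simp [hσ2, g3]) hd g2 hab
  simp only [mul_ρ, lin_ρ, one_mul, fld_ρ] at k1
  obtain ⟨μ, c, c1, c3, c4⟩ := exists_sqrt_nonsq (φ := φ) hr h2
  obtain ⟨t, ht⟩ := exists_nm_eq hσ2 two_pos (c := Units.map (φ : F₀ →* F) μ) ((hσ _).2 ⟨μ, rfl⟩)
  have t1 : (t : F) * σ t = c ^ 2 := by rw [c3]; exact congrArg Units.val ((nm_two σ t).symm.trans ht)
  have t2 : sqc t = -1 := by
    obtain ⟨n, hn⟩ := odd_card_of_two_ne_zero h2'
    rw [sqc_of_sq φ hr h2' c1 (k := Fintype.card F₀ + 1) (n := 1) (by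
      rw [pow_succ', ← frobq_apply hr.symm, ← eq_frobq hr.symm hσ1 hσ3, t1, c3]) (by
      rw [← hr, hn, odd_sq_div, odd_div]; ring), pow_one]
  obtain ⟨h6, h7⟩ := levD_spec (m := m + 1) (by omega) (Fin.cons (t / c) fun _ : Fin m => c)
  have h8 : σ ((c : F) ^ 2) = c ^ 2 := (hσ _).2 ⟨_, c3.symm⟩
  have hσσ : ∀ x, σ (σ x) = x := fun x => DFunLike.congr_fun ((sq σ).symm.trans hσ3) x
  rw [split_transfer (M.Inn_le (hf.SimP_le hd h5) (hf.E_le_SimP hd h5)) e'.symm,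
    ← (M.Φ_eq_iff (a := ⟨_, h.gk_mem hσ⟩) (b := ⟨_, g1⟩)).2 ⟨d', k1.symm⟩]
  refine (h.even_split_two hf M h5 hσ hd hr h2 (plusF_neg_mem_of_sq (by omega) hr h2 φ) (levD_mem _) h6
    ?_ c1 c3).trans ?_
  · rw [← k1, map_mul cj, cj_sc, one_mul]
    refine lin_injective ?_
    rw [lin_cj, mul_inv_eq_iff_eq_mul]
    refine ext' (fun v => ?_) (by simp)
    have := c.ne_zero
    have := t.ne_zero
    have t3 : σ t = c ^ 2 / t := by rw [← t1]; field_simp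
    have t4 : σ c ≠ 0 := by simpa using c.ne_zero
    have t5 : σ c ^ 2 = c ^ 2 := by rw [← h8, map_pow]
    ext (i | i) <;> refine Fin.cases ?_ (fun i => ?_) i <;>
      simp [plusF_rfx_swap, levD_apply, Equiv.swap_apply_def, Fin.succ_ne_zero, t3] <;>
      field_simp <;> simp [t5, mul_comm]
  · rw [h7, Fin.prod_univ_succ]
    simp only [Fin.cons_zero, Fin.cons_succ, Finset.prod_const, map_mul, map_pow, Finset.card_fin, map_div, t2]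
    rcases Int.units_eq_one_or (sqc c) with h | h <;> rcases Nat.even_or_odd m with h' | h' <;>
      simp [h, h', h'.neg_one_pow, Nat.odd_add_one] at c4 ⊢ <;> simp [c4, h']

end plus

section model

variable [Fintype F] {f : CForm (FType.orth F) (ι → F)} (hf : f.Nondeg) (h7 : 7 ≤ Fintype.card ι)

theorem om_fld_class (h : ∀ σ, fld ι σ ∈ f.GamS) {x} (hx : IsFieldAutClassPOmega f.Q x) :
    ∃ α σ, σ ≠ 1 ∧ α * x * α⁻¹ = (omM hf h7).Φ ⟨_, h σ⟩ ∧ orderOf σ = orderOf x := by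
  obtain ⟨α, _, σ, h1, h3, rfl⟩ := hx
  have h4 := ((omM_fld hf h7 (h σ)).1 h3).symm
  refine ⟨α, σ, h1, h4, ?_⟩
  rw [← (omM hf h7).orderOf_gk (k := LinearEquiv.refl _ _) (h σ)]
  exact (congrArg _ h4.symm).trans (MulEquiv.orderOf_eq (MulAut.conj α) x)

theorem om_graph_class {m : ℕ} (h7) {x : MulAut (POmega F (plusF F m).Q)}
    (hx : IsGraphFieldAutClassPOmegaPlus m x) : ∃ α σ v, σ ≠ 1 ∧ (plusF F m).Q v ≠ 0 ∧ (fld _ σ).s v = v ∧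
      α * x * α⁻¹ = (omM (plusF_nondeg m) h7).Φ
        (⟨_, CForm.lin_mem_GamS (CForm.rfx_mem_iso v)⟩ * ⟨_, fld_mem_plusF m σ⟩) := by
  obtain ⟨α, γ, φ, σ, v, s, h1, h2, h3, h4, h5, h6, h8⟩ := hx
  have h9 : glE s = (plusF F m).rfx v := LinearEquiv.ext fun x => by
    rw [glE_apply, h4, CForm.rfx_apply]; exact reflectionMatrix_mulVec (plusF F m) v x
  refine ⟨α, σ, v, h1, h2, funext h3, h8.trans ?_⟩
  rw [map_mul, (omM_fld _ h7 (fld_mem_plusF m σ)).1 h6]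
  simp only [← h9]
  rw [(omM_lin _ h7 _).1 h5]
  rfl

theorem om_graph_class' {m : ℕ} (hm : 5 ≤ m) (h7 hd) {x : MulAut (POmega F (plusF F m).Q)}
    (hx : IsGraphFieldAutClassPOmegaPlus m x) (h2 : orderOf x = 2) : ∃ γ : (plusF F m).GamS,
      (omM (plusF_nondeg m) h7).Φ γ = x ∧ orderOf γ.1.ρ = 2 ∧ γ.1 ^ 2 = 1 ∧
      (plusF_nondeg m).par (m := m) hd (plusF_wi _) γ = -1 := by
  obtain ⟨α, σ, v, h1, h3, h4, h5⟩ := om_graph_class h7 hx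
  obtain ⟨a, rfl⟩ := omM_surj (plusF_nondeg m) h7 (fun h => by simp at h; omega) α
  have h6 : σ ^ 2 = 1 := by simpa using (Mdl.pow_ρ_eq_one _ (conj_pow_eq_one h5 h2)).2
  obtain ⟨g1, g2, g3⟩ := exists_graph_gam hd h6 h3 h4 (by simp; omega)
  refine ⟨a⁻¹ * ⟨_, g1⟩ * a, ?_, ?_, ?_, ?_⟩
  · rw [map_mul, map_mul, map_inv]
    erw [← h5]; group
  · simpa [ringAut_comm _ σ] using orderOf_eq_prime h6 h1
  · rw [Subgroup.coe_mul, Subgroup.coe_mul, Subgroup.coe_inv, ← inv_inv a.1, inv_inv a.1⁻¹, conj_pow, g3]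
    simp
  · rw [map_mul, map_mul, g2, map_inv, inv_mul_cancel_comm]

end model

end Cfsg.Agent.H4
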