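import Cfsg.Agent.H4.Inv5
import Cfsg.Agent.H4.Std1
import Cfsg.Agent.H2.Count

/-! Involutions of `SU₃(q)`, `q` odd. -/

set_option autoImplicit false
set_option linter.unusedSectionVars false

namespace Cfsg.Agent.H4

open Module Submodule Matrix

variable {F : Type*} [Field F] [Fintype F] {q : ℕ}

theorem CForm.Nondeg.unit_inv_three {V : Type*} [AddCommGroup V] [Module F V] [FiniteDimensional F V]
    (hF : Fintype.card F = q ^ 2) {f : CForm (unT hF) V} (hf : f.Nondeg) (h2 : (2 : F) ≠ 0) (hn : finrank F V = 3)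
    {a : V ≃ₗ[F] V} (ha : a ∈ f.iso) (hd : LinearEquiv.det a = 1) (h1 : a * a = 1) (h0 : a ≠ 1) :
    ∃ p, f.Q p = 1 ∧ ∀ x, a x = (2 * f.B x p) • p - x := by
  obtain ⟨b, d, h4⟩ := exists_eig_basis (A := Subgroup.zpowers a) h2
    (fun x hx y hy => (Subgroup.zpowers_isMulCommutative a).1.1 (⟨x, hx⟩ : Subgroup.zpowers a) ⟨y, hy⟩ |> congrArg Subtype.val)
    (by rintro _ ⟨k, rfl⟩; simp only; rw [← Commute.mul_zpow (Commute.refl a), h1, _root_.one_zpow])
  replace h4 := h4 ⟨a, Subgroup.mem_zpowers a⟩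
  generalize d _ = d at h4
  generalize finrank F V = m at b d h4 hn
  subst hn
  have h5 : d 0 * d 1 * d 2 = 1 := by
    rw [← Fin.prod_univ_three, ← det_diagonal, ← show LinearMap.toMatrix b b a = diagonal d by
      ext i j; simp [LinearMap.toMatrix_apply, (h4 j).1, diagonal_apply, Finsupp.single_apply]; aesop,
      LinearMap.det_toMatrix]
    exact (LinearEquiv.coe_det _).symm.trans (congrArg Units.val hd)
  obtain ⟨i, h6, h7⟩ : ∃ i, d i = 1 ∧ ∀ j, j ≠ i → d j = -1 := by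
    have h8 : ¬ (d 0 = 1 ∧ d 1 = 1 ∧ d 2 = 1) := fun h => h0 (b.ext' fun i => by
      fin_cases i <;> simp [(h4 _).1, h])
    have := (h4 0).2
    have := (h4 1).2
    have := (h4 2).2
    simp only [Fin.exists_fin_succ, Fin.forall_fin_succ]
    simp
    grind
  have h8 : ∀ j, j ≠ i → f.B (b j) (b i) = 0 := fun j hj => mul_left_cancel₀ h2 (by
    have := ha.1 (b j) (b i)
    rw [(h4 i).1, (h4 j).1, h6, h7 j hj, one_smul, f.B_smul_left] at this
    linear_combination -this)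
  have h9 : f.B (b i) (b i) ≠ 0 := fun h => b.ne_zero i (hf _ fun x => f.B_zero_symm <| by
    rw [← b.sum_repr x, map_sum, LinearMap.sum_apply]
    exact Finset.sum_eq_zero fun j _ => by by_cases e : j = i <;> simp [e, h, h8])
  obtain ⟨c, hc⟩ := exists_norm_eq' (frobq_ne hF) (unT hF).σσ (μ := (f.B (b i) (b i))⁻¹)
    (by rw [map_inv₀]; exact congrArg _ (f.unit_symm _ _).symm)
  have h10 : c * (unT hF).σ c * f.B (b i) (b i) = 1 := (congrArg (· * _) hc).trans (inv_mul_cancel₀ h9)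
  refine ⟨c • b i, by rw [f.Q_smul, f.unit_Q, h10], fun x => ?_⟩
  rw [← b.sum_repr x, map_sum, map_sum, LinearMap.sum_apply, Finset.mul_sum, Finset.sum_smul, ← Finset.sum_sub_distrib]
  refine Finset.sum_congr rfl fun j _ => ?_
  rw [map_smul, (h4 j).1, f.B_smul_left, f.B_smul_right]
  by_cases e : j = i
  · rw [e, h6]
    linear_combination (norm := module) (-2 * b.repr x i) • congrArg (· • b i) h10
  · simp [h7 j e, h8 j e]

theorem su3_isConj (hF : Fintype.card F = q ^ 2) (h2 : (2 : F) ≠ 0) {t x : SU 3 F q} (ht : t ≠ 1) (ht2 : t * t = 1)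
    (hx : x ≠ 1) (hx2 : x * x = 1) : IsConj t x := by
  have hf := unF_nondeg hF 3
  have key := fun (x : SU 3 F q) (hx : x ≠ 1) (hx2 : x * x = 1) => hf.unit_inv_three hF h2 (by simp) (suEquiv hF 3 x).2.1
    (suEquiv hF 3 x).2.2 (by rw [← Subgroup.coe_mul, ← map_mul, hx2, map_one, Subgroup.coe_one]) (by simpa using hx)
  obtain ⟨p, h1, h3⟩ := key t ht ht2
  obtain ⟨p', h4, h5⟩ := key x hx hx2
  obtain ⟨e, he, rfl⟩ := hf.unit_E_trans (frobq_ne hF) (CForm.Nondeg.unT_not_aniso hF (by simp)) (h4.trans h1.symm)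
    (h1 ▸ one_ne_zero)
  rw [unF_E_eq hF (by simp)] at he
  refine (isConj_equiv (suEquiv hF 3)).2 ⟨e, he, mul_inv_eq_iff_eq_mul.2 (LinearEquiv.ext fun v => ?_)⟩
  rw [LinearEquiv.mul_apply, LinearEquiv.mul_apply, h3, h5, he.1.1, map_sub, map_smul]

theorem herm_ebk {m : ℕ} (M : Matrix (Fin m) (Fin m) F) (a : F) (u v : Fin (m + 1) → F) :
    hermForm (m + 1) F q (ebk M a *ᵥ u) (ebk M a *ᵥ v) =
      hermForm m F q (M *ᵥ Fin.init u) (M *ᵥ Fin.init v) + a * a ^ q * (u (Fin.last m) * v (Fin.last m) ^ q) := by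
  simp [hermForm, ebk, mulVec, dotProduct, Fin.sum_univ_castSucc, Fin.init, mul_pow, mul_mul_mul_comm]

theorem ebkS_mem_SU (hF : Fintype.card F = q ^ 2) {m : ℕ} {g : GL (Fin m) F} : ebkS g ∈ SU (m + 1) F q ↔ g ∈ GU m F q := by
  have h1 := fun u v => (herm_ebk (q := q) (1 : Matrix (Fin m) (Fin m) F) 1 u v)
  simp only [ebk_one, one_mulVec, one_pow, one_mul] at h1
  refine ⟨fun h u v => ?_, fun h u v => (herm_ebk ..).trans ?_⟩
  · have := (herm_ebk ..).symm.trans ((h (Fin.snoc u 0) (Fin.snoc v 0)).trans (h1 _ _))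
    simpa using this
  · have h3 := (unF_nondeg hF m).det_norm ((mem_GU hF).1 h)
    rw [det_glE] at h3
    rw [h1, inv_pow, ← mul_inv, show g.1.det * g.1.det ^ q = 1 from h3, inv_one, one_mul]
    exact congrArg (· + _) (h _ _)

theorem card_su3_cent (hq : Odd q) (hF : Fintype.card F = q ^ 2) : ∃ t : SU 3 F q, t ≠ 1 ∧ t * t = 1 ∧
    Nat.card (Subgroup.centralizer ({t} : Set (SU 3 F q))) = q * (q + 1) * (q ^ 2 - 1) := by
  have h2 := two_ne_zero_of_odd (F := F) (hF ▸ hq.pow)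
  have h1 : (-1 : GL (Fin 2) F) ∈ GU 2 F q := fun u v => by simp [hermForm, neg_mulVec, hq.neg_pow]
  refine ⟨⟨ebkS (-1), (ebkS_mem_SU hF).2 h1⟩, fun h => neg_one_ne_GL h2 two_pos
    ((injective_iff_map_eq_one _).1 ebkS_injective _ (congrArg Subtype.val h)), Subtype.ext (by simp [← map_mul]), ?_⟩
  rw [← Nat.card_congr (Equiv.ofBijective (fun g : GU 2 F q => ⟨⟨ebkS g.1, (ebkS_mem_SU hF).2 g.2⟩, by
    rintro _ rfl; exact Subtype.ext (by simp [← map_mul])⟩) ⟨fun g g' h => Subtype.ext (ebkS_injective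
      (congrArg (·.1.1) h)), fun x => ?_⟩), card_GU hF]
  · simp [Finset.prod_range_succ, mul_assoc]
  obtain ⟨g, -, hg⟩ := (centralizer_ebkS h2 even_two).le (x := x.1.1) (by
    rintro _ rfl; exact congrArg Subtype.val (x.2 _ rfl))
  exact ⟨⟨g, (ebkS_mem_SU hF).1 (by rw [hg]; exact x.1.2)⟩, Subtype.ext (Subtype.ext hg)⟩

end Cfsg.Agent.H4
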