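import Cfsg.Agent.H4.Su3i

/-! The commuting involution graph of `SU₃(q)`, `q` odd. -/

set_option autoImplicit false
set_option linter.unusedSectionVars false

namespace Cfsg.Agent.H4

open Module Submodule Matrix

variable {F : Type*} [Field F] [Fintype F] {q : ℕ} {hF : Fintype.card F = q ^ 2}

variable (hF) in
/-- `g` is the involution with axis `v` -/
structure Ax (g : SU 3 F q) (v : Fin 3 → F) : Prop where
  ne : g ≠ 1
  sq : g * g = 1
  Q : (unF hF 3).B v v ≠ 0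
  eq : ∀ x, (suEquiv hF 3 g).1 x = (2 * (unF hF 3).B x v * ((unF hF 3).B v v)⁻¹) • v - x

variable {g g' : SU 3 F q} {v v' : Fin 3 → F} (h2 : (2 : F) ≠ 0)

theorem su_ext (h : ∀ x, (suEquiv hF 3 g).1 x = (suEquiv hF 3 g').1 x) : g = g' :=
  (suEquiv hF 3).injective (Subtype.ext (LinearEquiv.ext h))

theorem su_mul (x : Fin 3 → F) : (suEquiv hF 3 (g * g')).1 x = (suEquiv hF 3 g).1 ((suEquiv hF 3 g').1 x) := by
  rw [map_mul]; rfl

theorem Ax.smul (h : Ax hF g v) {c : F} (hc : c ≠ 0) : Ax hF g (c • v) := by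
  have := (unT hF).σ_ne_zero hc
  have := h.Q
  refine ⟨h.ne, h.sq, by simp only [CForm.B_smul_left, CForm.B_smul_right]; positivity, fun x => ?_⟩
  rw [h.eq, smul_smul, CForm.B_smul_left, CForm.B_smul_right, CForm.B_smul_right]
  congr 2
  field_simp

theorem Ax.conj (h : Ax hF g v) (k : SU 3 F q) : Ax hF (k * g * k⁻¹) ((suEquiv hF 3 k).1 v) := by
  have h1 := (suEquiv hF 3 k).2.1.1
  refine ⟨by simpa using h.ne, by rw [conj_mul, h.sq]; simp, by rw [h1]; exact h.Q, fun x => ?_⟩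
  obtain ⟨x, rfl⟩ := (suEquiv hF 3 k).1.surjective x
  rw [← su_mul, inv_mul_cancel_right, su_mul, h.eq, h1, h1, map_sub, map_smul]

theorem Ax.neg (h : Ax hF g v) {x : Fin 3 → F} (hx : (unF hF 3).B x v = 0) : (suEquiv hF 3 g).1 x = -x := by
  rw [h.eq, hx]; simp

theorem Ax.self (h : Ax hF g v) : (suEquiv hF 3 g).1 v = v := by
  rw [h.eq, mul_inv_cancel_right₀ h.Q, two_smul, add_sub_cancel_right]

theorem Ax.ne_zero (h : Ax hF g v) : v ≠ 0 := fun e => h.Q (by simp [e])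

include h2

theorem exists_ax (h : g ≠ 1) (h1 : g * g = 1) : ∃ v, (unF hF 3).B v v = 1 ∧ Ax hF g v := by
  obtain ⟨p, h3, h4⟩ := (unF_nondeg hF 3).unit_inv_three hF h2 (by simp) (suEquiv hF 3 g).2.1
    (suEquiv hF 3 g).2.2 (by rw [← Subgroup.coe_mul, ← map_mul, h1, map_one, Subgroup.coe_one]) (by simpa using h)
  rw [CForm.unit_Q] at h3
  exact ⟨p, h3, h, h1, h3 ▸ one_ne_zero, fun x => by rw [h4, h3, inv_one, mul_one]⟩

omit h2 in
theorem Ax.exists (h : Ax hF g v) (h1 : (unF hF 3).B v v = 1) (hv : (unF hF 3).B v' v' ≠ 0) : ∃ g', Ax hF g' v' := by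
  obtain ⟨c, hc⟩ := exists_norm_eq' (frobq_ne hF) (unT hF).σσ (μ := (unF hF 3).B v' v') (CForm.unit_symm _ _ _).symm
  have h3 := h.smul (left_ne_zero_of_mul (hc ▸ hv))
  obtain ⟨e, he, rfl⟩ := (unF_nondeg hF 3).unit_E_trans (frobq_ne hF) (CForm.Nondeg.unT_not_aniso hF (by simp))
    (x := c • v) (y := v') (by rw [CForm.Q_smul, CForm.unit_Q, CForm.unit_Q, h1, mul_one]; exact hc.symm)
    (by rw [CForm.unit_Q]; exact h3.Q)
  rw [unF_E_eq hF (by simp)] at he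
  exact ⟨_, by simpa using h3.conj ((suEquiv hF 3).symm ⟨e, he⟩)⟩

theorem Ax.of_fix (h : Ax hF g v) {x : Fin 3 → F} (hx : (suEquiv hF 3 g).1 x = x) : ∃ c : F, x = c • v :=
  ⟨(unF hF 3).B x v * ((unF hF 3).B v v)⁻¹, smul_right_injective _ h2 (by
    linear_combination (norm := module) h.eq x - hx)⟩

theorem Ax.eq_iff (h : Ax hF g v) (h' : Ax hF g' v') : g = g' ↔ ∃ c : F, v' = c • v := by
  refine ⟨fun e => h.of_fix h2 (e ▸ h'.self), ?_⟩
  rintro ⟨c, rfl⟩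
  exact su_ext (hF := hF) fun x => ((h.smul (left_ne_zero_of_smul h'.ne_zero)).eq x).trans (h'.eq x).symm

theorem Ax.perp (h : Ax hF g v) {x : Fin 3 → F} (hx : (suEquiv hF 3 g).1 x = -x) : (unF hF 3).B x v = 0 := by
  have := h.eq x
  rw [hx, ← sub_eq_zero, ← neg_eq_zero] at this
  simpa [h2, h.Q, h.ne_zero, -unF_B] using this

theorem Ax.comm_iff (h : Ax hF g v) (h' : Ax hF g' v') : Commute g g' ↔ g = g' ∨ (unF hF 3).B v' v = 0 := by
  refine ⟨fun e => ?_, fun e => e.elim (fun e => e ▸ .refl _) fun e => su_ext (hF := hF) fun x => ?_⟩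
  · obtain ⟨c, hc⟩ := h'.of_fix h2 (x := (suEquiv hF 3 g).1 v') (by rw [← su_mul, ← e.eq, su_mul, h'.self])
    refine or_iff_not_imp_right.2 fun h3 => ((h'.eq_iff h2 h).2
      ⟨(2 * (unF hF 3).B v' v * ((unF hF 3).B v v)⁻¹)⁻¹ * (c + 1), ?_⟩).symm
    rw [mul_smul, eq_inv_smul_iff₀ (by have := h.Q; positivity)]
    linear_combination (norm := module) hc - h.eq v'
  · rw [su_mul, su_mul, h'.eq x, h.eq x, map_sub, map_sub, map_smul, map_smul, h.neg e,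
      h'.neg ((unF hF 3).B_zero_symm e), h'.eq x, h.eq x]
    module

theorem Ax.third (h : Ax hF g v) (h' : Ax hF g' v') (e : (unF hF 3).B v' v = 0) : ∃ u, Ax hF (g * g') u ∧
    (unF hF 3).B v u = 0 ∧ (unF hF 3).B v' u = 0 := by
  have h3 : (suEquiv hF 3 (g * g')).1 v' = -v' := by rw [su_mul, h'.self, h.neg e]
  obtain ⟨u, -, hu⟩ := exists_ax (hF := hF) h2 (g := g * g') (fun h4 => h'.ne_zero (by
      rw [h4, map_one, eq_neg_iff_add_eq_zero] at h3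
      exact (smul_eq_zero.1 ((two_smul F v').trans h3)).resolve_left h2))
    (by rw [((h.comm_iff h2 h').2 (.inr e)).symm.mul_mul_mul_comm, h.sq, h'.sq, one_mul])
  exact ⟨u, hu, hu.perp h2 (by rw [su_mul, h'.neg ((unF hF 3).B_zero_symm e), map_neg, h.self]), hu.perp h2 h3⟩

/-- common neighbours of non-commuting involutions -/
theorem Ax.nbr_iff (h : Ax hF g v) (h1 : (unF hF 3).B v v = 1) {w : Fin 3 → F} (h' : Ax hF g' (v + w)) (hw : w ≠ 0)
    (e : (unF hF 3).B w v = 0) : (∃ y, y ≠ 1 ∧ y * y = 1 ∧ Commute g y ∧ Commute y g') ↔ (unF hF 3).B w w ≠ 0 := by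
  have h3 : ¬ Commute g g' := by
    rw [h.comm_iff h2 h', h.eq_iff h2 h', not_or]
    refine ⟨fun ⟨c, hc⟩ => hw ?_, by simp [e, h1, -unF_B]⟩
    have := congrArg ((unF hF 3).B · v) hc
    simp only [map_add, LinearMap.add_apply, e, h1, CForm.B_smul_left, add_zero, mul_one] at this
    simpa [← this] using hc
  refine ⟨fun ⟨y, h4, h5, h6, h7⟩ h0 => hw ?_, fun h0 => ?_⟩
  · obtain ⟨s, -, hs⟩ := exists_ax (hF := hF) h2 h4 h5
    have h8 := ((h.comm_iff h2 hs).1 h6).resolve_left fun e => h3 (e ▸ h7)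
    have h9 := ((hs.comm_iff h2 h').1 h7).resolve_left fun e => h3 (e ▸ h6)
    rw [map_add, LinearMap.add_apply, (unF hF 3).B_zero_symm h8, zero_add] at h9
    obtain ⟨u, hu, -⟩ := h.third h2 hs h8
    obtain ⟨c, rfl⟩ := hu.of_fix h2 (x := w) (by rw [su_mul, hs.neg h9, map_neg, h.neg e, neg_neg])
    rw [CForm.B_smul_left, CForm.B_smul_right] at h0
    exact absurd h0 (by have := hu.Q; have := left_ne_zero_of_smul hw; have := (unT hF).σ_ne_zero this; positivity)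
  · obtain ⟨k, hk⟩ := h.exists h1 h0
    obtain ⟨u, hu, h4, h5⟩ := h.third h2 hk e
    exact ⟨_, hu.ne, hu.sq, ((hu.comm_iff h2 h).2 (.inr h4)).symm, (hu.comm_iff h2 h').2 (.inr (by simp [h4, h5, -unF_B]))⟩

theorem Ax.exists_w (h : Ax hF g v) (h1 : (unF hF 3).B v v = 1) (h3 : g' ≠ 1) (h4 : g' * g' = 1) (h5 : ¬ Commute g g') :
    ∃ w, w ≠ 0 ∧ (unF hF 3).B w v = 0 ∧ Ax hF g' (v + w) := by
  obtain ⟨u, -, hu⟩ := exists_ax (hF := hF) h2 h3 h4
  rw [h.comm_iff h2 hu, not_or] at h5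
  have h6 := hu.smul (inv_ne_zero h5.2)
  refine ⟨((unF hF 3).B u v)⁻¹ • u - v, fun e => h5.1 ((h.eq_iff h2 h6).2 ⟨1, by simpa [sub_eq_zero] using e⟩), ?_,
    by simpa using h6⟩
  rw [map_sub, LinearMap.sub_apply, CForm.B_smul_left, h1, inv_mul_cancel₀ h5.2, sub_self]

theorem Ax.card (h : Ax hF g v) (h1 : (unF hF 3).B v v = 1) {P : SU 3 F q → Prop} {P' : F → Prop}
    (hP : ∀ x w, w ≠ 0 → (unF hF 3).B w v = 0 → Ax hF x (v + w) → (P x ↔ P' ((unF hF 3).B w w))) :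
    Nat.card {x : SU 3 F q // x ≠ 1 ∧ x * x = 1 ∧ ¬ Commute g x ∧ P x} =
      Nat.card {w : (unF hF 3).perp (span F {v}) // w ≠ 0 ∧ (unF hF 3).B w w ≠ -1 ∧ P' ((unF hF 3).B w w)} := by
  have h3 : ∀ w, (unF hF 3).B w v = 0 → (unF hF 3).B (v + w) (v + w) = (unF hF 3).B w w + 1 := fun w hw => by
    simp [h1, hw, (unF hF 3).B_zero_symm hw, -unF_B, add_comm]
  choose φ h4 h5 h6 using fun x : {x : SU 3 F q // x ≠ 1 ∧ x * x = 1 ∧ ¬ Commute g x ∧ P x} =>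
    h.exists_w h2 h1 x.2.1 x.2.2.1 x.2.2.2.1
  have h7 : ∀ {x x' w w'}, Ax hF x (v + w) → Ax hF x' (v + w') → (unF hF 3).B w v = 0 → (unF hF 3).B w' v = 0 →
      x = x' → w' = w := fun a b c d e => by
    obtain ⟨k, hk⟩ := (a.eq_iff h2 b).1 e
    have := congrArg ((unF hF 3).B · v) hk
    simp only [map_add, LinearMap.add_apply, c, d, h1, CForm.B_smul_left, add_zero, mul_one] at this
    simpa [← this] using hk
  refine Nat.card_congr (Equiv.ofBijective (fun x => ⟨⟨φ x, (CForm.mem_perp_singleton _).2 (h5 x)⟩, by simpa using h4 x,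
    fun e => (h6 x).Q (by rw [h3 _ (h5 x), e, neg_add_cancel]), (hP _ _ (h4 x) (h5 x) (h6 x)).1 x.2.2.2.2⟩)
    ⟨fun x x' e => Subtype.ext (((h6 x).eq_iff h2 (h6 x')).2 ⟨1, by rw [one_smul]; exact congrArg (v + ·.1.1) e.symm⟩),
      fun ⟨⟨w, hw⟩, h8, h9, h10⟩ => ?_⟩)
  rw [CForm.mem_perp_singleton] at hw
  obtain ⟨x, hx⟩ := h.exists h1 (v' := v + w) (by rw [h3 _ hw]; exact fun e => h9 (eq_neg_of_add_eq_zero_left e))
  have h11 : w ≠ 0 := by simpa using h8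
  refine ⟨⟨x, hx.ne, hx.sq, ?_, (hP _ _ h11 hw hx).2 h10⟩, Subtype.ext (Subtype.ext (h7 hx (h6 _) hw (h5 _) rfl))⟩
  rw [h.comm_iff h2 hx, not_or]
  exact ⟨fun e => h11 (h7 (w := 0) (by simpa using h) hx (by simp) hw e), by simp [hw, h1, -unF_B]⟩

end Cfsg.Agent.H4
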